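import Cfsg.Agent.Lib.MinDeg.Omega.Decomp

/-!
# The values `tr (LL v 0 * P)` for the singular vectors `v`
-/

set_option autoImplicit false
set_option linter.unusedSectionVars false
set_option linter.unusedSimpArgs false
set_option linter.unusedVariables false

namespace Cfsg.Agent.Lib.MinDeg.Omega

open Matrix QuadraticMap Module
open Cfsg.Agent.Lib.Classical.Orth.Basic

universe u v

variable {ι : Type} [Fintype ι] [DecidableEq ι] {F : Type u} [Field F] [Fintype F] [DecidableEq F]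
variable {Q : QuadraticForm F (ι → F)} [OmCtx Q]
variable {U : Type v} [AddCommGroup U] [Module ℂ U] [FiniteDimensional ℂ U]

set_option quotPrecheck false in
local notation "𝔣" => polar (⇑Q)

local notation "tr" => LinearMap.trace ℂ U

variable {ρ : Om Q →* Module.End ℂ U} {ψ : AddChar F ℂ} {x₀ x e f : ι → F} {μ : F} {u₀ u₀' y₀ : ι → F}

/-- Conjugation by an element commuting with `P`. -/
theorem tr_conj_of_comm {X : Module.End ℂ U} {g : Om Q} (hg : ρ g * X = X * ρ g) {z : ι → F} (hz : Q z = 0)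
    (w : ι → F) : tr (LL ρ ψ (av g z) (av g w) * X) = tr (LL ρ ψ z w * X) := by
  rw [← LL_conj g hz]
  have e1 : ρ g * LL ρ ψ z w * ρ g⁻¹ * X = ρ g * (LL ρ ψ z w * (ρ g⁻¹ * X)) := by simp only [mul_assoc]
  have e2 : ρ g⁻¹ * X = X * ρ g⁻¹ := by
    calc ρ g⁻¹ * X = ρ g⁻¹ * (X * ρ g) * ρ g⁻¹ := by
          rw [mul_assoc (ρ g⁻¹), mul_assoc X, rho_mul_inv', mul_one]
      _ = X * ρ g⁻¹ := by
          rw [← hg, ← mul_assoc, rho_inv_mul', one_mul]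
  rw [e1, tr_comm', e2]
  calc tr (LL ρ ψ z w * (X * ρ g⁻¹) * ρ g) = tr (LL ρ ψ z w * (X * (ρ g⁻¹ * ρ g))) := by
        simp only [mul_assoc]
    _ = _ := by rw [rho_inv_mul', mul_one]

variable (H : MC ρ ψ x₀ x e f μ u₀ u₀' y₀)
include H

/-- The elements `tt x₀ y` commute with `P`. -/
theorem a_comm {y : ι → F} (hy : 𝔣 x₀ y = 0) :
    ρ (tt Q x₀ y) * LL ρ ψ x₀ e = LL ρ ψ x₀ e * ρ (tt Q x₀ y) := by
  rw [LL_left H.hF.Qa e hy, LL_right H.hF.Qa e hy]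

theorem te_comm {γ : ι → F} (hγ : γ ∈ Vpp Q x₀ x e f) :
    ρ (tt Q e γ) * LL ρ ψ x₀ e = LL ρ ψ x₀ e * ρ (tt Q e γ) := by
  rw [H.te_left hγ, H.te_right hγ]

/-- **Class 1**. -/
theorem aa_of_x₀ {v : ι → F} (hQ : Q v = 0) (h : 𝔣 x₀ v ≠ 0) :
    tr (LL ρ ψ v 0 * LL ρ ψ x₀ e) = tr (LL ρ ψ x 0 * LL ρ ψ x₀ e) := by
  set c := 𝔣 x₀ v with hc
  set v' := c⁻¹ • v with hv'
  have hvv : v = c • v' := by rw [hv', smul_smul, mul_inv_cancel₀ h, one_smul]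
  have hQ' : Q v' = 0 := by rw [hv', Q_smul, hQ, mul_zero]
  have h1 : 𝔣 x₀ v' = 1 := by rw [hv', polar_smul_right', ← hc, inv_mul_cancel₀ h]
  have hy : 𝔣 x₀ (v' - x) = 0 := by rw [polar_sub_right, h1, H.hF.aa', sub_self]
  have hm : av (tt Q x₀ (v' - x)) x = v' := by
    rw [av_tt H.hF.Qa hy, H.hF.aa', Q_sub, H.hF.Qa', hQ', polar_sub_left, H.hF.a'a']
    have e1 : 𝔣 v' x = 𝔣 x v' := polar_comm _ _ _
    simp only [polar_comm _ v' x]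
    module
  rw [hvv, LL_smul_zero hQ' h, ← hm]
  have := tr_conj_of_comm (ψ := ψ) (a_comm H hy) H.hF.Qa' 0
  rwa [av_zero] at this

/-- **Class 2**. -/
theorem aa_zero_of_e {v : ι → F} (hQ : Q v = 0) (h0 : 𝔣 x₀ v = 0) (he : 𝔣 e v ≠ 0) :
    tr (LL ρ ψ v 0 * LL ρ ψ x₀ e) = 0 := by
  set τ := -(𝔣 e v)⁻¹ with hτ
  have hb : 𝔣 v (τ • x₀) = 0 := by rw [polar_smul_right', polar_comm, h0, mul_zero]
  have hQb : Q (τ • x₀) = 0 := by rw [Q_smul, H.hF.Qa, mul_zero]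
  have e1 : tt Q v (τ • x₀) = tt Q x₀ (τ • (-v)) := by
    rw [tt_swap hQ hb hQb, tt_smul_left _ H.hF.Qa (by rw [polar_neg_right, h0, neg_zero])]
  have hy : 𝔣 x₀ (τ • (-v)) = 0 := by
    rw [polar_smul_right', polar_neg_right, h0, neg_zero, mul_zero]
  have h1 : ρ (tt Q v (τ • x₀)) * LL ρ ψ x₀ e = ψ 1 • LL ρ ψ x₀ e := by
    rw [e1, LL_left H.hF.Qa e hy, polar_smul_right', polar_neg_right]
    congr 2
    rw [hτ]
    field_simp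
  have h2 : LL ρ ψ v 0 * ρ (tt Q v (τ • x₀)) = LL ρ ψ v 0 := by
    rw [LL_right hQ 0 hb]
    simp [polar]
  have h3 : tr (LL ρ ψ v 0 * LL ρ ψ x₀ e) = ψ 1 * tr (LL ρ ψ v 0 * LL ρ ψ x₀ e) := by
    conv_lhs => rw [← h2, mul_assoc, h1, mul_smul_comm, map_smul, smul_eq_mul]
  have h4 : (ψ 1 - 1) * tr (LL ρ ψ v 0 * LL ρ ψ x₀ e) = 0 := by linear_combination -h3
  exact (mul_eq_zero.mp h4).resolve_left (sub_ne_zero.mpr H.hψ)

/-- **Class 3**. -/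
theorem aa_x₀ {s : F} (hs : s ≠ 0) : tr (LL ρ ψ (s • x₀) 0 * LL ρ ψ x₀ e) = 0 := by
  rw [LL_smul_zero H.hF.Qa hs, LL_orth H.hF.Qa 0 e H.hψ (y := f) H.hF.ab' (by
    rw [H.hF.bb']
    simp [polar]), map_zero]

/-- **Class 4**. -/
theorem aa_s_e (s₁ : F) {s₂ : F} (hs : s₂ ≠ 0) :
    tr (LL ρ ψ (s₁ • x₀ + s₂ • e) 0 * LL ρ ψ x₀ e) = tr (LL ρ ψ e 0 * LL ρ ψ x₀ e) := by
  set t := s₁ * s₂⁻¹ with ht
  have e1 : s₁ • x₀ + s₂ • e = s₂ • (e + t • x₀) := by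
    rw [smul_add, smul_smul, ht, mul_comm s₂, mul_assoc, inv_mul_cancel₀ hs, mul_one, add_comm]
  have hQ' : Q (e + t • x₀) = 0 := by
    rw [Q_add, Q_smul, H.hF.Qb, H.hF.Qa, polar_smul_right', H.hF.ba]
    ring
  have hy : 𝔣 x₀ ((-t) • f) = 0 := by rw [polar_smul_right', H.hF.ab', mul_zero]
  have hm : av (tt Q x₀ ((-t) • f)) e = e + t • x₀ := by
    rw [av_tt H.hF.Qa hy, H.hF.ab, polar_smul_left', H.hF.b'b]
    simp
  rw [e1, LL_smul_zero hQ' hs, ← hm]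
  have := tr_conj_of_comm (ψ := ψ) (a_comm H hy) H.hF.Qb 0
  rwa [av_zero] at this

/-- **Class 5**. -/
theorem aa_s_γ (s₁ s₂ : F) {γ : ι → F} (hγ : γ ∈ Vpp Q x₀ x e f) (hQ : Q γ = 0) (h0 : γ ≠ 0) :
    tr (LL ρ ψ (s₁ • x₀ + s₂ • e + γ) 0 * LL ρ ψ x₀ e) = tr (LL ρ ψ γ 0 * LL ρ ψ x₀ e) := by
  obtain ⟨y, hy, hy1⟩ := exists_Vpp_polar H.hF hγ h0 (-s₁)
  obtain ⟨δ, hδ, hδ1⟩ := exists_Vpp_polar H.hF hγ h0 (-s₂)
  have m1 : av (tt Q x₀ y) γ = s₁ • x₀ + γ := by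
    rw [av_tt H.hF.Qa hy.1, hγ.1, polar_comm _ y γ, hy1]
    simp only [zero_smul, add_zero, mul_zero, sub_zero, neg_smul, sub_neg_eq_add]
    abel
  have hQ1 : Q (s₁ • x₀ + γ) = 0 := by
    rw [← m1, Q_av, hQ]
  have m2 : av (tt Q e δ) (s₁ • x₀ + γ) = s₁ • x₀ + s₂ • e + γ := by
    rw [av_add, av_smul, av_tt_perp H.hF.Qb hδ.2.2.1 H.hF.ba (by rw [polar_comm]; exact hδ.1),
      av_tt H.hF.Qb hδ.2.2.1, hγ.2.2.1, polar_comm _ δ γ, hδ1]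
    simp only [zero_smul, add_zero, mul_zero, sub_zero, neg_smul, sub_neg_eq_add]
    abel
  have c1 := tr_conj_of_comm (ψ := ψ) (te_comm H hδ) hQ1 0
  have c2 := tr_conj_of_comm (ψ := ψ) (a_comm H hy.1) hQ 0
  rw [av_zero, m2] at c1
  rw [av_zero, m1] at c2
  rw [c1, c2]

omit H in
/-- Absorption in the matrix coefficient. -/
theorem ff_mul_absorb {A B : Om Q} (h : ρ B * LL ρ ψ x₀ e = LL ρ ψ x₀ e) :
    ff ρ ψ x₀ e (A * B) = ff ρ ψ x₀ e A := by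
  rw [ff, map_mul ρ, ← mul_assoc, tr_comm', ← mul_assoc, h]
  rfl

omit H in
/-- The trace of a weight projection with `X`. -/
theorem tr_LL_mul (z w : ι → F) : tr (LL ρ ψ z w * LL ρ ψ x₀ e) =
    (Fintype.card (Zp Q z) : ℂ)⁻¹ * ∑ y : Zp Q z, ψ (-(𝔣 w y.1)) * ff ρ ψ x₀ e (tt Q z y.1) := by
  rw [LL, smul_mul_assoc, map_smul, smul_eq_mul, Finset.sum_mul, map_sum]
  congr 1
  refine Finset.sum_congr rfl fun y _ => ?_
  rw [smul_mul_assoc, map_smul, smul_eq_mul, tr_comm']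
  rfl

omit H in
/-- Sums over the orthogonal of `z`, as sums over the space. -/
theorem sum_Zp_eq (z : ι → F) (h : (ι → F) → ℂ) :
    ∑ y : Zp Q z, h y.1 = ∑ v : ι → F, if 𝔣 z v = 0 then h v else 0 := by
  rw [← Finset.sum_filter]
  exact (Finset.sum_subtype _ (by simp) h).symm

omit H in
theorem card_Zp_eq (z : ι → F) :
    (Fintype.card (Zp Q z) : ℂ) = ∑ v : ι → F, if 𝔣 z v = 0 then (1 : ℂ) else 0 := by
  rw [← sum_Zp_eq z (fun _ => 1)]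
  simp

/-- The weights `tt e y`, `y ⊥ e`. -/
theorem ff_te (s₁ s₄ s₂ : F) {γ : ι → F} (hγ : γ ∈ Vpp Q x₀ x e f) :
    ff ρ ψ x₀ e (tt Q e (fv x₀ x e f s₁ s₄ s₂ 0 γ)) = ff ρ ψ x₀ e (sg H.hF.swap (lo s₄)) := by
  have hF := H.hF
  have e1 : fv x₀ x e f s₁ s₄ s₂ 0 γ = s₄ • x + (s₁ • x₀ + γ) + s₂ • e := by
    simp only [fv, zero_smul, add_zero]
    abel
  have h1 : 𝔣 e (s₄ • x) = 0 := by rw [polar_smul_right', hF.ba', mul_zero]
  have h2 : 𝔣 e (s₁ • x₀) = 0 := by rw [polar_smul_right', hF.ba, mul_zero]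
  have h3 : 𝔣 e (s₁ • x₀ + γ) = 0 := by rw [polar_add_right, h2, hγ.2.2.1, add_zero]
  have h4 : 𝔣 e (s₄ • x + (s₁ • x₀ + γ)) = 0 := by rw [polar_add_right, h1, h3, add_zero]
  have e2 : tt Q e (s₁ • x₀) = tt Q x₀ (s₁ • (-e)) := by
    rw [tt_swap hF.Qb h2 (by rw [Q_smul, hF.Qa, mul_zero]),
      tt_smul_left _ hF.Qa (by rw [polar_neg_right, hF.ab, neg_zero])]
  have habs : ρ (tt Q e (s₁ • x₀ + γ)) * LL ρ ψ x₀ e = LL ρ ψ x₀ e := by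
    rw [← tt_mul hF.Qb h2 hγ.2.2.1, map_mul ρ, mul_assoc, H.te_left hγ, e2]
    exact a_left hF (by rw [polar_smul_right', polar_neg_right, hF.ab, neg_zero, mul_zero])
      (by rw [polar_smul_right', polar_neg_right, hF.bb, neg_zero, mul_zero])
  rw [e1, tt_add_smul _ hF.Qb h4, ← tt_mul hF.Qb h1 h3, ff_mul_absorb habs, sg_lo]
  congr 1
  rw [tt_swap hF.Qa' (by rw [polar_smul_right', hF.a'b, mul_zero]) (by rw [Q_smul, hF.Qb, mul_zero]),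
    tt_smul_left _ hF.Qb (by rw [polar_neg_right, hF.ba', neg_zero])]
  congr 1
  rw [smul_neg, neg_smul, neg_neg]

/-- The value on the class of `e` is `a_Π`. -/
theorem aa_e : tr (LL ρ ψ e 0 * LL ρ ψ x₀ e) = tr (Flo (ρ.comp (sg H.hF.swap)) * LL ρ ψ x₀ e) := by
  have hF := H.hF
  set q := (Fintype.card F : ℂ) with hq
  set M := (Fintype.card (Vpp Q x₀ x e f) : ℂ) with hM
  have hq0 : q ≠ 0 := card_ne
  have hM0 : M ≠ 0 := Nat.cast_ne_zero.mpr Fintype.card_ne_zero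
  have hcard : (Fintype.card (Zp Q e) : ℂ) = q ^ 3 * M := by
    rw [card_Zp_eq, sum_frame hF]
    have e1 : ∀ (s₁ s₄ s₂ s₃ : F) (γ : Vpp Q x₀ x e f),
        (if 𝔣 e (fv x₀ x e f s₁ s₄ s₂ s₃ γ.1) = 0 then (1 : ℂ) else 0) = if s₃ = 0 then 1 else 0 := by
      intro s₁ s₄ s₂ s₃ γ
      rw [polar_e_fv hF _ _ _ _ γ.2]
    simp only [e1]
    simp [← hq, ← hM]
    ring
  have hsum : ∑ y : Zp Q e, ψ (-(𝔣 (0 : ι → F) y.1)) * ff ρ ψ x₀ e (tt Q e y.1) =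
      q ^ 2 * M * ∑ s : F, ff ρ ψ x₀ e (sg H.hF.swap (lo s)) := by
    have e0 : ∀ y : Zp Q e, ψ (-(𝔣 (0 : ι → F) y.1)) * ff ρ ψ x₀ e (tt Q e y.1) =
        ff ρ ψ x₀ e (tt Q e y.1) := by
      intro y
      simp [polar]
    simp only [e0]
    rw [sum_Zp_eq e (fun v => ff ρ ψ x₀ e (tt Q e v)), sum_frame hF]
    have e1 : ∀ (s₁ s₄ s₂ s₃ : F) (γ : Vpp Q x₀ x e f),
        (if 𝔣 e (fv x₀ x e f s₁ s₄ s₂ s₃ γ.1) = 0 then ff ρ ψ x₀ e (tt Q e (fv x₀ x e f s₁ s₄ s₂ s₃ γ.1))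
          else 0) = if s₃ = 0 then ff ρ ψ x₀ e (sg H.hF.swap (lo s₄)) else 0 := by
      intro s₁ s₄ s₂ s₃ γ
      rw [polar_e_fv hF _ _ _ _ γ.2]
      by_cases h : s₃ = 0
      · subst h
        rw [if_pos rfl, if_pos rfl, ff_te H _ _ _ γ.2]
      · rw [if_neg h, if_neg h]
    simp only [e1]
    simp [← hq, ← hM, Finset.mul_sum]
    refine Finset.sum_congr rfl fun s _ => ?_
    ring
  have hflo : tr (Flo (ρ.comp (sg H.hF.swap)) * LL ρ ψ x₀ e) =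
      q⁻¹ * ∑ s : F, ff ρ ψ x₀ e (sg H.hF.swap (lo s)) := by
    rw [Flo, smul_mul_assoc, map_smul, smul_eq_mul, Finset.sum_mul, map_sum]
    congr 1
    refine Finset.sum_congr rfl fun s _ => ?_
    rw [tr_comm']
    rfl
  rw [tr_LL_mul, hsum, hcard, hflo]
  field_simp

section Au

variable {u : ι → F} (hu : u ∈ Vpp Q x₀ x e f) (hQu : Q u = 0) (hu0 : u ≠ 0)
include hu hQu hu0

omit hu0 in
/-- The weights of `tt u y` for `u ∈ V''`, `y ⊥ u, x₀`. -/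
theorem ff_tu (s₁ s₂ s₃ : F) {γ : ι → F} (hγ : γ ∈ Vpp Q x₀ x e f) (huγ : 𝔣 u γ = 0) :
    ff ρ ψ x₀ e (tt Q u (fv x₀ x e f s₁ 0 s₂ s₃ γ)) = if s₃ = 0 ∨ u = 0 then 1 else 0 := by
  have hF := H.hF
  have hFp := frame_perp hF hu
  have e1 : fv x₀ x e f s₁ 0 s₂ s₃ γ = s₃ • f + (s₁ • x₀ + (s₂ • e + γ)) := by
    simp only [fv, zero_smul, add_zero]
    abel
  have h1 : 𝔣 u (s₃ • f) = 0 := by rw [polar_smul_right', hFp.2.2.2, mul_zero]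
  have h2 : 𝔣 u (s₁ • x₀) = 0 := by rw [polar_smul_right', hFp.1, mul_zero]
  have h3 : 𝔣 u (s₂ • e) = 0 := by rw [polar_smul_right', hFp.2.2.1, mul_zero]
  have h4 : 𝔣 u (s₂ • e + γ) = 0 := by rw [polar_add_right, h3, huγ, add_zero]
  have h5 : 𝔣 u (s₁ • x₀ + (s₂ • e + γ)) = 0 := by rw [polar_add_right, h2, h4, add_zero]
  have a1 : ρ (tt Q u (s₁ • x₀)) * LL ρ ψ x₀ e = LL ρ ψ x₀ e := by
    rw [tt_swap hQu h2 (by rw [Q_smul, hF.Qa, mul_zero]),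
      tt_smul_left _ hF.Qa (by rw [polar_neg_right, hu.1, neg_zero])]
    exact a_left hF (by rw [polar_smul_right', polar_neg_right, hu.1, neg_zero, mul_zero])
      (by rw [polar_smul_right', polar_neg_right, hu.2.2.1, neg_zero, mul_zero])
  have a2 : ρ (tt Q u (s₂ • e)) * LL ρ ψ x₀ e = LL ρ ψ x₀ e := by
    rw [tt_swap hQu h3 (by rw [Q_smul, hF.Qb, mul_zero]),
      tt_smul_left _ hF.Qb (by rw [polar_neg_right, hu.2.2.1, neg_zero])]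
    exact H.te_left (Submodule.smul_mem _ _ (Submodule.neg_mem _ hu))
  have a3 : ρ (tt Q u γ) * LL ρ ψ x₀ e = LL ρ ψ x₀ e :=
    (H.hCa (tt_mem_Cgp hu hγ hQu huγ)).1
  have habs : ρ (tt Q u (s₁ • x₀ + (s₂ • e + γ))) * LL ρ ψ x₀ e = LL ρ ψ x₀ e := by
    rw [← tt_mul hQu h2 h4, ← tt_mul hQu h3 huγ, map_mul ρ, map_mul ρ, mul_assoc, mul_assoc, a3, a2, a1]
  rw [e1, ← tt_mul hQu h1 h5, ff_mul_absorb habs]
  rw [tt_swap hQu h1 (by rw [Q_smul, hF.Qb', mul_zero]),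
    tt_smul_left _ hF.Qb' (by rw [polar_neg_right, hu.2.2.2, neg_zero])]
  by_cases h0 : s₃ • (-u) = 0
  · have h6 : s₃ = 0 ∨ u = 0 := by simpa using h0
    rw [h0, tt_zero hF.Qb', if_pos h6, ff_one hF.Qa H.htr]
  · have h6 : ¬(s₃ = 0 ∨ u = 0) := by
      intro h7
      apply h0
      rcases h7 with h7 | h7 <;> simp [h7]
    rw [if_neg h6]
    exact ff_cc hF H.htr H.hψ H.hns (Submodule.smul_mem _ _ (Submodule.neg_mem _ hu)) h0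

/-- The sum over the weights `s x₀`. -/
theorem aa_u_sum : ∑ s : F, tr (LL ρ ψ u (s • x₀) * LL ρ ψ x₀ e) = (Fintype.card F : ℂ)⁻¹ := by
  have hF := H.hF
  have hFp := frame_perp hF hu
  set q := (Fintype.card F : ℂ) with hq
  have hq0 : q ≠ 0 := card_ne
  set Mu : ℂ := ∑ γ : Vpp Q x₀ x e f, if 𝔣 u γ.1 = 0 then (1 : ℂ) else 0 with hMu
  have hu_fv : ∀ (s₁ s₄ s₂ s₃ : F) (γ : Vpp Q x₀ x e f), 𝔣 u (fv x₀ x e f s₁ s₄ s₂ s₃ γ.1) = 𝔣 u γ.1 := by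
    intro s₁ s₄ s₂ s₃ γ
    simp only [fv, polar_add_right, polar_smul_right', hFp.1, hFp.2.1, hFp.2.2.1, hFp.2.2.2]
    ring
  have hMu0 : Mu ≠ 0 := by
    have h1 : Mu = ((Finset.univ.filter (fun γ : Vpp Q x₀ x e f => 𝔣 u γ.1 = 0)).card : ℂ) := by
      rw [hMu, Finset.sum_boole]
    rw [h1]
    refine Nat.cast_ne_zero.mpr ?_
    rw [Finset.card_ne_zero]
    refine ⟨⟨0, Submodule.zero_mem _⟩, ?_⟩
    rw [Finset.mem_filter]
    refine ⟨Finset.mem_univ _, ?_⟩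
    show 𝔣 u 0 = 0
    simp [polar]
  have hcard : (Fintype.card (Zp Q u) : ℂ) = q ^ 4 * Mu := by
    rw [card_Zp_eq, sum_frame hF]
    simp only [hu_fv]
    simp only [Finset.sum_const, Finset.card_univ, nsmul_eq_mul, ← hq, ← hMu]
    ring
  have e0 : ∀ s : F, tr (LL ρ ψ u (s • x₀) * LL ρ ψ x₀ e) =
      (Fintype.card (Zp Q u) : ℂ)⁻¹ * ∑ y : Zp Q u, ψ (-(s * 𝔣 x₀ y.1)) * ff ρ ψ x₀ e (tt Q u y.1) := by
    intro s
    rw [tr_LL_mul]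
    simp only [polar_smul_left']
  simp only [e0]
  rw [← Finset.mul_sum, Finset.sum_comm]
  have e1 : ∀ y : Zp Q u, ∑ s : F, ψ (-(s * 𝔣 x₀ y.1)) * ff ρ ψ x₀ e (tt Q u y.1) =
      (if 𝔣 x₀ y.1 = 0 then q else 0) * ff ρ ψ x₀ e (tt Q u y.1) := by
    intro y
    rw [← Finset.sum_mul]
    congr 1
    simp only [mul_comm _ (𝔣 x₀ y.1)]
    exact sum_psi_mul3 H.hψ _
  simp only [e1]
  rw [sum_Zp_eq u (fun v => (if 𝔣 x₀ v = 0 then q else 0) * ff ρ ψ x₀ e (tt Q u v)), sum_frame hF]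
  have e2 : ∀ (s₁ s₄ s₂ s₃ : F) (γ : Vpp Q x₀ x e f),
      (if 𝔣 u (fv x₀ x e f s₁ s₄ s₂ s₃ γ.1) = 0 then
        (if 𝔣 x₀ (fv x₀ x e f s₁ s₄ s₂ s₃ γ.1) = 0 then q else 0) *
          ff ρ ψ x₀ e (tt Q u (fv x₀ x e f s₁ s₄ s₂ s₃ γ.1)) else 0) =
      if s₄ = 0 then (if s₃ = 0 then q * (if 𝔣 u γ.1 = 0 then 1 else 0) else 0) else 0 := by
    intro s₁ s₄ s₂ s₃ γ
    rw [hu_fv, polar_x₀_fv hF _ _ _ _ γ.2]
    by_cases h4 : s₄ = 0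
    · subst h4
      rw [if_pos rfl, if_pos rfl]
      by_cases hup : 𝔣 u γ.1 = 0
      · rw [if_pos hup, if_pos hup, ff_tu H hu hQu _ _ _ γ.2 hup]
        by_cases h3 : s₃ = 0
        · simp [h3]
        · simp [h3, hu0]
      · rw [if_neg hup, if_neg hup]
        simp
    · simp [h4]
  simp only [e2]
  have e3 : ∀ s₄ s₃ : F, (∑ γ : Vpp Q x₀ x e f, if s₄ = 0 then (if s₃ = 0 then q * (if 𝔣 u γ.1 = 0 then 1 else 0)
      else 0) else 0) = if s₄ = 0 then (if s₃ = 0 then q * Mu else 0) else 0 := by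
    intro s₄ s₃
    by_cases h4 : s₄ = 0
    · by_cases h3 : s₃ = 0
      · simp only [h4, h3, if_true, ← Finset.mul_sum, ← hMu]
      · simp [h4, h3]
    · simp [h4]
  simp only [e3]
  have e4 : ∀ s₄ : F, (∑ s₃ : F, if s₄ = 0 then (if s₃ = 0 then q * Mu else 0) else 0) =
      if s₄ = 0 then q * Mu else 0 := by
    intro s₄
    by_cases h4 : s₄ = 0 <;> simp [h4]
  simp only [e4]
  simp only [Finset.sum_const, Finset.card_univ, nsmul_eq_mul, ← hq]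
  have e5 : (∑ s₄ : F, q * if s₄ = 0 then q * Mu else 0) = q * (q * Mu) := by
    rw [← Finset.mul_sum]
    simp
  simp only [e5, hcard]
  field_simp

/-- The vanishing for the nontrivial weights `s x₀`. -/
theorem aa_u_weight {s : F} (hs : s ≠ 0) : tr (LL ρ ψ u (s • x₀) * LL ρ ψ x₀ e) = 0 := by
  have hF := H.hF
  have hFp := frame_perp hF hu
  obtain ⟨u', hu', hQu', huu'⟩ := exists_Vpp_partner hF hu hu0 hQu
  have hFu : HF Q x₀ x u u' := ⟨hF.Qa, hF.Qa', hQu, hQu', hF.aa', huu', hu.1, hu'.1, hu.2.1, hu'.2.1⟩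
  have hFp' := frame_perp hF hu'
  have hsi : s⁻¹ ≠ 0 := inv_ne_zero hs
  have hG : HF Q e f (s⁻¹ • x) (s • x₀) := by
    refine ⟨hF.Qb, hF.Qb', by rw [Q_smul, hF.Qa', mul_zero], by rw [Q_smul, hF.Qa, mul_zero], hF.bb', ?_,
      ?_, ?_, ?_, ?_⟩
    · rw [polar_smul_left', polar_smul_right', hF.a'a]
      field_simp
    · rw [polar_smul_right', hF.ba', mul_zero]
    · rw [polar_smul_right', hF.ba, mul_zero]
    · rw [polar_smul_right', hF.b'a', mul_zero]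
    · rw [polar_smul_right', hF.b'a, mul_zero]
  set W₁ := sg hFu.swap wM with hW₁
  set W₂ := sg hG wM with hW₂
  set g := W₂ * W₁ with hg
  have p1 : ∀ {v : ι → F}, 𝔣 v e = 0 → 𝔣 v f = 0 → 𝔣 v x = 0 → 𝔣 v x₀ = 0 → av W₂ v = v := by
    intro v h1 h2 h3 h4
    refine av_sg_perp hG _ (by rw [polar_comm]; exact h1) (by rw [polar_comm]; exact h2) ?_ ?_
    · rw [polar_smul_left', polar_comm, h3, mul_zero]
    · rw [polar_smul_left', polar_comm, h4, mul_zero]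
  have p2 : ∀ {v : ι → F}, 𝔣 v x₀ = 0 → 𝔣 v x = 0 → 𝔣 v u' = 0 → 𝔣 v u = 0 → av W₁ v = v := by
    intro v h1 h2 h3 h4
    exact av_sg_perp hFu.swap _ (by rw [polar_comm]; exact h1) (by rw [polar_comm]; exact h2)
      (by rw [polar_comm]; exact h3) (by rw [polar_comm]; exact h4)
  have g_x₀ : av g x₀ = u := by
    rw [hg, av_mul, hW₁, w_a hFu.swap, p1 hFp.2.2.1 hFp.2.2.2 hFp.2.1 hFp.1]
  have g_e : av g e = s • x₀ := by
    rw [hg, av_mul, hW₁, p2 hF.ba hF.ba' hu'.2.2.1 hu.2.2.1, hW₂, w_a hG]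
  have g_u' : av g u' = s • f := by
    rw [hg, av_mul, hW₁, w_b hFu.swap, av_neg]
    have h1 : av W₂ (s⁻¹ • x) = -f := w_b hG
    have h2 : av W₂ x = s • (-f) := by
      have h3 := congrArg (fun z => s • z) h1
      simp only [av_smul, smul_smul, mul_inv_cancel₀ hs, one_smul] at h3
      exact h3
    rw [h2]
    simp
  have gi_x₀ : av g⁻¹ x₀ = s⁻¹ • e := by
    have h := av_inv_av g (s⁻¹ • e)
    rw [av_smul, g_e, smul_smul, inv_mul_cancel₀ hs, one_smul] at h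
    exact h
  have gi_f : av g⁻¹ f = s⁻¹ • u' := by
    have h := av_inv_av g (s⁻¹ • u')
    rw [av_smul, g_u', smul_smul, inv_mul_cancel₀ hs, one_smul] at h
    exact h
  have hconj : LL ρ ψ u (s • x₀) = ρ g * LL ρ ψ x₀ e * ρ g⁻¹ := by
    rw [LL_conj g hF.Qa, g_x₀, g_e]
  -- `a(f)` is absorbed on the left
  have e1 := conj_tt g⁻¹ hF.Qa hF.ab'
  rw [gi_x₀, gi_f, inv_inv, tt_smul_left _ hF.Qb (by rw [polar_smul_right', hu'.2.2.1, mul_zero])] at e1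
  have e2 : tt Q x₀ f * g = g * tt Q e (s⁻¹ • s⁻¹ • u') := by
    rw [← e1]
    group
  have habs : ρ (tt Q e (s⁻¹ • s⁻¹ • u')) * LL ρ ψ x₀ e = LL ρ ψ x₀ e :=
    H.te_left (Submodule.smul_mem _ _ (Submodule.smul_mem _ _ hu'))
  have habs' : LL ρ ψ x₀ e * ρ (tt Q e (s⁻¹ • s⁻¹ • u')) = LL ρ ψ x₀ e :=
    H.te_right (Submodule.smul_mem _ _ (Submodule.smul_mem _ _ hu'))
  have e3 : g⁻¹ * tt Q x₀ f = tt Q e (s⁻¹ • s⁻¹ • u') * g⁻¹ := by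
    rw [← e1]
    group
  have h1 : LL ρ ψ u (s • x₀) * ρ (tt Q x₀ f) = LL ρ ψ u (s • x₀) := by
    rw [hconj]
    calc ρ g * LL ρ ψ x₀ e * ρ g⁻¹ * ρ (tt Q x₀ f) = ρ g * LL ρ ψ x₀ e * (ρ g⁻¹ * ρ (tt Q x₀ f)) := by
          simp only [mul_assoc]
      _ = ρ g * LL ρ ψ x₀ e * ρ (g⁻¹ * tt Q x₀ f) := by rw [map_mul ρ g⁻¹]
      _ = ρ g * LL ρ ψ x₀ e * ρ (tt Q e (s⁻¹ • s⁻¹ • u') * g⁻¹) := by rw [e3]
      _ = ρ g * (LL ρ ψ x₀ e * ρ (tt Q e (s⁻¹ • s⁻¹ • u'))) * ρ g⁻¹ := by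
          rw [map_mul ρ (tt Q e (s⁻¹ • s⁻¹ • u')) g⁻¹]
          simp only [mul_assoc]
      _ = _ := by rw [habs']
  have h2 : ρ (tt Q x₀ f) * LL ρ ψ x₀ e = ψ 1 • LL ρ ψ x₀ e := by
    rw [LL_left hF.Qa e hF.ab', hF.bb']
  have h3 : tr (LL ρ ψ u (s • x₀) * LL ρ ψ x₀ e) = ψ 1 * tr (LL ρ ψ u (s • x₀) * LL ρ ψ x₀ e) := by
    conv_lhs => rw [← h1, mul_assoc, h2, mul_smul_comm, map_smul, smul_eq_mul]
  have h4 : (ψ 1 - 1) * tr (LL ρ ψ u (s • x₀) * LL ρ ψ x₀ e) = 0 := by linear_combination -h3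
  exact (mul_eq_zero.mp h4).resolve_left (sub_ne_zero.mpr H.hψ)

/-- **The value `a₂ = 1/q`.** -/
theorem aa_u : tr (LL ρ ψ u 0 * LL ρ ψ x₀ e) = (Fintype.card F : ℂ)⁻¹ := by
  have h := aa_u_sum H hu hQu hu0
  rw [Finset.sum_eq_single (0 : F)] at h
  · rwa [zero_smul] at h
  · intro s _ hs
    exact aa_u_weight H hu hQu hu0 hs
  · simp

end Au

end Cfsg.Agent.Lib.MinDeg.Omega
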