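import Cfsg.Agent.Lib.MinDeg.Omega.Wt

/-!
# Coordinates with respect to a hyperbolic frame
-/

set_option autoImplicit false
set_option linter.unusedSectionVars false
set_option linter.unusedSimpArgs false
set_option linter.unusedVariables false

namespace Cfsg.Agent.Lib.MinDeg.Omega

open Matrix QuadraticMap Module
open Cfsg.Agent.Lib.Classical.Orth.Basic

universe u v

variable {ι : Type} [Fintype ι] [DecidableEq ι] {F : Type u} [Field F] [Fintype F] [DecidableEq F]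
variable {Q : QuadraticForm F (ι → F)} [OmCtx Q]
variable {U : Type v} [AddCommGroup U] [Module ℂ U]

set_option quotPrecheck false in
local notation "𝔣" => polar (⇑Q)

variable (Q) in
/-- The orthogonal complement of the frame. -/
def Vpp (x₀ x e f : ι → F) : Submodule F (ι → F) where
  carrier := {γ | 𝔣 x₀ γ = 0 ∧ 𝔣 x γ = 0 ∧ 𝔣 e γ = 0 ∧ 𝔣 f γ = 0}
  add_mem' := by
    rintro a b ⟨h1, h2, h3, h4⟩ ⟨h5, h6, h7, h8⟩
    simp only [Set.mem_ofPred_eq, polar_add_right, h1, h2, h3, h4, h5, h6, h7, h8, add_zero, and_self]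
  zero_mem' := by simp [polar]
  smul_mem' := by
    rintro c a ⟨h1, h2, h3, h4⟩
    simp only [Set.mem_ofPred_eq, polar_smul_right', h1, h2, h3, h4, mul_zero, and_self]

noncomputable instance (x₀ x e f : ι → F) : Fintype (Vpp Q x₀ x e f) := Fintype.ofFinite _

variable {x₀ x e f : ι → F}

theorem mem_Vpp {γ : ι → F} : γ ∈ Vpp Q x₀ x e f ↔ 𝔣 x₀ γ = 0 ∧ 𝔣 x γ = 0 ∧ 𝔣 e γ = 0 ∧ 𝔣 f γ = 0 :=
  Iff.rfl

variable (Q x₀ x e f) in
/-- The projection to the complement of the frame. -/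
noncomputable def projV (v : ι → F) : ι → F :=
  v - 𝔣 x v • x₀ - 𝔣 x₀ v • x - 𝔣 f v • e - 𝔣 e v • f

variable (x₀ x e f) in
/-- The vector with given coordinates. -/
def fv (s₁ s₄ s₂ s₃ : F) (γ : ι → F) : ι → F := s₁ • x₀ + s₄ • x + s₂ • e + s₃ • f + γ

section

variable (hF : HF Q x₀ x e f)
include hF

theorem projV_mem (v : ι → F) : projV Q x₀ x e f v ∈ Vpp Q x₀ x e f := by
  refine ⟨?_, ?_, ?_, ?_⟩ <;>
  simp only [projV, polar_sub_right, polar_smul_right', hF.aa, hF.aa', hF.ab, hF.ab', hF.a'a, hF.a'a',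
    hF.a'b, hF.a'b', hF.ba, hF.ba', hF.bb, hF.bb', hF.b'a, hF.b'a', hF.b'b, hF.b'b'] <;> ring

omit hF in
theorem decomp_fv (v : ι → F) :
    fv x₀ x e f (𝔣 x v) (𝔣 x₀ v) (𝔣 f v) (𝔣 e v) (projV Q x₀ x e f v) = v := by
  simp only [fv, projV]
  abel

theorem polar_x_fv (s₁ s₄ s₂ s₃ : F) {γ : ι → F} (hγ : γ ∈ Vpp Q x₀ x e f) :
    𝔣 x (fv x₀ x e f s₁ s₄ s₂ s₃ γ) = s₁ := by
  obtain ⟨h1, h2, h3, h4⟩ := hγ
  simp only [fv, polar_add_right, polar_smul_right', hF.a'a, hF.a'a', hF.a'b, hF.a'b', h2]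
  ring

theorem polar_x₀_fv (s₁ s₄ s₂ s₃ : F) {γ : ι → F} (hγ : γ ∈ Vpp Q x₀ x e f) :
    𝔣 x₀ (fv x₀ x e f s₁ s₄ s₂ s₃ γ) = s₄ := by
  obtain ⟨h1, h2, h3, h4⟩ := hγ
  simp only [fv, polar_add_right, polar_smul_right', hF.aa, hF.aa', hF.ab, hF.ab', h1]
  ring

theorem polar_f_fv (s₁ s₄ s₂ s₃ : F) {γ : ι → F} (hγ : γ ∈ Vpp Q x₀ x e f) :
    𝔣 f (fv x₀ x e f s₁ s₄ s₂ s₃ γ) = s₂ := by
  obtain ⟨h1, h2, h3, h4⟩ := hγ
  simp only [fv, polar_add_right, polar_smul_right', hF.b'a, hF.b'a', hF.b'b, hF.b'b', h4]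
  ring

theorem polar_e_fv (s₁ s₄ s₂ s₃ : F) {γ : ι → F} (hγ : γ ∈ Vpp Q x₀ x e f) :
    𝔣 e (fv x₀ x e f s₁ s₄ s₂ s₃ γ) = s₃ := by
  obtain ⟨h1, h2, h3, h4⟩ := hγ
  simp only [fv, polar_add_right, polar_smul_right', hF.ba, hF.ba', hF.bb, hF.bb', h3]
  ring

theorem projV_fv (s₁ s₄ s₂ s₃ : F) {γ : ι → F} (hγ : γ ∈ Vpp Q x₀ x e f) :
    projV Q x₀ x e f (fv x₀ x e f s₁ s₄ s₂ s₃ γ) = γ := by
  simp only [projV, polar_x_fv hF _ _ _ _ hγ, polar_x₀_fv hF _ _ _ _ hγ, polar_f_fv hF _ _ _ _ hγ,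
    polar_e_fv hF _ _ _ _ hγ]
  simp only [fv]
  abel

theorem Q_fv (s₁ s₄ s₂ s₃ : F) {γ : ι → F} (hγ : γ ∈ Vpp Q x₀ x e f) :
    Q (fv x₀ x e f s₁ s₄ s₂ s₃ γ) = s₁ * s₄ + s₂ * s₃ + Q γ := by
  obtain ⟨h1, h2, h3, h4⟩ := hγ
  simp only [fv]
  rw [Q_add, Q_add, Q_add, Q_add]
  simp only [Q_smul, hF.Qa, hF.Qa', hF.Qb, hF.Qb', polar_add_left, polar_smul_left',
    polar_smul_right', hF.aa', hF.bb', hF.ab, hF.ab', hF.a'b, hF.a'b', h1, h2, h3, h4]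
  ring

/-- The coordinates of a vector. -/
noncomputable def coordE : (ι → F) ≃ F × F × F × F × Vpp Q x₀ x e f where
  toFun v := (𝔣 x v, 𝔣 x₀ v, 𝔣 f v, 𝔣 e v, ⟨projV Q x₀ x e f v, projV_mem hF v⟩)
  invFun t := fv x₀ x e f t.1 t.2.1 t.2.2.1 t.2.2.2.1 t.2.2.2.2.1
  left_inv v := decomp_fv v
  right_inv := by
    rintro ⟨s₁, s₄, s₂, s₃, γ, hγ⟩
    simp only [polar_x_fv hF _ _ _ _ hγ, polar_x₀_fv hF _ _ _ _ hγ, polar_f_fv hF _ _ _ _ hγ,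
      polar_e_fv hF _ _ _ _ hγ, projV_fv hF _ _ _ _ hγ]

theorem sum_frame {M : Type*} [AddCommMonoid M] (G : (ι → F) → M) :
    ∑ v, G v = ∑ s₁ : F, ∑ s₄ : F, ∑ s₂ : F, ∑ s₃ : F, ∑ γ : Vpp Q x₀ x e f,
      G (fv x₀ x e f s₁ s₄ s₂ s₃ γ.1) := by
  rw [← Equiv.sum_comp (coordE hF).symm G]
  rw [Fintype.sum_prod_type]
  refine Finset.sum_congr rfl fun s₁ _ => ?_
  rw [Fintype.sum_prod_type]
  refine Finset.sum_congr rfl fun s₄ _ => ?_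
  rw [Fintype.sum_prod_type]
  refine Finset.sum_congr rfl fun s₂ _ => ?_
  rw [Fintype.sum_prod_type]
  rfl

theorem card_V_eq : Fintype.card (ι → F) =
    Fintype.card F ^ 4 * Fintype.card (Vpp Q x₀ x e f) := by
  rw [Fintype.card_congr (coordE hF)]
  simp only [Fintype.card_prod]
  ring

theorem polar_projV {γ : ι → F} (hγ : γ ∈ Vpp Q x₀ x e f) (v : ι → F) :
    𝔣 γ (projV Q x₀ x e f v) = 𝔣 γ v := by
  obtain ⟨h1, h2, h3, h4⟩ := hγ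
  simp only [projV, polar_sub_right, polar_smul_right', polar_comm _ γ x₀, polar_comm _ γ x,
    polar_comm _ γ e, polar_comm _ γ f, h1, h2, h3, h4]
  ring

/-- Nondegeneracy on the complement. -/
theorem exists_Vpp_polar {γ : ι → F} (hγ : γ ∈ Vpp Q x₀ x e f) (h0 : γ ≠ 0) (c : F) :
    ∃ y ∈ Vpp Q x₀ x e f, 𝔣 γ y = c := by
  have hQ : (polarBilin Q).Nondegenerate := OmCtx.hQ
  obtain ⟨v, hv⟩ : ∃ v, 𝔣 γ v ≠ 0 := by
    by_contra hc
    push Not at hc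
    apply h0
    apply hQ.1
    intro v
    rw [polarBilin_apply_apply]
    exact hc v
  refine ⟨(c * (𝔣 γ v)⁻¹) • projV Q x₀ x e f v, Submodule.smul_mem _ _ (projV_mem hF v), ?_⟩
  rw [polar_smul_right', polar_projV hF hγ, mul_assoc, inv_mul_cancel₀ hv, mul_one]

/-- A hyperbolic partner in the complement. -/
theorem exists_Vpp_partner {u : ι → F} (hu : u ∈ Vpp Q x₀ x e f) (h0 : u ≠ 0) (hQu : Q u = 0) :
    ∃ u' ∈ Vpp Q x₀ x e f, Q u' = 0 ∧ 𝔣 u u' = 1 := by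
  obtain ⟨y, hy, hy1⟩ := exists_Vpp_polar hF hu h0 1
  refine ⟨y - Q y • u, Submodule.sub_mem _ hy (Submodule.smul_mem _ _ hu), ?_, ?_⟩
  · rw [Q_sub, Q_smul, hQu, polar_smul_right', polar_comm, hy1]
    ring
  · rw [polar_sub_right, polar_smul_right', polar_self_of hQu, hy1]
    ring

/-- The weights of `A_{x₀}`. -/
theorem frame_sum {ρ : Om Q →* Module.End ℂ U} {ψ : AddChar F ℂ}
    (hψ : ψ 1 ≠ 1) : ∑ β : F, ∑ β' : F, ∑ γ : Vpp Q x₀ x e f,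
      LL ρ ψ x₀ (β • e + β' • f + γ.1) = 1 := by
  have hx₀ : x₀ ≠ 0 := by
    intro h
    have := hF.aa'
    rw [h] at this
    simp [polar] at this
  have h := sum_LL (ρ := ρ) (ψ := ψ) hψ hF.Qa hx₀
  rw [sum_frame hF] at h
  have e1 : ∀ (s₁ s₄ β β' : F) (γ : Vpp Q x₀ x e f), LL ρ ψ x₀ (fv x₀ x e f s₁ s₄ β β' γ.1) =
      if s₄ = 0 then LL ρ ψ x₀ (β • e + β' • f + γ.1) else 0 := by
    intro s₁ s₄ β β' γ
    split_ifs with h
    · subst h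
      apply LL_congr_perp
      intro y hy
      simp only [fv, zero_smul, add_zero, polar_add_left, polar_smul_left', hy]
      ring
    · apply LL_eq_zero_of_not_perp hF.Qa hψ
      rw [polar_x₀_fv hF _ _ _ _ γ.2]
      exact h
  simp only [e1] at h
  have e2 : (∑ s₄ : F, ∑ β : F, ∑ β' : F, ∑ γ : Vpp Q x₀ x e f,
      if s₄ = 0 then LL ρ ψ x₀ (β • e + β' • f + γ.1) else 0) =
      ∑ β : F, ∑ β' : F, ∑ γ : Vpp Q x₀ x e f, LL ρ ψ x₀ (β • e + β' • f + γ.1) := by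
    rw [Finset.sum_eq_single 0]
    · simp
    · intro s _ hs
      simp [hs]
    · simp
  simp only [e2, Finset.sum_const, Finset.card_univ] at h
  have hq : (Fintype.card F : ℂ) ≠ 0 := Nat.cast_ne_zero.mpr Fintype.card_ne_zero
  rw [← Nat.cast_smul_eq_nsmul ℂ] at h
  exact smul_right_injective _ hq h

end

end Cfsg.Agent.Lib.MinDeg.Omega
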