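import Cfsg.Agent.Lib.MinDeg.Omega.Coord

/-!
# The rank one weight projection `P = LL x₀ e`: absorption and the action on the frame
-/

set_option autoImplicit false
set_option linter.unusedSectionVars false
set_option linter.unusedSimpArgs false
set_option linter.unusedVariables false

namespace Cfsg.Agent.Lib.MinDeg.Omega

open Matrix QuadraticMap Module
open Cfsg.Agent.Lib.Classical.Orth.Basic
open Cfsg.Agent.Lib.MinDeg.SLn (sandwich tr_cycle3)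

universe u v

variable {ι : Type} [Fintype ι] [DecidableEq ι] {F : Type u} [Field F] [Fintype F] [DecidableEq F]
variable {Q : QuadraticForm F (ι → F)} [OmCtx Q]
variable {U : Type v} [AddCommGroup U] [Module ℂ U] [FiniteDimensional ℂ U]

set_option quotPrecheck false in
local notation "𝔣" => polar (⇑Q)

local notation "tr" => LinearMap.trace ℂ U

section Table

variable {a a' b b' : ι → F} (hF : HF Q a a' b b')
include hF

theorem av_sg_a (g : SL2 F) : av (sg hF g) a = g.1 0 0 • a - g.1 1 0 • b' := by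
  rw [av_sg]
  simp only [sigMap, hF.a'a, hF.ba, hF.b'a, hF.aa]
  module

theorem av_sg_a' (g : SL2 F) : av (sg hF g) a' = g.1 0 1 • b + g.1 1 1 • a' := by
  rw [av_sg]
  simp only [sigMap, hF.a'a', hF.ba', hF.b'a', hF.aa']
  module

theorem av_sg_b (g : SL2 F) : av (sg hF g) b = g.1 0 0 • b + g.1 1 0 • a' := by
  rw [av_sg]
  simp only [sigMap, hF.a'b, hF.bb, hF.b'b, hF.ab]
  module

theorem av_sg_b' (g : SL2 F) : av (sg hF g) b' = g.1 1 1 • b' - g.1 0 1 • a := by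
  rw [av_sg]
  simp only [sigMap, hF.a'b', hF.bb', hF.b'b', hF.ab']
  module

theorem av_sg_perp (g : SL2 F) {γ : ι → F} (h1 : 𝔣 a γ = 0) (h2 : 𝔣 a' γ = 0) (h3 : 𝔣 b γ = 0)
    (h4 : 𝔣 b' γ = 0) : av (sg hF g) γ = γ := by
  rw [av_sg]
  simp only [sigMap, h1, h2, h3, h4]
  module

end Table

section Rank

variable {ρ : Om Q →* Module.End ℂ U} {ψ : AddChar F ℂ}

theorem rho_inv_mul' (g : Om Q) : ρ g⁻¹ * ρ g = 1 := by
  rw [← map_mul, inv_mul_cancel, map_one]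

theorem rho_mul_inv' (g : Om Q) : ρ g * ρ g⁻¹ = 1 := by
  rw [← map_mul, mul_inv_cancel, map_one]

variable {x₀ e : ι → F}

variable (ρ ψ x₀ e) in
/-- The matrix coefficient. -/
noncomputable def ff (g : Om Q) : ℂ := tr (LL ρ ψ x₀ e * ρ g)

variable (hx₀ : Q x₀ = 0) (htr : LinearMap.trace ℂ U (LL ρ ψ x₀ e) = (1 : ℂ))
include hx₀ htr

/-- The compression to the line. -/
theorem sw (X : Module.End ℂ U) :
    LL ρ ψ x₀ e * X * LL ρ ψ x₀ e = tr (LL ρ ψ x₀ e * X) • LL ρ ψ x₀ e :=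
  sandwich (LL_idem hx₀ e) htr X

theorem sw_rho (g : Om Q) :
    LL ρ ψ x₀ e * ρ g * LL ρ ψ x₀ e = ff ρ ψ x₀ e g • LL ρ ψ x₀ e :=
  sw hx₀ htr (ρ g)

/-- If `g` commutes with `P` it acts on it as a scalar. -/
theorem act_left {g : Om Q} (hg : ρ g * LL ρ ψ x₀ e = LL ρ ψ x₀ e * ρ g) :
    ρ g * LL ρ ψ x₀ e = ff ρ ψ x₀ e g • LL ρ ψ x₀ e := by
  rw [← sw_rho hx₀ htr g, mul_assoc, hg, ← mul_assoc, LL_idem hx₀]

theorem act_right {g : Om Q} (hg : ρ g * LL ρ ψ x₀ e = LL ρ ψ x₀ e * ρ g) :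
    LL ρ ψ x₀ e * ρ g = ff ρ ψ x₀ e g • LL ρ ψ x₀ e := by
  rw [← hg, act_left hx₀ htr hg]

theorem ff_one : ff ρ ψ x₀ e 1 = 1 := by
  rw [ff, map_one, mul_one, htr]

theorem ff_mul_of_comm {g h : Om Q} (hg : ρ g * LL ρ ψ x₀ e = LL ρ ψ x₀ e * ρ g)
    (hh : ρ h * LL ρ ψ x₀ e = LL ρ ψ x₀ e * ρ h) :
    ff ρ ψ x₀ e (g * h) = ff ρ ψ x₀ e g * ff ρ ψ x₀ e h := by
  have e1 : LL ρ ψ x₀ e * ρ (g * h) = (ff ρ ψ x₀ e g * ff ρ ψ x₀ e h) • LL ρ ψ x₀ e := by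
    rw [map_mul, ← mul_assoc, act_right hx₀ htr hg, smul_mul_assoc, act_right hx₀ htr hh, smul_smul]
  rw [ff, e1, map_smul, htr, smul_eq_mul, mul_one]

theorem comm_inv {g : Om Q} (hg : ρ g * LL ρ ψ x₀ e = LL ρ ψ x₀ e * ρ g) :
    ρ g⁻¹ * LL ρ ψ x₀ e = LL ρ ψ x₀ e * ρ g⁻¹ := by
  calc ρ g⁻¹ * LL ρ ψ x₀ e = ρ g⁻¹ * (LL ρ ψ x₀ e * ρ g) * ρ g⁻¹ := by
        rw [mul_assoc (ρ g⁻¹), mul_assoc (LL ρ ψ x₀ e), rho_mul_inv', mul_one]
    _ = LL ρ ψ x₀ e * ρ g⁻¹ := by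
        rw [← hg, ← mul_assoc, rho_inv_mul', one_mul]

theorem ff_inv_mul {g : Om Q} (hg : ρ g * LL ρ ψ x₀ e = LL ρ ψ x₀ e * ρ g) :
    ff ρ ψ x₀ e g⁻¹ * ff ρ ψ x₀ e g = 1 := by
  rw [← ff_mul_of_comm hx₀ htr (comm_inv hx₀ htr hg) hg, inv_mul_cancel, ff_one hx₀ htr]

theorem ff_ne_zero {g : Om Q} (hg : ρ g * LL ρ ψ x₀ e = LL ρ ψ x₀ e * ρ g) : ff ρ ψ x₀ e g ≠ 0 := by
  intro h
  have := ff_inv_mul hx₀ htr hg
  rw [h, mul_zero] at this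
  exact zero_ne_one this

/-- `f` is invariant under conjugation by elements commuting with `P`. -/
theorem ff_conj {k : Om Q} (hk : ρ k * LL ρ ψ x₀ e = LL ρ ψ x₀ e * ρ k) (g : Om Q) :
    ff ρ ψ x₀ e (k * g * k⁻¹) = ff ρ ψ x₀ e g := by
  have e1 : LL ρ ψ x₀ e * ρ (k * g * k⁻¹) = ρ k * (LL ρ ψ x₀ e * ρ g) * ρ k⁻¹ := by
    rw [map_mul, map_mul, ← mul_assoc, ← mul_assoc, ← hk, mul_assoc (ρ k)]
  rw [ff, e1, tr_cycle3, ← mul_assoc, rho_inv_mul', one_mul]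
  rfl

/-- `f = 1` gives absorption. -/
theorem absorb_left {g : Om Q} (hg : ρ g * LL ρ ψ x₀ e = LL ρ ψ x₀ e * ρ g)
    (h1 : ff ρ ψ x₀ e g = 1) : ρ g * LL ρ ψ x₀ e = LL ρ ψ x₀ e := by
  rw [act_left hx₀ htr hg, h1, one_smul]

theorem absorb_right {g : Om Q} (hg : ρ g * LL ρ ψ x₀ e = LL ρ ψ x₀ e * ρ g)
    (h1 : ff ρ ψ x₀ e g = 1) : LL ρ ψ x₀ e * ρ g = LL ρ ψ x₀ e := by
  rw [act_right hx₀ htr hg, h1, one_smul]

omit htr in
/-- Elements scaling `(x₀, e)` commute with `P`. -/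
theorem comm_of_scale {g : Om Q} {c : F} (hc : c ≠ 0) (h0 : av g x₀ = c • x₀) (he : av g e = c • e) :
    ρ g * LL ρ ψ x₀ e = LL ρ ψ x₀ e * ρ g := by
  have h := LL_conj (ρ := ρ) (ψ := ψ) g hx₀ e
  rw [h0, he, LL_smul_smul hx₀ e hc] at h
  calc ρ g * LL ρ ψ x₀ e = ρ g * LL ρ ψ x₀ e * (ρ g⁻¹ * ρ g) := by
        rw [rho_inv_mul', mul_one]
    _ = (ρ g * LL ρ ψ x₀ e * ρ g⁻¹) * ρ g := by rw [mul_assoc, mul_assoc, mul_assoc]
    _ = LL ρ ψ x₀ e * ρ g := by rw [h]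

omit htr in
theorem comm_of_fix {g : Om Q} (h0 : av g x₀ = x₀) (he : av g e = e) :
    ρ g * LL ρ ψ x₀ e = LL ρ ψ x₀ e * ρ g :=
  comm_of_scale hx₀ (one_ne_zero) (by rw [one_smul, h0]) (by rw [one_smul, he])

end Rank

/-- A character of a module which is invariant under a nontrivial scaling is trivial. -/
theorem fix_of_scale_aux {Y : Type*} [AddCommGroup Y] [Module F Y] (φ : Y → ℂ)
    (hadd : ∀ y y', φ (y + y') = φ y * φ y') (hne : ∀ y, φ y ≠ 0) {c : F} (hc : c ≠ 1)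
    (hinv : ∀ y, φ (c • y) = φ y) (y : Y) : φ y = 1 := by
  have hc' : c - 1 ≠ 0 := sub_ne_zero.mpr hc
  set z := (c - 1)⁻¹ • y with hz
  have h1 : c • z = y + z := by
    have : y = (c - 1) • z := by
      rw [hz, smul_smul, mul_inv_cancel₀ hc', one_smul]
    conv_rhs => rw [this]
    rw [sub_smul, one_smul]
    abel
  have h2 := hinv z
  rw [h1, hadd] at h2
  exact mul_right_cancel₀ (hne z) (by rw [h2, one_mul])

section Absorb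

variable {ρ : Om Q →* Module.End ℂ U} {ψ : AddChar F ℂ}
variable {x₀ x e f : ι → F} (hF : HF Q x₀ x e f)
variable (htr : LinearMap.trace ℂ U (LL ρ ψ x₀ e) = (1 : ℂ))
include hF htr

omit htr hF in
theorem av_tt_perp {z b γ : ι → F} (hz : Q z = 0) (hb : 𝔣 z b = 0) (h1 : 𝔣 z γ = 0) (h2 : 𝔣 b γ = 0) :
    av (tt Q z b) γ = γ := by
  rw [av_tt hz hb, h1, h2]
  simp

/-- Absorption of `tt e γ`, `γ ∈ V''`. -/
theorem ff_tt_e {c : F} (hc0 : c ≠ 0) (hc1 : c ≠ 1) {γ : ι → F} (hγ : γ ∈ Vpp Q x₀ x e f) :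
    ff ρ ψ x₀ e (tt Q e γ) = 1 := by
  have hcomm : ∀ {γ : ι → F}, γ ∈ Vpp Q x₀ x e f →
      ρ (tt Q e γ) * LL ρ ψ x₀ e = LL ρ ψ x₀ e * ρ (tt Q e γ) := by
    intro γ hγ
    refine comm_of_fix hF.Qa (av_tt_perp hF.Qb hγ.2.2.1 hF.ba ?_) ?_
    · rw [polar_comm]
      exact hγ.1
    · rw [av_tt hF.Qb hγ.2.2.1, hF.bb, polar_comm _ γ e, hγ.2.2.1]
      simp
  let φ : Vpp Q x₀ x e f → ℂ := fun y => ff ρ ψ x₀ e (tt Q e y.1)
  have hinv : ∀ y, φ (c • y) = φ y := by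
    intro y
    have hk := comm_of_scale (ρ := ρ) (ψ := ψ) (g := sg hF (dgg c)) hF.Qa hc0 (by
        rw [av_sg_a, dgg_00 hc0, dgg_10 hc0]; simp) (by
        rw [av_sg_b, dgg_00 hc0, dgg_10 hc0]; simp)
    have h1 := ff_conj hF.Qa htr hk (tt Q e y.1)
    rw [conj_tt _ hF.Qb y.2.2.2.1, av_sg_b, dgg_00 hc0, dgg_10 hc0, zero_smul, add_zero,
      av_sg_perp hF _ y.2.1 y.2.2.1 y.2.2.2.1 y.2.2.2.2, tt_smul_left c hF.Qb y.2.2.2.1] at h1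
    exact h1
  have hadd : ∀ y y', φ (y + y') = φ y * φ y' := by
    intro y y'
    show ff ρ ψ x₀ e (tt Q e (y.1 + y'.1)) = _
    rw [← tt_mul hF.Qb y.2.2.2.1 y'.2.2.2.1]
    exact ff_mul_of_comm hF.Qa htr (hcomm y.2) (hcomm y'.2)
  exact fix_of_scale_aux φ hadd (fun y => ff_ne_zero hF.Qa htr (hcomm y.2)) hc1 hinv ⟨γ, hγ⟩

end Absorb

end Cfsg.Agent.Lib.MinDeg.Omega
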