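import Cfsg.Agent.Lib.MinDeg.Omega.Main
import Cfsg.Agent.Lib.Classical.Orth.Models
import Cfsg.Agent.Lib.Linalg.OrthModels

/-!
# Counting singular vectors in the models
-/

set_option autoImplicit false
set_option linter.unusedSectionVars false
set_option linter.unusedSimpArgs false
set_option linter.unusedVariables false

namespace Cfsg.Agent.Lib.MinDeg.Omega

open Matrix QuadraticMap Module
open Cfsg.Agent.Lib.Classical.Orth.Basic
open Cfsg.Agent.Lib.Linalg.OrthModels
open Cfsg

universe u v

section Count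

variable {F : Type u} [Field F] [Fintype F] [DecidableEq F]

/-- The number of zeros of a function, as a complex number. -/
noncomputable def ZZ {V : Type*} [Fintype V] (P : V → F) : ℂ := ∑ v : V, if P v = 0 then (1 : ℂ) else 0

/-- One more hyperbolic plane. -/
theorem ZZ_cons {V : Type*} [Fintype V] (P : V → F) :
    ZZ (fun t : F × F × V => t.1 * t.2.1 + P t.2.2) =
      ((Fintype.card F : ℂ) - 1) * (Fintype.card V : ℂ) + (Fintype.card F : ℂ) * ZZ P := by
  unfold ZZ
  rw [Fintype.sum_prod_type]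
  simp only [Fintype.sum_prod_type]
  rw [← Finset.add_sum_erase _ _ (Finset.mem_univ (0 : F)), add_comm]
  congr 1
  · have e1 : ∀ β ∈ Finset.univ.erase (0 : F), (∑ β' : F, ∑ v : V,
        if β * β' + P v = 0 then (1 : ℂ) else 0) = (Fintype.card V : ℂ) := by
      intro β hβ
      have h0 : β ≠ 0 := Finset.ne_of_mem_erase hβ
      rw [Finset.sum_comm]
      have e2 : ∀ v : V, (∑ β' : F, if β * β' + P v = 0 then (1 : ℂ) else 0) = 1 := by
        intro v
        simp only [mul_comm β]
        exact sum_lin h0 _ 1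
      simp only [e2]
      simp
    rw [Finset.sum_congr rfl e1, Finset.sum_const, nsmul_eq_mul, card_erase_C]
  · simp only [zero_mul, zero_add]
    rw [Finset.sum_const, nsmul_eq_mul, Finset.card_univ]

/-- Invariance under a bijection. -/
theorem ZZ_equiv {V W : Type*} [Fintype V] [Fintype W] (E : V ≃ W) (P : W → F) :
    ZZ (fun v => P (E v)) = ZZ P :=
  Equiv.sum_comp E (fun w => if P w = 0 then (1 : ℂ) else 0)

/-- An anisotropic function. -/
theorem ZZ_aniso {V : Type*} [Fintype V] [Zero V] [DecidableEq V] (P : V → F) (hP : ∀ v, P v = 0 ↔ v = 0) :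
    ZZ P = 1 := by
  unfold ZZ
  rw [Finset.sum_eq_single (0 : V)]
  · rw [if_pos ((hP 0).2 rfl)]
  · intro v _ hv
    rw [if_neg (fun h => hv ((hP v).1 h))]
  · simp

theorem ZZ_plus_succ (m : ℕ) : ZZ (quadFormPlus (m + 1) F) =
    ((Fintype.card F : ℂ) - 1) * (Fintype.card F : ℂ) ^ (2 * m) + (Fintype.card F : ℂ) * ZZ (quadFormPlus m F) := by
  rw [← ZZ_equiv (consPlusF F m).toEquiv]
  have e1 : (fun t => quadFormPlus (m + 1) F ((consPlusF F m).toEquiv t)) =
      fun t : F × F × (Fin m ⊕ Fin m → F) => t.1 * t.2.1 + quadFormPlus m F t.2.2 := by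
    funext t
    exact quadFormPlus_consPlusF m t
  rw [e1, ZZ_cons]
  congr 2
  simp [Fintype.card_fun, two_mul]

/-- The number of zeros of the plus form. -/
theorem ZZ_plus (m : ℕ) : (Fintype.card F : ℂ) * ZZ (quadFormPlus m F) =
    (Fintype.card F : ℂ) ^ (2 * m) + ((Fintype.card F : ℂ) - 1) * (Fintype.card F : ℂ) ^ m := by
  induction m with
  | zero =>
    have : ZZ (quadFormPlus 0 F) = 1 := by
      unfold ZZ
      simp [quadFormPlus]
    rw [this]
    ring
  | succ m ih =>
    rw [ZZ_plus_succ, mul_add, ih]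
    ring

theorem ZZ_odd_succ (m : ℕ) : ZZ (quadFormOdd (m + 1) F) =
    ((Fintype.card F : ℂ) - 1) * (Fintype.card F : ℂ) ^ (2 * m + 1) + (Fintype.card F : ℂ) * ZZ (quadFormOdd m F) := by
  rw [← ZZ_equiv (consOddF F m).toEquiv]
  have e1 : (fun t => quadFormOdd (m + 1) F ((consOddF F m).toEquiv t)) =
      fun t : F × F × (Unit ⊕ (Fin m ⊕ Fin m) → F) => t.1 * t.2.1 + quadFormOdd m F t.2.2 := by
    funext t
    exact quadFormOdd_consOddF m t
  rw [e1, ZZ_cons]
  congr 2
  simp [Fintype.card_fun, two_mul]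
  ring

/-- The number of zeros of the odd form. -/
theorem ZZ_odd (m : ℕ) : ZZ (quadFormOdd m F) = (Fintype.card F : ℂ) ^ (2 * m) := by
  induction m with
  | zero =>
    rw [ZZ_aniso]
    · simp
    · intro v
      constructor
      · intro h
        have h1 : v (Sum.inl ()) = 0 := by
          simpa [quadFormOdd] using h
        funext i
        rcases i with ⟨⟩ | (j | j)
        · exact h1
        · exact j.elim0
        · exact j.elim0
      · rintro rfl
        simp [quadFormOdd]
  | succ m ih =>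
    rw [ZZ_odd_succ, ih]
    ring

theorem ZZ_minus_succ (m : ℕ) (a b : F) : ZZ (quadFormMinus (m + 1) F a b) =
    ((Fintype.card F : ℂ) - 1) * (Fintype.card F : ℂ) ^ (2 * m + 2) +
      (Fintype.card F : ℂ) * ZZ (quadFormMinus m F a b) := by
  rw [← ZZ_equiv (consMinusF F m).toEquiv]
  have e1 : (fun t => quadFormMinus (m + 1) F a b ((consMinusF F m).toEquiv t)) =
      fun t : F × F × ((Fin m ⊕ Fin m) ⊕ Fin 2 → F) => t.1 * t.2.1 + quadFormMinus m F a b t.2.2 := by
    funext t
    exact quadFormMinus_consMinusF m a b t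
  rw [e1, ZZ_cons]
  congr 2
  simp [Fintype.card_fun, two_mul]

/-- The number of zeros of the minus form. -/
theorem ZZ_minus (m : ℕ) {a b : F}
    (hab : ∀ z₁ z₂ : F, z₁ ^ 2 + a * z₁ * z₂ + b * z₂ ^ 2 = 0 → z₁ = 0 ∧ z₂ = 0) :
    (Fintype.card F : ℂ) * ZZ (quadFormMinus m F a b) =
    (Fintype.card F : ℂ) ^ (2 * m + 2) - ((Fintype.card F : ℂ) - 1) * (Fintype.card F : ℂ) ^ (m + 1) := by
  induction m with
  | zero =>
    rw [ZZ_aniso]
    · ring
    · intro v
      constructor
      · intro h
        have h1 := hab (v (Sum.inr 0)) (v (Sum.inr 1)) (by simpa [quadFormMinus] using h)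
        funext i
        rcases i with (j | j) | i
        · exact j.elim0
        · exact j.elim0
        · fin_cases i
          · exact h1.1
          · exact h1.2
      · rintro rfl
        simp [quadFormMinus]
  | succ m ih =>
    rw [ZZ_minus_succ, mul_add, ih]
    ring

end Count

section Frame

variable {ι : Type} [Fintype ι] [DecidableEq ι] {F : Type u} [Field F] [Fintype F] [DecidableEq F]
variable {Q : QuadraticForm F (ι → F)} [OmCtx Q]
variable {x₀ x e f : ι → F}

/-- The number of singular vectors in terms of the frame. -/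
theorem singular_count (hF : HF Q x₀ x e f) : ZZ (⇑Q) =
    ((Fintype.card F : ℂ) ^ 2 - 1) * (Fintype.card F : ℂ) * (Fintype.card (Vpp Q x₀ x e f) : ℂ) +
      (Fintype.card F : ℂ) ^ 2 * (AA Q x₀ x e f : ℂ) := by
  have h := sum_S hF (fun _ => (1 : ℂ)) 1 1 1 1 1 (fun _ _ _ => rfl) (fun _ _ _ _ => rfl)
    (fun _ _ _ _ _ _ => rfl) (fun _ _ _ => rfl) (fun _ _ => rfl)
  have e1 : ZZ (⇑Q) = 1 + ∑ v : ι → F, (if Q v = 0 ∧ v ≠ 0 then (1 : ℂ) else 0) := by
    unfold ZZ
    have e2 : ∀ v : ι → F, (if Q v = 0 then (1 : ℂ) else 0) =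
        (if v = 0 then (1 : ℂ) else 0) + (if Q v = 0 ∧ v ≠ 0 then (1 : ℂ) else 0) := by
      intro v
      by_cases hv : v = 0
      · subst hv
        simp
      · by_cases hq : Q v = 0 <;> simp [hv, hq]
    simp only [e2]
    rw [Finset.sum_add_distrib, Finset.sum_ite_eq' Finset.univ (0 : ι → F)]
    simp
  rw [e1, h]
  ring

/-- The size of `Vpp`. -/
theorem card_Vpp_eq (hF : HF Q x₀ x e f) {N : ℕ} (hN : Fintype.card ι = N + 4) :
    Fintype.card (Vpp Q x₀ x e f) = Fintype.card F ^ N := by
  have h := card_V_eq hF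
  rw [Fintype.card_fun, hN, pow_add, mul_comm] at h
  exact (Nat.eq_of_mul_eq_mul_left (pow_pos Fintype.card_pos 4) h).symm

end Frame

/-- Schur's lemma on `Fin k → ℂ`. -/
theorem schur_fin' {G : Type*} [Group G] {k : ℕ} {ρ : Representation ℂ G (Fin k → ℂ)}
    (hρ : ρ.IsIrreducible) (hk : 2 ≤ k) (T : Module.End ℂ (Fin k → ℂ))
    (hT : ∀ g, ρ g * T = T * ρ g) : ∃ c : ℂ, T = c • 1 := by
  have : Nonempty (Fin k) := ⟨⟨0, by omega⟩⟩
  obtain ⟨μ, hμ⟩ := Module.End.exists_eigenvalue T
  refine ⟨μ, ?_⟩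
  let S : Subrepresentation ρ :=
    ⟨Module.End.eigenspace T μ, fun g v hv => by
      rw [Module.End.mem_eigenspace_iff] at hv ⊢
      have h1 : T (ρ g v) = (T * ρ g) v := rfl
      rw [h1, ← hT g, Module.End.mul_apply, hv, map_smul]⟩
  rcases hρ.eq_bot_or_eq_top S with hS | hS
  · exfalso
    have h2 : Module.End.eigenspace T μ = ⊥ := congrArg Subrepresentation.toSubmodule hS
    exact hμ h2
  · have h2 : Module.End.eigenspace T μ = ⊤ := congrArg Subrepresentation.toSubmodule hS
    apply LinearMap.ext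
    intro v
    have hv : v ∈ Module.End.eigenspace T μ := by rw [h2]; trivial
    rw [Module.End.mem_eigenspace_iff] at hv
    rw [hv]
    rfl

/-- A field with more than three elements has an element with `μ ≠ 0`, `μ² ≠ 1`. -/
theorem exists_mu {F : Type u} [Field F] [Fintype F] (h3 : 3 < Fintype.card F) :
    ∃ μ : F, μ ≠ 0 ∧ μ * μ ≠ 1 := by
  classical
  by_contra hc
  push Not at hc
  have h1 : (Finset.univ : Finset F) ⊆ {0, 1, -1} := by
    intro μ _
    by_cases h0 : μ = 0
    · simp [h0]
    · have h2 : (μ - 1) * (μ + 1) = 0 := by linear_combination hc μ h0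
      rcases mul_eq_zero.1 h2 with h4 | h4
      · have : μ = 1 := by linear_combination h4
        simp [this]
      · have : μ = -1 := by linear_combination h4
        simp [this]
  have h2 := Finset.card_le_card h1
  rw [Finset.card_univ] at h2
  have h4 : (({0, 1, -1} : Finset F)).card ≤ 3 := Finset.card_le_three
  omega

end Cfsg.Agent.Lib.MinDeg.Omega
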