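import Cfsg.Agent.Lib.MinDeg.Omega.Ubar

/-!
# The decomposition of `a_Π` in terms of `N_b`
-/

set_option autoImplicit false
set_option linter.unusedSectionVars false
set_option linter.unusedSimpArgs false
set_option linter.unusedVariables false

namespace Cfsg.Agent.Lib.MinDeg.Omega

open Matrix QuadraticMap Module
open Cfsg.Agent.Lib.Classical.Orth.Basic

universe u v

variable {ι : Type} [Fintype ι] [DecidableEq ι] {F : Type u} [Field F] [Fintype F] [DecidableEq F]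
variable {Q : QuadraticForm F (ι → F)} [OmCtx Q]
variable {U : Type v} [AddCommGroup U] [Module ℂ U] [FiniteDimensional ℂ U]

set_option quotPrecheck false in
local notation "𝔣" => polar (⇑Q)

local notation "tr" => LinearMap.trace ℂ U

variable {ρ : Om Q →* Module.End ℂ U} {ψ : AddChar F ℂ} {x₀ x e f : ι → F} {μ : F} {u₀ u₀' y₀ : ι → F}

section WTable

variable {a a' b b' : ι → F} (hF : HF Q a a' b b')
include hF

theorem w_a : av (sg hF wM) a = b' := by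
  rw [av_sg_a, wM_00, wM_10, zero_smul, zero_sub, neg_smul, one_smul, neg_neg]

theorem w_a' : av (sg hF wM) a' = b := by
  rw [av_sg_a', wM_01, wM_11, one_smul, zero_smul, add_zero]

theorem w_b : av (sg hF wM) b = -a' := by
  rw [av_sg_b, wM_00, wM_10, zero_smul, zero_add, neg_smul, one_smul]

theorem w_b' : av (sg hF wM) b' = -a := by
  rw [av_sg_b', wM_11, wM_01, zero_smul, zero_sub, one_smul]

end WTable

section S0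

variable (hF : HF Q x₀ x e f)
include hF

theorem s0_x₀ : av (s0 hF) x₀ = -x := by
  rw [s0, av_mul, w_a hF, w_b hF.swap]

theorem s0_x : av (s0 hF) x = -x₀ := by
  rw [s0, av_mul, w_a' hF, w_b' hF.swap]

theorem s0_e : av (s0 hF) e = -f := by
  rw [s0, av_mul, w_b hF, av_neg, w_a' hF.swap]

theorem s0_f : av (s0 hF) f = -e := by
  rw [s0, av_mul, w_b' hF, av_neg, w_a hF.swap]

theorem s0_perp {γ : ι → F} (hγ : γ ∈ Vpp Q x₀ x e f) : av (s0 hF) γ = γ := by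
  rw [s0, av_mul, av_sg_perp hF _ hγ.1 hγ.2.1 hγ.2.2.1 hγ.2.2.2,
    av_sg_perp hF.swap _ hγ.1 hγ.2.1 hγ.2.2.2 hγ.2.2.1]

theorem s0i_x₀ : av (s0 hF)⁻¹ x₀ = -x := by
  have h := av_inv_av (s0 hF) (-x)
  rw [av_neg, s0_x hF, neg_neg] at h
  exact h

theorem s0i_f : av (s0 hF)⁻¹ f = -e := by
  have h := av_inv_av (s0 hF) (-e)
  rw [av_neg, s0_e hF, neg_neg] at h
  exact h

theorem s0i_perp {γ : ι → F} (hγ : γ ∈ Vpp Q x₀ x e f) : av (s0 hF)⁻¹ γ = γ := by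
  have h := av_inv_av (s0 hF) γ
  rwa [s0_perp hF hγ] at h

end S0

variable (H : MC ρ ψ x₀ x e f μ u₀ u₀' y₀)
include H

/-- `c_δ` is absorbed by `P'`. -/
theorem cc_Pp_left {δ : ι → F} (hδ : δ ∈ Vpp Q x₀ x e f) :
    ρ (tt Q f δ) * Pp ρ ψ H.hF = Pp ρ ψ H.hF := by
  have e1 := conj_tt (s0 H.hF)⁻¹ H.hF.Qb' hδ.2.2.2
  rw [s0i_f H.hF, s0i_perp H.hF hδ, inv_inv] at e1
  have e2 : tt Q (-e) δ = tt Q e (-δ) := by
    have := tt_smul_left (Q := Q) (-1 : F) H.hF.Qb hδ.2.2.1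
    simpa using this
  have e3 : tt Q f δ * s0 H.hF = s0 H.hF * tt Q e (-δ) := by
    rw [← e2, ← e1]
    group
  have h1 := H.te_left (ρ := ρ) (ψ := ψ) (Submodule.neg_mem _ hδ)
  rw [Pp, ← mul_assoc, ← mul_assoc, ← map_mul ρ, e3, map_mul ρ, mul_assoc (ρ (s0 H.hF)), h1]

theorem cc_Pp_right {δ : ι → F} (hδ : δ ∈ Vpp Q x₀ x e f) :
    Pp ρ ψ H.hF * ρ (tt Q f δ)⁻¹ = Pp ρ ψ H.hF := by
  have e1 := conj_tt (s0 H.hF)⁻¹ H.hF.Qb' (b := -δ) (by rw [polar_neg_right, hδ.2.2.2, neg_zero])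
  rw [s0i_f H.hF, av_neg, s0i_perp H.hF hδ, inv_inv, ← tt_inv H.hF.Qb' hδ.2.2.2] at e1
  have e2 : tt Q (-e) (-δ) = tt Q e δ := by
    have := tt_smul_left (Q := Q) (-1 : F) H.hF.Qb (b := -δ) (by rw [polar_neg_right, hδ.2.2.1, neg_zero])
    simpa using this
  have e3 : (s0 H.hF)⁻¹ * (tt Q f δ)⁻¹ = tt Q e δ * (s0 H.hF)⁻¹ := by
    rw [← e2, ← e1]
    group
  rw [Pp, mul_assoc, ← map_mul ρ, e3, map_mul ρ, ← mul_assoc,
    mul_assoc (ρ (s0 H.hF)) (LL ρ ψ x₀ e) (ρ (tt Q e δ)), H.te_right hδ]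

/-- The shift of the weight. -/
theorem tr_shift {γ : ι → F} (hγ : γ ∈ Vpp Q x₀ x e f) (h0 : γ ≠ 0) (b : F) :
    tr (LL ρ ψ x₀ ((0 : F) • e + b • f + γ) * Pp ρ ψ H.hF) = tr (LL ρ ψ x₀ γ * Pp ρ ψ H.hF) := by
  obtain ⟨δ, hδ, hδ1⟩ := exists_Vpp_polar H.hF hγ h0 (-b)
  have e1 := LL_conj (ρ := ρ) (ψ := ψ) (tt Q f δ) H.hF.Qa γ
  have e2 : av (tt Q f δ) γ = (0 : F) • e + b • f + γ := by
    rw [av_tt H.hF.Qb' hδ.2.2.2, polar_comm _ f γ, polar_comm _ γ f, polar_comm _ δ γ, hγ.2.2.2, hδ1]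
    simp only [zero_smul, mul_zero, zero_add, sub_zero]
    module
  rw [cc_x₀ H.hF hδ, e2] at e1
  have h1 : ρ (tt Q f δ)⁻¹ * Pp ρ ψ H.hF = Pp ρ ψ H.hF := by
    conv_lhs => rw [← cc_Pp_left H hδ]
    rw [← mul_assoc, rho_inv_mul', one_mul]
  have h2 : Pp ρ ψ H.hF * ρ (tt Q f δ) = Pp ρ ψ H.hF := by
    conv_lhs => rw [← cc_Pp_right H hδ]
    rw [mul_assoc, rho_inv_mul', mul_one]
  rw [← e1, mul_assoc (ρ (tt Q f δ) * _), h1, mul_assoc, tr_comm', mul_assoc, h2]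

/-- The eigenvalue property of the weight projections. -/
theorem Pi2_LL (w : ι → F) (hw : 𝔣 x₀ f = 0) (β : F) :
    Fup (ρ.comp (sg H.hF.swap)) ψ β * LL ρ ψ x₀ w = if 𝔣 w f = β then LL ρ ψ x₀ w else 0 := by
  refine Fup_eig_left H.hψ (κ := 𝔣 w f) (fun t => ?_) β
  have h : 𝔣 x₀ (t • f) = 0 := by rw [polar_smul_right', hw, mul_zero]
  show ρ (sg H.hF.swap (up t)) * _ = _
  rw [sg_up, LL_left H.hF.Qa w h, polar_smul_right', mul_comm]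

theorem Pi1_LL (w : ι → F) (β : F) :
    Fup (ρ.comp (sg H.hF)) ψ β * LL ρ ψ x₀ w = if 𝔣 w e = β then LL ρ ψ x₀ w else 0 := by
  refine Fup_eig_left H.hψ (κ := 𝔣 w e) (fun t => ?_) β
  have h : 𝔣 x₀ (t • e) = 0 := by rw [polar_smul_right', H.hF.ab, mul_zero]
  show ρ (sg H.hF (up t)) * _ = _
  rw [sg_up, LL_left H.hF.Qa w h, polar_smul_right', mul_comm]

/-- The product of the projectors in terms of the weight projections. -/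
theorem Pi_frame (β : F) :
    Fup (ρ.comp (sg H.hF)) ψ β * Fup (ρ.comp (sg H.hF.swap)) ψ 0 =
      ∑ γ : Vpp Q x₀ x e f, LL ρ ψ x₀ ((0 : F) • e + β • f + γ.1) := by
  have h1 := frame_sum (ρ := ρ) (ψ := ψ) H.hF H.hψ
  have key : ∀ (β₁ β₂ : F) (γ : Vpp Q x₀ x e f),
      Fup (ρ.comp (sg H.hF)) ψ β * Fup (ρ.comp (sg H.hF.swap)) ψ 0 * LL ρ ψ x₀ (β₁ • e + β₂ • f + γ.1) =
        if β₁ = 0 ∧ β₂ = β then LL ρ ψ x₀ (β₁ • e + β₂ • f + γ.1) else 0 := by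
    intro β₁ β₂ γ
    rw [mul_assoc, Pi2_LL H _ H.hF.ab', wv_f H.hF _ _ γ.2]
    by_cases h : β₁ = 0
    · rw [if_pos h, Pi1_LL H, wv_e H.hF _ _ γ.2]
      by_cases h2 : β₂ = β
      · rw [if_pos h2, if_pos ⟨h, h2⟩]
      · rw [if_neg h2, if_neg (fun h3 => h2 h3.2)]
    · rw [if_neg h, mul_zero, if_neg (fun h3 => h h3.1)]
  conv_lhs => rw [← mul_one (Fup (ρ.comp (sg H.hF)) ψ β * Fup (ρ.comp (sg H.hF.swap)) ψ 0), ← h1]
  simp only [Finset.mul_sum, key]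
  rw [Finset.sum_eq_single (0 : F)]
  · rw [Finset.sum_eq_single β]
    · refine Finset.sum_congr rfl fun γ _ => ?_
      rw [if_pos ⟨rfl, rfl⟩]
    · intro β₂ _ h
      refine Finset.sum_eq_zero fun γ _ => ?_
      rw [if_neg (fun h3 => h h3.2)]
    · simp
  · intro β₁ _ h
    refine Finset.sum_eq_zero fun β₂ _ => Finset.sum_eq_zero fun γ _ => ?_
    rw [if_neg (fun h3 => h h3.1)]
  · simp

/-- The quantity `N_⊥`. -/
noncomputable def NT (ρ : Om Q →* Module.End ℂ U) (ψ : AddChar F ℂ) {x₀ x e f : ι → F}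
    (hF : HF Q x₀ x e f) : ℂ :=
  ∑ γ : Vpp Q x₀ x e f, if Q γ.1 = 0 ∧ γ.1 ≠ 0 then tr (LL ρ ψ x₀ γ.1 * Pp ρ ψ hF) else 0

/-- `N_b` as a sum. -/
theorem Nb_eq_sum (β : F) :
    tr (Fup (ρ.comp (sg H.hF)) ψ β * Fup (ρ.comp (sg H.hF.swap)) ψ 0 * Pp ρ ψ H.hF) =
      tr (LL ρ ψ x₀ (β • f) * Pp ρ ψ H.hF) + NT ρ ψ H.hF := by
  classical
  rw [Pi_frame H, Finset.sum_mul, map_sum, NT]
  rw [← Finset.add_sum_erase _ _ (Finset.mem_univ (⟨0, Submodule.zero_mem _⟩ : Vpp Q x₀ x e f))]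
  rw [← Finset.add_sum_erase (a := (⟨0, Submodule.zero_mem _⟩ : Vpp Q x₀ x e f)) Finset.univ _
    (Finset.mem_univ _)]
  have e0 : (0 : F) • e + β • f + (0 : ι → F) = β • f := by simp
  simp only [e0]
  rw [if_neg (fun h => h.2 rfl), zero_add]
  congr 1
  refine Finset.sum_congr rfl fun γ hγ => ?_
  have hγ0 : γ.1 ≠ 0 := fun h => (Finset.ne_of_mem_erase hγ) (Subtype.ext h)
  by_cases hQ : Q γ.1 = 0
  · rw [if_pos ⟨hQ, hγ0⟩, tr_shift H γ.2 hγ0]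
  · rw [if_neg (fun h => hQ h.1), H.hns _ (wv_x₀ H.hF _ _ γ.2), zero_mul, map_zero]
    rw [wv_Q H.hF _ _ γ.2, zero_mul, zero_add]
    exact hQ

/-- The trace of `F₂` with `P'`. -/
theorem tr_F2_Pp : tr (Fup (ρ.comp (sg H.hF.swap)) ψ 0 * Pp ρ ψ H.hF) =
    tr (Flo (ρ.comp (sg H.hF.swap)) * LL ρ ψ x₀ e) := by
  have hflo : ((ρ.comp (sg H.hF.swap)) wM⁻¹ * Fup (ρ.comp (sg H.hF.swap)) ψ 0 * (ρ.comp (sg H.hF.swap)) wM)
      = Flo (ρ.comp (sg H.hF.swap)) := (Flo_eq (ψ := ψ)).symm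
  have e2 : (ρ.comp (sg H.hF.swap)) wM⁻¹ = ρ (sg H.hF.swap wM)⁻¹ := by
    simp only [MonoidHom.comp_apply, map_inv]
  have e3 : (ρ.comp (sg H.hF.swap)) wM = ρ (sg H.hF.swap wM) := rfl
  rw [e2, e3] at hflo
  have e6 : ρ (s0 H.hF)⁻¹ = ρ (sg H.hF wM)⁻¹ * ρ (sg H.hF.swap wM)⁻¹ := by
    rw [s0, _root_.mul_inv_rev, map_mul]
  have e7 : ρ (s0 H.hF) = ρ (sg H.hF.swap wM) * ρ (sg H.hF wM) := by
    rw [s0, map_mul]
  have e8 : tr (Fup (ρ.comp (sg H.hF.swap)) ψ 0 * Pp ρ ψ H.hF) =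
      tr (ρ (s0 H.hF)⁻¹ * Fup (ρ.comp (sg H.hF.swap)) ψ 0 * ρ (s0 H.hF) * LL ρ ψ x₀ e) := by
    rw [Pp]
    rw [← mul_assoc, tr_comm']
    simp only [mul_assoc]
  rw [e8, e6, e7]
  have e9 : ρ (sg H.hF wM)⁻¹ * ρ (sg H.hF.swap wM)⁻¹ * Fup (ρ.comp (sg H.hF.swap)) ψ 0 *
      (ρ (sg H.hF.swap wM) * ρ (sg H.hF wM)) =
      ρ (sg H.hF wM)⁻¹ * (ρ (sg H.hF.swap wM)⁻¹ * Fup (ρ.comp (sg H.hF.swap)) ψ 0 *
      ρ (sg H.hF.swap wM)) * ρ (sg H.hF wM) := by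
    simp only [mul_assoc]
  rw [e9, hflo, mul_assoc (ρ (sg H.hF wM)⁻¹), Fub_comm H, ← mul_assoc, rho_inv_mul', one_mul]

/-- The number `a₃`. -/
theorem tr_zero_Pp : tr (LL ρ ψ x₀ 0 * Pp ρ ψ H.hF) = tr (LL ρ ψ x 0 * LL ρ ψ x₀ e) := by
  have h1 := LL_conj (ρ := ρ) (ψ := ψ) (s0 H.hF)⁻¹ H.hF.Qa 0
  rw [s0i_x₀ H.hF, av_zero, inv_inv] at h1
  have h2 : LL ρ ψ (-x) (0 : ι → F) = LL ρ ψ x 0 := by
    have := LL_smul_zero (ρ := ρ) (ψ := ψ) H.hF.Qa' (c := (-1 : F)) (neg_ne_zero.mpr one_ne_zero)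
    simpa using this
  rw [h2] at h1
  rw [← h1, Pp]
  calc tr (LL ρ ψ x₀ 0 * (ρ (s0 H.hF) * LL ρ ψ x₀ e * ρ (s0 H.hF)⁻¹))
      = tr ((LL ρ ψ x₀ 0 * ρ (s0 H.hF) * LL ρ ψ x₀ e) * ρ (s0 H.hF)⁻¹) := by simp only [mul_assoc]
    _ = tr (ρ (s0 H.hF)⁻¹ * (LL ρ ψ x₀ 0 * ρ (s0 H.hF) * LL ρ ψ x₀ e)) := tr_comm' _ _
    _ = _ := by simp only [mul_assoc]

/-- The total. -/
theorem api_sum : tr (Flo (ρ.comp (sg H.hF.swap)) * LL ρ ψ x₀ e) =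
    tr (Fup (ρ.comp (sg H.hF)) ψ 0 * Fup (ρ.comp (sg H.hF.swap)) ψ 0 * Pp ρ ψ H.hF) +
    ∑ b ∈ Finset.univ.erase (0 : F),
      tr (Fup (ρ.comp (sg H.hF)) ψ b * Fup (ρ.comp (sg H.hF.swap)) ψ 0 * Pp ρ ψ H.hF) := by
  have e := Finset.add_sum_erase Finset.univ (fun b : F => tr (Fup (ρ.comp (sg H.hF)) ψ b *
    Fup (ρ.comp (sg H.hF.swap)) ψ 0 * Pp ρ ψ H.hF)) (Finset.mem_univ (0 : F))
  rw [e, ← tr_F2_Pp H, ← map_sum, ← Finset.sum_mul, ← Finset.sum_mul, sum_Fup H.hψ, one_mul]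

end Cfsg.Agent.Lib.MinDeg.Omega
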