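import Cfsg.Agent.Lib.MinDeg.Omega.Kone

/-!
# The character `χ` of the torus and the relation `E1` determining `α`
-/

set_option autoImplicit false
set_option linter.unusedSectionVars false
set_option linter.unusedSimpArgs false
set_option linter.unusedVariables false

namespace Cfsg.Agent.Lib.MinDeg.Omega

open Matrix QuadraticMap Module
open Cfsg.Agent.Lib.Classical.Orth.Basic
open Cfsg.Agent.Lib.MinDeg.SLn (sandwich tr_cycle3)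

universe u v

variable {ι : Type} [Fintype ι] [DecidableEq ι] {F : Type u} [Field F] [Fintype F] [DecidableEq F]
variable {Q : QuadraticForm F (ι → F)} [OmCtx Q]
variable {U : Type v} [AddCommGroup U] [Module ℂ U] [FiniteDimensional ℂ U]

set_option quotPrecheck false in
local notation "𝔣" => polar (⇑Q)

local notation "tr" => LinearMap.trace ℂ U

variable {ρ : Om Q →* Module.End ℂ U} {ψ : AddChar F ℂ}
variable {x₀ x e f : ι → F} (hF : HF Q x₀ x e f)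

variable (ρ ψ) in
/-- The character of the torus on the line of `P`. -/
noncomputable def chi (t : F) : ℂ := ff ρ ψ x₀ e (sg hF (dgg t))

variable (htr : LinearMap.trace ℂ U (LL ρ ψ x₀ e) = (1 : ℂ))
include hF htr

theorem chi_left {t : F} (ht : t ≠ 0) :
    ρ (sg hF (dgg t)) * LL ρ ψ x₀ e = chi ρ ψ hF t • LL ρ ψ x₀ e :=
  act_left hF.Qa htr (h_comm hF ht)

theorem chi_right {t : F} (ht : t ≠ 0) :
    LL ρ ψ x₀ e * ρ (sg hF (dgg t)) = chi ρ ψ hF t • LL ρ ψ x₀ e :=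
  act_right hF.Qa htr (h_comm hF ht)

theorem chi_mul {s t : F} (hs : s ≠ 0) (ht : t ≠ 0) :
    chi ρ ψ hF (s * t) = chi ρ ψ hF s * chi ρ ψ hF t := by
  rw [chi, ← dgg_mul hs ht, map_mul]
  exact ff_mul_of_comm hF.Qa htr (h_comm hF hs) (h_comm hF ht)

theorem chi_one : chi ρ ψ hF 1 = 1 := by
  rw [chi, dgg_one, map_one, ff_one hF.Qa htr]

theorem chi_ne {t : F} (ht : t ≠ 0) : chi ρ ψ hF t ≠ 0 :=
  ff_ne_zero hF.Qa htr (h_comm hF ht)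

theorem ff_mul_dgg (g : Om Q) {t : F} (ht : t ≠ 0) :
    ff ρ ψ x₀ e (g * sg hF (dgg t)) = chi ρ ψ hF t * ff ρ ψ x₀ e g := by
  rw [ff, map_mul ρ, ← mul_assoc, LinearMap.trace_mul_comm, ← mul_assoc, chi_left hF htr ht, smul_mul_assoc,
    map_smul, smul_eq_mul]
  rfl

theorem ff_dgg_mul (g : Om Q) {t : F} (ht : t ≠ 0) :
    ff ρ ψ x₀ e (sg hF (dgg t) * g) = chi ρ ψ hF t * ff ρ ψ x₀ e g := by
  rw [ff, map_mul ρ, ← mul_assoc, chi_right hF htr ht, smul_mul_assoc, map_smul, smul_eq_mul]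
  rfl

/-- The value `f(w₁⁻¹)`. -/
theorem alpha_inv : ff ρ ψ x₀ e (sg hF wM)⁻¹ = chi ρ ψ hF (-1) * ff ρ ψ x₀ e (sg hF wM) := by
  rw [← map_inv, wM_inv_eq, map_mul, ff_mul_dgg hF htr _ (neg_ne_zero.mpr one_ne_zero)]

theorem r_ff_left (g : Om Q) (t : F) : ff ρ ψ x₀ e (sg hF (up t) * g) = ff ρ ψ x₀ e g := by
  rw [ff, map_mul ρ, ← mul_assoc, r_right hF]
  rfl

theorem r_ff_right (g : Om Q) (t : F) : ff ρ ψ x₀ e (g * sg hF (up t)) = ff ρ ψ x₀ e g := by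
  rw [ff, map_mul ρ, ← mul_assoc, LinearMap.trace_mul_comm, ← mul_assoc, r_left hF]
  rfl

/-- The lower unitriangular elements on the line. -/
theorem ff_lo {t : F} (ht : t ≠ 0) :
    ff ρ ψ x₀ e (sg hF (lo t)) = chi ρ ψ hF (-t) * ff ρ ψ x₀ e (sg hF wM) := by
  rw [lo_eq ht, map_mul, map_mul, map_mul, r_ff_right hF htr, mul_assoc, r_ff_left hF htr,
    ff_mul_dgg hF htr _ (neg_ne_zero.mpr ht)]

/-- The same for the second factor, with the torus. -/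
theorem E1a : tr (Flo (ρ.comp (sg hF)) * LL ρ ψ x₀ e) =
    (Fintype.card F : ℂ)⁻¹ * (1 + ff ρ ψ x₀ e (sg hF wM) *
      ∑ t ∈ Finset.univ.erase (0 : F), chi ρ ψ hF (-t)) := by
  unfold Flo
  rw [smul_mul_assoc, map_smul, smul_eq_mul, Finset.sum_mul, map_sum]
  congr 1
  have e1 : ∀ t : F, tr ((ρ.comp (sg hF)) (lo t) * LL ρ ψ x₀ e) = ff ρ ψ x₀ e (sg hF (lo t)) := by
    intro t
    rw [LinearMap.trace_mul_comm]
    rfl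
  simp only [e1]
  rw [← Finset.add_sum_erase _ _ (Finset.mem_univ (0 : F)), lo_zero, map_one, ff_one hF.Qa htr,
    Finset.mul_sum]
  congr 1
  refine Finset.sum_congr rfl fun t ht => ?_
  rw [ff_lo hF htr (Finset.ne_of_mem_erase ht), mul_comm]

variable (hψ : ψ 1 ≠ 1) (hns : ∀ w, polar (⇑Q) x₀ w = 0 → Q w ≠ 0 → LL ρ ψ x₀ w = 0)
include hψ hns

omit htr hψ hns in
theorem ccP_eq {γ : ι → F} (hγ : γ ∈ Vpp Q x₀ x e f) :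
    ρ (tt Q f γ) * LL ρ ψ x₀ e = LL ρ ψ x₀ ((1 : F) • e + (-Q γ) • f + γ) * ρ (tt Q f γ) := by
  rw [← P_cc hF hγ, mul_assoc _ (ρ (tt Q f γ)⁻¹), rho_inv_mul', mul_one]

omit htr hψ hns in
theorem Pcc_eq {γ : ι → F} (hγ : γ ∈ Vpp Q x₀ x e f) :
    LL ρ ψ x₀ e * ρ (tt Q f γ)⁻¹ = ρ (tt Q f γ)⁻¹ * LL ρ ψ x₀ ((1 : F) • e + (-Q γ) • f + γ) := by
  rw [← P_cc hF hγ]
  simp only [← mul_assoc, rho_inv_mul', one_mul]

omit htr hψ hns in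
/-- The action of `A` on `c_γ P`. -/
theorem a_cc {γ y : ι → F} (hγ : γ ∈ Vpp Q x₀ x e f) (hy : 𝔣 x₀ y = 0) :
    ρ (tt Q x₀ y) * (ρ (tt Q f γ) * LL ρ ψ x₀ e) =
      ψ (𝔣 ((1 : F) • e + (-Q γ) • f + γ) y) • (ρ (tt Q f γ) * LL ρ ψ x₀ e) := by
  rw [ccP_eq hF hγ, ← mul_assoc, LL_left hF.Qa _ hy, smul_mul_assoc]

omit htr hψ hns in
theorem cc_a {γ y : ι → F} (hγ : γ ∈ Vpp Q x₀ x e f) (hy : 𝔣 x₀ y = 0) :
    (LL ρ ψ x₀ e * ρ (tt Q f γ)⁻¹) * ρ (tt Q x₀ y) =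
      ψ (𝔣 ((1 : F) • e + (-Q γ) • f + γ) y) • (LL ρ ψ x₀ e * ρ (tt Q f γ)⁻¹) := by
  rw [Pcc_eq hF hγ, mul_assoc, LL_right hF.Qa _ hy, mul_smul_comm]

omit htr hψ hns in
theorem r_cc {γ : ι → F} (hγ : γ ∈ Vpp Q x₀ x e f) (t : F) :
    ρ (sg hF (up t)) * (ρ (tt Q f γ) * LL ρ ψ x₀ e) =
      ψ ((-Q γ) * t) • (ρ (tt Q f γ) * LL ρ ψ x₀ e) := by
  rw [sg_up, a_cc hF hγ (by rw [polar_smul_right', hF.ab, mul_zero]), polar_smul_right', wv_e hF _ _ hγ,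
    mul_comm]

omit htr hψ hns in
theorem cc_r {γ : ι → F} (hγ : γ ∈ Vpp Q x₀ x e f) (t : F) :
    (LL ρ ψ x₀ e * ρ (tt Q f γ)⁻¹) * ρ (sg hF (up t)) =
      ψ ((-Q γ) * t) • (LL ρ ψ x₀ e * ρ (tt Q f γ)⁻¹) := by
  rw [sg_up, cc_a hF hγ (by rw [polar_smul_right', hF.ab, mul_zero]), polar_smul_right', wv_e hF _ _ hγ,
    mul_comm]

omit htr hψ hns in
theorem Pi1_cc (hψ : ψ 1 ≠ 1) {γ : ι → F} (hγ : γ ∈ Vpp Q x₀ x e f) (β : F) :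
    Fup (ρ.comp (sg hF)) ψ β * (ρ (tt Q f γ) * LL ρ ψ x₀ e) =
      if -Q γ = β then ρ (tt Q f γ) * LL ρ ψ x₀ e else 0 :=
  Fup_eig_left hψ (fun t => r_cc hF hγ t) β

omit htr hψ hns in
theorem cc_Pi1 (hψ : ψ 1 ≠ 1) {γ : ι → F} (hγ : γ ∈ Vpp Q x₀ x e f) (β : F) :
    (LL ρ ψ x₀ e * ρ (tt Q f γ)⁻¹) * Fup (ρ.comp (sg hF)) ψ β =
      if -Q γ = β then LL ρ ψ x₀ e * ρ (tt Q f γ)⁻¹ else 0 :=
  Fup_eig_right hψ (fun t => cc_r hF hγ t) β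

/-- The number of singular vectors of the complement. -/
noncomputable abbrev AA (Q : QuadraticForm F (ι → F)) (x₀ x e f : ι → F) : ℕ :=
  open _root_.Classical in
  (Finset.univ.filter (fun γ : Vpp Q x₀ x e f => Q γ.1 = 0)).card

/-- **E1**, second form. -/
theorem E1b : tr (Flo (ρ.comp (sg hF)) * LL ρ ψ x₀ e) =
    ff ρ ψ x₀ e (sg hF wM) * ff ρ ψ x₀ e (sg hF wM)⁻¹ * (AA Q x₀ x e f : ℂ) := by
  classical
  rw [Flo_eq (ψ := ψ)]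
  have e1 : tr ((ρ.comp (sg hF)) wM⁻¹ * Fup (ρ.comp (sg hF)) ψ 0 * (ρ.comp (sg hF)) wM * LL ρ ψ x₀ e) =
      tr (Fup (ρ.comp (sg hF)) ψ 0 * (ρ (sg hF wM) * LL ρ ψ x₀ e) * (LL ρ ψ x₀ e * ρ (sg hF wM)⁻¹)) := by
    have e2 : (ρ.comp (sg hF)) wM⁻¹ = ρ (sg hF wM)⁻¹ := by
      simp only [MonoidHom.comp_apply, map_inv]
    have e3 : (ρ.comp (sg hF)) wM = ρ (sg hF wM) := rfl
    rw [e2, e3]
    have e4 : Fup (ρ.comp (sg hF)) ψ 0 * (ρ (sg hF wM) * LL ρ ψ x₀ e) * (LL ρ ψ x₀ e * ρ (sg hF wM)⁻¹) =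
        (Fup (ρ.comp (sg hF)) ψ 0 * ρ (sg hF wM) * LL ρ ψ x₀ e) * ρ (sg hF wM)⁻¹ := by
      calc _ = Fup (ρ.comp (sg hF)) ψ 0 * ρ (sg hF wM) * (LL ρ ψ x₀ e * LL ρ ψ x₀ e) * ρ (sg hF wM)⁻¹ := by
            simp only [mul_assoc]
        _ = _ := by rw [LL_idem hF.Qa]
    rw [e4, show ρ (sg hF wM)⁻¹ * Fup (ρ.comp (sg hF)) ψ 0 * ρ (sg hF wM) * LL ρ ψ x₀ e =
      ρ (sg hF wM)⁻¹ * (Fup (ρ.comp (sg hF)) ψ 0 * ρ (sg hF wM) * LL ρ ψ x₀ e) by simp only [mul_assoc]]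
    exact LinearMap.trace_mul_comm ℂ _ _
  rw [e1, K1 hF htr hψ hns, K1s hF htr hψ hns]
  simp only [mul_smul_comm, smul_mul_assoc, smul_smul, map_smul, smul_eq_mul]
  have e7 : Fup (ρ.comp (sg hF)) ψ 0 * (∑ γ : Vpp Q x₀ x e f, ρ (tt Q f γ.1) * LL ρ ψ x₀ e) *
      (∑ δ : Vpp Q x₀ x e f, LL ρ ψ x₀ e * ρ (tt Q f δ.1)⁻¹) =
      ∑ γ : Vpp Q x₀ x e f, ∑ δ : Vpp Q x₀ x e f, Fup (ρ.comp (sg hF)) ψ 0 * (ρ (tt Q f γ.1) * LL ρ ψ x₀ e) *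
        (LL ρ ψ x₀ e * ρ (tt Q f δ.1)⁻¹) := by
    rw [show Fup (ρ.comp (sg hF)) ψ 0 * (∑ γ : Vpp Q x₀ x e f, ρ (tt Q f γ.1) * LL ρ ψ x₀ e) =
      ∑ γ : Vpp Q x₀ x e f, Fup (ρ.comp (sg hF)) ψ 0 * (ρ (tt Q f γ.1) * LL ρ ψ x₀ e) from
      Finset.mul_sum _ _ _, Finset.sum_mul_sum]
  rw [e7, mul_comm (ff ρ ψ x₀ e (sg hF wM)⁻¹)]
  congr 1
  have e5 : ∀ γ δ : Vpp Q x₀ x e f, tr (Fup (ρ.comp (sg hF)) ψ 0 * (ρ (tt Q f γ.1) * LL ρ ψ x₀ e) *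
      (LL ρ ψ x₀ e * ρ (tt Q f δ.1)⁻¹)) = if Q γ.1 = 0 ∧ γ = δ then 1 else 0 := by
    intro γ δ
    rw [Pi1_cc hF hψ γ.2]
    by_cases h0 : Q γ.1 = 0
    · rw [if_pos (by rw [h0, neg_zero]), tr_cc_cc hF htr hψ hns]
      by_cases h1 : γ = δ
      · subst h1
        simp [h0]
      · simp [h1]
    · rw [if_neg (by simpa using h0), zero_mul, map_zero, if_neg (fun h => h0 h.1)]
  simp only [map_sum, e5]
  have e6 : ∀ γ : Vpp Q x₀ x e f, (∑ δ : Vpp Q x₀ x e f, if Q γ.1 = 0 ∧ γ = δ then (1 : ℂ) else 0) =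
      if Q γ.1 = 0 then 1 else 0 := by
    intro γ
    by_cases h0 : Q γ.1 = 0 <;> simp [h0]
  simp only [e6]
  rw [Finset.sum_boole]

end Cfsg.Agent.Lib.MinDeg.Omega
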