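import Mathlib

/-!
# Elementary identities in `SL₂(F)` and a Hecke relation for representations of `SL₂(F)`
-/

set_option autoImplicit false
set_option linter.unusedSectionVars false
set_option linter.unusedSimpArgs false
set_option linter.unusedVariables false

namespace Cfsg.Agent.Lib.MinDeg.Omega

open Matrix

variable {F : Type*} [Field F]

/-- `SL₂(F)`. -/
abbrev SL2 (F : Type*) [Field F] := Matrix.SpecialLinearGroup (Fin 2) F

/-- The upper unitriangular matrix. -/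
def up (t : F) : SL2 F := ⟨!![1, t; 0, 1], by simp [Matrix.det_fin_two]⟩

/-- The lower unitriangular matrix. -/
def lo (t : F) : SL2 F := ⟨!![1, 0; t, 1], by simp [Matrix.det_fin_two]⟩

/-- The Weyl element. -/
def wM : SL2 F := ⟨!![0, 1; -1, 0], by simp [Matrix.det_fin_two]⟩

/-- The diagonal matrices (the identity at `t = 0`). -/
noncomputable def dgg (t : F) : SL2 F :=
  open Classical in
  if h : t = 0 then 1 else ⟨!![t, 0; 0, t⁻¹], by simp [Matrix.det_fin_two, h]⟩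

theorem dgg_val {t : F} (h : t ≠ 0) : (dgg t : SL2 F).1 = !![t, 0; 0, t⁻¹] := by
  simp [dgg, h]

theorem sl_ext {g h : SL2 F} (H00 : g.1 0 0 = h.1 0 0) (H01 : g.1 0 1 = h.1 0 1)
    (H10 : g.1 1 0 = h.1 1 0) (H11 : g.1 1 1 = h.1 1 1) : g = h := by
  apply Subtype.ext
  ext i j
  fin_cases i <;> fin_cases j <;> assumption

theorem sl_mul_val (g h : SL2 F) (i j : Fin 2) :
    (g * h).1 i j = g.1 i 0 * h.1 0 j + g.1 i 1 * h.1 1 j := by
  rw [Matrix.SpecialLinearGroup.coe_mul, Matrix.mul_apply, Fin.sum_univ_two]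

@[simp] theorem up_00 (t : F) : (up t).1 0 0 = 1 := rfl
@[simp] theorem up_01 (t : F) : (up t).1 0 1 = t := rfl
@[simp] theorem up_10 (t : F) : (up t).1 1 0 = 0 := rfl
@[simp] theorem up_11 (t : F) : (up t).1 1 1 = 1 := rfl
@[simp] theorem lo_00 (t : F) : (lo t).1 0 0 = 1 := rfl
@[simp] theorem lo_01 (t : F) : (lo t).1 0 1 = 0 := rfl
@[simp] theorem lo_10 (t : F) : (lo t).1 1 0 = t := rfl
@[simp] theorem lo_11 (t : F) : (lo t).1 1 1 = 1 := rfl
@[simp] theorem wM_00 : (wM : SL2 F).1 0 0 = 0 := rfl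
@[simp] theorem wM_01 : (wM : SL2 F).1 0 1 = 1 := rfl
@[simp] theorem wM_10 : (wM : SL2 F).1 1 0 = -1 := rfl
@[simp] theorem wM_11 : (wM : SL2 F).1 1 1 = 0 := rfl

theorem dgg_00 {t : F} (h : t ≠ 0) : (dgg t : SL2 F).1 0 0 = t := by rw [dgg_val h]; rfl
theorem dgg_01 {t : F} (h : t ≠ 0) : (dgg t : SL2 F).1 0 1 = 0 := by rw [dgg_val h]; rfl
theorem dgg_10 {t : F} (h : t ≠ 0) : (dgg t : SL2 F).1 1 0 = 0 := by rw [dgg_val h]; rfl
theorem dgg_11 {t : F} (h : t ≠ 0) : (dgg t : SL2 F).1 1 1 = t⁻¹ := by rw [dgg_val h]; rfl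

theorem sl_inv_val (g : SL2 F) : (g⁻¹).1 = !![g.1 1 1, -g.1 0 1; -g.1 1 0, g.1 0 0] := by
  rw [Matrix.SpecialLinearGroup.coe_inv, Matrix.adjugate_fin_two]

theorem sl_inv_00 (g : SL2 F) : (g⁻¹).1 0 0 = g.1 1 1 := by rw [sl_inv_val]; rfl
theorem sl_inv_01 (g : SL2 F) : (g⁻¹).1 0 1 = -g.1 0 1 := by rw [sl_inv_val]; rfl
theorem sl_inv_10 (g : SL2 F) : (g⁻¹).1 1 0 = -g.1 1 0 := by rw [sl_inv_val]; rfl
theorem sl_inv_11 (g : SL2 F) : (g⁻¹).1 1 1 = g.1 0 0 := by rw [sl_inv_val]; rfl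

theorem up_add (s t : F) : up s * up t = up (s + t) := by
  apply sl_ext <;> simp [sl_mul_val] <;> ring

theorem lo_add (s t : F) : lo s * lo t = lo (s + t) := by
  apply sl_ext <;> simp [sl_mul_val] <;> ring

@[simp] theorem up_zero : up (0 : F) = 1 := by
  apply sl_ext <;> simp [Matrix.one_apply]

@[simp] theorem lo_zero : lo (0 : F) = 1 := by
  apply sl_ext <;> simp [Matrix.one_apply]

theorem dgg_mul {s t : F} (hs : s ≠ 0) (ht : t ≠ 0) : dgg s * dgg t = dgg (s * t) := by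
  have hst : s * t ≠ 0 := mul_ne_zero hs ht
  apply sl_ext <;> simp [sl_mul_val, dgg_00, dgg_01, dgg_10, dgg_11, hs, ht, hst]
  ring

theorem dgg_one : dgg (1 : F) = 1 := by
  have h : (1 : F) ≠ 0 := one_ne_zero
  apply sl_ext <;> simp [dgg_00, dgg_01, dgg_10, dgg_11, h, Matrix.one_apply]

/-- Bruhat for lower unitriangular matrices. -/
theorem lo_eq {t : F} (ht : t ≠ 0) : lo t = up t⁻¹ * wM * dgg (-t) * up t⁻¹ := by
  have h' : -t ≠ 0 := neg_ne_zero.mpr ht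
  apply sl_ext <;> simp [sl_mul_val, dgg_00, dgg_01, dgg_10, dgg_11, h'] <;> field_simp <;> ring

theorem wM_inv_up_wM (s : F) : wM⁻¹ * up s * wM = lo (-s) := by
  apply sl_ext <;> simp [sl_mul_val, sl_inv_00, sl_inv_01, sl_inv_10, sl_inv_11]

theorem wM_up_wM_inv (s : F) : wM * up s * wM⁻¹ = lo (-s) := by
  apply sl_ext <;> simp [sl_mul_val, sl_inv_00, sl_inv_01, sl_inv_10, sl_inv_11]

theorem wM_sq : (wM : SL2 F) * wM = dgg (-1) := by
  have h' : (-1 : F) ≠ 0 := neg_ne_zero.mpr one_ne_zero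
  apply sl_ext <;> simp [sl_mul_val, dgg_00, dgg_01, dgg_10, dgg_11, h']

theorem wM_inv_eq : (wM : SL2 F)⁻¹ = wM * dgg (-1) := by
  have h' : (-1 : F) ≠ 0 := neg_ne_zero.mpr one_ne_zero
  apply sl_ext <;> simp [sl_mul_val, sl_inv_00, sl_inv_01, sl_inv_10, sl_inv_11, dgg_00, dgg_01,
    dgg_10, dgg_11, h']

theorem dgg_wM_dgg {t : F} (ht : t ≠ 0) : dgg t * wM * dgg t = wM := by
  apply sl_ext <;> simp [sl_mul_val, dgg_00, dgg_01, dgg_10, dgg_11, ht]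

theorem wM_dgg {t : F} (ht : t ≠ 0) : wM * dgg t = dgg t⁻¹ * wM := by
  have h' : t⁻¹ ≠ 0 := inv_ne_zero ht
  apply sl_ext <;> simp [sl_mul_val, dgg_00, dgg_01, dgg_10, dgg_11, ht, h']

theorem dgg_up {t : F} (ht : t ≠ 0) (s : F) : dgg t * up s = up (t ^ 2 * s) * dgg t := by
  apply sl_ext <;> simp [sl_mul_val, dgg_00, dgg_01, dgg_10, dgg_11, ht]
  field_simp

theorem up_dgg {t : F} (ht : t ≠ 0) (s : F) : up s * dgg t = dgg t * up (s * (t ^ 2)⁻¹) := by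
  apply sl_ext <;> simp [sl_mul_val, dgg_00, dgg_01, dgg_10, dgg_11, ht]
  field_simp

theorem neg_one_comm (g : SL2 F) : dgg (-1 : F) * g = g * dgg (-1 : F) := by
  have h' : (-1 : F) ≠ 0 := neg_ne_zero.mpr one_ne_zero
  apply sl_ext <;> simp [sl_mul_val, dgg_00, dgg_01, dgg_10, dgg_11, h']

/-- `w u(s) w`, `s ≠ 0`. -/
theorem wM_up_wM {s : F} (hs : s ≠ 0) :
    wM * up s * wM = up (-s⁻¹) * wM * dgg (-s) * up (-s⁻¹) := by
  have h' : -s ≠ 0 := neg_ne_zero.mpr hs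
  apply sl_ext <;> simp [sl_mul_val, dgg_00, dgg_01, dgg_10, dgg_11, h'] <;> field_simp <;> ring

/-- `w⁻¹ u(s) w⁻¹`, `s ≠ 0`. -/
theorem wM_inv_up_wM_inv (s : F) : wM⁻¹ * up s * wM⁻¹ = wM * up s * wM := by
  apply sl_ext <;> simp [sl_mul_val, sl_inv_00, sl_inv_01, sl_inv_10, sl_inv_11]

/-- Decomposition into unitriangular matrices. -/
theorem sl_eq_of_ne {g : SL2 F} (h : g.1 1 0 ≠ 0) :
    g = up ((g.1 0 0 - 1) * (g.1 1 0)⁻¹) * lo (g.1 1 0) * up ((g.1 1 1 - 1) * (g.1 1 0)⁻¹) := by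
  have hd : g.1 0 0 * g.1 1 1 - g.1 0 1 * g.1 1 0 = 1 := by
    have := g.2
    rwa [Matrix.det_fin_two] at this
  apply sl_ext <;> simp [sl_mul_val] <;> field_simp <;> ring_nf
  linear_combination -hd

theorem wM_eq_dgg_inv : (wM : SL2 F) = dgg (-1) * wM⁻¹ := by
  have h' : (-1 : F) ≠ 0 := neg_ne_zero.mpr one_ne_zero
  apply sl_ext <;> simp [sl_mul_val, sl_inv_00, sl_inv_01, sl_inv_10, sl_inv_11, dgg_00, dgg_01,
    dgg_10, dgg_11, h']

theorem wM_inv_sq : (wM : SL2 F)⁻¹ * wM⁻¹ = dgg (-1) := by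
  have h' : (-1 : F) ≠ 0 := neg_ne_zero.mpr one_ne_zero
  apply sl_ext <;> simp [sl_mul_val, sl_inv_00, sl_inv_01, sl_inv_10, sl_inv_11, dgg_00, dgg_01,
    dgg_10, dgg_11, h']

section Hecke

variable [Fintype F] [DecidableEq F] {U : Type*} [AddCommGroup U] [Module ℂ U]
variable (σ : SL2 F →* Module.End ℂ U) (ψ : AddChar F ℂ)

/-- The Fourier projector of the upper unitriangular group. -/
noncomputable def Fup (β : F) : Module.End ℂ U :=
  (Fintype.card F : ℂ)⁻¹ • ∑ t : F, ψ (-(β * t)) • σ (up t)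

/-- The average over the lower unitriangular group. -/
noncomputable def Flo : Module.End ℂ U :=
  (Fintype.card F : ℂ)⁻¹ • ∑ t : F, σ (lo t)

variable {σ ψ}

theorem card_ne : (Fintype.card F : ℂ) ≠ 0 := Nat.cast_ne_zero.mpr Fintype.card_ne_zero

theorem psi_neg_mul'' (t : F) : ψ (-t) * ψ t = 1 := by
  rw [← AddChar.map_add_eq_mul, neg_add_cancel, AddChar.map_zero_eq_one]

theorem up_Fup (s β : F) : σ (up s) * Fup σ ψ β = ψ (β * s) • Fup σ ψ β := by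
  unfold Fup
  rw [mul_smul_comm, smul_comm]
  congr 1
  rw [Finset.mul_sum, Finset.smul_sum]
  refine Fintype.sum_equiv (Equiv.addLeft s) _ _ fun t => ?_
  rw [mul_smul_comm, ← map_mul, up_add, smul_smul, ← AddChar.map_add_eq_mul]
  congr 2
  simp only [Equiv.coe_addLeft]
  ring

theorem Fup_up (s β : F) : Fup σ ψ β * σ (up s) = ψ (β * s) • Fup σ ψ β := by
  unfold Fup
  rw [smul_mul_assoc, smul_comm]
  congr 1
  rw [Finset.sum_mul, Finset.smul_sum]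
  refine Fintype.sum_equiv (Equiv.addRight s) _ _ fun t => ?_
  rw [smul_mul_assoc, ← map_mul, up_add, smul_smul, ← AddChar.map_add_eq_mul]
  congr 2
  simp only [Equiv.coe_addRight]
  ring

theorem sum_psi_mul3 (hψ : ψ 1 ≠ 1) (t : F) :
    ∑ α : F, ψ (-(t * α)) = if t = 0 then (Fintype.card F : ℂ) else 0 := by
  split_ifs with ht
  · subst ht
    simp
  · have h1 : ∑ α : F, ψ (-(t * α)) = ψ 1 * ∑ α : F, ψ (-(t * α)) := by
      rw [Finset.mul_sum]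
      refine Fintype.sum_equiv (Equiv.addRight (t⁻¹)) _ _ fun α => ?_
      rw [← AddChar.map_add_eq_mul]
      congr 1
      simp only [Equiv.coe_addRight, mul_add, mul_neg, mul_inv_cancel₀ ht]
      ring
    have h3 : (ψ 1 - 1) * ∑ α : F, ψ (-(t * α)) = 0 := by
      linear_combination -h1
    exact (mul_eq_zero.mp h3).resolve_left (sub_ne_zero.mpr hψ)

theorem Fup_eig_left (hψ : ψ 1 ≠ 1) {X : Module.End ℂ U} {κ : F}
    (h : ∀ t, σ (up t) * X = ψ (κ * t) • X) (β : F) :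
    Fup σ ψ β * X = if κ = β then X else 0 := by
  unfold Fup
  rw [smul_mul_assoc, Finset.sum_mul]
  have e : ∀ t : F, ψ (-(β * t)) • σ (up t) * X = ψ (-((β - κ) * t)) • X := by
    intro t
    rw [smul_mul_assoc, h, smul_smul, ← AddChar.map_add_eq_mul]
    congr 2
    ring
  simp only [e]
  rw [← Finset.sum_smul, sum_psi_mul3 hψ]
  by_cases hκ : κ = β
  · rw [if_pos (sub_eq_zero.mpr hκ.symm), if_pos hκ, smul_smul, inv_mul_cancel₀ card_ne, one_smul]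
  · rw [if_neg (sub_ne_zero.mpr (Ne.symm hκ)), if_neg hκ]
    simp

theorem Fup_eig_right (hψ : ψ 1 ≠ 1) {X : Module.End ℂ U} {κ : F}
    (h : ∀ t, X * σ (up t) = ψ (κ * t) • X) (β : F) :
    X * Fup σ ψ β = if κ = β then X else 0 := by
  unfold Fup
  rw [mul_smul_comm, Finset.mul_sum]
  have e : ∀ t : F, X * ψ (-(β * t)) • σ (up t) = ψ (-((β - κ) * t)) • X := by
    intro t
    rw [mul_smul_comm, h, smul_smul, ← AddChar.map_add_eq_mul]
    congr 2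
    ring
  simp only [e]
  rw [← Finset.sum_smul, sum_psi_mul3 hψ]
  by_cases hκ : κ = β
  · rw [if_pos (sub_eq_zero.mpr hκ.symm), if_pos hκ, smul_smul, inv_mul_cancel₀ card_ne, one_smul]
  · rw [if_neg (sub_ne_zero.mpr (Ne.symm hκ)), if_neg hκ]
    simp

theorem Fup_idem (hψ : ψ 1 ≠ 1) (β : F) : Fup σ ψ β * Fup σ ψ β = Fup σ ψ β := by
  rw [Fup_eig_left hψ (κ := β) (fun t => up_Fup t β) β, if_pos rfl]

theorem sum_Fup (hψ : ψ 1 ≠ 1) : ∑ β : F, Fup σ ψ β = 1 := by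
  unfold Fup
  rw [← Finset.smul_sum, Finset.sum_comm]
  simp only [← Finset.sum_smul]
  have e : ∀ t : F, ∑ β : F, ψ (-(β * t)) = if t = 0 then (Fintype.card F : ℂ) else 0 := by
    intro t
    simp only [mul_comm _ t]
    exact sum_psi_mul3 hψ t
  simp only [e]
  rw [Finset.sum_eq_single 0]
  · simp only [if_true, up_zero, map_one]
    rw [smul_smul, inv_mul_cancel₀ card_ne, one_smul]
  · intro t _ ht
    simp [ht]
  · simp

/-- The lower average is a conjugate of the upper average. -/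
theorem Flo_eq : Flo σ = σ wM⁻¹ * Fup σ ψ 0 * σ wM := by
  unfold Flo Fup
  rw [mul_smul_comm, smul_mul_assoc]
  congr 1
  rw [Finset.mul_sum, Finset.sum_mul]
  refine Fintype.sum_equiv (Equiv.neg F) _ _ fun t => ?_
  simp only [zero_mul, neg_zero, AddChar.map_zero_eq_one, one_smul, Equiv.neg_apply]
  rw [← map_mul, ← map_mul, wM_inv_up_wM, neg_neg]

variable {χ : F → ℂ}

/-- The Hecke relation, acting on the left. -/
theorem hecke_left (hψ : ψ 1 ≠ 1) {Y : Module.End ℂ U} (hY1 : ∀ t, σ (up t) * Y = Y)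
    (hY2 : ∀ t, t ≠ 0 → σ (dgg t) * Y = χ t • Y) :
    Fup σ ψ 0 * σ wM * Fup σ ψ 1 * σ wM * Y =
      (Fintype.card F : ℂ)⁻¹ • (χ (-1) • Y +
        (∑ s ∈ Finset.univ.erase (0 : F), ψ (-s) * χ (-s)) • (Fup σ ψ 0 * σ wM * Y)) := by
  have hF0 : ∀ t, Fup σ ψ 0 * σ (up t) = Fup σ ψ 0 := by
    intro t
    rw [Fup_up, zero_mul, AddChar.map_zero_eq_one, one_smul]
  have hF1 : Fup σ ψ 0 * Y = Y := by
    rw [Fup_eig_left hψ (κ := 0) (fun t => by rw [zero_mul, AddChar.map_zero_eq_one, one_smul]; exact hY1 t),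
      if_pos rfl]
  have key : Fup σ ψ 0 * σ wM * Fup σ ψ 1 * σ wM * Y =
      (Fintype.card F : ℂ)⁻¹ • ∑ s : F, ψ (-s) • (Fup σ ψ 0 * (σ wM * σ (up s) * σ wM) * Y) := by
    conv_lhs => enter [1, 1, 2]; rw [Fup]
    rw [mul_smul_comm, smul_mul_assoc, smul_mul_assoc]
    congr 1
    rw [Finset.mul_sum, Finset.sum_mul, Finset.sum_mul]
    refine Finset.sum_congr rfl fun s _ => ?_
    simp only [one_mul, mul_smul_comm, smul_mul_assoc, mul_assoc]
  rw [key]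
  congr 1
  rw [← Finset.add_sum_erase _ _ (Finset.mem_univ (0 : F))]
  congr 1
  · have hm : σ wM * σ (up (0 : F)) * σ wM = σ (dgg (-1)) := by
      rw [up_zero, map_one, mul_one, ← map_mul, wM_sq]
    rw [hm, mul_assoc, hY2 _ (neg_ne_zero.mpr one_ne_zero), mul_smul_comm, hF1, neg_zero,
      AddChar.map_zero_eq_one, one_smul]
  · rw [Finset.sum_smul]
    refine Finset.sum_congr rfl fun s hs => ?_
    have hs0 : s ≠ 0 := Finset.ne_of_mem_erase hs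
    have hm : σ wM * σ (up s) * σ wM =
        σ (up (-s⁻¹)) * σ wM * σ (dgg (-s)) * σ (up (-s⁻¹)) := by
      simp only [← map_mul]
      rw [wM_up_wM hs0]
    have h1 : Fup σ ψ 0 * (σ (up (-s⁻¹)) * σ wM * σ (dgg (-s)) * σ (up (-s⁻¹))) * Y =
        χ (-s) • (Fup σ ψ 0 * σ wM * Y) := by
      calc Fup σ ψ 0 * (σ (up (-s⁻¹)) * σ wM * σ (dgg (-s)) * σ (up (-s⁻¹))) * Y
          = (Fup σ ψ 0 * σ (up (-s⁻¹))) * σ wM * (σ (dgg (-s)) * (σ (up (-s⁻¹)) * Y)) := by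
            simp only [mul_assoc]
        _ = χ (-s) • (Fup σ ψ 0 * σ wM * Y) := by
            rw [hF0, hY1, hY2 _ (neg_ne_zero.mpr hs0), mul_smul_comm]
    rw [hm, h1, smul_smul]

/-- The Hecke relation, acting on the right. -/
theorem hecke_right (hψ : ψ 1 ≠ 1) {Y : Module.End ℂ U} (hY1 : ∀ t, Y * σ (up t) = Y)
    (hY2 : ∀ t, t ≠ 0 → Y * σ (dgg t) = χ t • Y) :
    Y * σ wM⁻¹ * Fup σ ψ 1 * σ wM⁻¹ * Fup σ ψ 0 =
      (Fintype.card F : ℂ)⁻¹ • (χ (-1) • Y +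
        (∑ s ∈ Finset.univ.erase (0 : F), ψ (-s) * (χ (-s)⁻¹ * χ (-1))) • (Y * σ wM⁻¹ * Fup σ ψ 0)) := by
  have hF0 : ∀ t, σ (up t) * Fup σ ψ 0 = Fup σ ψ 0 := by
    intro t
    rw [up_Fup, zero_mul, AddChar.map_zero_eq_one, one_smul]
  have hF1 : Y * Fup σ ψ 0 = Y := by
    rw [Fup_eig_right hψ (κ := 0) (fun t => by rw [zero_mul, AddChar.map_zero_eq_one, one_smul]; exact hY1 t),
      if_pos rfl]
  have key : Y * σ wM⁻¹ * Fup σ ψ 1 * σ wM⁻¹ * Fup σ ψ 0 =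
      (Fintype.card F : ℂ)⁻¹ • ∑ s : F, ψ (-s) • (Y * (σ wM⁻¹ * σ (up s) * σ wM⁻¹) * Fup σ ψ 0) := by
    conv_lhs => enter [1, 1, 2]; rw [Fup]
    rw [mul_smul_comm, smul_mul_assoc, smul_mul_assoc]
    congr 1
    rw [Finset.mul_sum, Finset.sum_mul, Finset.sum_mul]
    refine Finset.sum_congr rfl fun s _ => ?_
    simp only [one_mul, mul_smul_comm, smul_mul_assoc, mul_assoc]
  rw [key]
  congr 1
  rw [← Finset.add_sum_erase _ _ (Finset.mem_univ (0 : F))]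
  congr 1
  · have hm : σ wM⁻¹ * σ (up (0 : F)) * σ wM⁻¹ = σ (dgg (-1)) := by
      rw [up_zero, map_one, mul_one, ← map_mul, wM_inv_sq]
    rw [hm, hY2 _ (neg_ne_zero.mpr one_ne_zero), smul_mul_assoc, hF1, neg_zero,
      AddChar.map_zero_eq_one, one_smul]
  · rw [Finset.sum_smul]
    refine Finset.sum_congr rfl fun s hs => ?_
    have hs0 : s ≠ 0 := Finset.ne_of_mem_erase hs
    have hs1 : -s ≠ 0 := neg_ne_zero.mpr hs0
    have hm : σ wM⁻¹ * σ (up s) * σ wM⁻¹ =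
        σ (up (-s⁻¹)) * σ (dgg (-s)⁻¹) * σ (dgg (-1)) * σ wM⁻¹ * σ (up (-s⁻¹)) := by
      simp only [← map_mul]
      rw [wM_inv_up_wM_inv, wM_up_wM hs0]
      congr 1
      calc up (-s⁻¹) * wM * dgg (-s) * up (-s⁻¹) = up (-s⁻¹) * (wM * dgg (-s)) * up (-s⁻¹) := by
            simp only [mul_assoc]
        _ = up (-s⁻¹) * (dgg (-s)⁻¹ * wM) * up (-s⁻¹) := by rw [wM_dgg hs1]
        _ = up (-s⁻¹) * (dgg (-s)⁻¹ * (dgg (-1) * wM⁻¹)) * up (-s⁻¹) := by rw [← wM_eq_dgg_inv]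
        _ = _ := by simp only [mul_assoc]
    have h1 : Y * (σ (up (-s⁻¹)) * σ (dgg (-s)⁻¹) * σ (dgg (-1)) * σ wM⁻¹ * σ (up (-s⁻¹))) * Fup σ ψ 0 =
        (χ (-s)⁻¹ * χ (-1)) • (Y * σ wM⁻¹ * Fup σ ψ 0) := by
      calc Y * (σ (up (-s⁻¹)) * σ (dgg (-s)⁻¹) * σ (dgg (-1)) * σ wM⁻¹ * σ (up (-s⁻¹))) * Fup σ ψ 0
          = ((((Y * σ (up (-s⁻¹))) * σ (dgg (-s)⁻¹)) * σ (dgg (-1))) * σ wM⁻¹) * (σ (up (-s⁻¹)) * Fup σ ψ 0) := by
            simp only [mul_assoc]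
        _ = (χ (-s)⁻¹ * χ (-1)) • (Y * σ wM⁻¹ * Fup σ ψ 0) := by
            rw [hY1, hY2 _ (inv_ne_zero hs1), smul_mul_assoc, hY2 _ (neg_ne_zero.mpr one_ne_zero),
              smul_mul_assoc, smul_mul_assoc, smul_mul_assoc, smul_mul_assoc, hF0, smul_smul]
    rw [hm, h1, smul_smul]

end Hecke

end Cfsg.Agent.Lib.MinDeg.Omega
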