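import Cfsg.Agent.Lib.Classical.Orth.Simple
import Cfsg.Agent.Lib.MinDeg.SLn.Absorb
import Cfsg.Agent.Lib.MinDeg.Omega.Sl2

/-!
# Eichler transformations in `Ω`, hyperbolic frames and the commuting `SL₂`'s of a frame
-/

set_option autoImplicit false
set_option linter.unusedSectionVars false
set_option linter.unusedSimpArgs false
set_option linter.unusedVariables false

namespace Cfsg.Agent.Lib.MinDeg.Omega

open Matrix QuadraticMap Module
open Cfsg.Agent.Lib.Classical.Orth.Basic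
open Cfsg.Agent.Lib.Classical.Orth.Siegel
open Cfsg.Agent.Lib.Classical.Orth.Generation
open Cfsg.Agent.Lib.Classical.Orth.Adjust

universe u

variable {ι : Type} [Fintype ι] [DecidableEq ι] {F : Type u} [Field F]
variable {Q : QuadraticForm F (ι → F)}

set_option quotPrecheck false in
local notation "𝔣" => polar (⇑Q)

/-- The group `Ω` of a quadratic form. -/
abbrev Om (Q : QuadraticForm F (ι → F)) : Type _ := ↥(Cfsg.Omega F (⇑Q))

/-- The action of `Ω` on vectors. -/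
noncomputable def av (g : Om Q) (v : ι → F) : ι → F := act (g : ↥(Cfsg.isometryGroup F (⇑Q))) v

theorem av_mul (g h : Om Q) (v : ι → F) : av (g * h) v = av g (av h v) := act_mul _ _ _

@[simp] theorem av_one (v : ι → F) : av (1 : Om Q) v = v := act_one _

theorem av_add (g : Om Q) (v w : ι → F) : av g (v + w) = av g v + av g w := act_add _ _ _

theorem av_sub (g : Om Q) (v w : ι → F) : av g (v - w) = av g v - av g w := act_sub _ _ _

theorem av_smul (g : Om Q) (c : F) (v : ι → F) : av g (c • v) = c • av g v := act_smul _ _ _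

theorem av_neg (g : Om Q) (v : ι → F) : av g (-v) = -av g v := act_neg _ _

@[simp] theorem av_zero (g : Om Q) : av g (0 : ι → F) = 0 := act_zero _

theorem Q_av (g : Om Q) (v : ι → F) : Q (av g v) = Q v := Q_act _ _

theorem polar_av (g : Om Q) (v w : ι → F) : 𝔣 (av g v) (av g w) = 𝔣 v w := polar_act _ _ _

theorem av_inv_av (g : Om Q) (v : ι → F) : av g⁻¹ (av g v) = v := by
  rw [← av_mul, inv_mul_cancel, av_one]

theorem av_av_inv (g : Om Q) (v : ι → F) : av g (av g⁻¹ v) = v := by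
  rw [← av_mul, mul_inv_cancel, av_one]

theorem polar_av_left (g : Om Q) (v w : ι → F) : 𝔣 (av g v) w = 𝔣 v (av g⁻¹ w) := by
  conv_lhs => rw [← av_av_inv g w]
  exact polar_av g _ _

theorem polar_av_right (g : Om Q) (v w : ι → F) : 𝔣 v (av g w) = 𝔣 (av g⁻¹ v) w := by
  conv_lhs => rw [← av_av_inv g v]
  exact polar_av g _ _

theorem om_ext {g h : Om Q} (H : ∀ v, av g v = av h v) : g = h :=
  Subtype.ext (ext_act H)

theorem polar_self_of {z : ι → F} (hz : Q z = 0) : 𝔣 z z = 0 := by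
  rw [polar_self_eq, hz, mul_zero]

/-- The standing assumptions on the quadratic form. -/
class OmCtx (Q : QuadraticForm F (ι → F)) : Prop where
  hQ : (polarBilin Q).Nondegenerate
  hn : 5 ≤ Fintype.card ι

variable [Fintype F] [OmCtx Q]

variable (Q) in
/-- The Eichler transformation, as a total function. -/
noncomputable def tt (z b : ι → F) : Om Q :=
  open _root_.Classical in
  if h : Q z = 0 ∧ 𝔣 z b = 0 then eichlerΩ (OmCtx.hQ (Q := Q)) (OmCtx.hn (Q := Q)) h.1 h.2 else 1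

theorem tt_of {z b : ι → F} (hz : Q z = 0) (hb : 𝔣 z b = 0) :
    tt Q z b = eichlerΩ (OmCtx.hQ (Q := Q)) (OmCtx.hn (Q := Q)) hz hb := by
  simp only [tt]
  rw [dif_pos ⟨hz, hb⟩]

theorem av_tt {z b : ι → F} (hz : Q z = 0) (hb : 𝔣 z b = 0) (x : ι → F) :
    av (tt Q z b) x = x + (𝔣 z x) • b - (𝔣 b x) • z - (Q b * 𝔣 z x) • z := by
  rw [tt_of hz hb]
  exact act_eichlerIso hz hb x

theorem tt_mul {z b b' : ι → F} (hz : Q z = 0) (hb : 𝔣 z b = 0) (hb' : 𝔣 z b' = 0) :
    tt Q z b * tt Q z b' = tt Q z (b + b') := by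
  have h : 𝔣 z (b + b') = 0 := by rw [polar_add_right, hb, hb', add_zero]
  rw [tt_of hz hb, tt_of hz hb', tt_of hz h]
  apply Subtype.ext
  exact eichlerIso_mul hz hb hb'

theorem tt_zero {z : ι → F} (hz : Q z = 0) : tt Q z 0 = 1 := by
  apply om_ext
  intro v
  rw [av_tt hz (by simp [polar]), av_one]
  simp [polar]

theorem tt_inv {z b : ι → F} (hz : Q z = 0) (hb : 𝔣 z b = 0) : (tt Q z b)⁻¹ = tt Q z (-b) := by
  apply inv_eq_of_mul_eq_one_right
  rw [tt_mul hz hb (by rw [polar_neg_right, hb, neg_zero]), add_neg_cancel, tt_zero hz]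

theorem conj_tt (g : Om Q) {z b : ι → F} (hz : Q z = 0) (hb : 𝔣 z b = 0) :
    g * tt Q z b * g⁻¹ = tt Q (av g z) (av g b) := by
  apply om_ext
  intro v
  rw [av_mul, av_mul, av_tt hz hb, av_tt (by rwa [Q_av]) (by rwa [polar_av]), av_sub, av_sub, av_add,
    av_smul, av_smul, av_smul, av_av_inv, Q_av, polar_av_left g z v, polar_av_left g b v]

theorem tt_smul_left (c : F) {z b : ι → F} (hz : Q z = 0) (hb : 𝔣 z b = 0) :
    tt Q (c • z) b = tt Q z (c • b) := by
  apply om_ext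
  intro v
  rw [av_tt (by rw [Q_smul, hz, mul_zero]) (by rw [polar_smul_left', hb, mul_zero]),
    av_tt hz (by rw [polar_smul_right', hb, mul_zero])]
  simp only [polar_smul_left', Q_smul]
  module

theorem tt_add_smul (c : F) {z b : ι → F} (hz : Q z = 0) (hb : 𝔣 z b = 0) :
    tt Q z (b + c • z) = tt Q z b := by
  have hzz : 𝔣 z z = 0 := polar_self_of hz
  apply om_ext
  intro v
  rw [av_tt hz (by rw [polar_add_right, hb, polar_smul_right', hzz, mul_zero, add_zero]), av_tt hz hb]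
  rw [polar_add_left, polar_smul_left', Q_add, Q_smul, hz, polar_smul_right', polar_comm _ b z, hb]
  simp only [mul_zero, add_zero]
  module

theorem tt_swap {z b : ι → F} (hz : Q z = 0) (hb : 𝔣 z b = 0) (hQb : Q b = 0) :
    tt Q z b = tt Q b (-z) := by
  apply om_ext
  intro v
  rw [av_tt hz hb, av_tt hQb (by rw [polar_neg_right, polar_comm, hb, neg_zero])]
  simp only [QuadraticMap.map_neg, hz, hQb, polar_neg_left, zero_mul, neg_smul, zero_smul, smul_neg]
  abel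


/-! ### Hyperbolic frames -/

/-- Two orthogonal hyperbolic pairs. -/
structure HF (Q : QuadraticForm F (ι → F)) (a a' b b' : ι → F) : Prop where
  Qa : Q a = 0
  Qa' : Q a' = 0
  Qb : Q b = 0
  Qb' : Q b' = 0
  aa' : polar (⇑Q) a a' = 1
  bb' : polar (⇑Q) b b' = 1
  ab : polar (⇑Q) a b = 0
  ab' : polar (⇑Q) a b' = 0
  a'b : polar (⇑Q) a' b = 0
  a'b' : polar (⇑Q) a' b' = 0

namespace HF

variable {a a' b b' : ι → F} (hF : HF Q a a' b b')
include hF

theorem a'a : 𝔣 a' a = 1 := by rw [polar_comm, hF.aa']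
theorem b'b : 𝔣 b' b = 1 := by rw [polar_comm, hF.bb']
theorem ba : 𝔣 b a = 0 := by rw [polar_comm, hF.ab]
theorem b'a : 𝔣 b' a = 0 := by rw [polar_comm, hF.ab']
theorem ba' : 𝔣 b a' = 0 := by rw [polar_comm, hF.a'b]
theorem b'a' : 𝔣 b' a' = 0 := by rw [polar_comm, hF.a'b']
theorem aa : 𝔣 a a = 0 := polar_self_of hF.Qa
theorem a'a' : 𝔣 a' a' = 0 := polar_self_of hF.Qa'
theorem bb : 𝔣 b b = 0 := polar_self_of hF.Qb
theorem b'b' : 𝔣 b' b' = 0 := polar_self_of hF.Qb'

theorem swap : HF Q a a' b' b :=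
  ⟨hF.Qa, hF.Qa', hF.Qb', hF.Qb, hF.aa', hF.b'b, hF.ab', hF.ab, hF.a'b', hF.a'b⟩

theorem scale {c : F} (hc : c ≠ 0) : HF Q a a' (c • b) (c⁻¹ • b') := by
  refine ⟨hF.Qa, hF.Qa', ?_, ?_, hF.aa', ?_, ?_, ?_, ?_, ?_⟩
  · rw [Q_smul, hF.Qb, mul_zero]
  · rw [Q_smul, hF.Qb', mul_zero]
  · rw [polar_smul_left', polar_smul_right', hF.bb']
    field_simp
  · rw [polar_smul_right', hF.ab, mul_zero]
  · rw [polar_smul_right', hF.ab', mul_zero]
  · rw [polar_smul_right', hF.a'b, mul_zero]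
  · rw [polar_smul_right', hF.a'b', mul_zero]

end HF

variable (Q) in
/-- The action of `SL₂` on the first factor of `M₂(F) ⊥ rest`, the frame being
`a = E₁₁, a' = E₂₂, b = E₁₂, b' = -E₂₁`. -/
noncomputable def sigMap (a a' b b' : ι → F) (g : Matrix (Fin 2) (Fin 2) F) (v : ι → F) : ι → F :=
  v + ((g 0 0 - 1) * 𝔣 a' v - g 0 1 * 𝔣 b v) • a + ((g 0 0 - 1) * 𝔣 b' v + g 0 1 * 𝔣 a v) • b
    + (-(g 1 0) * 𝔣 a' v + (g 1 1 - 1) * 𝔣 b v) • b' + (g 1 0 * 𝔣 b' v + (g 1 1 - 1) * 𝔣 a v) • a'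

section Sig

variable {a a' b b' : ι → F} (hF : HF Q a a' b b')
include hF

theorem polar_a'_sig (g : Matrix (Fin 2) (Fin 2) F) (v : ι → F) :
    𝔣 a' (sigMap Q a a' b b' g v) = g 0 0 * 𝔣 a' v - g 0 1 * 𝔣 b v := by
  simp only [sigMap, polar_add_right, polar_smul_right', hF.a'a, hF.a'b, hF.a'b', hF.a'a']
  ring

theorem polar_b'_sig (g : Matrix (Fin 2) (Fin 2) F) (v : ι → F) :
    𝔣 b' (sigMap Q a a' b b' g v) = g 0 0 * 𝔣 b' v + g 0 1 * 𝔣 a v := by
  simp only [sigMap, polar_add_right, polar_smul_right', hF.b'a, hF.b'b, hF.b'b', hF.b'a']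
  ring

theorem polar_b_sig (g : Matrix (Fin 2) (Fin 2) F) (v : ι → F) :
    𝔣 b (sigMap Q a a' b b' g v) = -(g 1 0) * 𝔣 a' v + g 1 1 * 𝔣 b v := by
  simp only [sigMap, polar_add_right, polar_smul_right', hF.ba, hF.bb, hF.bb', hF.ba']
  ring

theorem polar_a_sig (g : Matrix (Fin 2) (Fin 2) F) (v : ι → F) :
    𝔣 a (sigMap Q a a' b b' g v) = g 1 0 * 𝔣 b' v + g 1 1 * 𝔣 a v := by
  simp only [sigMap, polar_add_right, polar_smul_right', hF.aa, hF.ab, hF.ab', hF.aa']
  ring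

omit hF in
theorem sigMap_one (v : ι → F) : sigMap Q a a' b b' 1 v = v := by
  simp [sigMap]

theorem sigMap_mul (g h : Matrix (Fin 2) (Fin 2) F) (v : ι → F) :
    sigMap Q a a' b b' (g * h) v = sigMap Q a a' b b' g (sigMap Q a a' b b' h v) := by
  conv_rhs => rw [sigMap]
  rw [polar_a'_sig hF, polar_b'_sig hF, polar_b_sig hF, polar_a_sig hF]
  simp only [Matrix.mul_apply, Fin.sum_univ_two, sigMap]
  module

theorem Q_sig {g : Matrix (Fin 2) (Fin 2) F} (hg : g 0 0 * g 1 1 - g 0 1 * g 1 0 = 1) (v : ι → F) :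
    Q (sigMap Q a a' b b' g v) = Q v := by
  rw [sigMap, Q_add, Q_add, Q_add, Q_add]
  simp only [Q_smul, hF.Qa, hF.Qa', hF.Qb, hF.Qb', polar_add_left, polar_smul_left',
    polar_smul_right', hF.aa', hF.bb', hF.ab, hF.ab', hF.a'b, hF.a'b', hF.ba, hF.b'a, hF.ba', hF.b'a',
    hF.a'a, hF.b'b, polar_comm _ v a, polar_comm _ v a', polar_comm _ v b, polar_comm _ v b']
  linear_combination (𝔣 a' v * 𝔣 a v + 𝔣 b' v * 𝔣 b v) * hg

/-- The frame map as a linear equivalence. -/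
noncomputable def sigEquiv (g : SL2 F) : (ι → F) ≃ₗ[F] (ι → F) where
  toFun := sigMap Q a a' b b' g.1
  map_add' v w := by
    simp only [sigMap, polar_add_right]
    module
  map_smul' c v := by
    simp only [sigMap, polar_smul_right', RingHom.id_apply]
    module
  invFun := sigMap Q a a' b b' (g⁻¹).1
  left_inv v := by
    show sigMap Q a a' b b' (g⁻¹).1 (sigMap Q a a' b b' g.1 v) = v
    rw [← sigMap_mul hF, ← Matrix.SpecialLinearGroup.coe_mul, inv_mul_cancel,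
      Matrix.SpecialLinearGroup.coe_one, sigMap_one]
  right_inv v := by
    show sigMap Q a a' b b' g.1 (sigMap Q a a' b b' (g⁻¹).1 v) = v
    rw [← sigMap_mul hF, ← Matrix.SpecialLinearGroup.coe_mul, mul_inv_cancel,
      Matrix.SpecialLinearGroup.coe_one, sigMap_one]

theorem Q_sigEquiv (g : SL2 F) (v : ι → F) : Q (sigEquiv hF g v) = Q v := by
  refine Q_sig hF ?_ v
  have := g.2
  rwa [Matrix.det_fin_two] at this

/-- The homomorphism from `SL₂` to the isometry group. -/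
noncomputable def sigO : SL2 F →* ↥(Cfsg.isometryGroup F (⇑Q)) where
  toFun g := isoOfEquiv (sigEquiv hF g) (Q_sigEquiv hF g)
  map_one' := by
    apply ext_act
    intro v
    rw [act_isoOfEquiv, act_one]
    exact sigMap_one v
  map_mul' g h := by
    apply ext_act
    intro v
    rw [act_mul, act_isoOfEquiv, act_isoOfEquiv, act_isoOfEquiv]
    show sigMap Q a a' b b' (g * h).1 v = sigMap Q a a' b b' g.1 (sigMap Q a a' b b' h.1 v)
    rw [Matrix.SpecialLinearGroup.coe_mul, sigMap_mul hF]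

theorem act_sigO (g : SL2 F) (v : ι → F) :
    act (sigO hF g) v = sigMap Q a a' b b' g.1 v :=
  act_isoOfEquiv (sigEquiv hF g) (Q_sigEquiv hF g) v

theorem sigO_up (t : F) : sigO hF (up t) = (tt Q a (t • b) : ↥(Cfsg.isometryGroup F (⇑Q))) := by
  apply ext_act
  intro v
  rw [act_sigO hF]
  have h : 𝔣 a (t • b) = 0 := by rw [polar_smul_right', hF.ab, mul_zero]
  have e := av_tt hF.Qa h v
  rw [av] at e
  rw [e, Q_smul, hF.Qb, polar_smul_left']
  simp only [sigMap, up_00, up_01, up_10, up_11]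
  module

theorem sigO_lo (t : F) : sigO hF (lo t) = (tt Q a' ((-t) • b') : ↥(Cfsg.isometryGroup F (⇑Q))) := by
  apply ext_act
  intro v
  rw [act_sigO hF]
  have h : 𝔣 a' ((-t) • b') = 0 := by rw [polar_smul_right', hF.a'b', mul_zero]
  have e := av_tt hF.Qa' h v
  rw [av] at e
  rw [e, Q_smul, hF.Qb', polar_smul_left']
  simp only [sigMap, lo_00, lo_01, lo_10, lo_11]
  module

theorem sigO_mem (g : SL2 F) : sigO hF g ∈ Cfsg.Omega F (⇑Q) := by
  have hup : ∀ t : F, sigO hF (up t) ∈ Cfsg.Omega F (⇑Q) := fun t => by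
    rw [sigO_up]
    exact (tt Q a (t • b)).2
  have hlo : ∀ t : F, sigO hF (lo t) ∈ Cfsg.Omega F (⇑Q) := fun t => by
    rw [sigO_lo]
    exact (tt Q a' ((-t) • b')).2
  have key : ∀ g : SL2 F, g.1 1 0 ≠ 0 → sigO hF g ∈ Cfsg.Omega F (⇑Q) := by
    intro g h
    rw [sl_eq_of_ne h, map_mul, map_mul]
    exact Subgroup.mul_mem _ (Subgroup.mul_mem _ (hup _) (hlo _)) (hup _)
  by_cases h : g.1 1 0 = 0
  · have hd : g.1 0 0 * g.1 1 1 = 1 := by
      have := g.2
      rw [Matrix.det_fin_two, h, mul_zero, sub_zero] at this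
      exact this
    have h0 : g.1 0 0 ≠ 0 := left_ne_zero_of_mul_eq_one hd
    have e : g = lo (-1) * (lo 1 * g) := by
      rw [← mul_assoc, lo_add]
      simp
    rw [e, map_mul]
    refine Subgroup.mul_mem _ (hlo _) (key _ ?_)
    rw [sl_mul_val]
    simpa [h] using h0
  · exact key g h

/-- The homomorphism from `SL₂` to `Ω`. -/
noncomputable def sg : SL2 F →* Om Q :=
  (sigO hF).codRestrict (Cfsg.Omega F (⇑Q)) (sigO_mem hF)

theorem av_sg (g : SL2 F) (v : ι → F) : av (sg hF g) v = sigMap Q a a' b b' g.1 v :=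
  act_sigO hF g v

theorem sg_up (t : F) : sg hF (up t) = tt Q a (t • b) :=
  Subtype.ext (sigO_up hF t)

theorem sg_lo (t : F) : sg hF (lo t) = tt Q a' ((-t) • b') :=
  Subtype.ext (sigO_lo hF t)

omit hF in
theorem sigMap_ext {g h : Matrix (Fin 2) (Fin 2) F} (e : g = h) (v : ι → F) :
    sigMap Q a a' b b' g v = sigMap Q a a' b b' h v := by rw [e]

/-- Conjugation moves the frame. -/
theorem conj_sg (k : Om Q) {a₂ a₂' b₂ b₂' : ι → F} (hF₂ : HF Q a₂ a₂' b₂ b₂') (ha : av k a = a₂)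
    (ha' : av k a' = a₂') (hb : av k b = b₂) (hb' : av k b' = b₂') (g : SL2 F) :
    k * sg hF g * k⁻¹ = sg hF₂ g := by
  apply om_ext
  intro v
  rw [av_mul, av_mul, av_sg, av_sg]
  simp only [sigMap, av_add, av_smul, av_av_inv]
  simp only [← polar_av_left, ha, ha', hb, hb']

theorem sg_comm (g h : SL2 F) : sg hF g * sg hF.swap h = sg hF.swap h * sg hF g := by
  apply om_ext
  intro v
  rw [av_mul, av_mul, av_sg, av_sg, av_sg, av_sg]
  conv_lhs => rw [sigMap]
  conv_rhs => rw [sigMap]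
  rw [polar_a'_sig hF.swap, polar_b'_sig hF.swap, polar_b_sig hF.swap, polar_a_sig hF.swap,
    polar_a'_sig hF, polar_b'_sig hF, polar_b_sig hF, polar_a_sig hF]
  simp only [sigMap]
  module

end Sig

/-- The effect on `SL₂` of scaling the second pair of a frame. -/
noncomputable def sclSL {c : F} (hc : c ≠ 0) (g : SL2 F) : SL2 F :=
  ⟨!![g.1 0 0, c * g.1 0 1; c⁻¹ * g.1 1 0, g.1 1 1], by
    have := g.2
    rw [Matrix.det_fin_two] at this
    rw [Matrix.det_fin_two_of]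
    field_simp
    linear_combination this⟩

section Scale

variable {c : F} (hc : c ≠ 0)

@[simp] theorem sclSL_00 (g : SL2 F) : (sclSL hc g).1 0 0 = g.1 0 0 := rfl
@[simp] theorem sclSL_01 (g : SL2 F) : (sclSL hc g).1 0 1 = c * g.1 0 1 := rfl
@[simp] theorem sclSL_10 (g : SL2 F) : (sclSL hc g).1 1 0 = c⁻¹ * g.1 1 0 := rfl
@[simp] theorem sclSL_11 (g : SL2 F) : (sclSL hc g).1 1 1 = g.1 1 1 := rfl

theorem sclSL_up (t : F) : sclSL hc (up t) = up (c * t) := by
  apply sl_ext <;> simp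

theorem sclSL_lo (t : F) : sclSL hc (lo t) = lo (c⁻¹ * t) := by
  apply sl_ext <;> simp

theorem sclSL_wM : sclSL hc wM = wM * dgg c⁻¹ := by
  have h' : c⁻¹ ≠ 0 := inv_ne_zero hc
  apply sl_ext <;> simp [sl_mul_val, dgg_00, dgg_01, dgg_10, dgg_11, h']

theorem sclSL_dgg {t : F} (ht : t ≠ 0) : sclSL hc (dgg t) = dgg t := by
  apply sl_ext <;> simp [dgg_00, dgg_01, dgg_10, dgg_11, ht]

theorem sigMap_scale {a a' b b' : ι → F} (g : SL2 F) (v : ι → F) :
    sigMap Q a a' (c • b) (c⁻¹ • b') g.1 v = sigMap Q a a' b b' (sclSL hc g).1 v := by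
  simp only [sigMap, sclSL_00, sclSL_01, sclSL_10, sclSL_11, polar_smul_left', smul_smul]
  have h1 : ((g.1 0 0 - 1) * (c⁻¹ * 𝔣 b' v) + g.1 0 1 * 𝔣 a v) * c
      = (g.1 0 0 - 1) * 𝔣 b' v + c * g.1 0 1 * 𝔣 a v := by
    field_simp
  have h2 : (-(g.1 1 0) * 𝔣 a' v + (g.1 1 1 - 1) * (c * 𝔣 b v)) * c⁻¹
      = -(c⁻¹ * g.1 1 0) * 𝔣 a' v + (g.1 1 1 - 1) * 𝔣 b v := by
    field_simp
  have h3 : g.1 1 0 * (c⁻¹ * 𝔣 b' v) + (g.1 1 1 - 1) * 𝔣 a v
      = c⁻¹ * g.1 1 0 * 𝔣 b' v + (g.1 1 1 - 1) * 𝔣 a v := by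
    ring
  rw [h1, h2, h3]
  congr 4
  ring_nf

theorem sg_scale {a a' b b' : ι → F} (hF : HF Q a a' b b') (g : SL2 F) :
    sg (hF.scale hc) g = sg hF (sclSL hc g) := by
  apply om_ext
  intro v
  rw [av_sg, av_sg, sigMap_scale]

end Scale

end Cfsg.Agent.Lib.MinDeg.Omega
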