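import Cfsg.Agent.Lib.MinDeg.Omega.Core

/-!
# The element `w₁` on the line of `P`: the first Kloosterman type relations
-/

set_option autoImplicit false
set_option linter.unusedSectionVars false
set_option linter.unusedSimpArgs false
set_option linter.unusedVariables false

namespace Cfsg.Agent.Lib.MinDeg.Omega

open Matrix QuadraticMap Module
open Cfsg.Agent.Lib.Classical.Orth.Basic
open Cfsg.Agent.Lib.MinDeg.SLn (sandwich tr_cycle3)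

universe u v

variable {ι : Type} [Fintype ι] [DecidableEq ι] {F : Type u} [Field F] [Fintype F] [DecidableEq F]
variable {Q : QuadraticForm F (ι → F)} [OmCtx Q]
variable {U : Type v} [AddCommGroup U] [Module ℂ U] [FiniteDimensional ℂ U]

set_option quotPrecheck false in
local notation "𝔣" => polar (⇑Q)

local notation "tr" => LinearMap.trace ℂ U

variable {ρ : Om Q →* Module.End ℂ U} {ψ : AddChar F ℂ}
variable {x₀ x e f : ι → F} (hF : HF Q x₀ x e f)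

section Basic

include hF

theorem r_left (t : F) : ρ (sg hF (up t)) * LL ρ ψ x₀ e = LL ρ ψ x₀ e := by
  have h : 𝔣 x₀ (t • e) = 0 := by rw [polar_smul_right', hF.ab, mul_zero]
  rw [sg_up, LL_left hF.Qa e h, polar_smul_right', hF.bb, mul_zero, AddChar.map_zero_eq_one, one_smul]

theorem r_right (t : F) : LL ρ ψ x₀ e * ρ (sg hF (up t)) = LL ρ ψ x₀ e := by
  have h : 𝔣 x₀ (t • e) = 0 := by rw [polar_smul_right', hF.ab, mul_zero]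
  rw [sg_up, LL_right hF.Qa e h, polar_smul_right', hF.bb, mul_zero, AddChar.map_zero_eq_one, one_smul]

theorem u_left (t : F) : ρ (sg hF.swap (up t)) * LL ρ ψ x₀ e = ψ t • LL ρ ψ x₀ e := by
  have h : 𝔣 x₀ (t • f) = 0 := by rw [polar_smul_right', hF.ab', mul_zero]
  rw [sg_up, LL_left hF.Qa e h, polar_smul_right', hF.bb', mul_one]

theorem u_right (t : F) : LL ρ ψ x₀ e * ρ (sg hF.swap (up t)) = ψ t • LL ρ ψ x₀ e := by
  have h : 𝔣 x₀ (t • f) = 0 := by rw [polar_smul_right', hF.ab', mul_zero]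
  rw [sg_up, LL_right hF.Qa e h, polar_smul_right', hF.bb', mul_one]

theorem a_left {y : ι → F} (hy : 𝔣 x₀ y = 0) (hy' : 𝔣 e y = 0) :
    ρ (tt Q x₀ y) * LL ρ ψ x₀ e = LL ρ ψ x₀ e := by
  rw [LL_left hF.Qa e hy, hy', AddChar.map_zero_eq_one, one_smul]

theorem a_right {y : ι → F} (hy : 𝔣 x₀ y = 0) (hy' : 𝔣 e y = 0) :
    LL ρ ψ x₀ e * ρ (tt Q x₀ y) = LL ρ ψ x₀ e := by
  rw [LL_right hF.Qa e hy, hy', AddChar.map_zero_eq_one, one_smul]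

theorem h_comm {t : F} (ht : t ≠ 0) :
    ρ (sg hF (dgg t)) * LL ρ ψ x₀ e = LL ρ ψ x₀ e * ρ (sg hF (dgg t)) :=
  comm_of_scale hF.Qa ht (by rw [av_sg_a, dgg_00 ht, dgg_10 ht]; simp)
    (by rw [av_sg_b, dgg_00 ht, dgg_10 ht]; simp)

/-- `σ₁` and `σ₂` commute, at the level of operators. -/
theorem rho_comm (g h : SL2 F) : ρ (sg hF g) * ρ (sg hF.swap h) = ρ (sg hF.swap h) * ρ (sg hF g) := by
  rw [← map_mul, sg_comm, map_mul]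

omit hF in
theorem wv_Q (hF : HF Q x₀ x e f) (β β' : F) {γ : ι → F} (hγ : γ ∈ Vpp Q x₀ x e f) :
    Q (β • e + β' • f + γ) = β * β' + Q γ := by
  obtain ⟨h1, h2, h3, h4⟩ := hγ
  rw [Q_add, Q_add]
  simp only [Q_smul, hF.Qb, hF.Qb', polar_add_left, polar_smul_left', polar_smul_right', hF.bb', h3, h4]
  ring

theorem wv_x₀ (β β' : F) {γ : ι → F} (hγ : γ ∈ Vpp Q x₀ x e f) :
    𝔣 x₀ (β • e + β' • f + γ) = 0 := by
  simp only [polar_add_right, polar_smul_right', hF.ab, hF.ab', hγ.1]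
  ring

theorem wv_f (β β' : F) {γ : ι → F} (hγ : γ ∈ Vpp Q x₀ x e f) :
    𝔣 (β • e + β' • f + γ) f = β := by
  rw [polar_add_left, polar_add_left, polar_smul_left', polar_smul_left', hF.bb', hF.b'b',
    polar_comm, hγ.2.2.2]
  ring

theorem wv_e (β β' : F) {γ : ι → F} (hγ : γ ∈ Vpp Q x₀ x e f) :
    𝔣 (β • e + β' • f + γ) e = β' := by
  rw [polar_add_left, polar_add_left, polar_smul_left', polar_smul_left', hF.bb, hF.b'b,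
    polar_comm, hγ.2.2.1]
  ring

theorem cc_x₀ {γ : ι → F} (hγ : γ ∈ Vpp Q x₀ x e f) : av (tt Q f γ) x₀ = x₀ :=
  av_tt_perp hF.Qb' hγ.2.2.2 hF.b'a (by rw [polar_comm]; exact hγ.1)

theorem cc_e {γ : ι → F} (hγ : γ ∈ Vpp Q x₀ x e f) :
    av (tt Q f γ) e = (1 : F) • e + (-Q γ) • f + γ := by
  rw [av_tt hF.Qb' hγ.2.2.2, hF.b'b, polar_comm _ γ e, hγ.2.2.1]
  module

theorem P_cc {γ : ι → F} (hγ : γ ∈ Vpp Q x₀ x e f) :
    ρ (tt Q f γ) * LL ρ ψ x₀ e * ρ (tt Q f γ)⁻¹ = LL ρ ψ x₀ ((1 : F) • e + (-Q γ) • f + γ) := by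
  rw [LL_conj _ hF.Qa, cc_x₀ hF hγ, cc_e hF hγ]

variable (hψ : ψ 1 ≠ 1)
include hψ

/-- Weights in the decomposition of an eigenvector of `u(t)`. -/
theorem wt_zero_left {X : Module.End ℂ U} (hX : ∀ t, ρ (sg hF.swap (up t)) * X = ψ t • X) {w : ι → F}
    (hw : 𝔣 w f ≠ 1) : LL ρ ψ x₀ w * X = 0 := by
  obtain ⟨t, ht⟩ := psi_sep (ψ := ψ) hψ hw
  have h : 𝔣 x₀ (t • f) = 0 := by rw [polar_smul_right', hF.ab', mul_zero]
  have e1 := LL_right (ρ := ρ) (ψ := ψ) hF.Qa w h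
  rw [← sg_up hF.swap, polar_smul_right'] at e1
  have e2 : (ψ (t * 𝔣 w f) - ψ (t * 1)) • (LL ρ ψ x₀ w * X) = 0 := by
    rw [sub_smul, ← smul_mul_assoc, ← e1, mul_assoc, hX, mul_one, mul_smul_comm, sub_self]
  exact (smul_eq_zero.mp e2).resolve_left (sub_ne_zero.mpr ht)

theorem wt_zero_right {X : Module.End ℂ U} (hX : ∀ t, X * ρ (sg hF.swap (up t)) = ψ t • X) {w : ι → F}
    (hw : 𝔣 w f ≠ 1) : X * LL ρ ψ x₀ w = 0 := by
  obtain ⟨t, ht⟩ := psi_sep (ψ := ψ) hψ hw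
  have h : 𝔣 x₀ (t • f) = 0 := by rw [polar_smul_right', hF.ab', mul_zero]
  have e1 := LL_left (ρ := ρ) (ψ := ψ) hF.Qa w h
  rw [← sg_up hF.swap, polar_smul_right'] at e1
  have e2 : (ψ (t * 𝔣 w f) - ψ (t * 1)) • (X * LL ρ ψ x₀ w) = 0 := by
    rw [sub_smul, ← mul_smul_comm, ← e1, ← mul_assoc, hX, mul_one, smul_mul_assoc, sub_self]
  exact (smul_eq_zero.mp e2).resolve_left (sub_ne_zero.mpr ht)

variable (hns : ∀ w, polar (⇑Q) x₀ w = 0 → Q w ≠ 0 → LL ρ ψ x₀ w = 0)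
include hns

/-- Expansion of an eigenvector of `u(t)` in the weights `c_γ e`. -/
theorem expand_left {X : Module.End ℂ U} (hX : ∀ t, ρ (sg hF.swap (up t)) * X = ψ t • X) :
    X = ∑ γ : Vpp Q x₀ x e f, ρ (tt Q f γ.1) * LL ρ ψ x₀ e * ρ (tt Q f γ.1)⁻¹ * X := by
  conv_lhs => rw [← one_mul X, ← frame_sum hF (ρ := ρ) (ψ := ψ) hψ]
  simp only [Finset.sum_mul]
  rw [Finset.sum_eq_single (1 : F)]
  · rw [Finset.sum_comm]
    refine Finset.sum_congr rfl fun γ _ => ?_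
    rw [Finset.sum_eq_single (-Q γ.1)]
    · rw [P_cc hF γ.2]
    · intro β' _ hβ'
      rw [hns _ (wv_x₀ hF _ _ γ.2), zero_mul]
      rw [wv_Q hF _ _ γ.2, one_mul]
      intro h
      exact hβ' (eq_neg_of_add_eq_zero_left h)
    · simp
  · intro β _ hβ
    refine Finset.sum_eq_zero fun β' _ => Finset.sum_eq_zero fun γ _ => ?_
    exact wt_zero_left hF hψ hX (by rw [wv_f hF _ _ γ.2]; exact hβ)
  · simp

theorem expand_right {X : Module.End ℂ U} (hX : ∀ t, X * ρ (sg hF.swap (up t)) = ψ t • X) :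
    X = ∑ γ : Vpp Q x₀ x e f, X * (ρ (tt Q f γ.1) * LL ρ ψ x₀ e * ρ (tt Q f γ.1)⁻¹) := by
  conv_lhs => rw [← mul_one X, ← frame_sum hF (ρ := ρ) (ψ := ψ) hψ]
  simp only [Finset.mul_sum]
  rw [Finset.sum_eq_single (1 : F)]
  · rw [Finset.sum_comm]
    refine Finset.sum_congr rfl fun γ _ => ?_
    rw [Finset.sum_eq_single (-Q γ.1)]
    · rw [P_cc hF γ.2]
    · intro β' _ hβ'
      rw [hns _ (wv_x₀ hF _ _ γ.2), mul_zero]
      rw [wv_Q hF _ _ γ.2, one_mul]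
      intro h
      exact hβ' (eq_neg_of_add_eq_zero_left h)
    · simp
  · intro β _ hβ
    refine Finset.sum_eq_zero fun β' _ => Finset.sum_eq_zero fun γ _ => ?_
    exact wt_zero_right hF hψ hX (by rw [wv_f hF _ _ γ.2]; exact hβ)
  · simp

end Basic

section K1

variable (htr : LinearMap.trace ℂ U (LL ρ ψ x₀ e) = (1 : ℂ)) (hψ : ψ 1 ≠ 1)
  (hns : ∀ w, polar (⇑Q) x₀ w = 0 → Q w ≠ 0 → LL ρ ψ x₀ w = 0)
include hF htr hψ hns

/-- `w₁⁻¹ c_γ w₁ = a(γ)`. -/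
theorem w1_cc {γ : ι → F} (hγ : γ ∈ Vpp Q x₀ x e f) :
    (sg hF wM)⁻¹ * tt Q f γ * sg hF wM = tt Q x₀ γ := by
  have h1 := conj_tt (sg hF wM)⁻¹ hF.Qb' hγ.2.2.2
  have e1 : av (sg hF wM)⁻¹ f = x₀ := by
    have h2 := av_inv_av (sg hF wM) x₀
    have h3 : av (sg hF wM) x₀ = f := by
      rw [av_sg_a]
      simp
    rwa [h3] at h2
  have e2 : av (sg hF wM)⁻¹ γ = γ := by
    have h2 := av_inv_av (sg hF wM) γ
    rwa [av_sg_perp hF _ hγ.1 hγ.2.1 hγ.2.2.1 hγ.2.2.2] at h2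
  rw [inv_inv, e1, e2] at h1
  exact h1

theorem cc_w1P {γ : ι → F} (hγ : γ ∈ Vpp Q x₀ x e f) :
    ρ (tt Q f γ) * (ρ (sg hF wM) * LL ρ ψ x₀ e) = ρ (sg hF wM) * LL ρ ψ x₀ e := by
  have h1 : tt Q f γ * sg hF wM = sg hF wM * tt Q x₀ γ := by
    rw [← w1_cc hF htr hψ hns hγ]
    group
  rw [← mul_assoc, ← map_mul, h1, map_mul, mul_assoc,
    a_left hF hγ.1 hγ.2.2.1]

theorem Pw1_cc {γ : ι → F} (hγ : γ ∈ Vpp Q x₀ x e f) :
    (LL ρ ψ x₀ e * ρ (sg hF wM)⁻¹) * ρ (tt Q f γ) = LL ρ ψ x₀ e * ρ (sg hF wM)⁻¹ := by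
  have h1 : (sg hF wM)⁻¹ * tt Q f γ = tt Q x₀ γ * (sg hF wM)⁻¹ := by
    rw [← w1_cc hF htr hψ hns hγ]
    group
  rw [mul_assoc, ← map_mul, h1, map_mul, ← mul_assoc, a_right hF hγ.1 hγ.2.2.1]

/-- **K1**. -/
theorem K1 :
    ρ (sg hF wM) * LL ρ ψ x₀ e =
      ff ρ ψ x₀ e (sg hF wM) • ∑ γ : Vpp Q x₀ x e f, ρ (tt Q f γ.1) * LL ρ ψ x₀ e := by
  have hX : ∀ t, ρ (sg hF.swap (up t)) * (ρ (sg hF wM) * LL ρ ψ x₀ e) =
      ψ t • (ρ (sg hF wM) * LL ρ ψ x₀ e) := by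
    intro t
    rw [← mul_assoc, ← rho_comm hF, mul_assoc, u_left hF, mul_smul_comm]
  conv_lhs => rw [expand_left hF hψ hns hX]
  rw [Finset.smul_sum]
  refine Finset.sum_congr rfl fun γ _ => ?_
  have hγ := γ.2
  have e1 : ρ (tt Q f γ.1)⁻¹ * (ρ (sg hF wM) * LL ρ ψ x₀ e) = ρ (sg hF wM) * LL ρ ψ x₀ e := by
    conv_lhs => rw [← cc_w1P hF htr hψ hns hγ]
    rw [← mul_assoc, rho_inv_mul', one_mul]
  rw [mul_assoc, e1, mul_assoc, ← mul_assoc (LL ρ ψ x₀ e), sw_rho hF.Qa htr, mul_smul_comm]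

/-- **K1*** -/
theorem K1s :
    LL ρ ψ x₀ e * ρ (sg hF wM)⁻¹ =
      ff ρ ψ x₀ e (sg hF wM)⁻¹ • ∑ γ : Vpp Q x₀ x e f, LL ρ ψ x₀ e * ρ (tt Q f γ.1)⁻¹ := by
  have hX : ∀ t, (LL ρ ψ x₀ e * ρ (sg hF wM)⁻¹) * ρ (sg hF.swap (up t)) =
      ψ t • (LL ρ ψ x₀ e * ρ (sg hF wM)⁻¹) := by
    intro t
    have hc : ρ (sg hF wM)⁻¹ * ρ (sg hF.swap (up t)) = ρ (sg hF.swap (up t)) * ρ (sg hF wM)⁻¹ := by
      rw [← map_inv, rho_comm hF]
    rw [mul_assoc, hc, ← mul_assoc, u_right hF, smul_mul_assoc]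
  conv_lhs => rw [expand_right hF hψ hns hX]
  rw [Finset.smul_sum]
  refine Finset.sum_congr rfl fun γ _ => ?_
  have hγ := γ.2
  have e1 : (LL ρ ψ x₀ e * ρ (sg hF wM)⁻¹) * (ρ (tt Q f γ.1) * LL ρ ψ x₀ e * ρ (tt Q f γ.1)⁻¹) =
      ((LL ρ ψ x₀ e * ρ (sg hF wM)⁻¹) * ρ (tt Q f γ.1)) * LL ρ ψ x₀ e * ρ (tt Q f γ.1)⁻¹ := by
    simp only [mul_assoc]
  rw [e1, Pw1_cc hF htr hψ hns hγ, sw_rho hF.Qa htr, smul_mul_assoc]

theorem ff_cc {γ : ι → F} (hγ : γ ∈ Vpp Q x₀ x e f) (h0 : γ ≠ 0) :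
    ff ρ ψ x₀ e (tt Q f γ) = 0 := by
  obtain ⟨y, hy, hy1⟩ := exists_Vpp_polar hF hγ h0 1
  have h2 : LL ρ ψ x₀ e * LL ρ ψ x₀ ((1 : F) • e + (-Q γ) • f + γ) = 0 := by
    apply LL_orth hF.Qa _ _ hψ (y := y) hy.1
    rw [polar_add_left, polar_add_left, polar_smul_left', polar_smul_left', one_mul, hy.2.2.1,
      hy.2.2.2, hy1]
    simp
  have h3 : LL ρ ψ x₀ e * ρ (tt Q f γ) * LL ρ ψ x₀ e = 0 := by
    calc LL ρ ψ x₀ e * ρ (tt Q f γ) * LL ρ ψ x₀ e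
        = LL ρ ψ x₀ e * (ρ (tt Q f γ) * LL ρ ψ x₀ e * ρ (tt Q f γ)⁻¹) * ρ (tt Q f γ) := by
          simp only [mul_assoc, rho_inv_mul', mul_one]
      _ = 0 := by rw [P_cc hF hγ, h2, zero_mul]
  have h4 := sw_rho (ρ := ρ) (ψ := ψ) hF.Qa htr (tt Q f γ)
  rw [h3] at h4
  have h5 := congrArg tr h4
  rw [map_zero, map_smul, htr, smul_eq_mul, mul_one] at h5
  exact h5.symm

theorem tr_cc_cc (γ δ : Vpp Q x₀ x e f) :
    tr ((ρ (tt Q f γ.1) * LL ρ ψ x₀ e) * (LL ρ ψ x₀ e * ρ (tt Q f δ.1)⁻¹)) = if γ = δ then 1 else 0 := by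
  have h1 : tr ((ρ (tt Q f γ.1) * LL ρ ψ x₀ e) * (LL ρ ψ x₀ e * ρ (tt Q f δ.1)⁻¹)) =
      ff ρ ψ x₀ e (tt Q f (γ.1 - δ.1)) := by
    rw [mul_assoc, ← mul_assoc (LL ρ ψ x₀ e), LL_idem hF.Qa, LinearMap.trace_mul_comm, mul_assoc,
      ← map_mul, ff]
    congr 3
    rw [tt_inv hF.Qb' δ.2.2.2.2, tt_mul hF.Qb' (by rw [polar_neg_right, δ.2.2.2.2, neg_zero]) γ.2.2.2.2]
    congr 1
    abel
  rw [h1]
  split_ifs with h
  · subst h
    rw [sub_self, tt_zero hF.Qb', ff_one hF.Qa htr]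
  · apply ff_cc hF htr hψ hns (Submodule.sub_mem _ γ.2 δ.2)
    intro h0
    exact h (Subtype.ext (sub_eq_zero.mp h0))

/-- **K3**. -/
theorem K3 : ff ρ ψ x₀ e (sg hF wM) * ff ρ ψ x₀ e (sg hF wM)⁻¹ * (Fintype.card (Vpp Q x₀ x e f) : ℂ) = 1 := by
  have h1 : tr ((ρ (sg hF wM) * LL ρ ψ x₀ e) * (LL ρ ψ x₀ e * ρ (sg hF wM)⁻¹)) = 1 := by
    rw [mul_assoc, ← mul_assoc (LL ρ ψ x₀ e), LL_idem hF.Qa, LinearMap.trace_mul_comm, mul_assoc,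
      ← map_mul, inv_mul_cancel, map_one, mul_one, htr]
  rw [K1 hF htr hψ hns, K1s hF htr hψ hns, smul_mul_smul_comm, map_smul, Finset.sum_mul_sum, map_sum] at h1
  simp only [map_sum, tr_cc_cc hF htr hψ hns] at h1
  simp only [Finset.sum_ite_eq, Finset.mem_univ, if_true, Finset.sum_const, Finset.card_univ,
    smul_eq_mul, nsmul_eq_mul, mul_one] at h1
  rw [mul_comm] at h1
  rw [← h1]
  ring

end K1

end Cfsg.Agent.Lib.MinDeg.Omega
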