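import Cfsg.Agent.Lib.MinDeg.Omega.Yb

/-!
# The Hecke computation of `L`, `L*` and the numbers `N_b`, `n'_b`
-/

set_option autoImplicit false
set_option linter.unusedSectionVars false
set_option linter.unusedSimpArgs false
set_option linter.unusedVariables false

namespace Cfsg.Agent.Lib.MinDeg.Omega

open Matrix QuadraticMap Module
open Cfsg.Agent.Lib.Classical.Orth.Basic

universe u v

variable {ι : Type} [Fintype ι] [DecidableEq ι] {F : Type u} [Field F] [Fintype F] [DecidableEq F]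
variable {Q : QuadraticForm F (ι → F)} [OmCtx Q]
variable {U : Type v} [AddCommGroup U] [Module ℂ U] [FiniteDimensional ℂ U]

set_option quotPrecheck false in
local notation "𝔣" => polar (⇑Q)

local notation "tr" => LinearMap.trace ℂ U

variable {ρ : Om Q →* Module.End ℂ U} {ψ : AddChar F ℂ} {x₀ x e f : ι → F} {μ : F} {u₀ u₀' y₀ : ι → F}

section Comm

theorem tr_comm' (X Y : Module.End ℂ U) : tr (X * Y) = tr (Y * X) := LinearMap.trace_mul_comm ℂ X Y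

/-- The projector commutes with everything that commutes with the group. -/
theorem Fup_comm_of {σ : SL2 F →* Module.End ℂ U} {X : Module.End ℂ U}
    (h : ∀ t, σ (up t) * X = X * σ (up t)) (β : F) : Fup σ ψ β * X = X * Fup σ ψ β := by
  unfold Fup
  rw [smul_mul_assoc, mul_smul_comm, Finset.sum_mul, Finset.mul_sum]
  congr 1
  refine Finset.sum_congr rfl fun t _ => ?_
  rw [smul_mul_assoc, mul_smul_comm, h]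

variable {a a' b b' : ι → F} (hF : HF Q a a' b b')
include hF

theorem Pi1_comm_rho (β : F) (g : SL2 F) :
    Fup (ρ.comp (sg hF)) ψ β * ρ (sg hF.swap g) = ρ (sg hF.swap g) * Fup (ρ.comp (sg hF)) ψ β :=
  Fup_comm_of (fun t => rho_comm hF _ _) β

theorem Pi2_comm_rho (β : F) (g : SL2 F) :
    Fup (ρ.comp (sg hF.swap)) ψ β * ρ (sg hF g) = ρ (sg hF g) * Fup (ρ.comp (sg hF.swap)) ψ β :=
  Fup_comm_of (fun t => (rho_comm hF _ _).symm) β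

theorem Pi1_comm_rho_inv (β : F) (g : SL2 F) :
    Fup (ρ.comp (sg hF)) ψ β * ρ (sg hF.swap g)⁻¹ = ρ (sg hF.swap g)⁻¹ * Fup (ρ.comp (sg hF)) ψ β := by
  rw [← map_inv]
  exact Pi1_comm_rho hF β _

theorem Pi2_comm_rho_inv (β : F) (g : SL2 F) :
    Fup (ρ.comp (sg hF.swap)) ψ β * ρ (sg hF g)⁻¹ = ρ (sg hF g)⁻¹ * Fup (ρ.comp (sg hF.swap)) ψ β := by
  rw [← map_inv]
  exact Pi2_comm_rho hF β _

theorem Pi1_comm_Pi2 (β β' : F) :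
    Fup (ρ.comp (sg hF)) ψ β * Fup (ρ.comp (sg hF.swap)) ψ β' =
      Fup (ρ.comp (sg hF.swap)) ψ β' * Fup (ρ.comp (sg hF)) ψ β := by
  refine Fup_comm_of (fun t => ?_) β
  exact (Pi2_comm_rho hF β' (up t)).symm

end Comm

variable (H : MC ρ ψ x₀ x e f μ u₀ u₀' y₀)

/-- The Gauss sum of `χ`. -/
noncomputable def GG (ρ : Om Q →* Module.End ℂ U) (ψ : AddChar F ℂ) (hF : HF Q x₀ x e f) : ℂ :=
  ∑ s ∈ Finset.univ.erase (0 : F), ψ (-s) * chi ρ ψ hF (-s)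

section L

variable {γ : ι → F} (hγ : γ ∈ Vpp Q x₀ x e f) {b : F} (hb : b ≠ 0) (hQ : Q γ = -b)
include H hγ hb hQ

theorem F2_YY : Fup (ρ.comp (sg H.hF.swap)) ψ 0 * YY ρ ψ x₀ e f γ = YY ρ ψ x₀ e f γ := by
  rw [Fup_eig_left H.hψ (κ := 0) (fun t => ?_) 0, if_pos rfl]
  rw [zero_mul, AddChar.map_zero_eq_one, one_smul]
  exact YY_up2 H hγ hb hQ t

theorem YS_F2 : YS ρ ψ x₀ e f γ * Fup (ρ.comp (sg H.hF.swap)) ψ 0 = YS ρ ψ x₀ e f γ := by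
  rw [Fup_eig_right H.hψ (κ := 0) (fun t => ?_) 0, if_pos rfl]
  rw [zero_mul, AddChar.map_zero_eq_one, one_smul]
  exact YS_up2 H hγ hb hQ t

theorem Pi1_YY : Fup (ρ.comp (sg H.hF)) ψ b * YY ρ ψ x₀ e f γ = YY ρ ψ x₀ e f γ := by
  rw [Fup_eig_left H.hψ (κ := b) (fun t => YY_up1 H hγ hb hQ t) b, if_pos rfl]

theorem YS_Pi1 : YS ρ ψ x₀ e f γ * Fup (ρ.comp (sg H.hF)) ψ b = YS ρ ψ x₀ e f γ := by
  rw [Fup_eig_right H.hψ (κ := b) (fun t => YS_up1 H hγ hb hQ t) b, if_pos rfl]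

/-- **[L]**. -/
theorem L_eq :
    Fup (ρ.comp (sg H.hF.swap)) ψ 0 * ρ (sg H.hF.swap wM) * (Fup (ρ.comp (sg H.hF)) ψ b * ρ (sg H.hF wM) *
      LL ρ ψ x₀ e) = (chi ρ ψ H.hF b * (Fintype.card F : ℂ)⁻¹) •
        (chi ρ ψ H.hF (-1) • YY ρ ψ x₀ e f γ +
          GG ρ ψ H.hF • (Fup (ρ.comp (sg H.hF.swap)) ψ 0 * ρ (sg H.hF.swap wM) * YY ρ ψ x₀ e f γ)) := by
  have h1 : Fup (ρ.comp (sg H.hF)) ψ b * ρ (sg H.hF wM) * LL ρ ψ x₀ e = chi ρ ψ H.hF b •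
      (Fup (ρ.comp (sg H.hF.swap)) ψ 1 * ρ (sg H.hF.swap wM) * YY ρ ψ x₀ e f γ) := by
    rw [K2L H hγ hb hQ, smul_smul, H.chi_sq hb, one_smul]
  have h2 := hecke_left (σ := ρ.comp (sg H.hF.swap)) (ψ := ψ) (χ := chi ρ ψ H.hF) H.hψ
    (Y := YY ρ ψ x₀ e f γ) (fun t => YY_up2 H hγ hb hQ t) (fun t ht => YY_dgg2 H hγ hb hQ ht)
  have h3 : (ρ.comp (sg H.hF.swap)) wM = ρ (sg H.hF.swap wM) := rfl
  rw [h3] at h2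
  rw [h1, mul_smul_comm, ← smul_smul]
  congr 1

/-- **[L*]**. -/
theorem Ls_eq :
    LL ρ ψ x₀ e * ρ (sg H.hF wM)⁻¹ * Fup (ρ.comp (sg H.hF)) ψ b * ρ (sg H.hF.swap wM)⁻¹ *
      Fup (ρ.comp (sg H.hF.swap)) ψ 0 = (chi ρ ψ H.hF b * (Fintype.card F : ℂ)⁻¹) •
        (chi ρ ψ H.hF (-1) • YS ρ ψ x₀ e f γ + (chi ρ ψ H.hF (-1) * GG ρ ψ H.hF) •
          (YS ρ ψ x₀ e f γ * ρ (sg H.hF.swap wM)⁻¹ * Fup (ρ.comp (sg H.hF.swap)) ψ 0)) := by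
  have h2 := hecke_right (σ := ρ.comp (sg H.hF.swap)) (ψ := ψ) (χ := chi ρ ψ H.hF) H.hψ
    (Y := YS ρ ψ x₀ e f γ) (fun t => YS_up2 H hγ hb hQ t) (fun t ht => YS_dgg2 H hγ hb hQ ht)
  have h3 : (ρ.comp (sg H.hF.swap)) wM⁻¹ = ρ (sg H.hF.swap wM)⁻¹ := by
    simp only [MonoidHom.comp_apply, map_inv]
  rw [h3] at h2
  have h4 : ∑ s ∈ Finset.univ.erase (0 : F), ψ (-s) * (chi ρ ψ H.hF (-s)⁻¹ * chi ρ ψ H.hF (-1)) =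
      chi ρ ψ H.hF (-1) * GG ρ ψ H.hF := by
    rw [GG, Finset.mul_sum]
    refine Finset.sum_congr rfl fun s hs => ?_
    have hs0 : -s ≠ 0 := neg_ne_zero.mpr (Finset.ne_of_mem_erase hs)
    rw [H.chi_inv hs0]
    ring
  rw [h4] at h2
  rw [K2R H hγ hb hQ, smul_mul_assoc, smul_mul_assoc, ← smul_smul]
  congr 1

/-- `k'`. -/
theorem k1_eq : ff ρ ψ x₀ e ((vs Q e f γ)⁻¹ * (sg H.hF.swap wM * sg H.hF wM)) =
    (Fintype.card F : ℂ)⁻¹ * (chi ρ ψ H.hF b * chi ρ ψ H.hF (-1) +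
      GG ρ ψ H.hF * ff ρ ψ x₀ e (sg H.hF wM)) := by
  have h1 := L_eq H hγ hb hQ
  have h2 := congrArg (fun X => YS ρ ψ x₀ e f γ * X) h1
  simp only [mul_smul_comm, mul_add] at h2
  have hL : YS ρ ψ x₀ e f γ * (Fup (ρ.comp (sg H.hF.swap)) ψ 0 * ρ (sg H.hF.swap wM) *
      (Fup (ρ.comp (sg H.hF)) ψ b * ρ (sg H.hF wM) * LL ρ ψ x₀ e)) =
      ff ρ ψ x₀ e ((vs Q e f γ)⁻¹ * (sg H.hF.swap wM * sg H.hF wM)) • LL ρ ψ x₀ e := by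
    rw [← sw_rho H.hF.Qa H.htr]
    calc YS ρ ψ x₀ e f γ * (Fup (ρ.comp (sg H.hF.swap)) ψ 0 * ρ (sg H.hF.swap wM) *
        (Fup (ρ.comp (sg H.hF)) ψ b * ρ (sg H.hF wM) * LL ρ ψ x₀ e))
        = (YS ρ ψ x₀ e f γ * Fup (ρ.comp (sg H.hF.swap)) ψ 0) * (ρ (sg H.hF.swap wM) *
          Fup (ρ.comp (sg H.hF)) ψ b) * ρ (sg H.hF wM) * LL ρ ψ x₀ e := by simp only [mul_assoc]
      _ = (YS ρ ψ x₀ e f γ * Fup (ρ.comp (sg H.hF)) ψ b) * ρ (sg H.hF.swap wM) * ρ (sg H.hF wM) *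
          LL ρ ψ x₀ e := by
          rw [YS_F2 H hγ hb hQ, ← Pi1_comm_rho H.hF]
          simp only [mul_assoc]
      _ = _ := by
          rw [YS_Pi1 H hγ hb hQ, YS]
          simp only [map_mul ρ, mul_assoc]
  have h5 : YS ρ ψ x₀ e f γ * (Fup (ρ.comp (sg H.hF.swap)) ψ 0 * ρ (sg H.hF.swap wM) * YY ρ ψ x₀ e f γ) =
      (chi ρ ψ H.hF b * ff ρ ψ x₀ e (sg H.hF wM)) • LL ρ ψ x₀ e := by
    rw [← mul_assoc, ← mul_assoc, YS_F2 H hγ hb hQ, YS_w2_YY H hγ hb hQ]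
  rw [hL, YS_YY H, h5, smul_smul, ← add_smul, smul_smul] at h2
  have h6 := congrArg tr h2
  simp only [map_smul, H.htr, smul_eq_mul, mul_one] at h6
  rw [h6]
  have h7 := H.chi_sq hb
  linear_combination ((Fintype.card F : ℂ)⁻¹ * GG ρ ψ H.hF * ff ρ ψ x₀ e (sg H.hF wM)) * h7

/-- `k''`. -/
theorem k2_eq : ff ρ ψ x₀ e ((sg H.hF.swap wM * sg H.hF wM)⁻¹ * vs Q e f γ) =
    (Fintype.card F : ℂ)⁻¹ * (chi ρ ψ H.hF b * chi ρ ψ H.hF (-1) +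
      GG ρ ψ H.hF * ff ρ ψ x₀ e (sg H.hF wM)) := by
  have h1 := Ls_eq H hγ hb hQ
  have h2 := congrArg (fun X => X * YY ρ ψ x₀ e f γ) h1
  simp only [smul_mul_assoc, add_mul] at h2
  have hL : LL ρ ψ x₀ e * ρ (sg H.hF wM)⁻¹ * Fup (ρ.comp (sg H.hF)) ψ b * ρ (sg H.hF.swap wM)⁻¹ *
      Fup (ρ.comp (sg H.hF.swap)) ψ 0 * YY ρ ψ x₀ e f γ =
      ff ρ ψ x₀ e ((sg H.hF.swap wM * sg H.hF wM)⁻¹ * vs Q e f γ) • LL ρ ψ x₀ e := by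
    rw [← sw_rho H.hF.Qa H.htr]
    calc LL ρ ψ x₀ e * ρ (sg H.hF wM)⁻¹ * Fup (ρ.comp (sg H.hF)) ψ b * ρ (sg H.hF.swap wM)⁻¹ *
      Fup (ρ.comp (sg H.hF.swap)) ψ 0 * YY ρ ψ x₀ e f γ
        = LL ρ ψ x₀ e * ρ (sg H.hF wM)⁻¹ * (Fup (ρ.comp (sg H.hF)) ψ b * ρ (sg H.hF.swap wM)⁻¹) *
          (Fup (ρ.comp (sg H.hF.swap)) ψ 0 * YY ρ ψ x₀ e f γ) := by simp only [mul_assoc]
      _ = LL ρ ψ x₀ e * ρ (sg H.hF wM)⁻¹ * ρ (sg H.hF.swap wM)⁻¹ *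
          (Fup (ρ.comp (sg H.hF)) ψ b * YY ρ ψ x₀ e f γ) := by
          rw [F2_YY H hγ hb hQ, Pi1_comm_rho_inv H.hF]
          simp only [mul_assoc]
      _ = _ := by
          rw [Pi1_YY H hγ hb hQ, YY]
          simp only [map_mul ρ, mul_assoc, _root_.mul_inv_rev]
  have h5 : YS ρ ψ x₀ e f γ * ρ (sg H.hF.swap wM)⁻¹ * Fup (ρ.comp (sg H.hF.swap)) ψ 0 * YY ρ ψ x₀ e f γ =
      (chi ρ ψ H.hF b⁻¹ * ff ρ ψ x₀ e (sg H.hF wM)⁻¹) • LL ρ ψ x₀ e := by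
    rw [mul_assoc _ _ (YY ρ ψ x₀ e f γ), F2_YY H hγ hb hQ, YS_w2i_YY H hγ hb hQ]
  rw [hL, YS_YY H, h5, smul_smul, ← add_smul, smul_smul] at h2
  have h6 := congrArg tr h2
  simp only [map_smul, H.htr, smul_eq_mul, mul_one] at h6
  rw [h6, alpha_inv H.hF H.htr, H.chi_inv hb]
  have h7 := H.chi_sq hb
  have h8 := H.chi_sq (neg_ne_zero.mpr (one_ne_zero : (1 : F) ≠ 0))
  set α := ff ρ ψ x₀ e (sg H.hF wM)
  set c := chi ρ ψ H.hF b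
  set d := chi ρ ψ H.hF (-1)
  set G := GG ρ ψ H.hF
  set r := (Fintype.card F : ℂ)⁻¹
  linear_combination (r * (d * G * (d * α))) * h7 + (r * G * α) * h8

omit hγ hb hQ in
theorem YS_Flo_YY {γ : ι → F} (hγ : γ ∈ Vpp Q x₀ x e f) {b : F} (hb : b ≠ 0) (hQ : Q γ = -b) :
    ρ (vs Q e f γ)⁻¹ * Flo (ρ.comp (sg H.hF.swap)) * ρ (vs Q e f γ) = Flo (ρ.comp (sg H.hF)) := by
  unfold Flo
  rw [mul_smul_comm, smul_mul_assoc]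
  congr 1
  rw [Finset.mul_sum, Finset.sum_mul]
  refine Fintype.sum_equiv (Equiv.mulLeft₀ b hb) _ _ fun t => ?_
  have e1 := vs_conj_sw H.hF hγ hb hQ (lo t)
  rw [sclSL_lo, inv_inv] at e1
  show ρ (vs Q e f γ)⁻¹ * ρ (sg H.hF.swap (lo t)) * ρ (vs Q e f γ) = ρ (sg H.hF (lo (b * t)))
  rw [← e1, map_mul ρ, map_mul ρ]

end L

/-- The element `s₀ = w₂ w₁`. -/
noncomputable def s0 {x₀ x e f : ι → F} (hF : HF Q x₀ x e f) : Om Q := sg hF.swap wM * sg hF wM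

/-- The conjugate `P' = s₀ P s₀⁻¹`. -/
noncomputable def Pp (ρ : Om Q →* Module.End ℂ U) (ψ : AddChar F ℂ) {x₀ x e f : ι → F}
    (hF : HF Q x₀ x e f) : Module.End ℂ U := ρ (s0 hF) * LL ρ ψ x₀ e * ρ (s0 hF)⁻¹

section Nb

variable {γ : ι → F} (hγ : γ ∈ Vpp Q x₀ x e f) {b : F} (hb : b ≠ 0) (hQ : Q γ = -b)
include H hγ hb hQ

/-- `Y Y*` is the weight projection of `b f`. -/
theorem YY_YS : YY ρ ψ x₀ e f γ * YS ρ ψ x₀ e f γ = LL ρ ψ x₀ (b • f) := by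
  have h := LL_conj (ρ := ρ) (ψ := ψ) (vs Q e f γ) H.hF.Qa e
  rw [vs_x₀ H.hF hγ (hQ0 H.hF hγ hb hQ), vsb_e H.hF hγ hb hQ] at h
  rw [← h, YY, YS]
  calc ρ (vs Q e f γ) * LL ρ ψ x₀ e * (LL ρ ψ x₀ e * ρ (vs Q e f γ)⁻¹)
      = ρ (vs Q e f γ) * (LL ρ ψ x₀ e * LL ρ ψ x₀ e) * ρ (vs Q e f γ)⁻¹ := by simp only [mul_assoc]
    _ = _ := by rw [LL_idem H.hF.Qa]

/-- **The number `n'_b`**. -/
theorem n_prime : tr (LL ρ ψ x₀ (b • f) * Pp ρ ψ H.hF) =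
    ((Fintype.card F : ℂ)⁻¹ * (chi ρ ψ H.hF b * chi ρ ψ H.hF (-1) +
      GG ρ ψ H.hF * ff ρ ψ x₀ e (sg H.hF wM))) ^ 2 := by
  have hk : ((Fintype.card F : ℂ)⁻¹ * (chi ρ ψ H.hF b * chi ρ ψ H.hF (-1) +
      GG ρ ψ H.hF * ff ρ ψ x₀ e (sg H.hF wM))) ^ 2 =
      ff ρ ψ x₀ e ((vs Q e f γ)⁻¹ * (sg H.hF.swap wM * sg H.hF wM)) *
        ff ρ ψ x₀ e ((sg H.hF.swap wM * sg H.hF wM)⁻¹ * vs Q e f γ) := by
    rw [k1_eq H hγ hb hQ, k2_eq H hγ hb hQ, pow_two]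
  rw [← YY_YS H hγ hb hQ, hk]
  have h1 : YS ρ ψ x₀ e f γ * ρ (s0 H.hF) * LL ρ ψ x₀ e =
      ff ρ ψ x₀ e ((vs Q e f γ)⁻¹ * (sg H.hF.swap wM * sg H.hF wM)) • LL ρ ψ x₀ e := by
    rw [← sw_rho H.hF.Qa H.htr, YS, s0, map_mul ρ (vs Q e f γ)⁻¹]
    simp only [mul_assoc]
  have h2 : LL ρ ψ x₀ e * ρ (s0 H.hF)⁻¹ * YY ρ ψ x₀ e f γ =
      ff ρ ψ x₀ e ((sg H.hF.swap wM * sg H.hF wM)⁻¹ * vs Q e f γ) • LL ρ ψ x₀ e := by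
    rw [← sw_rho H.hF.Qa H.htr, YY, s0, map_mul ρ (sg H.hF.swap wM * sg H.hF wM)⁻¹]
    simp only [mul_assoc]
  have h3 : YY ρ ψ x₀ e f γ * YS ρ ψ x₀ e f γ * Pp ρ ψ H.hF =
      YY ρ ψ x₀ e f γ * (YS ρ ψ x₀ e f γ * Pp ρ ψ H.hF) := mul_assoc _ _ _
  have h4 : YS ρ ψ x₀ e f γ * Pp ρ ψ H.hF * YY ρ ψ x₀ e f γ =
      (YS ρ ψ x₀ e f γ * ρ (s0 H.hF) * LL ρ ψ x₀ e) * (LL ρ ψ x₀ e * ρ (s0 H.hF)⁻¹ * YY ρ ψ x₀ e f γ) := by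
    have := LL_idem (ρ := ρ) (ψ := ψ) H.hF.Qa e
    calc YS ρ ψ x₀ e f γ * Pp ρ ψ H.hF * YY ρ ψ x₀ e f γ
        = YS ρ ψ x₀ e f γ * ρ (s0 H.hF) * (LL ρ ψ x₀ e * LL ρ ψ x₀ e) * ρ (s0 H.hF)⁻¹ * YY ρ ψ x₀ e f γ := by
          rw [this, Pp]
          simp only [mul_assoc]
      _ = _ := by simp only [mul_assoc]
  rw [h3, tr_comm', h4, h1, h2, smul_mul_smul_comm, LL_idem H.hF.Qa, map_smul, H.htr, smul_eq_mul, mul_one]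

omit hγ hb hQ in
/-- The form of `N_b` as the trace of `L L*`. -/
theorem tr_L_Ls (b : F) : tr ((Fup (ρ.comp (sg H.hF.swap)) ψ 0 * ρ (sg H.hF.swap wM) *
      (Fup (ρ.comp (sg H.hF)) ψ b * ρ (sg H.hF wM) * LL ρ ψ x₀ e)) *
      (LL ρ ψ x₀ e * ρ (sg H.hF wM)⁻¹ * Fup (ρ.comp (sg H.hF)) ψ b * ρ (sg H.hF.swap wM)⁻¹ *
      Fup (ρ.comp (sg H.hF.swap)) ψ 0)) =
    tr (Fup (ρ.comp (sg H.hF)) ψ b * Fup (ρ.comp (sg H.hF.swap)) ψ 0 * Pp ρ ψ H.hF) := by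
  set Pb := Fup (ρ.comp (sg H.hF)) ψ b with hPb
  set F2 := Fup (ρ.comp (sg H.hF.swap)) ψ 0 with hF2
  have c1 : ρ (sg H.hF.swap wM) * Pb = Pb * ρ (sg H.hF.swap wM) := (Pi1_comm_rho H.hF b wM).symm
  have c2 : Pb * ρ (sg H.hF.swap wM)⁻¹ = ρ (sg H.hF.swap wM)⁻¹ * Pb := Pi1_comm_rho_inv H.hF b wM
  have hP := LL_idem (ρ := ρ) (ψ := ψ) H.hF.Qa e
  have hi1 : Pb * Pb = Pb := Fup_idem H.hψ b
  have hi2 : F2 * F2 = F2 := Fup_idem H.hψ 0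
  have c3 : Pb * F2 = F2 * Pb := Pi1_comm_Pi2 H.hF b 0
  have hPp : Pp ρ ψ H.hF = ρ (sg H.hF.swap wM) * (ρ (sg H.hF wM) * (LL ρ ψ x₀ e * (ρ (sg H.hF wM)⁻¹ *
      ρ (sg H.hF.swap wM)⁻¹))) := by
    rw [Pp, s0, _root_.mul_inv_rev, map_mul ρ, map_mul ρ (sg H.hF wM)⁻¹]
    simp only [mul_assoc]
  have e1 : (F2 * ρ (sg H.hF.swap wM) * (Pb * ρ (sg H.hF wM) * LL ρ ψ x₀ e)) *
      (LL ρ ψ x₀ e * ρ (sg H.hF wM)⁻¹ * Pb * ρ (sg H.hF.swap wM)⁻¹ * F2) =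
      (F2 * Pb * Pp ρ ψ H.hF) * (Pb * F2) := by
    calc _ = F2 * (ρ (sg H.hF.swap wM) * Pb) * ρ (sg H.hF wM) * (LL ρ ψ x₀ e * LL ρ ψ x₀ e) *
          ρ (sg H.hF wM)⁻¹ * (Pb * ρ (sg H.hF.swap wM)⁻¹) * F2 := by simp only [mul_assoc]
      _ = _ := by
        rw [c1, c2, hP, hPp]
        simp only [mul_assoc]
  rw [e1, tr_comm']
  have e2 : Pb * F2 * (F2 * Pb * Pp ρ ψ H.hF) = Pb * F2 * Pp ρ ψ H.hF := by
    calc Pb * F2 * (F2 * Pb * Pp ρ ψ H.hF) = Pb * (F2 * F2) * Pb * Pp ρ ψ H.hF := by simp only [mul_assoc]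
      _ = Pb * (F2 * Pb) * Pp ρ ψ H.hF := by rw [hi2]; simp only [mul_assoc]
      _ = (Pb * Pb) * F2 * Pp ρ ψ H.hF := by rw [← c3]; simp only [mul_assoc]
      _ = _ := by rw [hi1]
  rw [e2]

/-- **The number `N_b`**, first formula. -/
theorem Nb_one : tr (Fup (ρ.comp (sg H.hF)) ψ b * Fup (ρ.comp (sg H.hF.swap)) ψ 0 * Pp ρ ψ H.hF) =
    ((Fintype.card F : ℂ)⁻¹) ^ 2 * (1 + 2 * (chi ρ ψ H.hF b * chi ρ ψ H.hF (-1)) * GG ρ ψ H.hF *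
      ff ρ ψ x₀ e (sg H.hF wM) + chi ρ ψ H.hF (-1) * GG ρ ψ H.hF ^ 2 *
      tr (Flo (ρ.comp (sg H.hF)) * LL ρ ψ x₀ e)) := by
  rw [← tr_L_Ls H b, L_eq H hγ hb hQ, Ls_eq H hγ hb hQ]
  set c := chi ρ ψ H.hF b * (Fintype.card F : ℂ)⁻¹ with hc
  set d := chi ρ ψ H.hF (-1) with hd
  set G := GG ρ ψ H.hF with hG
  set F2 := Fup (ρ.comp (sg H.hF.swap)) ψ 0 with hF2
  set Y := YY ρ ψ x₀ e f γ with hY
  set Ys := YS ρ ψ x₀ e f γ with hYs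
  set w2 := sg H.hF.swap wM with hw2
  have t1 : tr (Y * Ys) = 1 := by
    rw [tr_comm', YS_YY H, H.htr]
  have t2 : tr (Y * (Ys * ρ w2⁻¹ * F2)) =
      chi ρ ψ H.hF b⁻¹ * ff ρ ψ x₀ e (sg H.hF wM)⁻¹ := by
    rw [tr_comm', mul_assoc _ F2 Y, F2_YY H hγ hb hQ, YS_w2i_YY H hγ hb hQ, map_smul, H.htr, smul_eq_mul,
      mul_one]
  have t3 : tr (F2 * ρ w2 * Y * Ys) = chi ρ ψ H.hF b * ff ρ ψ x₀ e (sg H.hF wM) := by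
    rw [tr_comm', ← mul_assoc, ← mul_assoc, YS_F2 H hγ hb hQ, YS_w2_YY H hγ hb hQ, map_smul, H.htr,
      smul_eq_mul, mul_one]
  have t4 : tr (F2 * ρ w2 * Y * (Ys * ρ w2⁻¹ * F2)) = tr (Flo (ρ.comp (sg H.hF)) * LL ρ ψ x₀ e) := by
    rw [tr_comm']
    have e1 : Ys * ρ w2⁻¹ * F2 * (F2 * ρ w2 * Y) = Ys * (ρ w2⁻¹ * (F2 * F2) * ρ w2) * Y := by
      simp only [mul_assoc]
    have e2 : (ρ.comp (sg H.hF.swap)) wM⁻¹ = ρ w2⁻¹ := by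
      simp only [MonoidHom.comp_apply, map_inv, hw2]
    have e3 : Flo (ρ.comp (sg H.hF.swap)) = ρ w2⁻¹ * F2 * ρ w2 := by
      rw [Flo_eq (ψ := ψ), e2]
      rfl
    have e4 : Ys * (ρ w2⁻¹ * (F2 * F2) * ρ w2) * Y =
        LL ρ ψ x₀ e * (ρ (vs Q e f γ)⁻¹ * Flo (ρ.comp (sg H.hF.swap)) * ρ (vs Q e f γ)) * LL ρ ψ x₀ e := by
      rw [Fup_idem H.hψ, e3, hYs, hY, YS, YY]
      simp only [mul_assoc]
      rfl
    rw [e1, e4, YS_Flo_YY H hγ hb hQ, mul_assoc, tr_comm', mul_assoc, LL_idem H.hF.Qa]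
  have e5 : (c • (d • Y + G • (F2 * ρ w2 * Y))) * (c • (d • Ys + (d * G) • (Ys * ρ w2⁻¹ * F2))) =
      (c * c) • ((d * d) • (Y * Ys) + (d * (d * G)) • (Y * (Ys * ρ w2⁻¹ * F2)) +
        (G * d) • (F2 * ρ w2 * Y * Ys) + (G * (d * G)) • (F2 * ρ w2 * Y * (Ys * ρ w2⁻¹ * F2))) := by
    simp only [smul_mul_smul_comm, add_mul, mul_add, smul_add]
    abel
  rw [e5]
  simp only [map_smul, map_add, smul_eq_mul, t1, t2, t3, t4]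
  rw [alpha_inv H.hF H.htr, H.chi_inv hb]
  have h7 : chi ρ ψ H.hF b * chi ρ ψ H.hF b = 1 := H.chi_sq hb
  have h8 : d * d = 1 := H.chi_sq (neg_ne_zero.mpr (one_ne_zero : (1 : F) ≠ 0))
  rw [hc]
  set r := (Fintype.card F : ℂ)⁻¹
  set α := ff ρ ψ x₀ e (sg H.hF wM)
  set bb := chi ρ ψ H.hF b
  set ϖ := tr (Flo (ρ.comp (sg H.hF)) * LL ρ ψ x₀ e)
  have h9 : (bb * r * (bb * r)) = r ^ 2 := by linear_combination (r ^ 2) * h7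
  rw [h9, h8]
  congr 1
  linear_combination (G * bb * d * α) * h8

end Nb

end Cfsg.Agent.Lib.MinDeg.Omega
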