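import Cfsg.Agent.Lib.MinDeg.Omega.Types

/-!
# The final computation: sums over the singular vectors and Schur's lemma
-/

set_option autoImplicit false
set_option linter.unusedSectionVars false
set_option linter.unusedSimpArgs false
set_option linter.unusedVariables false

namespace Cfsg.Agent.Lib.MinDeg.Omega

open Matrix QuadraticMap Module
open Cfsg.Agent.Lib.Classical.Orth.Basic
open Cfsg.Agent.Lib.MinDeg.SLn (idem_trace idem_eq_zero)

universe u v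

variable {ι : Type} [Fintype ι] [DecidableEq ι] {F : Type u} [Field F] [Fintype F] [DecidableEq F]
variable {Q : QuadraticForm F (ι → F)} [OmCtx Q]
variable {U : Type v} [AddCommGroup U] [Module ℂ U] [FiniteDimensional ℂ U]

set_option quotPrecheck false in
local notation "𝔣" => polar (⇑Q)

local notation "tr" => LinearMap.trace ℂ U

variable {x₀ x e f : ι → F}

section Sums

/-- A linear equation in one unknown has one solution. -/
theorem sum_lin {a : F} (ha : a ≠ 0) (t : F) (c : ℂ) :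
    ∑ s : F, (if s * a + t = 0 then c else 0) = c := by
  rw [Finset.sum_eq_single (-t * a⁻¹)]
  · rw [if_pos]
    field_simp
    ring
  · intro s _ hs
    rw [if_neg]
    intro h
    apply hs
    field_simp
    linear_combination h
  · simp

theorem card_F_C : ((Finset.univ : Finset F).card : ℂ) = (Fintype.card F : ℂ) := by
  rw [Finset.card_univ]

theorem card_erase_C : ((Finset.univ.erase (0 : F)).card : ℂ) = (Fintype.card F : ℂ) - 1 := by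
  rw [Finset.card_erase_of_mem (Finset.mem_univ _), Finset.card_univ, Nat.cast_sub Fintype.card_pos,
    Nat.cast_one]

/-- The sum of a function supported away from `0`. -/
theorem sum_ne_const (c : ℂ) : ∑ s : F, (if s ≠ 0 then c else 0) = ((Fintype.card F : ℂ) - 1) * c := by
  rw [← Finset.add_sum_erase _ _ (Finset.mem_univ (0 : F)), if_neg (not_not.mpr rfl), zero_add,
    Finset.sum_congr rfl (fun s hs => if_pos (Finset.ne_of_mem_erase hs)), Finset.sum_const,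
    nsmul_eq_mul, card_erase_C]

variable (Q x₀ x e f) in
/-- The combinatorial function which the sums of this section are about. -/
noncomputable def GG5 (A₁ A₂ A₃ A₄ A₅ : ℂ) (s₁ s₄ s₂ s₃ : F) (γ : Vpp Q x₀ x e f) : ℂ :=
  if s₄ ≠ 0 then (if s₁ * s₄ + (s₂ * s₃ + Q γ.1) = 0 then A₁ else 0)
  else if s₃ ≠ 0 then (if s₂ * s₃ + Q γ.1 = 0 then A₂ else 0)
  else if γ.1 ≠ 0 then (if Q γ.1 = 0 then A₃ else 0)
  else if s₂ ≠ 0 then A₄
  else if s₁ ≠ 0 then A₅ else 0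

theorem sum_GG5 (A₁ A₂ A₃ A₄ A₅ : ℂ) :
    ∑ s₁ : F, ∑ s₄ : F, ∑ s₂ : F, ∑ s₃ : F, ∑ γ : Vpp Q x₀ x e f, GG5 Q x₀ x e f A₁ A₂ A₃ A₄ A₅ s₁ s₄ s₂ s₃ γ =
      ((Fintype.card F : ℂ) - 1) * ((Fintype.card F : ℂ) ^ 2 * (Fintype.card (Vpp Q x₀ x e f) : ℂ) * A₁) +
      (((Fintype.card F : ℂ) - 1) * ((Fintype.card F : ℂ) * (Fintype.card (Vpp Q x₀ x e f) : ℂ) * A₂) +
      ((Fintype.card F : ℂ) ^ 2 * (((AA Q x₀ x e f : ℕ) : ℂ) - 1) * A₃ +
        (Fintype.card F : ℂ) * (((Fintype.card F : ℂ) - 1) * A₄) + ((Fintype.card F : ℂ) - 1) * A₅)) := by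
  classical
  set q := (Fintype.card F : ℂ) with hq
  set M := (Fintype.card (Vpp Q x₀ x e f) : ℂ) with hM
  set A := ((AA Q x₀ x e f : ℕ) : ℂ) with hA
  -- moving `s₁` inside
  have e1 : ∑ s₁ : F, ∑ s₄ : F, ∑ s₂ : F, ∑ s₃ : F, ∑ γ : Vpp Q x₀ x e f,
      GG5 Q x₀ x e f A₁ A₂ A₃ A₄ A₅ s₁ s₄ s₂ s₃ γ =
      ∑ s₄ : F, ∑ s₃ : F, ∑ γ : Vpp Q x₀ x e f, ∑ s₂ : F, ∑ s₁ : F,
        GG5 Q x₀ x e f A₁ A₂ A₃ A₄ A₅ s₁ s₄ s₂ s₃ γ := by
    rw [Finset.sum_comm]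
    refine Finset.sum_congr rfl fun s₄ _ => ?_
    calc ∑ s₁ : F, ∑ s₂ : F, ∑ s₃ : F, ∑ γ : Vpp Q x₀ x e f, GG5 Q x₀ x e f A₁ A₂ A₃ A₄ A₅ s₁ s₄ s₂ s₃ γ
        = ∑ s₂ : F, ∑ s₁ : F, ∑ s₃ : F, ∑ γ : Vpp Q x₀ x e f, GG5 Q x₀ x e f A₁ A₂ A₃ A₄ A₅ s₁ s₄ s₂ s₃ γ :=
          Finset.sum_comm
      _ = ∑ s₂ : F, ∑ s₃ : F, ∑ γ : Vpp Q x₀ x e f, ∑ s₁ : F, GG5 Q x₀ x e f A₁ A₂ A₃ A₄ A₅ s₁ s₄ s₂ s₃ γ := by
          refine Finset.sum_congr rfl fun s₂ _ => ?_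
          rw [Finset.sum_comm]
          refine Finset.sum_congr rfl fun s₃ _ => ?_
          rw [Finset.sum_comm]
      _ = ∑ s₃ : F, ∑ s₂ : F, ∑ γ : Vpp Q x₀ x e f, ∑ s₁ : F, GG5 Q x₀ x e f A₁ A₂ A₃ A₄ A₅ s₁ s₄ s₂ s₃ γ :=
          Finset.sum_comm
      _ = _ := by
          refine Finset.sum_congr rfl fun s₃ _ => ?_
          rw [Finset.sum_comm]
  rw [e1]
  rw [← Finset.add_sum_erase _ _ (Finset.mem_univ (0 : F)), add_comm]
  congr 1
  · -- the case `s₄ ≠ 0`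
    have e2 : ∀ s₄ ∈ Finset.univ.erase (0 : F), ∑ s₃ : F, ∑ γ : Vpp Q x₀ x e f, ∑ s₂ : F, ∑ s₁ : F,
        GG5 Q x₀ x e f A₁ A₂ A₃ A₄ A₅ s₁ s₄ s₂ s₃ γ = q ^ 2 * M * A₁ := by
      intro s₄ hs₄
      have h0 : s₄ ≠ 0 := Finset.ne_of_mem_erase hs₄
      have e3 : ∀ (s₃ : F) (γ : Vpp Q x₀ x e f) (s₂ : F), ∑ s₁ : F,
          GG5 Q x₀ x e f A₁ A₂ A₃ A₄ A₅ s₁ s₄ s₂ s₃ γ = A₁ := by
        intro s₃ γ s₂
        simp only [GG5, if_pos h0]
        exact sum_lin h0 _ A₁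
      simp only [e3, Finset.sum_const, Finset.card_univ, nsmul_eq_mul, ← hq, ← hM]
      ring
    rw [Finset.sum_congr rfl e2, Finset.sum_const, nsmul_eq_mul, card_erase_C]
  · -- the case `s₄ = 0`
    rw [← Finset.add_sum_erase _ _ (Finset.mem_univ (0 : F)), add_comm]
    congr 1
    · -- the case `s₃ ≠ 0`
      have e2 : ∀ s₃ ∈ Finset.univ.erase (0 : F), ∑ γ : Vpp Q x₀ x e f, ∑ s₂ : F, ∑ s₁ : F,
          GG5 Q x₀ x e f A₁ A₂ A₃ A₄ A₅ s₁ 0 s₂ s₃ γ = q * M * A₂ := by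
        intro s₃ hs₃
        have h0 : s₃ ≠ 0 := Finset.ne_of_mem_erase hs₃
        have e3 : ∀ (γ : Vpp Q x₀ x e f), ∑ s₂ : F, ∑ s₁ : F,
            GG5 Q x₀ x e f A₁ A₂ A₃ A₄ A₅ s₁ 0 s₂ s₃ γ = q * A₂ := by
          intro γ
          simp only [GG5, ne_eq, not_true_eq_false, if_false, h0, not_false_eq_true, if_true]
          simp only [Finset.sum_const, Finset.card_univ, nsmul_eq_mul, ← hq]
          rw [← Finset.mul_sum]
          congr 1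
          exact sum_lin h0 _ A₂
        simp only [e3, Finset.sum_const, Finset.card_univ, nsmul_eq_mul, ← hM]
        ring
      rw [Finset.sum_congr rfl e2, Finset.sum_const, nsmul_eq_mul, card_erase_C]
    · -- the case `s₄ = s₃ = 0`
      have hA1 : ∑ γ : Vpp Q x₀ x e f, (if γ.1 ≠ 0 then (if Q γ.1 = 0 then A₃ else 0) else 0) = (A - 1) * A₃ := by
        have h1 : A = ∑ γ : Vpp Q x₀ x e f, if Q γ.1 = 0 then (1 : ℂ) else 0 := by
          rw [hA, Finset.sum_boole]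
        rw [h1, ← Finset.add_sum_erase _ _ (Finset.mem_univ (⟨0, Submodule.zero_mem _⟩ : Vpp Q x₀ x e f))]
        rw [← Finset.add_sum_erase (a := (⟨0, Submodule.zero_mem _⟩ : Vpp Q x₀ x e f)) Finset.univ
          (fun γ : Vpp Q x₀ x e f => if Q γ.1 = 0 then (1 : ℂ) else 0) (Finset.mem_univ _)]
        simp only [ne_eq, not_true_eq_false, if_false, zero_add, map_zero, if_true, add_sub_cancel_left]
        rw [Finset.sum_mul]
        refine Finset.sum_congr rfl fun γ hγ => ?_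
        have h0 : γ.1 ≠ 0 := fun h => (Finset.ne_of_mem_erase hγ) (Subtype.ext h)
        rw [if_pos h0]
        split_ifs <;> simp
      have e3 : ∀ (γ : Vpp Q x₀ x e f), ∑ s₂ : F, ∑ s₁ : F, GG5 Q x₀ x e f A₁ A₂ A₃ A₄ A₅ s₁ 0 s₂ 0 γ =
          q ^ 2 * (if γ.1 ≠ 0 then (if Q γ.1 = 0 then A₃ else 0) else 0) +
            (if γ.1 ≠ 0 then 0 else q * ((q - 1) * A₄) + (q - 1) * A₅) := by
        intro γ
        by_cases h0 : γ.1 = 0
        · simp only [GG5, ne_eq, not_true_eq_false, if_false, h0]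
          simp only [zero_add, mul_zero, if_false, not_false_eq_true, if_true, Finset.sum_const, Finset.card_univ,
            nsmul_eq_mul, ← hq]
          have e5 : ∀ s₂ : F, (∑ s₁ : F, if ¬ s₂ = 0 then A₄ else if ¬ s₁ = 0 then A₅ else 0) =
              (if s₂ ≠ 0 then q * A₄ else 0) + (if s₂ = 0 then (q - 1) * A₅ else 0) := by
            intro s₂
            by_cases h2 : s₂ = 0
            · simp only [h2, not_true_eq_false, if_false, ne_eq, if_true, zero_add]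
              exact sum_ne_const A₅
            · simp [h2, ← hq]
          calc _ = ∑ s₂ : F, ((if s₂ ≠ 0 then q * A₄ else 0) + (if s₂ = 0 then (q - 1) * A₅ else 0)) :=
                Finset.sum_congr rfl fun s₂ _ => e5 s₂
            _ = _ := by
                rw [Finset.sum_add_distrib, sum_ne_const]
                simp
                ring
        · simp only [GG5, ne_eq, not_true_eq_false, if_false, h0, not_false_eq_true, if_true]
          simp only [Finset.sum_const, Finset.card_univ, nsmul_eq_mul, ← hq, add_zero]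
          ring
      simp only [e3]
      rw [Finset.sum_add_distrib, ← Finset.mul_sum, hA1,
        ← Finset.add_sum_erase (a := (⟨0, Submodule.zero_mem _⟩ : Vpp Q x₀ x e f)) Finset.univ
          (fun γ : Vpp Q x₀ x e f => if γ.1 ≠ 0 then 0 else q * ((q - 1) * A₄) + (q - 1) * A₅) (Finset.mem_univ _)]
      have e4 : ∑ γ ∈ Finset.univ.erase (⟨0, Submodule.zero_mem _⟩ : Vpp Q x₀ x e f),
          (if γ.1 ≠ 0 then (0 : ℂ) else q * ((q - 1) * A₄) + (q - 1) * A₅) = 0 := by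
        refine Finset.sum_eq_zero fun γ hγ => ?_
        have h0 : γ.1 ≠ 0 := fun h => (Finset.ne_of_mem_erase hγ) (Subtype.ext h)
        rw [if_pos h0]
      rw [e4]
      simp
      ring

/-- The coordinates of the zero vector. -/
theorem fv_eq_zero (hF : HF Q x₀ x e f) {s₁ s₄ s₂ s₃ : F} {γ : ι → F} (hγ : γ ∈ Vpp Q x₀ x e f)
    (h : fv x₀ x e f s₁ s₄ s₂ s₃ γ = 0) : s₁ = 0 ∧ s₄ = 0 ∧ s₂ = 0 ∧ s₃ = 0 ∧ γ = 0 := by
  have h1 := polar_x_fv hF s₁ s₄ s₂ s₃ hγ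
  have h2 := polar_x₀_fv hF s₁ s₄ s₂ s₃ hγ
  have h3 := polar_f_fv hF s₁ s₄ s₂ s₃ hγ
  have h4 := polar_e_fv hF s₁ s₄ s₂ s₃ hγ
  have h5 := projV_fv hF s₁ s₄ s₂ s₃ hγ
  rw [h] at h1 h2 h3 h4 h5
  simp only [polar, QuadraticMap.map_zero, add_zero, sub_self] at h1 h2 h3 h4
  refine ⟨h1.symm, h2.symm, h3.symm, h4.symm, ?_⟩
  rw [← h5]
  simp only [projV, polar, QuadraticMap.map_zero, add_zero, sub_self, zero_smul, sub_zero]

/-- The sum of a function over the singular vectors, by classes. -/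
theorem sum_S (hF : HF Q x₀ x e f) (h : (ι → F) → ℂ) (A₁ A₂ A₃ A₄ A₅ : ℂ)
    (h1 : ∀ v, Q v = 0 → 𝔣 x₀ v ≠ 0 → h v = A₁)
    (h2 : ∀ v, Q v = 0 → 𝔣 x₀ v = 0 → 𝔣 e v ≠ 0 → h v = A₂)
    (h3 : ∀ (s₁ s₂ : F) (γ : ι → F), γ ∈ Vpp Q x₀ x e f → Q γ = 0 → γ ≠ 0 → h (s₁ • x₀ + s₂ • e + γ) = A₃)
    (h4 : ∀ s₁ s₂ : F, s₂ ≠ 0 → h (s₁ • x₀ + s₂ • e) = A₄)
    (h5 : ∀ s₁ : F, s₁ ≠ 0 → h (s₁ • x₀) = A₅) :
    ∑ v : ι → F, (if Q v = 0 ∧ v ≠ 0 then h v else 0) =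
      ((Fintype.card F : ℂ) - 1) * ((Fintype.card F : ℂ) ^ 2 * (Fintype.card (Vpp Q x₀ x e f) : ℂ) * A₁) +
      (((Fintype.card F : ℂ) - 1) * ((Fintype.card F : ℂ) * (Fintype.card (Vpp Q x₀ x e f) : ℂ) * A₂) +
      ((Fintype.card F : ℂ) ^ 2 * (((AA Q x₀ x e f : ℕ) : ℂ) - 1) * A₃ +
        (Fintype.card F : ℂ) * (((Fintype.card F : ℂ) - 1) * A₄) + ((Fintype.card F : ℂ) - 1) * A₅)) := by
  rw [sum_frame hF, ← sum_GG5]
  refine Finset.sum_congr rfl fun s₁ _ => Finset.sum_congr rfl fun s₄ _ => Finset.sum_congr rfl fun s₂ _ =>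
    Finset.sum_congr rfl fun s₃ _ => Finset.sum_congr rfl fun γ _ => ?_
  have hQv := Q_fv hF s₁ s₄ s₂ s₃ γ.2
  have hzero := fun h => fv_eq_zero hF (s₁ := s₁) (s₄ := s₄) (s₂ := s₂) (s₃ := s₃) γ.2 h
  simp only [GG5]
  by_cases h40 : s₄ = 0
  · subst h40
    by_cases h30 : s₃ = 0
    · subst h30
      have hv : fv x₀ x e f s₁ 0 s₂ 0 γ.1 = s₁ • x₀ + s₂ • e + γ.1 := by
        simp [fv]
      have hQ' : Q (fv x₀ x e f s₁ 0 s₂ 0 γ.1) = Q γ.1 := by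
        rw [hQv]
        ring
      simp only [ne_eq, not_true_eq_false, if_false]
      by_cases hγ0 : γ.1 = 0
      · rw [hγ0] at hv hQ' ⊢
        simp only [not_true_eq_false, if_false]
        have hQ0' : Q (0 : ι → F) = 0 := QuadraticMap.map_zero _
        simp only [add_zero] at hv
        have hne : s₂ ≠ 0 ∨ s₁ ≠ 0 → fv x₀ x e f s₁ 0 s₂ 0 0 ≠ 0 := by
          intro h6 h7
          obtain ⟨h8, -, h9, -, -⟩ := fv_eq_zero hF (Submodule.zero_mem _) h7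
          rcases h6 with h6 | h6
          · exact h6 h9
          · exact h6 h8
        by_cases h20 : s₂ = 0
        · subst h20
          by_cases h10 : s₁ = 0
          · subst h10
            have : fv x₀ x e f (0 : F) 0 0 0 (0 : ι → F) = 0 := by simp [fv]
            rw [if_neg]
            · simp
            · intro h6
              exact h6.2 this
          · rw [if_pos ⟨by rw [hQ', hQ0'], hne (Or.inr h10)⟩, hv]
            simp only [zero_smul, add_zero, not_true_eq_false, if_false, not_false_eq_true, if_true, h10]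
            exact h5 s₁ h10
        · rw [if_pos ⟨by rw [hQ', hQ0'], hne (Or.inl h20)⟩, hv]
          simp only [not_false_eq_true, if_true, h20]
          exact h4 s₁ s₂ h20
      · simp only [hγ0, not_false_eq_true, if_true]
        by_cases hq0 : Q γ.1 = 0
        · rw [if_pos ⟨by rw [hQ', hq0], fun h7 => hγ0 (hzero h7).2.2.2.2⟩, if_pos hq0, hv]
          exact h3 s₁ s₂ γ.1 γ.2 hq0 hγ0
        · rw [if_neg (fun h7 => hq0 (by rw [← hQ']; exact h7.1)), if_neg hq0]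
    · simp only [ne_eq, not_true_eq_false, if_false, h30, not_false_eq_true, if_true]
      have hQ' : Q (fv x₀ x e f s₁ 0 s₂ s₃ γ.1) = s₂ * s₃ + Q γ.1 := by
        rw [hQv]
        ring
      by_cases hq0 : s₂ * s₃ + Q γ.1 = 0
      · rw [if_pos ⟨by rw [hQ', hq0], fun h7 => h30 (hzero h7).2.2.2.1⟩, if_pos hq0]
        exact h2 _ (by rw [hQ', hq0]) (polar_x₀_fv hF _ _ _ _ γ.2)
          (by rw [polar_e_fv hF _ _ _ _ γ.2]; exact h30)
      · rw [if_neg (fun h7 => hq0 (by rw [← hQ']; exact h7.1)), if_neg hq0]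
  · simp only [ne_eq, h40, not_false_eq_true, if_true]
    rw [hQv, add_assoc]
    by_cases hq0 : s₁ * s₄ + (s₂ * s₃ + Q γ.1) = 0
    · rw [if_pos ⟨hq0, fun h7 => h40 (hzero h7).2.1⟩, if_pos hq0]
      exact h1 _ (by rw [hQv, add_assoc, hq0]) (by rw [polar_x₀_fv hF _ _ _ _ γ.2]; exact h40)
    · rw [if_neg (fun h7 => hq0 h7.1), if_neg hq0]

/-- The weights in coordinates. -/
theorem sum_W (hF : HF Q x₀ x e f) : ∑ β : F, ∑ β' : F, ∑ γ : Vpp Q x₀ x e f,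
    (if β * β' + Q γ.1 = 0 then (1 : ℂ) else 0) =
      ((Fintype.card F : ℂ) - 1) * (Fintype.card (Vpp Q x₀ x e f) : ℂ) +
        (Fintype.card F : ℂ) * ((AA Q x₀ x e f : ℕ) : ℂ) := by
  rw [← Finset.add_sum_erase _ _ (Finset.mem_univ (0 : F)), add_comm]
  congr 1
  · have e1 : ∀ β ∈ Finset.univ.erase (0 : F), (∑ β' : F, ∑ γ : Vpp Q x₀ x e f,
        if β * β' + Q γ.1 = 0 then (1 : ℂ) else 0) = (Fintype.card (Vpp Q x₀ x e f) : ℂ) := by
      intro β hβ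
      have h0 : β ≠ 0 := Finset.ne_of_mem_erase hβ
      rw [Finset.sum_comm]
      have e2 : ∀ γ : Vpp Q x₀ x e f, (∑ β' : F, if β * β' + Q γ.1 = 0 then (1 : ℂ) else 0) = 1 := by
        intro γ
        simp only [mul_comm β]
        exact sum_lin h0 _ 1
      simp only [e2]
      simp
    rw [Finset.sum_congr rfl e1, Finset.sum_const, nsmul_eq_mul, card_erase_C]
  · simp only [zero_mul, zero_add]
    rw [Finset.sum_const, nsmul_eq_mul, Finset.card_univ, Finset.sum_boole]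

end Sums

section Schur

variable {ρ : Om Q →* Module.End ℂ U} {ψ : AddChar F ℂ}

variable (ρ ψ) in
/-- The sum of the zero weights over all singular vectors. -/
noncomputable def TT : Module.End ℂ U :=
  ∑ v : ι → F, if Q v = 0 ∧ v ≠ 0 then LL ρ ψ v 0 else 0

/-- `TT` commutes with the group. -/
theorem TT_comm (g : Om Q) : ρ g * TT ρ ψ = TT ρ ψ * ρ g := by
  have h1 : ρ g * TT ρ ψ * ρ g⁻¹ = TT ρ ψ := by
    unfold TT
    rw [Finset.mul_sum, Finset.sum_mul]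
    let E : (ι → F) ≃ (ι → F) := ⟨av g, av g⁻¹, av_inv_av g, av_av_inv g⟩
    refine Fintype.sum_equiv E _ _ fun v => ?_
    have hE : E v = av g v := rfl
    rw [hE, Q_av]
    have e2 : av g v ≠ 0 ↔ v ≠ 0 := by
      constructor
      · intro h h0
        apply h
        rw [h0, av_zero]
      · intro h h0
        apply h
        rw [← av_inv_av g v, h0, av_zero]
    by_cases hv : Q v = 0 ∧ v ≠ 0
    · rw [if_pos hv, if_pos ⟨hv.1, e2.2 hv.2⟩, LL_conj g hv.1, av_zero]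
    · rw [if_neg hv, if_neg (fun h => hv ⟨h.1, e2.1 h.2⟩)]
      simp
  calc ρ g * TT ρ ψ = ρ g * TT ρ ψ * (ρ g⁻¹ * ρ g) := by rw [rho_inv_mul', mul_one]
    _ = (ρ g * TT ρ ψ * ρ g⁻¹) * ρ g := by simp only [mul_assoc]
    _ = TT ρ ψ * ρ g := by rw [h1]

/-- The trace of a zero weight does not depend on the singular vector. -/
theorem tr_LL_singular {z v : ι → F} (hv : v ≠ 0) (hQv : Q v = 0) (hz : z ≠ 0) (hQz : Q z = 0) :
    tr (LL ρ ψ v 0) = tr (LL ρ ψ z 0) := by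
  obtain ⟨k, c, hc, hk⟩ := exists_to_line hz hQz hv hQv
  have h := LL_conj (ρ := ρ) (ψ := ψ) k hQz 0
  rw [av_zero, hk, LL_smul_zero hQv hc] at h
  rw [← h, tr_comm', ← mul_assoc, rho_inv_mul', one_mul]

end Schur

section Final

variable {ρ : Om Q →* Module.End ℂ U} {ψ : AddChar F ℂ} {μ : F} {u₀ u₀' y₀ : ι → F}
variable (H : MC ρ ψ x₀ x e f μ u₀ u₀' y₀)
include H

/-- The dimension in terms of `K`. -/
theorem dim_eq : (finrank ℂ U : ℂ) = ((Fintype.card F : ℂ) - 1) * (Fintype.card (Vpp Q x₀ x e f) : ℂ) +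
    (Fintype.card F : ℂ) * ((AA Q x₀ x e f : ℕ) : ℂ) + tr (LL ρ ψ x₀ 0) - 1 := by
  have hF := H.hF
  have h := frame_sum (ρ := ρ) (ψ := ψ) hF H.hψ
  have h2 := congrArg tr h
  rw [LinearMap.trace_one] at h2
  simp only [map_sum] at h2
  rw [← h2]
  have e0 : e + (0 : F) • f = e := by simp
  have hval : ∀ (β β' : F) (γ : Vpp Q x₀ x e f), tr (LL ρ ψ x₀ (β • e + β' • f + γ.1)) =
      (if β * β' + Q γ.1 = 0 then (1 : ℂ) else 0) +
        (if β = 0 then (if β' = 0 then (if γ = ⟨0, Submodule.zero_mem _⟩ then tr (LL ρ ψ x₀ 0) - 1 else 0) else 0) else 0) := by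
    intro β β' γ
    by_cases h0 : β = 0 ∧ β' = 0 ∧ γ = ⟨0, Submodule.zero_mem _⟩
    · obtain ⟨rfl, rfl, rfl⟩ := h0
      simp
    · have hne : β ≠ 0 ∨ β' ≠ 0 ∨ γ.1 ≠ 0 := by
        by_contra hc
        push Not at hc
        exact h0 ⟨hc.1, hc.2.1, Subtype.ext hc.2.2⟩
      have hzero : (if β = 0 then (if β' = 0 then (if γ = ⟨0, Submodule.zero_mem _⟩ then tr (LL ρ ψ x₀ 0) - 1 else 0) else 0) else (0 : ℂ)) = 0 := by
        split_ifs with h1 h2 h3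
        · exact absurd ⟨h1, h2, h3⟩ h0
        · rfl
        · rfl
        · rfl
      rw [hzero, add_zero]
      by_cases hq : β * β' + Q γ.1 = 0
      · rw [tr_wt hF H.hC β β' γ.2 hne, if_pos hq, hq, e0, H.htr]
      · rw [if_neg hq, H.hns _ (wv_x₀ hF _ _ γ.2) (by
          rw [wv_Q hF _ _ γ.2]
          exact hq), map_zero]
  simp only [hval, Finset.sum_add_distrib]
  rw [sum_W hF]
  rw [Finset.sum_eq_single (0 : F), Finset.sum_eq_single (0 : F),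
    Finset.sum_eq_single (⟨0, Submodule.zero_mem _⟩ : Vpp Q x₀ x e f)]
  · simp
    ring
  · intro γ _ hγ
    simp [hγ]
  · simp
  · intro β' _ hβ'
    simp [hβ']
  · simp
  · intro β _ hβ
    simp [hβ]
  · simp

/-- The sum of the weights at singular vectors, whose trace is to be compared via Schur's lemma. -/
theorem schur_eq {c : ℂ} (hT : TT ρ ψ = c • 1) :
    tr (LL ρ ψ x₀ 0) * (((Fintype.card F : ℂ) - 1) * ((Fintype.card F : ℂ) ^ 2 * (Fintype.card (Vpp Q x₀ x e f) : ℂ)) +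
      (((Fintype.card F : ℂ) - 1) * ((Fintype.card F : ℂ) * (Fintype.card (Vpp Q x₀ x e f) : ℂ)) +
      ((Fintype.card F : ℂ) ^ 2 * (((AA Q x₀ x e f : ℕ) : ℂ) - 1) +
        (Fintype.card F : ℂ) * ((Fintype.card F : ℂ) - 1) + ((Fintype.card F : ℂ) - 1)))) =
    (((Fintype.card F : ℂ) - 1) * ((Fintype.card F : ℂ) ^ 2 * (Fintype.card (Vpp Q x₀ x e f) : ℂ) *
        tr (LL ρ ψ x 0 * LL ρ ψ x₀ e)) +
      ((Fintype.card F : ℂ) ^ 2 * (((AA Q x₀ x e f : ℕ) : ℂ) - 1) * (Fintype.card F : ℂ)⁻¹ +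
        (Fintype.card F : ℂ) * (((Fintype.card F : ℂ) - 1) * tr (Flo (ρ.comp (sg H.hF.swap)) * LL ρ ψ x₀ e)))) *
      (finrank ℂ U : ℂ) := by
  have hF := H.hF
  have hx₀0 : x₀ ≠ 0 := by
    intro h
    have := hF.aa'
    rw [h] at this
    simp [polar] at this
  have hv0 : ∀ (s₁ s₄ s₂ s₃ : F) {γ : ι → F}, γ ∈ Vpp Q x₀ x e f → (s₁ ≠ 0 ∨ s₄ ≠ 0 ∨ s₂ ≠ 0 ∨ s₃ ≠ 0 ∨ γ ≠ 0) →
      fv x₀ x e f s₁ s₄ s₂ s₃ γ ≠ 0 := by
    intro s₁ s₄ s₂ s₃ γ hγ h h0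
    obtain ⟨h1, h2, h3, h4, h5⟩ := fv_eq_zero hF hγ h0
    rcases h with h | h | h | h | h
    exacts [h h1, h h2, h h3, h h4, h h5]
  have hvec : ∀ (s₁ s₂ : F) (γ : ι → F), s₁ • x₀ + s₂ • e + γ = fv x₀ x e f s₁ 0 s₂ 0 γ := by
    intro s₁ s₂ γ
    simp [fv]
  -- the total trace
  have h1 : tr (TT ρ ψ) = (finrank ℂ U : ℂ) * c := by
    rw [hT, map_smul, LinearMap.trace_one, smul_eq_mul, mul_comm]
  have h2 : tr (TT ρ ψ) = tr (LL ρ ψ x₀ 0) * (((Fintype.card F : ℂ) - 1) * ((Fintype.card F : ℂ) ^ 2 * (Fintype.card (Vpp Q x₀ x e f) : ℂ)) +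
      (((Fintype.card F : ℂ) - 1) * ((Fintype.card F : ℂ) * (Fintype.card (Vpp Q x₀ x e f) : ℂ)) +
      ((Fintype.card F : ℂ) ^ 2 * (((AA Q x₀ x e f : ℕ) : ℂ) - 1) +
        (Fintype.card F : ℂ) * ((Fintype.card F : ℂ) - 1) + ((Fintype.card F : ℂ) - 1)))) := by
    rw [TT, map_sum]
    have e1 : ∀ v : ι → F, tr (if Q v = 0 ∧ v ≠ 0 then LL ρ ψ v 0 else 0) =
        if Q v = 0 ∧ v ≠ 0 then tr (LL ρ ψ x₀ 0) else 0 := by
      intro v
      by_cases hv : Q v = 0 ∧ v ≠ 0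
      · rw [if_pos hv, if_pos hv]
        exact tr_LL_singular hv.2 hv.1 hx₀0 hF.Qa
      · rw [if_neg hv, if_neg hv, map_zero]
    simp only [e1]
    rw [sum_S hF (fun _ => tr (LL ρ ψ x₀ 0)) _ _ _ _ _ (fun _ _ _ => rfl) (fun _ _ _ _ => rfl)
      (fun _ _ _ _ _ _ => rfl) (fun _ _ _ => rfl) (fun _ _ => rfl)]
    ring
  -- the trace with `P`
  have h3 : tr (TT ρ ψ * LL ρ ψ x₀ e) = c := by
    rw [hT, smul_mul_assoc, one_mul, map_smul, H.htr, smul_eq_mul, mul_one]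
  have h4 : tr (TT ρ ψ * LL ρ ψ x₀ e) = ((Fintype.card F : ℂ) - 1) * ((Fintype.card F : ℂ) ^ 2 * (Fintype.card (Vpp Q x₀ x e f) : ℂ) *
        tr (LL ρ ψ x 0 * LL ρ ψ x₀ e)) +
      ((Fintype.card F : ℂ) ^ 2 * (((AA Q x₀ x e f : ℕ) : ℂ) - 1) * (Fintype.card F : ℂ)⁻¹ +
        (Fintype.card F : ℂ) * (((Fintype.card F : ℂ) - 1) * tr (Flo (ρ.comp (sg H.hF.swap)) * LL ρ ψ x₀ e))) := by
    rw [TT, Finset.sum_mul, map_sum]
    have e1 : ∀ v : ι → F, tr ((if Q v = 0 ∧ v ≠ 0 then LL ρ ψ v 0 else 0) * LL ρ ψ x₀ e) =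
        if Q v = 0 ∧ v ≠ 0 then tr (LL ρ ψ v 0 * LL ρ ψ x₀ e) else 0 := by
      intro v
      by_cases hv : Q v = 0 ∧ v ≠ 0
      · rw [if_pos hv, if_pos hv]
      · rw [if_neg hv, if_neg hv, zero_mul, map_zero]
    simp only [e1]
    rw [sum_S hF (fun v => tr (LL ρ ψ v 0 * LL ρ ψ x₀ e)) (tr (LL ρ ψ x 0 * LL ρ ψ x₀ e)) 0
      (Fintype.card F : ℂ)⁻¹ (tr (Flo (ρ.comp (sg H.hF.swap)) * LL ρ ψ x₀ e)) 0
      (fun v hQ h => aa_of_x₀ H hQ h) (fun v hQ h0 he => aa_zero_of_e H hQ h0 he)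
      (fun s₁ s₂ γ hγ hQ h0 => by
        show tr (LL ρ ψ (s₁ • x₀ + s₂ • e + γ) 0 * LL ρ ψ x₀ e) = _
        rw [aa_s_γ H s₁ s₂ hγ hQ h0, aa_u H hγ hQ h0])
      (fun s₁ s₂ hs => by
        show tr (LL ρ ψ (s₁ • x₀ + s₂ • e) 0 * LL ρ ψ x₀ e) = _
        rw [aa_s_e H s₁ hs, aa_e H])
      (fun s₁ hs => aa_x₀ H hs)]
    ring
  rw [← h2, h1, ← h3, h4]
  ring

/-- Type I: the dimension. -/
theorem dim_typeI (hχ : ∀ t : F, t ≠ 0 → chi ρ ψ H.hF t = 1) {c : ℂ} (hT : TT ρ ψ = c • 1) :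
    ∃ α : ℂ, α ^ 2 * (Fintype.card (Vpp Q x₀ x e f) : ℂ) = 1 ∧
      (Fintype.card F : ℂ) * (AA Q x₀ x e f : ℂ) = (Fintype.card (Vpp Q x₀ x e f) : ℂ) *
        (1 + ((Fintype.card F : ℂ) - 1) * α) ∧
      (finrank ℂ U : ℂ) * ((Fintype.card F : ℂ) ^ 2 - 1) * ((Fintype.card F : ℂ) ^ 2 * (Fintype.card (Vpp Q x₀ x e f) : ℂ) - 1) =
        (Fintype.card F : ℂ) * (((Fintype.card F : ℂ) ^ 2 - 1) * (Fintype.card F : ℂ) * (Fintype.card (Vpp Q x₀ x e f) : ℂ) +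
          (Fintype.card F : ℂ) ^ 2 * (AA Q x₀ x e f : ℂ) - 1) *
        (((Fintype.card F : ℂ) - 1) * (Fintype.card (Vpp Q x₀ x e f) : ℂ) + (Fintype.card F : ℂ) * (AA Q x₀ x e f : ℂ) - 1) := by
  obtain ⟨h1, h2, h3, h4⟩ := values_typeI H hχ
  refine ⟨ff ρ ψ x₀ e (sg H.hF wM), h1, h2, ?_⟩
  have hd := dim_eq H
  have hs := schur_eq H hT
  rw [h3, h4] at hs
  set α := ff ρ ψ x₀ e (sg H.hF wM) with hα
  set q := (Fintype.card F : ℂ) with hq
  set M := (Fintype.card (Vpp Q x₀ x e f) : ℂ) with hM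
  set A := ((AA Q x₀ x e f : ℕ) : ℂ) with hA
  set D := (finrank ℂ U : ℂ) with hD
  set K := tr (LL ρ ψ x₀ 0) with hK
  have hq0 : q ≠ 0 := card_ne
  have hK' : K = D - ((q - 1) * M + q * A - 1) := by rw [hd]; ring
  have e1 : (q - 1) * (q ^ 2 * M * ((q⁻¹) ^ 2 * (1 + (q - 1) * α + α ^ 2))) = (q - 1) * (q * A + 1) := by
    have : q ^ 2 * M * ((q⁻¹) ^ 2 * (1 + (q - 1) * α + α ^ 2)) = M * (1 + (q - 1) * α + α ^ 2) := by
      field_simp
    rw [this]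
    linear_combination (q - 1) * h1 - (q - 1) * h2
  have e2 : q ^ 2 * (A - 1) * q⁻¹ = q * (A - 1) := by
    field_simp
  have e3 : q * ((q - 1) * ((q⁻¹) ^ 2 * (q + 1))) = (q - 1) * (q + 1) * q⁻¹ := by
    field_simp
  rw [e1, e2, e3, hK'] at hs
  have hi : q * q⁻¹ = 1 := mul_inv_cancel₀ hq0
  linear_combination q * hs + ((q - 1) * (q + 1) * D) * hi

/-- Type II: the dimension. -/
theorem dim_typeII {t : F} (ht : t ≠ 0) (hχ : chi ρ ψ H.hF t ≠ 1) {c : ℂ} (hT : TT ρ ψ = c • 1) :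
    (Fintype.card (Vpp Q x₀ x e f) : ℂ) = (Fintype.card F : ℂ) * (AA Q x₀ x e f : ℂ) ∧
      (finrank ℂ U : ℂ) * ((Fintype.card F : ℂ) ^ 2 - 1) =
        (Fintype.card F : ℂ) ^ 3 * (Fintype.card (Vpp Q x₀ x e f) : ℂ) - 1 := by
  obtain ⟨h1, h2, h3⟩ := values_typeII H ht hχ
  refine ⟨h1, ?_⟩
  have hd := dim_eq H
  have hs := schur_eq H hT
  rw [h2, h3] at hs
  have hne : (Fintype.card F : ℂ) * (Fintype.card (Vpp Q x₀ x e f) : ℂ) - 1 ≠ 0 := by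
    intro h
    have h5 : ((Fintype.card F * Fintype.card (Vpp Q x₀ x e f) : ℕ) : ℂ) = ((1 : ℕ) : ℂ) := by
      push_cast
      linear_combination h
    have h6 := Nat.cast_injective h5
    have h7 : 2 ≤ Fintype.card F := Fintype.one_lt_card
    have h8 : 0 < Fintype.card (Vpp Q x₀ x e f) := Fintype.card_pos
    nlinarith
  set q := (Fintype.card F : ℂ) with hq
  set M := (Fintype.card (Vpp Q x₀ x e f) : ℂ) with hM
  set A := ((AA Q x₀ x e f : ℕ) : ℂ) with hA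
  set D := (finrank ℂ U : ℂ) with hD
  set K := tr (LL ρ ψ x₀ 0) with hK
  have hq0 : q ≠ 0 := card_ne
  have hM0 : M ≠ 0 := by
    rw [hM]
    exact_mod_cast Fintype.card_ne_zero
  have hK' : K = D - ((q - 1) * M + q * A - 1) := by rw [hd]; ring
  have e1 : (q - 1) * (q ^ 2 * M * ((q⁻¹) ^ 2 * (1 + q * M⁻¹))) = (q - 1) * (M + q) := by
    field_simp
  have e2 : q ^ 2 * (A - 1) * q⁻¹ = M - q := by
    rw [h1]
    field_simp
  have e3 : q * ((q - 1) * (2 * q⁻¹)) = 2 * (q - 1) := by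
    field_simp
  rw [e1, e2, e3, hK'] at hs
  apply mul_left_cancel₀ hne
  linear_combination hs - ((q ^ 3 * M - 1) - q * (D - q * M + 1) - q * (M - q * A)) * h1

end Final

section Abstract

variable {ρ : Om Q →* Module.End ℂ U} {ψ : AddChar F ℂ} {μ : F} {u₀ u₀' y₀ : ι → F}

/-- The abstract main theorem. -/
theorem main_alt (hF : HF Q x₀ x e f) (hC : Cplx Q x₀ x e f u₀ u₀' y₀) (hψ : ψ 1 ≠ 1) (hμ0 : μ ≠ 0)
    (hμ : μ * μ ≠ 1) (hne : ∃ g, ρ g ≠ 1)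
    (hSchur : ∀ T : Module.End ℂ U, (∀ g, ρ g * T = T * ρ g) → ∃ c : ℂ, T = c • 1) :
    2 * ((Fintype.card F - 1) * Fintype.card (Vpp Q x₀ x e f)) ≤ finrank ℂ U ∨
    (∃ α : ℂ, α ^ 2 * (Fintype.card (Vpp Q x₀ x e f) : ℂ) = 1 ∧
      (Fintype.card F : ℂ) * (AA Q x₀ x e f : ℂ) = (Fintype.card (Vpp Q x₀ x e f) : ℂ) *
        (1 + ((Fintype.card F : ℂ) - 1) * α) ∧
      (finrank ℂ U : ℂ) * ((Fintype.card F : ℂ) ^ 2 - 1) * ((Fintype.card F : ℂ) ^ 2 * (Fintype.card (Vpp Q x₀ x e f) : ℂ) - 1) =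
        (Fintype.card F : ℂ) * (((Fintype.card F : ℂ) ^ 2 - 1) * (Fintype.card F : ℂ) * (Fintype.card (Vpp Q x₀ x e f) : ℂ) +
          (Fintype.card F : ℂ) ^ 2 * (AA Q x₀ x e f : ℂ) - 1) *
        (((Fintype.card F : ℂ) - 1) * (Fintype.card (Vpp Q x₀ x e f) : ℂ) + (Fintype.card F : ℂ) * (AA Q x₀ x e f : ℂ) - 1)) ∨
    ((Fintype.card (Vpp Q x₀ x e f) : ℂ) = (Fintype.card F : ℂ) * (AA Q x₀ x e f : ℂ) ∧
      (finrank ℂ U : ℂ) * ((Fintype.card F : ℂ) ^ 2 - 1) =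
        (Fintype.card F : ℂ) ^ 3 * (Fintype.card (Vpp Q x₀ x e f) : ℂ) - 1) := by
  by_cases hlt : 2 * ((Fintype.card F - 1) * Fintype.card (Vpp Q x₀ x e f)) ≤ finrank ℂ U
  · exact Or.inl hlt
  right
  have H : MC ρ ψ x₀ x e f μ u₀ u₀' y₀ := reduce_main hF hC hψ hμ0 hμ hne (not_le.mp hlt)
  obtain ⟨c, hc⟩ := hSchur (TT ρ ψ) TT_comm
  by_cases hχ : ∀ t : F, t ≠ 0 → chi ρ ψ H.hF t = 1
  · exact Or.inl (dim_typeI H hχ hc)
  · push Not at hχ
    obtain ⟨t, ht, hχ⟩ := hχ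
    exact Or.inr (dim_typeII H ht hχ hc)

end Abstract

end Cfsg.Agent.Lib.MinDeg.Omega
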