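import Cfsg.Agent.Lib.MinDeg.Omega.SmallMain
import Cfsg.Agent.Lib.Classical.Orth.Models
import Cfsg.Agent.Lib.Linalg.OrthModels

/-!
# The minus-type model: frames, small fields and counting
-/

set_option autoImplicit false
set_option linter.unusedSectionVars false
set_option linter.unusedSimpArgs false
set_option linter.unusedVariables false

namespace Cfsg.Agent.Lib.MinDeg.Omega.MinusM

open Matrix QuadraticMap Module
open Cfsg.Agent.Lib.MinDeg.Omega
open Cfsg.Agent.Lib.Classical.Orth.Basic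
open Cfsg.Agent.Lib.Classical.Orth.Models
open Cfsg.Agent.Lib.Linalg.OrthModels
open Cfsg

universe u v

section SmallField

variable {F : Type u} [Field F] [Fintype F] [DecidableEq F]

/-- The field is prime for at most three elements. -/
theorem card_cases (h3 : ¬3 < Fintype.card F) : Fintype.card F = 2 ∨ Fintype.card F = 3 := by
  have := Fintype.one_lt_card (α := F)
  omega

set_option maxRecDepth 100000 in
theorem zmod3_count : ∀ a b c : ZMod 3, (∀ z₁ z₂ : ZMod 3, z₁ ^ 2 + a * z₁ * z₂ + b * z₂ ^ 2 = 0 → z₁ = 0 ∧ z₂ = 0) →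
    c ≠ 0 → (∑ z₁ : ZMod 3, ∑ z₂ : ZMod 3, (if z₁ ^ 2 + a * z₁ * z₂ + b * z₂ ^ 2 = c then 1 else 0 : ℕ)) = 4 := by
  decide

set_option maxRecDepth 100000 in
theorem zmod2_count : ∀ a b c : ZMod 2, (∀ z₁ z₂ : ZMod 2, z₁ ^ 2 + a * z₁ * z₂ + b * z₂ ^ 2 = 0 → z₁ = 0 ∧ z₂ = 0) →
    c ≠ 0 → (∑ z₁ : ZMod 2, ∑ z₂ : ZMod 2, (if z₁ ^ 2 + a * z₁ * z₂ + b * z₂ ^ 2 = c then 1 else 0 : ℕ)) = 3 := by
  decide

set_option maxRecDepth 100000 in
theorem zmod3_disc : ∀ a b : ZMod 3, (∀ z₁ z₂ : ZMod 3, z₁ ^ 2 + a * z₁ * z₂ + b * z₂ ^ 2 = 0 → z₁ = 0 ∧ z₂ = 0) →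
    b - a ^ 2 = 1 := by
  decide

set_option maxRecDepth 100000 in
theorem zmod2_disc : ∀ a b : ZMod 2, (∀ z₁ z₂ : ZMod 2, z₁ ^ 2 + a * z₁ * z₂ + b * z₂ ^ 2 = 0 → z₁ = 0 ∧ z₂ = 0) →
    a = 1 ∧ b = 1 := by
  decide

/-- Transfer of anisotropy along a ring isomorphism. -/
theorem aniso_transfer {p : ℕ} (φ : ZMod p ≃+* F) {a b : F}
    (hab : ∀ z₁ z₂ : F, z₁ ^ 2 + a * z₁ * z₂ + b * z₂ ^ 2 = 0 → z₁ = 0 ∧ z₂ = 0) :
    ∀ z₁ z₂ : ZMod p, z₁ ^ 2 + φ.symm a * z₁ * z₂ + φ.symm b * z₂ ^ 2 = 0 → z₁ = 0 ∧ z₂ = 0 := by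
  intro z₁ z₂ h
  have h1 := congrArg φ h
  simp only [map_add, map_mul, map_pow, RingEquiv.apply_symm_apply, map_zero] at h1
  obtain ⟨h2, h3⟩ := hab _ _ h1
  exact ⟨by simpa using h2, by simpa using h3⟩

theorem count_transfer {p : ℕ} [NeZero p] (φ : ZMod p ≃+* F) (a b c : F) :
    (∑ z₁ : F, ∑ z₂ : F, (if z₁ ^ 2 + a * z₁ * z₂ + b * z₂ ^ 2 = c then 1 else 0 : ℕ)) =
      ∑ z₁ : ZMod p, ∑ z₂ : ZMod p, (if z₁ ^ 2 + φ.symm a * z₁ * z₂ + φ.symm b * z₂ ^ 2 = φ.symm c then 1 else 0 : ℕ) := by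
  rw [← Equiv.sum_comp φ.toEquiv]
  refine Finset.sum_congr rfl fun z₁ _ => ?_
  rw [← Equiv.sum_comp φ.toEquiv]
  refine Finset.sum_congr rfl fun z₂ _ => ?_
  have e : ((φ.toEquiv z₁) ^ 2 + a * (φ.toEquiv z₁) * (φ.toEquiv z₂) + b * (φ.toEquiv z₂) ^ 2 = c) ↔
      (z₁ ^ 2 + φ.symm a * z₁ * z₂ + φ.symm b * z₂ ^ 2 = φ.symm c) := by
    rw [← φ.injective.eq_iff (a := z₁ ^ 2 + φ.symm a * z₁ * z₂ + φ.symm b * z₂ ^ 2)]
    simp
  simp only [e]

/-- The number of solutions of `B(z₁, z₂) = c`. -/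
theorem binary_count (h3 : ¬3 < Fintype.card F) {a b c : F}
    (hab : ∀ z₁ z₂ : F, z₁ ^ 2 + a * z₁ * z₂ + b * z₂ ^ 2 = 0 → z₁ = 0 ∧ z₂ = 0) (hc : c ≠ 0) :
    (∑ z₁ : F, ∑ z₂ : F, (if z₁ ^ 2 + a * z₁ * z₂ + b * z₂ ^ 2 = c then 1 else 0 : ℕ)) = Fintype.card F + 1 := by
  rcases card_cases h3 with h | h
  · have φ := ZMod.ringEquivOfPrime F Nat.prime_two h
    rw [count_transfer φ, h]
    exact zmod2_count _ _ _ (aniso_transfer φ hab) (by simpa using hc)
  · have φ := ZMod.ringEquivOfPrime F Nat.prime_three h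
    rw [count_transfer φ, h]
    exact zmod3_count _ _ _ (aniso_transfer φ hab) (by simpa using hc)

/-- The values of `a`, `b` in the field with two elements. -/
theorem disc_two (h : Fintype.card F = 2) {a b : F}
    (hab : ∀ z₁ z₂ : F, z₁ ^ 2 + a * z₁ * z₂ + b * z₂ ^ 2 = 0 → z₁ = 0 ∧ z₂ = 0) : a = 1 ∧ b = 1 := by
  have φ := ZMod.ringEquivOfPrime F Nat.prime_two h
  obtain ⟨h1, h2⟩ := zmod2_disc _ _ (aniso_transfer φ hab)
  constructor
  · simpa using congrArg φ h1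
  · simpa using congrArg φ h2

/-- The discriminant in the field with three elements. -/
theorem disc_three (h : Fintype.card F = 3) {a b : F}
    (hab : ∀ z₁ z₂ : F, z₁ ^ 2 + a * z₁ * z₂ + b * z₂ ^ 2 = 0 → z₁ = 0 ∧ z₂ = 0) : b - a ^ 2 = 1 := by
  have φ := ZMod.ringEquivOfPrime F Nat.prime_three h
  have h1 := zmod3_disc _ _ (aniso_transfer φ hab)
  simpa using congrArg φ h1

theorem two_eq_zero_of (h : Fintype.card F = 2) : (2 : F) = 0 := by
  have := FiniteField.cast_card_eq_zero F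
  rw [h] at this
  exact_mod_cast this

theorem three_eq_zero_of (h : Fintype.card F = 3) : (3 : F) = 0 := by
  have := FiniteField.cast_card_eq_zero F
  rw [h] at this
  exact_mod_cast this

theorem two_ne_zero_of (h : Fintype.card F = 3) : (2 : F) ≠ 0 := by
  intro h2
  have h3 := three_eq_zero_of h
  have h4 : (1 : F) = 0 := by linear_combination h3 - h2
  exact one_ne_zero h4

theorem elt_cases_two (h : Fintype.card F = 2) (c : F) : c = 0 ∨ c = 1 := by
  have h1 := FiniteField.pow_card c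
  rw [h] at h1
  have h2 : c * (c - 1) = 0 := by linear_combination h1
  rcases mul_eq_zero.1 h2 with h3 | h3
  · exact Or.inl h3
  · exact Or.inr (by linear_combination h3)

theorem elt_cases_three (h : Fintype.card F = 3) (c : F) : c = 0 ∨ c = 1 ∨ c = -1 := by
  have h1 := FiniteField.pow_card c
  rw [h] at h1
  have h2 : c * ((c - 1) * (c + 1)) = 0 := by linear_combination h1
  rcases mul_eq_zero.1 h2 with h3 | h3
  · exact Or.inl h3
  · rcases mul_eq_zero.1 h3 with h4 | h4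
    · exact Or.inr (Or.inl (by linear_combination h4))
    · exact Or.inr (Or.inr (by linear_combination h4))

end SmallField

section Count

variable {F : Type u} [Field F] [Fintype F] [DecidableEq F]

/-- The binary form on the base of the recursion. -/
def baseE (F : Type u) [Field F] : (F × F) ≃ ((Fin 0 ⊕ Fin 0) ⊕ Fin 2 → F) where
  toFun p := fun i => match i with
    | .inl (.inl j) => j.elim0
    | .inl (.inr j) => j.elim0
    | .inr z => if z = 0 then p.1 else p.2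
  invFun v := (v (.inr 0), v (.inr 1))
  left_inv p := by simp
  right_inv v := by
    funext i
    rcases i with (j | j) | i
    · exact j.elim0
    · exact j.elim0
    · fin_cases i <;> simp

theorem ZZ_base (a b c : F) : ZZ (fun v => quadFormMinus 0 F a b v - c) =
    (((∑ z₁ : F, ∑ z₂ : F, (if z₁ ^ 2 + a * z₁ * z₂ + b * z₂ ^ 2 = c then 1 else 0 : ℕ)) : ℕ) : ℂ) := by
  rw [← ZZ_equiv (baseE F)]
  unfold ZZ
  rw [Fintype.sum_prod_type]
  push_cast
  refine Finset.sum_congr rfl fun z₁ _ => Finset.sum_congr rfl fun z₂ _ => ?_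
  have e : quadFormMinus 0 F a b (baseE F (z₁, z₂)) = z₁ ^ 2 + a * z₁ * z₂ + b * z₂ ^ 2 := by
    simp [quadFormMinus, baseE]
  simp only [e, sub_eq_zero]

theorem ZZ_minus_c_succ (m : ℕ) (a b c : F) : ZZ (fun v => quadFormMinus (m + 1) F a b v - c) =
    ((Fintype.card F : ℂ) - 1) * (Fintype.card F : ℂ) ^ (2 * m + 2) +
      (Fintype.card F : ℂ) * ZZ (fun v => quadFormMinus m F a b v - c) := by
  rw [← ZZ_equiv (consMinusF F m).toEquiv]
  have e1 : (fun t => quadFormMinus (m + 1) F a b ((consMinusF F m).toEquiv t) - c) =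
      fun t : F × F × ((Fin m ⊕ Fin m) ⊕ Fin 2 → F) => t.1 * t.2.1 + (quadFormMinus m F a b t.2.2 - c) := by
    funext t
    have := quadFormMinus_consMinusF m a b t
    change quadFormMinus (m + 1) F a b (consMinusF F m t) - c = _
    rw [this]
    ring
  rw [e1, ZZ_cons (fun v : (Fin m ⊕ Fin m) ⊕ Fin 2 → F => quadFormMinus m F a b v - c)]
  congr 2
  simp [Fintype.card_fun, two_mul]

/-- The number of vectors of a nonzero norm. -/
theorem ZZ_minus_c (h3 : ¬3 < Fintype.card F) {a b c : F}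
    (hab : ∀ z₁ z₂ : F, z₁ ^ 2 + a * z₁ * z₂ + b * z₂ ^ 2 = 0 → z₁ = 0 ∧ z₂ = 0) (hc : c ≠ 0) (m : ℕ) :
    ZZ (fun v => quadFormMinus m F a b v - c) =
      (Fintype.card F : ℂ) ^ (2 * m + 1) + (Fintype.card F : ℂ) ^ m := by
  induction m with
  | zero =>
    rw [ZZ_base, binary_count h3 hab hc]
    push_cast
    ring
  | succ m ih =>
    rw [ZZ_minus_c_succ, ih]
    ring

end Count

section Frame

variable {F : Type u} [Field F]

/-- Standard basis vectors. -/
abbrev ep {m : ℕ} (j : Fin m) : (Fin m ⊕ Fin m) ⊕ Fin 2 → F := Pi.single (Sum.inl (Sum.inl j)) 1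

/-- Standard basis vectors. -/
abbrev fp {m : ℕ} (j : Fin m) : (Fin m ⊕ Fin m) ⊕ Fin 2 → F := Pi.single (Sum.inl (Sum.inr j)) 1

/-- Standard basis vectors of the anisotropic plane. -/
abbrev zz0 {m : ℕ} : (Fin m ⊕ Fin m) ⊕ Fin 2 → F := Pi.single (Sum.inr 0) 1

/-- Standard basis vectors of the anisotropic plane. -/
abbrev zz1 {m : ℕ} : (Fin m ⊕ Fin m) ⊕ Fin 2 → F := Pi.single (Sum.inr 1) 1

variable {m : ℕ} {a b : F}

theorem Q_ep (j : Fin m) : minusQ m F a b (ep j) = 0 := by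
  rw [minusQ_apply]
  simp [quadFormMinus, ep, Pi.single_apply]

theorem Q_fp (j : Fin m) : minusQ m F a b (fp j) = 0 := by
  rw [minusQ_apply]
  simp [quadFormMinus, fp, Pi.single_apply]

theorem Q_zz0 : minusQ m F a b zz0 = 1 := by
  rw [minusQ_apply]
  simp [quadFormMinus, zz0, Pi.single_apply]

theorem Q_zz1 : minusQ m F a b zz1 = b := by
  rw [minusQ_apply]
  simp [quadFormMinus, zz1, Pi.single_apply]

theorem pol_ep (j : Fin m) (v : (Fin m ⊕ Fin m) ⊕ Fin 2 → F) :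
    polar (⇑(minusQ m F a b)) (ep j) v = v (Sum.inl (Sum.inr j)) :=
  polar_minus_single_inl m a b j v

theorem pol_fp (j : Fin m) (v : (Fin m ⊕ Fin m) ⊕ Fin 2 → F) :
    polar (⇑(minusQ m F a b)) (fp j) v = v (Sum.inl (Sum.inl j)) :=
  polar_minus_single_inr m a b j v

theorem pol_zz0 (v : (Fin m ⊕ Fin m) ⊕ Fin 2 → F) :
    polar (⇑(minusQ m F a b)) zz0 v = 2 * v (Sum.inr 0) + a * v (Sum.inr 1) :=
  polar_minus_single_z0 m a b v

theorem pol_zz1 (v : (Fin m ⊕ Fin m) ⊕ Fin 2 → F) :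
    polar (⇑(minusQ m F a b)) zz1 v = a * v (Sum.inr 0) + 2 * b * v (Sum.inr 1) :=
  polar_minus_single_z1 m a b v

theorem hf {i j : Fin m} (h : i ≠ j) : HF (minusQ m F a b) (ep i) (fp i) (ep j) (fp j) where
  Qa := Q_ep i
  Qa' := Q_fp i
  Qb := Q_ep j
  Qb' := Q_fp j
  aa' := by rw [pol_ep]; simp
  bb' := by rw [pol_ep]; simp
  ab := by rw [pol_ep]; simp
  ab' := by rw [pol_ep]; simp [h, Pi.single_apply]
  a'b := by rw [pol_fp]; simp [h, Pi.single_apply]
  a'b' := by rw [pol_fp]; simp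

theorem ctx [Fintype F] (hm : 2 ≤ m)
    (hab : ∀ z₁ z₂ : F, z₁ ^ 2 + a * z₁ * z₂ + b * z₂ ^ 2 = 0 → z₁ = 0 ∧ z₂ = 0) : OmCtx (minusQ m F a b) where
  hQ := by
    have : minusQ m F a b = minusForm m F a b := DFunLike.coe_injective (by rw [coe_minusQ, coe_minusForm])
    rw [this]
    exact minusForm_nondegenerate m a b hab
  hn := by
    simp
    omega

variable [Fintype F] [DecidableEq F] [OmCtx (minusQ m F a b)]

theorem mem_VppM {i j : Fin m} {v : (Fin m ⊕ Fin m) ⊕ Fin 2 → F} :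
    v ∈ Vpp (minusQ m F a b) (ep i) (fp i) (ep j) (fp j) ↔
      v (Sum.inl (Sum.inr i)) = 0 ∧ v (Sum.inl (Sum.inl i)) = 0 ∧ v (Sum.inl (Sum.inr j)) = 0 ∧ v (Sum.inl (Sum.inl j)) = 0 := by
  rw [mem_Vpp, pol_ep, pol_fp, pol_ep, pol_fp]

theorem hc {i j k : Fin m} (hij : i ≠ j) (hik : i ≠ k) (hjk : j ≠ k) :
    Cplx (minusQ m F a b) (ep i) (fp i) (ep j) (fp j) (ep k) (fp k) zz0 where
  hu := by
    rw [mem_VppM]
    simp [hik, hjk, Pi.single_apply]
  hu' := by
    rw [mem_VppM]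
    simp [hik, hjk, Pi.single_apply]
  hy := by
    rw [mem_VppM]
    simp [Pi.single_apply]
  Qu := Q_ep k
  Qu' := Q_fp k
  uu' := by rw [pol_ep]; simp
  uy := by rw [pol_ep]; simp
  u'y := by rw [pol_fp]; simp
  Qy := by rw [Q_zz0]; exact one_ne_zero

/-- Membership in `Y₀`. -/
theorem mem_Y0M {i j k : Fin m} {v : (Fin m ⊕ Fin m) ⊕ Fin 2 → F} :
    v ∈ Y0 (minusQ m F a b) (ep i) (fp i) (ep j) (fp j) (ep k) (fp k) ↔
      v (Sum.inl (Sum.inr i)) = 0 ∧ v (Sum.inl (Sum.inl i)) = 0 ∧ v (Sum.inl (Sum.inr j)) = 0 ∧ v (Sum.inl (Sum.inl j)) = 0 ∧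
        v (Sum.inl (Sum.inr k)) = 0 ∧ v (Sum.inl (Sum.inl k)) = 0 := by
  constructor
  · intro h
    obtain ⟨h1, h2⟩ := Submodule.mem_inf.1 h
    rw [mem_VppM] at h1 h2
    exact ⟨h2.1, h2.2.1, h2.2.2.1, h2.2.2.2, h1.2.2.1, h1.2.2.2⟩
  · rintro ⟨h1, h2, h3, h4, h5, h6⟩
    exact Submodule.mem_inf.2 ⟨mem_VppM.2 ⟨h1, h2, h5, h6⟩, mem_VppM.2 ⟨h1, h2, h3, h4⟩⟩

/-- Vectors of the plane are in `Y₀`. -/
theorem plane_mem {i j k : Fin m} {v : (Fin m ⊕ Fin m) ⊕ Fin 2 → F} (h : ∀ s, v (Sum.inl s) = 0) :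
    v ∈ Y0 (minusQ m F a b) (ep i) (fp i) (ep j) (fp j) (ep k) (fp k) :=
  mem_Y0M.2 ⟨h _, h _, h _, h _, h _, h _⟩

/-- The plane partner of `zz0`. -/
theorem exists_plane_partner (h3 : ¬3 < Fintype.card F)
    (hab : ∀ z₁ z₂ : F, z₁ ^ 2 + a * z₁ * z₂ + b * z₂ ^ 2 = 0 → z₁ = 0 ∧ z₂ = 0) :
    ∃ y' : (Fin m ⊕ Fin m) ⊕ Fin 2 → F, (∀ s, y' (Sum.inl s) = 0) ∧ polar (⇑(minusQ m F a b)) zz0 y' = 1 := by
  rcases card_cases h3 with h | h
  · obtain ⟨ha, hb⟩ := disc_two h hab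
    refine ⟨zz1, fun s => by simp [Pi.single_apply], ?_⟩
    rw [pol_zz0]
    simp [Pi.single_apply, ha]
  · refine ⟨(-1 : F) • zz0, fun s => by simp [Pi.single_apply], ?_⟩
    rw [pol_zz0]
    have := three_eq_zero_of h
    simp [Pi.single_apply]
    linear_combination -this

/-- The data for small fields. -/
theorem smData (h3 : ¬3 < Fintype.card F)
    (hab : ∀ z₁ z₂ : F, z₁ ^ 2 + a * z₁ * z₂ + b * z₂ ^ 2 = 0 → z₁ = 0 ∧ z₂ = 0)
    {i j k : Fin m} (hij : i ≠ j) (hik : i ≠ k) (hjk : j ≠ k) :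
    SmData (minusQ m F a b) (ep i) (fp i) (ep j) (fp j) (ep k) (fp k) zz0 where
  hF := hf hij
  hC := hc hij hik hjk
  hgen := by
    intro K hrot hsing
    have hz0Y : (zz0 : (Fin m ⊕ Fin m) ⊕ Fin 2 → F) ∈ Y0 (minusQ m F a b) (ep i) (fp i) (ep j) (fp j) (ep k) (fp k) :=
      plane_mem fun s => by simp [Pi.single_apply]
    have hz1Y : (zz1 : (Fin m ⊕ Fin m) ⊕ Fin 2 → F) ∈ Y0 (minusQ m F a b) (ep i) (fp i) (ep j) (fp j) (ep k) (fp k) :=
      plane_mem fun s => by simp [Pi.single_apply]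
    obtain ⟨y', hy', hy'1⟩ := exists_plane_partner (m := m) h3 hab
    have hy'Y : y' ∈ Y0 (minusQ m F a b) (ep i) (fp i) (ep j) (fp j) (ep k) (fp k) := plane_mem hy'
    -- the basis vectors of the hyperbolic part
    have hE : ∀ l : Fin m, l ≠ i → l ≠ j → l ≠ k → (ep l : (Fin m ⊕ Fin m) ⊕ Fin 2 → F) ∈ K := by
      intro l hli hlj hlk
      refine hsing (mem_Y0M.2 ?_) hz0Y hy'Y (Q_ep l) hy'1 ?_ ?_
      · simp [Pi.single_apply, hli.symm, hlj.symm, hlk.symm]
      · rw [pol_ep]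
        simp [Pi.single_apply]
      · rw [pol_ep]
        exact hy' _
    have hFF : ∀ l : Fin m, l ≠ i → l ≠ j → l ≠ k → (fp l : (Fin m ⊕ Fin m) ⊕ Fin 2 → F) ∈ K := by
      intro l hli hlj hlk
      refine hsing (mem_Y0M.2 ?_) hz0Y hy'Y (Q_fp l) hy'1 ?_ ?_
      · simp [Pi.single_apply, hli.symm, hlj.symm, hlk.symm]
      · rw [pol_fp]
        simp [Pi.single_apply]
      · rw [pol_fp]
        exact hy' _
    -- the plane
    have hz : (zz0 : (Fin m ⊕ Fin m) ⊕ Fin 2 → F) ∈ K ∧ (zz1 : (Fin m ⊕ Fin m) ⊕ Fin 2 → F) ∈ K := by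
      rcases card_cases h3 with h | h
      · obtain ⟨ha, hb⟩ := disc_two h hab
        have h2 := two_eq_zero_of h
        constructor
        · refine hrot hz0Y hz1Y hz1Y (by rw [Q_zz0, Q_zz1, hb]) (by rw [Q_zz0]; exact one_ne_zero) ?_ ?_
          · rw [pol_zz1]
            simp [Pi.single_apply, h2]
          · rw [pol_zz0]
            simp [Pi.single_apply, ha]
        · refine hrot hz1Y hz0Y hz0Y (by rw [Q_zz0, Q_zz1, hb]) (by rw [Q_zz1, hb]; exact one_ne_zero) ?_ ?_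
          · rw [pol_zz0]
            simp [Pi.single_apply, h2]
          · rw [pol_zz1]
            simp [Pi.single_apply, ha]
      · have h31 := three_eq_zero_of h
        have h2 := two_ne_zero_of h
        have hd := disc_three h hab
        have hb0 : b ≠ 0 := by
          rintro rfl
          have := (hab 0 1 (by simp)).2
          exact one_ne_zero this
        constructor
        · have hγ : a • (zz0 : (Fin m ⊕ Fin m) ⊕ Fin 2 → F) + zz1 ∈
              Y0 (minusQ m F a b) (ep i) (fp i) (ep j) (fp j) (ep k) (fp k) :=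
            Submodule.add_mem _ (Submodule.smul_mem _ _ hz0Y) hz1Y
          refine hrot hz0Y hγ hz0Y ?_ (by rw [Q_zz0]; exact one_ne_zero) ?_ ?_
          · rw [Q_add, Q_smul, Q_zz0, Q_zz1, polar_smul_left', pol_zz0]
            simp [Pi.single_apply]
            linear_combination hd + a ^ 2 * h31
          · rw [polar_add_left, polar_smul_left', pol_zz0, pol_zz1]
            simp [Pi.single_apply]
            linear_combination a * h31
          · rw [pol_zz0]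
            simpa [Pi.single_apply] using h2
        · have hγ : b • (zz0 : (Fin m ⊕ Fin m) ⊕ Fin 2 → F) + a • zz1 ∈
              Y0 (minusQ m F a b) (ep i) (fp i) (ep j) (fp j) (ep k) (fp k) :=
            Submodule.add_mem _ (Submodule.smul_mem _ _ hz0Y) (Submodule.smul_mem _ _ hz1Y)
          refine hrot hz1Y hγ hz1Y ?_ (by rw [Q_zz1]; exact hb0) ?_ ?_
          · rw [Q_add, Q_smul, Q_smul, Q_zz0, Q_zz1, polar_smul_left', polar_smul_right', pol_zz0]
            simp [Pi.single_apply]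
            linear_combination b * hd + b * a ^ 2 * h31
          · rw [polar_add_left, polar_smul_left', polar_smul_left', pol_zz0, pol_zz1]
            simp [Pi.single_apply]
            linear_combination a * b * h31
          · rw [pol_zz1]
            simpa [Pi.single_apply, h2, hb0] using mul_ne_zero h2 hb0
    -- expansion of a vector
    intro y hy
    obtain ⟨h1, h2, h3', h4, h5, h6⟩ := mem_Y0M.1 hy
    have e : y = ∑ s : (Fin m ⊕ Fin m) ⊕ Fin 2, y s • (Pi.single s (1 : F) : (Fin m ⊕ Fin m) ⊕ Fin 2 → F) := by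
      funext t
      simp [Finset.sum_apply, Pi.single_apply]
    rw [e]
    refine Submodule.sum_mem _ fun s _ => ?_
    rcases s with (l | l) | z
    · by_cases hl1 : l = i
      · subst hl1
        rw [h2, zero_smul]
        exact Submodule.zero_mem _
      by_cases hl2 : l = j
      · subst hl2
        rw [h4, zero_smul]
        exact Submodule.zero_mem _
      by_cases hl3 : l = k
      · subst hl3
        rw [h6, zero_smul]
        exact Submodule.zero_mem _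
      exact Submodule.smul_mem _ _ (hE l hl1 hl2 hl3)
    · by_cases hl1 : l = i
      · subst hl1
        rw [h1, zero_smul]
        exact Submodule.zero_mem _
      by_cases hl2 : l = j
      · subst hl2
        rw [h3', zero_smul]
        exact Submodule.zero_mem _
      by_cases hl3 : l = k
      · subst hl3
        rw [h5, zero_smul]
        exact Submodule.zero_mem _
      exact Submodule.smul_mem _ _ (hFF l hl1 hl2 hl3)
    · fin_cases z
      · exact Submodule.smul_mem _ _ hz.1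
      · exact Submodule.smul_mem _ _ hz.2
  huniv := by
    intro c hc0
    have hz0Y : (zz0 : (Fin m ⊕ Fin m) ⊕ Fin 2 → F) ∈ Y0 (minusQ m F a b) (ep i) (fp i) (ep j) (fp j) (ep k) (fp k) :=
      plane_mem fun s => by simp [Pi.single_apply]
    have hz1Y : (zz1 : (Fin m ⊕ Fin m) ⊕ Fin 2 → F) ∈ Y0 (minusQ m F a b) (ep i) (fp i) (ep j) (fp j) (ep k) (fp k) :=
      plane_mem fun s => by simp [Pi.single_apply]
    rcases card_cases h3 with h | h
    · have h1 : c = 1 := (elt_cases_two h c).resolve_left hc0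
      exact ⟨zz0, hz0Y, by rw [Q_zz0, h1]⟩
    · have h31 := three_eq_zero_of h
      have hd := disc_three h hab
      rcases (elt_cases_three h c).resolve_left hc0 with h1 | h1
      · exact ⟨zz0, hz0Y, by rw [Q_zz0, h1]⟩
      · refine ⟨(a + 1) • zz0 + zz1, Submodule.add_mem _ (Submodule.smul_mem _ _ hz0Y) hz1Y, ?_⟩
        rw [Q_add, Q_smul, Q_zz0, Q_zz1, polar_smul_left', pol_zz0, h1]
        simp [Pi.single_apply]
        linear_combination hd + (a ^ 2 + a + 1) * h31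

end Frame

section Values

variable {F : Type u} [Field F] [Fintype F] [DecidableEq F] {a b : F} {r : ℕ}

theorem card_ne : (Fintype.card F : ℂ) ≠ 0 := Nat.cast_ne_zero.mpr Fintype.card_ne_zero

variable [OmCtx (minusQ (r + 2) F a b)]

/-- The size of the complement. -/
theorem card_VppM {i j : Fin (r + 2)} (hij : i ≠ j) :
    Fintype.card (Vpp (minusQ (r + 2) F a b) (ep i) (fp i) (ep j) (fp j)) = (Fintype.card F ^ (r + 1)) ^ 2 := by
  rw [card_Vpp_eq (hf hij) (N := 2 * r + 2) (by simp; omega), ← pow_mul]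
  congr 1
  ring

/-- The number of singular vectors on the complement. -/
theorem AA_value (hab : ∀ z₁ z₂ : F, z₁ ^ 2 + a * z₁ * z₂ + b * z₂ ^ 2 = 0 → z₁ = 0 ∧ z₂ = 0)
    {i j : Fin (r + 2)} (hij : i ≠ j) :
    (Fintype.card F : ℂ) * (AA (minusQ (r + 2) F a b) (ep i) (fp i) (ep j) (fp j) : ℂ) =
      ((Fintype.card F ^ (r + 1) : ℕ) : ℂ) ^ 2 - ((Fintype.card F : ℂ) - 1) * ((Fintype.card F ^ (r + 1) : ℕ) : ℂ) := by
  have hZ := singular_count (hf (a := a) (b := b) hij)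
  have hZ' := ZZ_minus (F := F) (r + 2) hab
  rw [card_VppM hij] at hZ
  have hZ0 : ZZ (⇑(minusQ (r + 2) F a b)) = ZZ (quadFormMinus (r + 2) F a b) := rfl
  rw [hZ0] at hZ
  rw [hZ] at hZ'
  have hq : (Fintype.card F : ℂ) ≠ 0 := card_ne
  apply mul_left_cancel₀ (pow_ne_zero 2 hq)
  push_cast at hZ' ⊢
  ring_nf at hZ' ⊢
  linear_combination hZ'

/-- The number of weights of norm `0`. -/
theorem WW_zero (hab : ∀ z₁ z₂ : F, z₁ ^ 2 + a * z₁ * z₂ + b * z₂ ^ 2 = 0 → z₁ = 0 ∧ z₂ = 0)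
    {i j : Fin (r + 2)} (hij : i ≠ j) :
    WW (minusQ (r + 2) F a b) (ep i) (fp i) (ep j) (fp j) 0 + 1 +
      (Fintype.card F - 1) * Fintype.card F ^ (r + 1) = Fintype.card F * (Fintype.card F ^ (r + 1)) ^ 2 := by
  have hZ := ZZ_sphere (hf (a := a) (b := b) hij) 0
  have hZ' := ZZ_minus (F := F) (r + 2) hab
  rw [card_VppM hij] at hZ
  have hZ0 : ZZ (fun v => minusQ (r + 2) F a b v - 0) = ZZ (quadFormMinus (r + 2) F a b) := by
    unfold ZZ
    refine Finset.sum_congr rfl fun v _ => ?_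
    simp only [sub_zero]
    rfl
  rw [hZ0] at hZ
  rw [hZ] at hZ'
  have hq : (Fintype.card F : ℂ) ≠ 0 := card_ne
  have h1 : 1 ≤ Fintype.card F := Fintype.card_pos
  apply Nat.cast_injective (R := ℂ)
  apply mul_left_cancel₀ (pow_ne_zero 2 hq)
  push_cast [Nat.cast_sub h1]
  simp only [if_true] at hZ'
  push_cast at hZ'
  ring_nf at hZ' ⊢
  linear_combination hZ'

/-- The number of weights of nonzero norm. -/
theorem WW_ne (h3 : ¬3 < Fintype.card F)
    (hab : ∀ z₁ z₂ : F, z₁ ^ 2 + a * z₁ * z₂ + b * z₂ ^ 2 = 0 → z₁ = 0 ∧ z₂ = 0)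
    {i j : Fin (r + 2)} (hij : i ≠ j) {c : F} (hc : c ≠ 0) :
    WW (minusQ (r + 2) F a b) (ep i) (fp i) (ep j) (fp j) c =
      Fintype.card F * (Fintype.card F ^ (r + 1)) ^ 2 + Fintype.card F ^ (r + 1) := by
  have hZ := ZZ_sphere (hf (a := a) (b := b) hij) c
  have hZ' := ZZ_minus_c h3 hab hc (r + 2)
  rw [card_VppM hij] at hZ
  have hZ0 : ZZ (fun v => minusQ (r + 2) F a b v - c) = ZZ (fun v => quadFormMinus (r + 2) F a b v - c) := rfl
  rw [hZ0] at hZ
  rw [hZ] at hZ'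
  have hq : (Fintype.card F : ℂ) ≠ 0 := card_ne
  apply Nat.cast_injective (R := ℂ)
  apply mul_left_cancel₀ hq
  simp only [hc, if_false, add_zero] at hZ'
  push_cast at hZ' ⊢
  ring_nf at hZ' ⊢
  linear_combination hZ'

end Values

end Cfsg.Agent.Lib.MinDeg.Omega.MinusM
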