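import Cfsg.Agent.Lib.MinDeg.Omega.TypeN
import Cfsg.Agent.Lib.Char.Basic
import Cfsg.Agent.Lib.Char.RepEquiv

/-!
# Restriction to the stabilizer of a hyperbolic plane, and irreducible constituents
-/

set_option autoImplicit false
set_option linter.unusedSectionVars false
set_option linter.unusedSimpArgs false
set_option linter.unusedVariables false

namespace Cfsg.Agent.Lib.MinDeg.Omega

open Matrix QuadraticMap Module
open Cfsg.Agent.Lib.Classical.Orth.Basic
open scoped commutatorElement

universe u v w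

section Constituent

variable {G : Type u} [Group G] [Finite G]

/-- Commutators act trivially on a one-dimensional space. -/
theorem comm_trivial_of_finrank_one {V : Type v} [AddCommGroup V] [Module ℂ V] (τ : Representation ℂ G V)
    (hV : finrank ℂ V = 1) {g : G} (hg : g ∈ commutator G) : τ g = 1 := by
  have hcomm : ∀ S T : Module.End ℂ V, S * T = T * S := by
    intro S T
    obtain ⟨c, hc, -⟩ := LinearMap.existsUnique_eq_smul_id_of_finrank_eq_one hV S
    obtain ⟨d, hd, -⟩ := LinearMap.existsUnique_eq_smul_id_of_finrank_eq_one hV T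
    rw [hc, hd]
    apply LinearMap.ext
    intro v
    simp [smul_smul, mul_comm]
  have hle : commutator G ≤ (MonoidHom.toHomUnits τ).ker := by
    rw [commutator_def, Subgroup.commutator_le]
    intro g₁ _ g₂ _
    rw [MonoidHom.mem_ker, commutatorElement_def, map_mul, map_mul, map_mul, map_inv, map_inv]
    have h : MonoidHom.toHomUnits τ g₁ * MonoidHom.toHomUnits τ g₂ =
        MonoidHom.toHomUnits τ g₂ * MonoidHom.toHomUnits τ g₁ := by
      apply Units.ext
      exact hcomm _ _
    rw [h]
    group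
  have h2 := hle hg
  rw [MonoidHom.mem_ker] at h2
  have h3 := congrArg Units.val h2
  exact h3

/-- An irreducible constituent on which a commutator acts nontrivially. -/
theorem exists_irr_of_ne {g : G} (hg : g ∈ commutator G) (d : ℕ) :
    ∀ {V : Type v} [AddCommGroup V] [Module ℂ V] [FiniteDimensional ℂ V] (τ : Representation ℂ G V),
    finrank ℂ V = d → τ g ≠ 1 → ∃ k : ℕ, ∃ ρ' : Representation ℂ G (Fin k → ℂ),
      ρ'.IsIrreducible ∧ 2 ≤ k ∧ k ≤ d := by
  induction d using Nat.strong_induction_on with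
  | _ d ih =>
    intro V _ _ _ τ hd hne
    have hnt : Nontrivial V := by
      by_contra hc
      rw [not_nontrivial_iff_subsingleton] at hc
      apply hne
      apply LinearMap.ext
      intro v
      exact Subsingleton.elim _ _
    obtain ⟨S, hirr, hS0⟩ := Cfsg.Agent.Lib.Char.RepEquiv.exists_irreducible_subrep τ
    obtain ⟨T, hST⟩ := Cfsg.Agent.Lib.Char.Basic.exists_isCompl τ S
    have hc : IsCompl S.toSubmodule T.toSubmodule := Cfsg.Agent.Lib.Char.RepEquiv.isCompl_toSubmodule hST
    have hdim := Submodule.finrank_add_eq_of_isCompl hc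
    have hS1 : S.toSubmodule ≠ ⊥ := fun h => hS0 (Subrepresentation.toSubmodule_injective h)
    have h1 : 1 ≤ finrank ℂ S.toSubmodule := Submodule.one_le_finrank_iff.mpr hS1
    by_cases hSg : S.toRepresentation g = 1
    · have hTg : T.toRepresentation g ≠ 1 := by
        intro hTg
        apply hne
        apply LinearMap.ext
        intro v
        obtain ⟨s, t, hs, ht, rfl⟩ : ∃ s t, s ∈ S.toSubmodule ∧ t ∈ T.toSubmodule ∧ s + t = v := by
          have h4 : v ∈ S.toSubmodule ⊔ T.toSubmodule := by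
            rw [hc.sup_eq_top]
            trivial
          obtain ⟨s, hs, t, ht, h⟩ := Submodule.mem_sup.1 h4
          exact ⟨s, t, hs, ht, h⟩
        have h5 := congrArg (fun X => ((X ⟨s, hs⟩ : S.toSubmodule) : V)) hSg
        have h6 := congrArg (fun X => ((X ⟨t, ht⟩ : T.toSubmodule) : V)) hTg
        simp only [Module.End.one_apply] at h5 h6
        rw [map_add, Module.End.one_apply]
        exact congrArg₂ (· + ·) h5 h6
      obtain ⟨k, ρ', h7, h8, h9⟩ := ih (finrank ℂ T.toSubmodule) (by omega) T.toRepresentation rfl hTg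
      exact ⟨k, ρ', h7, h8, by omega⟩
    · have h2 : finrank ℂ S.toSubmodule ≠ 1 := fun h => hSg (comm_trivial_of_finrank_one _ h hg)
      obtain ⟨σ, -, hσ, -⟩ := Cfsg.Agent.Lib.Char.Basic.exists_coord_rep S.toRepresentation
      exact ⟨_, σ, hσ hirr, by omega, by omega⟩

/-- An irreducible constituent in the range of a commuting operator. -/
theorem exists_irr_range {U : Type v} [AddCommGroup U] [Module ℂ U] [FiniteDimensional ℂ U]
    (σ : Representation ℂ G U) (R : Module.End ℂ U) (hR : ∀ h, σ h * R = R * σ h) {g : G}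
    (hg : g ∈ commutator G) (hne : R * σ g ≠ R) :
    ∃ k : ℕ, ∃ ρ' : Representation ℂ G (Fin k → ℂ), ρ'.IsIrreducible ∧ 2 ≤ k ∧
      k ≤ finrank ℂ (LinearMap.range R) := by
  let W : Subrepresentation σ :=
    ⟨LinearMap.range R, fun h v hv => by
      obtain ⟨u, rfl⟩ := hv
      exact ⟨σ h u, (congrArg (fun X => X u) (hR h)).symm⟩⟩
  refine exists_irr_of_ne hg _ W.toRepresentation rfl ?_
  intro h1
  apply hne
  apply LinearMap.ext
  intro v
  have h2 := congrArg (fun X => ((X ⟨R v, v, rfl⟩ : W.toSubmodule) : U)) h1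
  have h3 : σ g (R v) = R v := h2
  have h4 : (σ g * R) v = R (σ g v) := congrArg (fun X => X v) (hR g)
  rw [Module.End.mul_apply] at h4
  rw [Module.End.mul_apply, ← h4, h3]

end Constituent

section Ext

variable {ι ι' : Type} [Fintype ι] [DecidableEq ι] [Fintype ι'] [DecidableEq ι'] {F : Type u} [Field F]
variable {Q : QuadraticForm F (ι → F)} {Q' : QuadraticForm F (ι' → F)}
variable (E : (F × F × (ι' → F)) ≃ₗ[F] (ι → F))

/-- The extension of a linear automorphism by the identity on a hyperbolic plane. -/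
def extLin : ((ι' → F) ≃ₗ[F] (ι' → F)) →* ((ι → F) ≃ₗ[F] (ι → F)) where
  toFun φ := E.symm ≪≫ₗ ((LinearEquiv.refl F F).prodCongr ((LinearEquiv.refl F F).prodCongr φ)) ≪≫ₗ E
  map_one' := by
    apply LinearEquiv.ext
    intro v
    simp [LinearEquiv.prodCongr_apply]
  map_mul' φ φ' := by
    apply LinearEquiv.ext
    intro v
    simp [LinearEquiv.prodCongr_apply]

theorem extLin_apply (φ : (ι' → F) ≃ₗ[F] (ι' → F)) (t : F × F × (ι' → F)) :
    extLin E φ (E t) = E (t.1, t.2.1, φ t.2.2) := by
  simp [extLin, LinearEquiv.prodCongr_apply]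

/-- Matrices and linear automorphisms. -/
noncomputable def glEquiv (ι : Type) [Fintype ι] [DecidableEq ι] (F : Type u) [Field F] :
    GL ι F ≃* ((ι → F) ≃ₗ[F] (ι → F)) :=
  Matrix.GeneralLinearGroup.toLin.trans (LinearMap.GeneralLinearGroup.generalLinearEquiv F (ι → F))

theorem glEquiv_apply (g : GL ι F) (x : ι → F) : glEquiv ι F g x = (g : Matrix ι ι F) *ᵥ x := rfl

/-- The extension, for matrices. -/
noncomputable def extGL : GL ι' F →* GL ι F :=
  (glEquiv ι F).symm.toMonoidHom.comp ((extLin E).comp (glEquiv ι' F).toMonoidHom)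

theorem extGL_apply (g : GL ι' F) (t : F × F × (ι' → F)) :
    ((extGL E g : GL ι F) : Matrix ι ι F) *ᵥ (E t) = E (t.1, t.2.1, (g : Matrix ι' ι' F) *ᵥ t.2.2) := by
  rw [← glEquiv_apply, ← glEquiv_apply]
  have : glEquiv ι F (extGL E g) = extLin E (glEquiv ι' F g) := by
    simp [extGL]
  rw [this, extLin_apply]

variable (hE : ∀ t, Q (E t) = t.1 * t.2.1 + Q' t.2.2)
include hE

/-- The extension of an isometry. -/
noncomputable def extIso : ↥(Cfsg.isometryGroup F (⇑Q')) →* ↥(Cfsg.isometryGroup F (⇑Q)) :=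
  ((extGL E).comp (Cfsg.isometryGroup F (⇑Q')).subtype).codRestrict _ (fun g => by
    rw [mem_isometryGroup_iff]
    intro v
    obtain ⟨t, rfl⟩ := E.surjective v
    simp only [MonoidHom.comp_apply, Subgroup.subtype_apply]
    rw [extGL_apply, hE, hE]
    have h := (mem_isometryGroup_iff Q' _).1 g.2 t.2.2
    simp only
    rw [h])

/-- The extension, for `Ω`. -/
noncomputable def extOm : Om Q' →* Om Q :=
  ((extIso E hE).comp (Cfsg.Omega F (⇑Q')).subtype).codRestrict _ (fun g => by
    have h1 : (Cfsg.Omega F (⇑Q')).map (extIso E hE) ≤ Cfsg.Omega F (⇑Q) := by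
      rw [Cfsg.Omega, Cfsg.Omega, commutator_def, commutator_def, Subgroup.map_commutator]
      exact Subgroup.commutator_mono le_top le_top
    exact h1 ⟨g.1, g.2, rfl⟩)

theorem av_extOm (g : Om Q') (t : F × F × (ι' → F)) :
    av (extOm E hE g) (E t) = E (t.1, t.2.1, av g t.2.2) := by
  exact extGL_apply E _ t

theorem polar_E (s t : F × F × (ι' → F)) :
    polar (⇑Q) (E s) (E t) = s.1 * t.2.1 + t.1 * s.2.1 + polar (⇑Q') s.2.2 t.2.2 := by
  simp only [polar]
  rw [← map_add, hE, hE, hE]
  simp only [Prod.fst_add, Prod.snd_add]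
  ring

variable [Fintype F] [DecidableEq F] [OmCtx Q] [OmCtx Q']

theorem extOm_tt {a b : ι' → F} (ha : Q' a = 0) (hb : polar (⇑Q') a b = 0) :
    extOm E hE (tt Q' a b) = tt Q (E (0, 0, a)) (E (0, 0, b)) := by
  have hQa : Q (E (0, 0, a)) = 0 := by
    rw [hE]
    simp [ha]
  have hpol : polar (⇑Q) (E (0, 0, a)) (E (0, 0, b)) = 0 := by
    rw [polar_E E hE]
    simp [hb]
  apply om_ext
  intro v
  obtain ⟨t, rfl⟩ := E.surjective v
  rw [av_extOm, av_tt hQa hpol, av_tt ha hb, polar_E E hE, polar_E E hE, hE]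
  simp only [zero_mul, zero_add, mul_zero]
  rw [← map_smul, ← map_smul, ← map_smul, ← map_add, ← map_sub, ← map_sub]
  congr 1
  ext <;> simp

end Ext

section Comm

variable {ι : Type} [Fintype ι] [DecidableEq ι] {F : Type u} [Field F] [Fintype F] [DecidableEq F]
variable {Q : QuadraticForm F (ι → F)} [OmCtx Q]

set_option quotPrecheck false in
local notation "𝔣" => polar (⇑Q)

/-- An Eichler transformation as a commutator. -/
theorem tt_comm_mem {a c z z' : ι → F} (ha : Q a = 0) (hc : Q c = 0) (hac : 𝔣 a c = 0) (haz : 𝔣 a z = 0)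
    (haz' : 𝔣 a z' = 0) (hcz : 𝔣 c z = 0) (hcz' : 𝔣 c z' = 0) (hzz' : 𝔣 z z' = -1) :
    tt Q c a ∈ commutator (Om Q) := by
  have hzc : 𝔣 z c = 0 := by rw [polar_comm, hcz]
  have hca : 𝔣 c a = 0 := by rw [polar_comm, hac]
  have e1 : av (tt Q a z) c = c := av_tt_perp ha haz hac hzc
  have e2 : av (tt Q a z) z' = z' + a := by
    rw [av_tt ha haz, haz', hzz']
    simp
  have e3 : ⁅tt Q a z, tt Q c z'⁆ = tt Q c a := by
    rw [commutatorElement_def, conj_tt _ hc hcz', e1, e2, tt_inv hc hcz',
      tt_mul hc (by rw [polar_add_right, hcz', hca, add_zero]) (by rw [polar_neg_right, hcz', neg_zero])]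
    congr 1
    abel
  rw [← e3, commutator_def]
  exact Subgroup.commutator_mem_commutator (Subgroup.mem_top _) (Subgroup.mem_top _)

end Comm

end Cfsg.Agent.Lib.MinDeg.Omega
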