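import Cfsg.Agent.Lib.MinDeg.Omega.Count

/-!
# Absorption without a scaling element

For small fields the torus does not act on the Eichler transformations.  We replace it by rotations in an
anisotropic plane and by commutators.
-/

set_option autoImplicit false
set_option linter.unusedSectionVars false
set_option linter.unusedSimpArgs false
set_option linter.unusedVariables false

namespace Cfsg.Agent.Lib.MinDeg.Omega

open Matrix QuadraticMap Module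
open Cfsg.Agent.Lib.Classical.Orth.Basic

universe u v

variable {ι : Type} [Fintype ι] [DecidableEq ι] {F : Type u} [Field F] [Fintype F] [DecidableEq F]
variable {Q : QuadraticForm F (ι → F)} [OmCtx Q]
variable {U : Type v} [AddCommGroup U] [Module ℂ U] [FiniteDimensional ℂ U]

set_option quotPrecheck false in
local notation "𝔣" => polar (⇑Q)

local notation "tr" => LinearMap.trace ℂ U

section CharLemmas

variable {ρ : Om Q →* Module.End ℂ U} {ψ : AddChar F ℂ} {x₀ w : ι → F}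
variable (hx₀ : Q x₀ = 0) (htr : LinearMap.trace ℂ U (LL ρ ψ x₀ w) = 1)
include hx₀ htr

/-- Conjugation invariance of `ff (tt a y)`. -/
theorem ff_tt_conj {k : Om Q} (h0 : av k x₀ = x₀) (hw : av k w = w) {a y : ι → F} (ha : Q a = 0)
    (hy : 𝔣 a y = 0) (hka : av k a = a) :
    ff ρ ψ x₀ w (tt Q a (av k y)) = ff ρ ψ x₀ w (tt Q a y) := by
  have hk := comm_of_fix (ρ := ρ) (ψ := ψ) hx₀ h0 hw
  have h1 := ff_conj hx₀ htr hk (tt Q a y)
  rw [conj_tt _ ha hy, hka] at h1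
  exact h1

/-- A general triviality criterion for the characters `y ↦ ff (tt a y)`. -/
theorem char_triv {a z z' b b' : ι → F} (Y : Submodule F (ι → F)) (ha : Q a = 0) (ha0 : 𝔣 a x₀ = 0)
    (haw : 𝔣 a w = 0) (hY : ∀ y ∈ Y, 𝔣 y x₀ = 0 ∧ 𝔣 y w = 0 ∧ 𝔣 y a = 0)
    (hz : z ∈ Y) (hz' : z' ∈ Y) (hb : b ∈ Y) (hb' : b' ∈ Y) (hQz : Q z = 0) (hQz' : Q z' = 0)
    (hzz' : 𝔣 z z' = 1) (hbb' : 𝔣 b b' = 1) (hzb : 𝔣 z b = 0) (hzb' : 𝔣 z b' = 0) (hz'b : 𝔣 z' b = 0)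
    (hz'b' : 𝔣 z' b' = 0) {y : ι → F} (hy : y ∈ Y) : ff ρ ψ x₀ w (tt Q a y) = 1 := by
  have hperp : ∀ {y : ι → F}, y ∈ Y → 𝔣 a y = 0 := fun {y} hy => by rw [polar_comm]; exact (hY y hy).2.2
  have hcomm : ∀ {y : ι → F}, y ∈ Y → ρ (tt Q a y) * LL ρ ψ x₀ w = LL ρ ψ x₀ w * ρ (tt Q a y) := by
    intro y hy
    exact comm_of_fix hx₀ (av_tt_perp ha (hperp hy) ha0 (hY y hy).1) (av_tt_perp ha (hperp hy) haw (hY y hy).2.1)
  have hadd : ∀ {y y' : ι → F}, y ∈ Y → y' ∈ Y →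
      ff ρ ψ x₀ w (tt Q a (y + y')) = ff ρ ψ x₀ w (tt Q a y) * ff ρ ψ x₀ w (tt Q a y') := by
    intro y y' hy hy'
    rw [← tt_mul ha (hperp hy) (hperp hy')]
    exact ff_mul_of_comm hx₀ htr (hcomm hy) (hcomm hy')
  have hne : ∀ {y : ι → F}, y ∈ Y → ff ρ ψ x₀ w (tt Q a y) ≠ 0 := fun hy => ff_ne_zero hx₀ htr (hcomm hy)
  -- the elements `tt c v` with `c`, `v` in `Y`
  have hfix : ∀ {c v y : ι → F}, Q c = 0 → c ∈ Y → v ∈ Y → 𝔣 c v = 0 → y ∈ Y →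
      ff ρ ψ x₀ w (tt Q a (av (tt Q c v) y)) = ff ρ ψ x₀ w (tt Q a y) := by
    intro c v y hc hcY hvY hcv hy
    refine ff_tt_conj hx₀ htr (av_tt_perp hc hcv (hY c hcY).1 (hY v hvY).1)
      (av_tt_perp hc hcv (hY c hcY).2.1 (hY v hvY).2.1) ha (hperp hy)
      (av_tt_perp hc hcv (hY c hcY).2.2 (hY v hvY).2.2)
  -- the multiples of `z` and `z'`
  have s1 : ∀ {c : ι → F}, c ∈ Y → Q c = 0 → 𝔣 c b = 0 → 𝔣 c b' = 0 → ∀ κ : F,
      ff ρ ψ x₀ w (tt Q a (κ • c)) = 1 := by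
    intro c hcY hQc hcb hcb' κ
    have h1 := hfix (c := c) (v := (-κ) • b) (y := b') hQc hcY (Submodule.smul_mem _ _ hb)
      (by rw [polar_smul_right', hcb, mul_zero]) hb'
    have e1 : av (tt Q c ((-κ) • b)) b' = κ • c + b' := by
      rw [av_tt hQc (by rw [polar_smul_right', hcb, mul_zero]), hcb', polar_smul_left', hbb']
      simp only [zero_smul, mul_zero, add_zero, sub_zero, mul_one, neg_smul, sub_neg_eq_add]
      abel
    rw [e1, hadd (Submodule.smul_mem _ _ hcY) hb'] at h1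
    exact mul_right_cancel₀ (hne hb') (by rw [h1, one_mul])
  have hz1 := s1 hz hQz hzb hzb'
  have hz'1 := s1 hz' hQz' hz'b hz'b'
  -- the vectors orthogonal to `z`
  have s2 : ∀ {y : ι → F}, y ∈ Y → 𝔣 z y = 0 → ff ρ ψ x₀ w (tt Q a y) = 1 := by
    intro y hy hzy
    have h1 := hfix (c := z) (v := y) (y := z') hQz hz hy hzy hz'
    have e1 : av (tt Q z y) z' = (y + (-(𝔣 y z' + Q y * 1)) • z) + z' := by
      rw [av_tt hQz hzy, hzz']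
      ext i
      simp only [Pi.add_apply, Pi.sub_apply, Pi.smul_apply, smul_eq_mul]
      ring
    rw [e1, hadd (Submodule.add_mem _ hy (Submodule.smul_mem _ _ hz)) hz', hadd hy (Submodule.smul_mem _ _ hz),
      hz1] at h1
    have h2 : ff ρ ψ x₀ w (tt Q a y) * ff ρ ψ x₀ w (tt Q a z') = 1 * ff ρ ψ x₀ w (tt Q a z') := by
      rw [one_mul]
      rw [mul_one] at h1
      exact h1
    exact mul_right_cancel₀ (hne hz') h2
  have e2 : y = (y - 𝔣 z y • z') + 𝔣 z y • z' := by abel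
  have h3 : y - 𝔣 z y • z' ∈ Y := Submodule.sub_mem _ hy (Submodule.smul_mem _ _ hz')
  rw [e2, hadd h3 (Submodule.smul_mem _ _ hz'), hz'1, mul_one]
  exact s2 h3 (by rw [polar_sub_right, polar_smul_right', hzz']; ring)

end CharLemmas

/-- The vectors orthogonal to the frame and to the hyperbolic pair. -/
abbrev Y0 (Q : QuadraticForm F (ι → F)) [OmCtx Q] (x₀ x e f u₀ u₀' : ι → F) : Submodule F (ι → F) :=
  Vpp Q x₀ x u₀ u₀' ⊓ Vpp Q x₀ x e f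

theorem Y0_mem {x₀ x e f u₀ u₀' y : ι → F} (hy : y ∈ Y0 Q x₀ x e f u₀ u₀') :
    y ∈ Vpp Q x₀ x e f ∧ 𝔣 u₀ y = 0 ∧ 𝔣 u₀' y = 0 := ⟨hy.2, hy.1.2.2.1, hy.1.2.2.2⟩

theorem mem_Y0 {x₀ x e f u₀ u₀' y : ι → F} (h1 : y ∈ Vpp Q x₀ x e f) (h2 : 𝔣 u₀ y = 0) (h3 : 𝔣 u₀' y = 0) :
    y ∈ Y0 Q x₀ x e f u₀ u₀' := ⟨⟨h1.1, h1.2.1, h2, h3⟩, h1⟩

section Rot

variable {ρ : Om Q →* Module.End ℂ U} {ψ : AddChar F ℂ} {x₀ x e f u₀ u₀' : ι → F}
variable (hF : HF Q x₀ x e f) (htr : LinearMap.trace ℂ U (LL ρ ψ x₀ e) = 1) (hu : u₀ ∈ Vpp Q x₀ x e f)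
  (hu' : u₀' ∈ Vpp Q x₀ x e f) (hQu : Q u₀ = 0) (hQu' : Q u₀' = 0) (huu' : polar (⇑Q) u₀ u₀' = 1)
include hF htr hu hu' hQu hQu' huu'

theorem Y0_comm {y : ι → F} (hy : y ∈ Y0 Q x₀ x e f u₀ u₀') :
    ρ (tt Q u₀ y) * LL ρ ψ x₀ e = LL ρ ψ x₀ e * ρ (tt Q u₀ y) :=
  comm_of_fix hF.Qa (av_tt_perp hQu hy.1.2.2.1 (frame_perp hF hu).1 (frame_perp hF hy.2).1)
    (av_tt_perp hQu hy.1.2.2.1 (frame_perp hF hu).2.2.1 (frame_perp hF hy.2).2.2.1)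

theorem Y0_add {y y' : ι → F} (hy : y ∈ Y0 Q x₀ x e f u₀ u₀') (hy' : y' ∈ Y0 Q x₀ x e f u₀ u₀') :
    ff ρ ψ x₀ e (tt Q u₀ (y + y')) = ff ρ ψ x₀ e (tt Q u₀ y) * ff ρ ψ x₀ e (tt Q u₀ y') := by
  rw [← tt_mul hQu hy.1.2.2.1 hy'.1.2.2.1]
  exact ff_mul_of_comm hF.Qa htr (Y0_comm hF htr hu hu' hQu hQu' huu' hy) (Y0_comm hF htr hu hu' hQu hQu' huu' hy')

/-- Rotations in an anisotropic plane. -/
theorem rot_triv {v γ y : ι → F} (hv : v ∈ Y0 Q x₀ x e f u₀ u₀') (hγ : γ ∈ Y0 Q x₀ x e f u₀ u₀')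
    (hy : y ∈ Y0 Q x₀ x e f u₀ u₀') (hQ : Q γ = Q v) (h0 : Q v ≠ 0) (hγy : 𝔣 γ y = 0) (hvy : 𝔣 v y ≠ 0) (s : F) :
    ff ρ ψ x₀ e (tt Q u₀ (s • v)) = 1 := by
  set c := Q v with hc
  set δ := v - (c⁻¹ * 𝔣 γ v) • γ with hδ
  have hδY : δ ∈ Y0 Q x₀ x e f u₀ u₀' := Submodule.sub_mem _ hv (Submodule.smul_mem _ _ hγ)
  have hQγ : Q γ ≠ 0 := by rw [hQ]; exact h0
  have hQδ : Q δ = c := by
    rw [hδ, Q_sub, Q_smul, hQ, polar_smul_right']
    rw [polar_comm _ v γ]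
    field_simp
    ring
  have hQδ0 : Q δ ≠ 0 := by rw [hQδ]; exact h0
  have hδy : 𝔣 δ y = 𝔣 v y := by
    rw [hδ, polar_sub_left, polar_smul_left', hγy]
    ring
  have hγδ : 𝔣 γ δ = -𝔣 γ v := by
    rw [hδ, polar_sub_right, polar_smul_right', polar_self_eq, hQ]
    field_simp
    ring
  set κ := 𝔣 v y with hκ
  set s' := -s with hs'
  set y' := (s' * c * κ⁻¹) • y with hy'
  have hy'Y : y' ∈ Y0 Q x₀ x e f u₀ u₀' := Submodule.smul_mem _ _ hy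
  -- the element `h = ς(γ) ς(δ)`
  have vsperp : ∀ {g z : ι → F}, g ∈ Y0 Q x₀ x e f u₀ u₀' → Q g ≠ 0 → 𝔣 u₀ z = 0 → 𝔣 u₀' z = 0 →
      av (vs Q u₀ u₀' g) z = z - ((Q g)⁻¹ * 𝔣 g z) • g := by
    intro g z hg hg0 h1 h2
    exact vs_perp hQu hQu' huu' hg.1.2.2.1 hg.1.2.2.2 hg0 h1 h2
  set h := vs Q u₀ u₀' γ * vs Q u₀ u₀' δ with hh
  have hfixz : ∀ {z : ι → F}, 𝔣 u₀ z = 0 → 𝔣 u₀' z = 0 → 𝔣 γ z = 0 → 𝔣 δ z = 0 → av h z = z := by
    intro z h1 h2 h3 h4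
    rw [hh, av_mul, vsperp hδY hQδ0 h1 h2, h4, mul_zero, zero_smul, sub_zero, vsperp hγ hQγ h1 h2, h3, mul_zero,
      zero_smul, sub_zero]
  have h1 : av h x₀ = x₀ := hfixz (frame_perp hF hu).1 (frame_perp hF hu').1 (frame_perp hF hγ.2).1
    (frame_perp hF hδY.2).1
  have h2 : av h e = e := hfixz (frame_perp hF hu).2.2.1 (frame_perp hF hu').2.2.1 (frame_perp hF hγ.2).2.2.1
    (frame_perp hF hδY.2).2.2.1
  have h3 : av h u₀ = u₀ := by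
    rw [hh, av_mul, vs_e hQu hQu' huu' hδY.1.2.2.1 hδY.1.2.2.2 hQδ0, av_smul,
      vs_f hQu hQu' huu' hγ.1.2.2.1 hγ.1.2.2.2 hQγ, smul_smul, hQδ, hQ]
    have : -c * -c⁻¹ = 1 := by
      field_simp
    rw [this, one_smul]
  have h4 := ff_tt_conj (ρ := ρ) (ψ := ψ) hF.Qa htr h1 h2 hQu hy'Y.1.2.2.1 h3
  have e1 : av h y' = y' + s • v := by
    have e2 : 𝔣 γ y' = 0 := by rw [hy', polar_smul_right', hγy, mul_zero]
    have e3 : 𝔣 δ y' = s' * c := by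
      rw [hy', polar_smul_right', hδy]
      field_simp
    have e4 : av (vs Q u₀ u₀' γ) y' = y' := by
      rw [vsperp hγ hQγ hy'Y.1.2.2.1 hy'Y.1.2.2.2, e2, mul_zero, zero_smul, sub_zero]
    rw [hh, av_mul, vsperp hδY hQδ0 hy'Y.1.2.2.1 hy'Y.1.2.2.2, av_sub, e4, av_smul,
      vsperp hγ hQγ hδY.1.2.2.1 hδY.1.2.2.2]
    rw [e3, hγδ, hQδ, hQ]
    rw [hs', hδ]
    have hc0 : c ≠ 0 := h0
    have hi : c⁻¹ * (-s * c) = -s := by
      field_simp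
    rw [hi]
    ext i
    simp only [Pi.add_apply, Pi.sub_apply, Pi.smul_apply, smul_eq_mul]
    ring
  rw [e1, Y0_add hF htr hu hu' hQu hQu' huu' hy'Y (Submodule.smul_mem _ _ hv)] at h4
  have hne := ff_ne_zero hF.Qa htr (Y0_comm hF htr hu hu' hQu hQu' huu' hy'Y)
  exact mul_left_cancel₀ hne (by rw [h4, mul_one])

/-- Singular vectors orthogonal to a hyperbolic pair of the plane. -/
theorem sing_triv {c b b' : ι → F} (hc : c ∈ Y0 Q x₀ x e f u₀ u₀') (hb : b ∈ Y0 Q x₀ x e f u₀ u₀')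
    (hb' : b' ∈ Y0 Q x₀ x e f u₀ u₀') (hQc : Q c = 0) (hbb' : 𝔣 b b' = 1) (hcb : 𝔣 c b = 0) (hcb' : 𝔣 c b' = 0)
    (κ : F) : ff ρ ψ x₀ e (tt Q u₀ (κ • c)) = 1 := by
  have hv : (-κ) • b ∈ Y0 Q x₀ x e f u₀ u₀' := Submodule.smul_mem _ _ hb
  have hcv : 𝔣 c ((-κ) • b) = 0 := by rw [polar_smul_right', hcb, mul_zero]
  have h4 := ff_tt_conj (ρ := ρ) (ψ := ψ) (k := tt Q c ((-κ) • b)) hF.Qa htr
    (av_tt_perp hQc hcv (frame_perp hF hc.2).1 (frame_perp hF hv.2).1)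
    (av_tt_perp hQc hcv (frame_perp hF hc.2).2.2.1 (frame_perp hF hv.2).2.2.1) hQu hb'.1.2.2.1
    (av_tt_perp hQc hcv (by rw [polar_comm]; exact hc.1.2.2.1) (by rw [polar_comm]; exact hv.1.2.2.1))
  have e1 : av (tt Q c ((-κ) • b)) b' = κ • c + b' := by
    rw [av_tt hQc hcv, hcb', polar_smul_left', hbb']
    simp only [zero_smul, mul_zero, add_zero, sub_zero, mul_one, neg_smul, sub_neg_eq_add]
    abel
  rw [e1, Y0_add hF htr hu hu' hQu hQu' huu' (Submodule.smul_mem _ _ hc) hb'] at h4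
  have hne := ff_ne_zero hF.Qa htr (Y0_comm hF htr hu hu' hQu hQu' huu' hb')
  exact mul_right_cancel₀ hne (by rw [h4, one_mul])

end Rot

section Data

variable {ρ : Om Q →* Module.End ℂ U} {ψ : AddChar F ℂ} {x₀ x e f u₀ u₀' y₀ : ι → F}

variable (Q x₀ x e f u₀ u₀' y₀) in
/-- The data on the complement used for small fields. -/
structure SmData : Prop where
  hF : HF Q x₀ x e f
  hC : Cplx Q x₀ x e f u₀ u₀' y₀
  hgen : ∀ K : Submodule F (ι → F),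
    (∀ {v γ y : ι → F}, v ∈ Y0 Q x₀ x e f u₀ u₀' → γ ∈ Y0 Q x₀ x e f u₀ u₀' → y ∈ Y0 Q x₀ x e f u₀ u₀' →
      Q γ = Q v → Q v ≠ 0 → polar (⇑Q) γ y = 0 → polar (⇑Q) v y ≠ 0 → v ∈ K) →
    (∀ {c b b' : ι → F}, c ∈ Y0 Q x₀ x e f u₀ u₀' → b ∈ Y0 Q x₀ x e f u₀ u₀' → b' ∈ Y0 Q x₀ x e f u₀ u₀' →
      Q c = 0 → polar (⇑Q) b b' = 1 → polar (⇑Q) c b = 0 → polar (⇑Q) c b' = 0 → c ∈ K) →
    Y0 Q x₀ x e f u₀ u₀' ≤ K
  huniv : ∀ c : F, c ≠ 0 → ∃ y ∈ Y0 Q x₀ x e f u₀ u₀', Q y = c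

variable (D : SmData Q x₀ x e f u₀ u₀' y₀) (htr : LinearMap.trace ℂ U (LL ρ ψ x₀ e) = 1)
include D

theorem SmData.y₀_mem : y₀ ∈ Y0 Q x₀ x e f u₀ u₀' := mem_Y0 D.hC.hy D.hC.uy D.hC.u'y

/-- A partner for `y₀` in the complement. -/
theorem SmData.exists_partner : ∃ y₀' ∈ Y0 Q x₀ x e f u₀ u₀', 𝔣 y₀ y₀' = 1 := by
  have h0 : y₀ ≠ 0 := by
    rintro rfl
    exact D.hC.Qy (by simp)
  obtain ⟨w, hw, hw1⟩ := exists_Vpp_polar D.hF D.hC.hy h0 1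
  have hu'u : 𝔣 u₀' u₀ = 1 := by rw [polar_comm, D.hC.uu']
  refine ⟨w - 𝔣 u₀' w • u₀ - 𝔣 u₀ w • u₀', mem_Y0 ?_ ?_ ?_, ?_⟩
  · exact Submodule.sub_mem _ (Submodule.sub_mem _ hw (Submodule.smul_mem _ _ D.hC.hu))
      (Submodule.smul_mem _ _ D.hC.hu')
  · rw [polar_sub_right, polar_sub_right, polar_smul_right', polar_smul_right', polar_self_of D.hC.Qu, D.hC.uu']
    ring
  · rw [polar_sub_right, polar_sub_right, polar_smul_right', polar_smul_right', polar_self_of D.hC.Qu', hu'u]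
    ring
  · have h1 : 𝔣 y₀ u₀ = 0 := by rw [polar_comm, D.hC.uy]
    have h2 : 𝔣 y₀ u₀' = 0 := by rw [polar_comm, D.hC.u'y]
    rw [polar_sub_right, polar_sub_right, polar_smul_right', polar_smul_right', h1, h2, hw1]
    ring

include htr

/-- The character `χ` of `Y₀` is trivial. -/
theorem SmData.abs_u0 {y : ι → F} (hy : y ∈ Y0 Q x₀ x e f u₀ u₀') : ff ρ ψ x₀ e (tt Q u₀ y) = 1 := by
  have hF := D.hF
  have hC := D.hC
  have hadd := fun {y y' : ι → F} => Y0_add (ρ := ρ) (ψ := ψ) hF htr hC.hu hC.hu' hC.Qu hC.Qu' hC.uu' (y := y) (y' := y')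
  let K : Submodule F (ι → F) :=
    { carrier := {y | y ∈ Y0 Q x₀ x e f u₀ u₀' ∧ ∀ s : F, ff ρ ψ x₀ e (tt Q u₀ (s • y)) = 1}
      add_mem' := by
        rintro a b ⟨ha, ha1⟩ ⟨hb, hb1⟩
        refine ⟨Submodule.add_mem _ ha hb, fun s => ?_⟩
        rw [smul_add, hadd (Submodule.smul_mem _ _ ha) (Submodule.smul_mem _ _ hb), ha1, hb1, one_mul]
      zero_mem' := by
        refine ⟨Submodule.zero_mem _, fun s => ?_⟩
        rw [smul_zero, tt_zero hC.Qu]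
        exact ff_one hF.Qa htr
      smul_mem' := by
        rintro c a ⟨ha, ha1⟩
        refine ⟨Submodule.smul_mem _ _ ha, fun s => ?_⟩
        rw [smul_smul]
        exact ha1 _ }
  have hK : Y0 Q x₀ x e f u₀ u₀' ≤ K := by
    apply D.hgen K
    · intro v γ y hv hγ hy hQ h0 hγy hvy
      exact ⟨hv, fun s => rot_triv hF htr hC.hu hC.hu' hC.Qu hC.Qu' hC.uu' hv hγ hy hQ h0 hγy hvy s⟩
    · intro c b b' hc hb hb' hQc hbb' hcb hcb'
      exact ⟨hc, fun s => sing_triv hF htr hC.hu hC.hu' hC.Qu hC.Qu' hC.uu' hc hb hb' hQc hbb' hcb hcb' s⟩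
  have h := (hK hy).2 1
  rwa [one_smul] at h

omit htr in
/-- Singular vectors of the complement are in the orbit of a multiple of `u₀`. -/
theorem SmData.Cr_sing {u : ι → F} (hu : u ∈ Vpp Q x₀ x e f) (hQu : Q u = 0) (h0 : u ≠ 0) :
    ∃ c : F, c ≠ 0 ∧ Cr Q x₀ x e f u (c • u₀) := by
  have hF := D.hF
  have hC := D.hC
  have hu'u : 𝔣 u₀' u₀ = 1 := by rw [polar_comm, hC.uu']
  -- scaling a relation
  have hsc : ∀ {a b : ι → F} (c : F), Cr Q x₀ x e f a b → Cr Q x₀ x e f (c • a) (c • b) := by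
    rintro a b c ⟨τ, hτ, rfl⟩
    exact ⟨τ, hτ, av_smul _ _ _⟩
  -- the case where the product with `u₀'` does not vanish
  have c2 : ∀ {u : ι → F}, u ∈ Vpp Q x₀ x e f → Q u = 0 → 𝔣 u₀' u ≠ 0 →
      ∃ c : F, c ≠ 0 ∧ Cr Q x₀ x e f u (c • u₀) := by
    intro u hu hQu hα
    set α := 𝔣 u₀' u with hαd
    have hu1 : α⁻¹ • u ∈ Vpp Q x₀ x e f := Submodule.smul_mem _ _ hu
    have h1 : Cr Q x₀ x e f (α⁻¹ • u) u₀ := by
      refine Cr_one_step hC.hu' hC.Qu' hu1 hC.hu ?_ ?_ ?_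
      · rw [Q_smul, hQu, hC.Qu, mul_zero]
      · rw [polar_smul_right', ← hαd, inv_mul_cancel₀ hα, hu'u]
      · rw [polar_smul_right', ← hαd, inv_mul_cancel₀ hα]
        exact one_ne_zero
    have h2 := hsc α h1
    rw [smul_smul, mul_inv_cancel₀ hα, one_smul] at h2
    exact ⟨α, hα, h2⟩
  by_cases h2 : 𝔣 u₀' u = 0
  · by_cases h1 : 𝔣 u₀ u = 0
    · -- move first
      obtain ⟨y₁, hy₁, hy₁1⟩ := exists_Vpp_polar hF hu h0 1
      set y := y₁ - 𝔣 u₀ y₁ • u₀' with hy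
      have hyV : y ∈ Vpp Q x₀ x e f := Submodule.sub_mem _ hy₁ (Submodule.smul_mem _ _ hC.hu')
      have huy : 𝔣 u₀ y = 0 := by
        rw [hy, polar_sub_right, polar_smul_right', hC.uu']
        ring
      have hγy : 𝔣 y u = 1 := by
        rw [hy, polar_sub_left, polar_smul_left', h2, polar_comm, hy₁1]
        ring
      have hm : Cr Q x₀ x e f u (u - u₀) := by
        refine ⟨tt Q u₀ y, tt_mem_Cgp hC.hu hyV hC.Qu huy, ?_⟩
        rw [av_tt hC.Qu huy, h1, hγy]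
        simp
      have hm2 : u - u₀ ∈ Vpp Q x₀ x e f := Submodule.sub_mem _ hu hC.hu
      have hQ2 : Q (u - u₀) = 0 := by
        rw [Q_sub, hC.Qu, polar_comm, h1, hQu]
        ring
      have h3 : 𝔣 u₀' (u - u₀) ≠ 0 := by
        rw [polar_sub_right, h2, hu'u]
        simp
      obtain ⟨c, hc, hc2⟩ := c2 hm2 hQ2 h3
      exact ⟨c, hc, hm.trans hc2⟩
    · -- go to `u₀'` first
      set α := 𝔣 u₀ u with hαd
      have hu1 : α⁻¹ • u ∈ Vpp Q x₀ x e f := Submodule.smul_mem _ _ hu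
      have s1 : Cr Q x₀ x e f (α⁻¹ • u) u₀' := by
        refine Cr_one_step hC.hu hC.Qu hu1 hC.hu' ?_ ?_ ?_
        · rw [Q_smul, hQu, hC.Qu', mul_zero]
        · rw [polar_smul_right', ← hαd, inv_mul_cancel₀ h1, hC.uu']
        · rw [polar_smul_right', ← hαd, inv_mul_cancel₀ h1]
          exact one_ne_zero
      have s2 := hsc α s1
      rw [smul_smul, mul_inv_cancel₀ h1, one_smul] at s2
      have hd := hC.Qy
      have hv : vs Q u₀ u₀' y₀ ∈ Cgp Q x₀ x e f := by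
        have h3 := tt_mem_Cgp (y := (Q y₀)⁻¹ • y₀) hC.hu (Submodule.smul_mem _ _ hC.hy) hC.Qu
          (by rw [polar_smul_right', hC.uy, mul_zero])
        exact Subgroup.mul_mem _ (Subgroup.mul_mem _ h3 (tt_mem_Cgp hC.hu' hC.hy hC.Qu' hC.u'y)) h3
      have s3 : Cr Q x₀ x e f (α • u₀') (α • -(Q y₀)⁻¹ • u₀) := by
        refine hsc α ⟨_, hv, ?_⟩
        exact vs_f hC.Qu hC.Qu' hC.uu' hC.uy hC.u'y hd
      rw [smul_smul] at s3
      exact ⟨_, mul_ne_zero h1 (neg_ne_zero.2 (inv_ne_zero hd)), s2.trans s3⟩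
  · exact c2 hu hQu h2

/-- All Eichler elements of `C` are trivial under `ff`. -/
theorem SmData.abs_all {u y : ι → F} (hu : u ∈ Vpp Q x₀ x e f) (hy : y ∈ Vpp Q x₀ x e f) (hQu : Q u = 0)
    (huy : 𝔣 u y = 0) : ff ρ ψ x₀ e (tt Q u y) = 1 := by
  have hF := D.hF
  have hC := D.hC
  have hu'u : 𝔣 u₀' u₀ = 1 := by rw [polar_comm, hC.uu']
  by_cases h0 : u = 0
  · subst h0
    have : tt Q (0 : ι → F) y = 1 := by
      apply om_ext
      intro v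
      rw [av_tt hQu huy]
      simp [polar]
    rw [this]
    exact ff_one hF.Qa htr
  obtain ⟨c, hc, τ, hτ, hτu⟩ := D.Cr_sing hu hQu h0
  have hk : ρ τ * LL ρ ψ x₀ e = LL ρ ψ x₀ e * ρ τ :=
    comm_of_fix hF.Qa (Cgp_x₀ hF hτ) (Cgp_e hF hτ)
  have h1 := ff_conj hF.Qa htr hk (tt Q u y)
  rw [conj_tt _ hQu huy, hτu] at h1
  have hy' : av τ y ∈ Vpp Q x₀ x e f := Cgp_Vpp hF hτ hy
  have hy0 : 𝔣 u₀ (av τ y) = 0 := by
    have h2 := polar_av τ u y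
    rw [hτu, polar_smul_left', huy] at h2
    exact (mul_eq_zero.mp h2).resolve_left hc
  rw [tt_smul_left c hC.Qu hy0] at h1
  rw [← h1]
  have hwV : c • av τ y ∈ Vpp Q x₀ x e f := Submodule.smul_mem _ _ hy'
  have hw0 : 𝔣 u₀ (c • av τ y) = 0 := by rw [polar_smul_right', hy0, mul_zero]
  generalize c • av τ y = w at hwV hw0 ⊢
  set s := 𝔣 u₀' w with hs
  have hw1 : w - s • u₀ ∈ Y0 Q x₀ x e f u₀ u₀' := by
    refine mem_Y0 (Submodule.sub_mem _ hwV (Submodule.smul_mem _ _ hC.hu)) ?_ ?_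
    · rw [polar_sub_right, polar_smul_right', hw0, polar_self_of hC.Qu]
      ring
    · rw [polar_sub_right, polar_smul_right', hu'u, ← hs]
      ring
  have e1 : w = (w - s • u₀) + s • u₀ := by abel
  rw [e1, tt_add_smul s hC.Qu hw1.1.2.2.1]
  exact D.abs_u0 htr hw1

/-- All of `C` absorbs `P`. -/
theorem SmData.Cgp_abs {τ : Om Q} (hτ : τ ∈ Cgp Q x₀ x e f) :
    ρ τ * LL ρ ψ x₀ e = LL ρ ψ x₀ e ∧ LL ρ ψ x₀ e * ρ τ = LL ρ ψ x₀ e := by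
  have hF := D.hF
  induction hτ using Subgroup.closure_induction with
  | mem g hg =>
    obtain ⟨u, hu, y, hy, hQu, huy, rfl⟩ := hg
    have hc : ρ (tt Q u y) * LL ρ ψ x₀ e = LL ρ ψ x₀ e * ρ (tt Q u y) :=
      comm_of_fix hF.Qa (av_tt_perp hQu huy (frame_perp hF hu).1 (frame_perp hF hy).1)
        (av_tt_perp hQu huy (frame_perp hF hu).2.2.1 (frame_perp hF hy).2.2.1)
    have h1 := D.abs_all htr hu hy hQu huy
    exact ⟨absorb_left hF.Qa htr hc h1, absorb_right hF.Qa htr hc h1⟩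
  | one => simp
  | mul g h _ _ hg hh =>
    constructor
    · rw [map_mul ρ, mul_assoc, hh.1, hg.1]
    · rw [map_mul ρ, ← mul_assoc, hg.2, hh.2]
  | inv g _ hg =>
    constructor
    · conv_lhs => rw [← hg.1]
      rw [← mul_assoc, rho_inv_mul', one_mul]
    · conv_lhs => rw [← hg.2]
      rw [mul_assoc, rho_mul_inv', mul_one]

omit htr in
/-- Transitivity on spheres. -/
theorem SmData.Cr_sph {γ γ' : ι → F} (hγ : γ ∈ Vpp Q x₀ x e f) (hγ' : γ' ∈ Vpp Q x₀ x e f) (hQ : Q γ = Q γ')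
    (h0 : Q γ ≠ 0) : Cr Q x₀ x e f γ γ' := by
  have hF := D.hF
  have hC := D.hC
  obtain ⟨b, hb, h1⟩ := Cr_to_gb hC hF hγ h0 rfl
  obtain ⟨b', hb', h2⟩ := Cr_to_gb hC hF hγ' h0 hQ.symm
  refine h1.trans (Cr.trans ?_ h2.symm)
  set c := Q γ with hc
  -- the case of a square ratio
  have hsq : ∀ {b : F}, b ≠ 0 → IsSquare (b' * b⁻¹) → Cr Q x₀ x e f (gb u₀ u₀' c b) (gb u₀ u₀' c b') := by
    intro b hb hs
    obtain ⟨ν, hν⟩ := hs
    have hν0 : ν ≠ 0 := by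
      rintro rfl
      apply mul_ne_zero hb' (inv_ne_zero hb)
      rw [hν, zero_mul]
    have h3 := Cr_gb_sq hC c hb (inv_ne_zero hν0)
    have e3 : b * (ν⁻¹ * ν⁻¹)⁻¹ = b' := by
      have : b' = (b' * b⁻¹) * b := by field_simp
      rw [this, hν]
      field_simp
    rwa [e3] at h3
  by_cases hs : IsSquare (b' * b⁻¹)
  · exact hsq hb hs
  · have hchar : ringChar F ≠ 2 := fun h => hs (FiniteField.isSquare_of_char_two h _)
    obtain ⟨ν, hν⟩ := FiniteField.exists_nonsquare hchar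
    have hν0 : ν ≠ 0 := by
      rintro rfl
      exact hν IsSquare.zero
    have hν1 : 1 - ν ≠ 0 := by
      intro h
      apply hν
      have : ν = 1 := by linear_combination -h
      rw [this]
      exact IsSquare.one
    obtain ⟨y, hy, hQy⟩ := D.huniv (c * (1 - ν)) (mul_ne_zero h0 hν1)
    have hC' : Cplx Q x₀ x e f u₀ u₀' y :=
      { hu := hC.hu, hu' := hC.hu', hy := hy.2, Qu := hC.Qu, Qu' := hC.Qu', uu' := hC.uu',
        uy := hy.1.2.2.1, u'y := hy.1.2.2.2, Qy := by rw [hQy]; exact mul_ne_zero h0 hν1 }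
    have e4 : c - (1 : F) * 1 * Q y = c * ν := by
      rw [hQy]
      ring
    have hs3 : c - (1 : F) * 1 * Q y ≠ 0 := by
      rw [e4]
      exact mul_ne_zero h0 hν0
    have h3 := Cr_gb_ratio hC' h0 hb hs3
    have hb3 : b * (c * (c - (1 : F) * 1 * Q y)⁻¹) ≠ 0 := mul_ne_zero hb (mul_ne_zero h0 (inv_ne_zero hs3))
    refine h3.trans (hsq hb3 ?_)
    have e5 : b' * (b * (c * (c - (1 : F) * 1 * Q y)⁻¹))⁻¹ = (b' * b⁻¹) * ν := by
      rw [e4]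
      field_simp
    rw [e5]
    exact isSquare_mul_of_not hs hν

/-- The main case for small fields. -/
theorem SmData.toMC (hψ : ψ 1 ≠ 1) (hns : ∀ w, 𝔣 x₀ w = 0 → Q w ≠ 0 → LL ρ ψ x₀ w = 0) (μ : F) :
    MC ρ ψ x₀ x e f μ u₀ u₀' y₀ := by
  have hF := D.hF
  have hC := D.hC
  obtain ⟨y₀', hy₀', hy₀'1⟩ := D.exists_partner
  have hu'u : 𝔣 u₀' u₀ = 1 := by rw [polar_comm, hC.uu']
  refine ⟨hF, htr, hψ, hns, ?_, fun hτ => D.Cgp_abs htr hτ, fun hγ hγ' hQ h0 => D.Cr_sph hγ hγ' hQ h0, hC⟩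
  intro γ hγ
  refine char_triv hF.Qa htr (z := u₀) (z' := u₀') (b := y₀) (b' := y₀') (Vpp Q x₀ x e f) hF.Qb hF.ba hF.bb ?_
    hC.hu hC.hu' hC.hy hy₀'.2 hC.Qu hC.Qu' hC.uu' hy₀'1 hC.uy hy₀'.1.2.2.1 hC.u'y hy₀'.1.2.2.2 hγ
  intro y hy
  have h1 := frame_perp hF hy
  exact ⟨h1.1, h1.2.2.1, h1.2.2.1⟩

end Data

end Cfsg.Agent.Lib.MinDeg.Omega
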