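import Cfsg.Agent.Lib.MinDeg.Omega.Restrict

/-!
# The case analysis for small fields
-/

set_option autoImplicit false
set_option linter.unusedSectionVars false
set_option linter.unusedSimpArgs false
set_option linter.unusedVariables false

namespace Cfsg.Agent.Lib.MinDeg.Omega

open Matrix QuadraticMap Module
open Cfsg.Agent.Lib.Classical.Orth.Basic

universe u v

variable {ι : Type} [Fintype ι] [DecidableEq ι] {F : Type u} [Field F] [Fintype F] [DecidableEq F]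
variable {Q : QuadraticForm F (ι → F)} [OmCtx Q]
variable {U : Type v} [AddCommGroup U] [Module ℂ U] [FiniteDimensional ℂ U]

set_option quotPrecheck false in
local notation "𝔣" => polar (⇑Q)

local notation "tr" => LinearMap.trace ℂ U

variable {ρ : Om Q →* Module.End ℂ U} {ψ : AddChar F ℂ} {x₀ x e f u₀ u₀' y₀ : ι → F}

/-- The anisotropic weights vanish if the parametrized weights do. -/
theorem hns_of (hF : HF Q x₀ x e f) (hC : Cplx Q x₀ x e f u₀ u₀' y₀)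
    (s1 : ∀ c : F, c ≠ 0 → nn ρ ψ x₀ (e + c • f) = 0) :
    ∀ w, 𝔣 x₀ w = 0 → Q w ≠ 0 → LL ρ ψ x₀ w = 0 := by
  intro w hw hQw
  have e1 := decomp_fv (Q := Q) (x₀ := x₀) (x := x) (e := e) (f := f) w
  have hγ := projV_mem hF w
  set γ := projV Q x₀ x e f w with hγd
  have e2 : w = (𝔣 f w • e + 𝔣 e w • f + γ) + (𝔣 x w) • x₀ := by
    conv_lhs => rw [← e1]
    simp only [fv, hw, zero_smul, add_zero]
    abel
  have hQ2 : Q w = 𝔣 f w * 𝔣 e w + Q γ := by
    conv_lhs => rw [← e1]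
    rw [Q_fv hF _ _ _ _ hγ, hw]
    ring
  have hne2 : 𝔣 f w ≠ 0 ∨ 𝔣 e w ≠ 0 ∨ γ ≠ 0 := by
    by_contra hc
    push Not at hc
    apply hQw
    rw [hQ2, hc.1, hc.2.2]
    simp
  rw [e2, LL_add_smul]
  apply nn_zero_iff hF.Qa
  rw [nn_wt hF hC _ _ hγ hne2, ← hQ2]
  exact s1 _ hQw

/-- If no weight but the trivial one occurs the representation is trivial. -/
theorem trivial_of_nn (hF : HF Q x₀ x e f) (hC : Cplx Q x₀ x e f u₀ u₀' y₀) (hψ : ψ 1 ≠ 1)
    (h0 : ∀ c : F, nn ρ ψ x₀ (e + c • f) = 0) (g : Om Q) : ρ g = 1 := by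
  have hx₀0 : x₀ ≠ 0 := by
    intro h
    have := hF.aa'
    rw [h] at this
    simp [polar] at this
  refine rho_trivial (ψ := ψ) hF.Qa hx₀0 ?_ g
  have h1 := frame_sum (ρ := ρ) (ψ := ψ) hF hψ
  have hall : ∀ (β β' : F) (γ : Vpp Q x₀ x e f), (β ≠ 0 ∨ β' ≠ 0 ∨ γ ≠ (⟨0, Submodule.zero_mem _⟩ : Vpp Q x₀ x e f)) →
      LL ρ ψ x₀ (β • e + β' • f + γ.1) = 0 := by
    intro β β' γ hne3
    apply nn_zero_iff hF.Qa
    rw [nn_wt hF hC _ _ γ.2 (by
      rcases hne3 with h | h | h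
      · exact Or.inl h
      · exact Or.inr (Or.inl h)
      · exact Or.inr (Or.inr (fun h4 => h (Subtype.ext h4))))]
    exact h0 _
  rw [Finset.sum_eq_single (0 : F), Finset.sum_eq_single (0 : F),
    Finset.sum_eq_single (⟨0, Submodule.zero_mem _⟩ : Vpp Q x₀ x e f)] at h1
  · simpa using h1
  · intro γ _ hγ
    exact hall _ _ _ (Or.inr (Or.inr hγ))
  · simp
  · intro β' _ hβ'
    exact Finset.sum_eq_zero fun γ _ => hall _ _ _ (Or.inr (Or.inl hβ'))
  · simp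
  · intro β _ hβ
    exact Finset.sum_eq_zero fun β' _ => Finset.sum_eq_zero fun γ _ => hall _ _ _ (Or.inl hβ)
  · simp

/-- The case analysis. -/
theorem small_cases (D : SmData Q x₀ x e f u₀ u₀' y₀) (hψ : ψ 1 ≠ 1) (hne : ∃ g, ρ g ≠ 1)
    (hSchur : ∀ T : Module.End ℂ U, (∀ g, ρ g * T = T * ρ g) → ∃ c : ℂ, T = c • 1)
    (hW : ∀ c : F, c ≠ 0 → WW Q x₀ x e f 0 ≤ WW Q x₀ x e f c) :
    2 * WW Q x₀ x e f 0 ≤ finrank ℂ U ∨
    (∃ α : ℂ, α ^ 2 * (Fintype.card (Vpp Q x₀ x e f) : ℂ) = 1 ∧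
      (Fintype.card F : ℂ) * (AA Q x₀ x e f : ℂ) = (Fintype.card (Vpp Q x₀ x e f) : ℂ) *
        (1 + ((Fintype.card F : ℂ) - 1) * α) ∧
      (finrank ℂ U : ℂ) * ((Fintype.card F : ℂ) ^ 2 - 1) * ((Fintype.card F : ℂ) ^ 2 * (Fintype.card (Vpp Q x₀ x e f) : ℂ) - 1) =
        (Fintype.card F : ℂ) * (((Fintype.card F : ℂ) ^ 2 - 1) * (Fintype.card F : ℂ) * (Fintype.card (Vpp Q x₀ x e f) : ℂ) +
          (Fintype.card F : ℂ) ^ 2 * (AA Q x₀ x e f : ℂ) - 1) *
        (((Fintype.card F : ℂ) - 1) * (Fintype.card (Vpp Q x₀ x e f) : ℂ) + (Fintype.card F : ℂ) * (AA Q x₀ x e f : ℂ) - 1)) ∨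
    ((Fintype.card (Vpp Q x₀ x e f) : ℂ) = (Fintype.card F : ℂ) * (AA Q x₀ x e f : ℂ) ∧
      (finrank ℂ U : ℂ) * ((Fintype.card F : ℂ) ^ 2 - 1) =
        (Fintype.card F : ℂ) ^ 3 * (Fintype.card (Vpp Q x₀ x e f) : ℂ) - 1) ∨
    (∃ c₀ : F, c₀ ≠ 0 ∧ nn ρ ψ x₀ (e + c₀ • f) = 1 ∧ (∀ c : F, c ≠ c₀ → nn ρ ψ x₀ (e + c • f) = 0) ∧
      finrank ℂ U = nn ρ ψ x₀ 0 + WW Q x₀ x e f c₀) := by
  classical
  have hF := D.hF
  have hC := D.hC
  have hdim := dim_decomp (ρ := ρ) (ψ := ψ) hF hC hψ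
  set W := WW Q x₀ x e f with hWd
  set n : F → ℕ := fun c => nn ρ ψ x₀ (e + c • f) with hn
  have hdim' : finrank ℂ U = nn ρ ψ x₀ 0 + ∑ c : F, W c * n c := hdim
  have hsingle : ∀ c : F, W c * n c ≤ finrank ℂ U := by
    intro c
    rw [hdim']
    exact le_add_left (Finset.single_le_sum (f := fun c => W c * n c) (fun _ _ => Nat.zero_le _) (Finset.mem_univ c))
  have hpair : ∀ c c' : F, c ≠ c' → W c * n c + W c' * n c' ≤ finrank ℂ U := by
    intro c c' hcc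
    rw [hdim', ← Finset.sum_pair (f := fun c => W c * n c) hcc]
    exact le_add_left (Finset.sum_le_sum_of_subset (Finset.subset_univ _))
  have hW0 : ∀ c : F, W 0 ≤ W c := by
    intro c
    by_cases hc : c = 0
    · rw [hc]
    · exact hW c hc
  by_cases h : ∃ c : F, c ≠ 0 ∧ n c ≠ 0
  · obtain ⟨c₀, hc₀, hnc₀⟩ := h
    by_cases h2 : ∃ c₁ : F, c₁ ≠ c₀ ∧ n c₁ ≠ 0
    · obtain ⟨c₁, hc₁, hnc₁⟩ := h2
      left
      have h3 := hpair c₀ c₁ hc₁.symm
      have h4 : W 0 ≤ W c₀ * n c₀ := (hW0 c₀).trans (Nat.le_mul_of_pos_right _ (Nat.pos_of_ne_zero hnc₀))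
      have h5 : W 0 ≤ W c₁ * n c₁ := (hW0 c₁).trans (Nat.le_mul_of_pos_right _ (Nat.pos_of_ne_zero hnc₁))
      omega
    · push Not at h2
      by_cases h3 : n c₀ = 1
      · right; right; right
        refine ⟨c₀, hc₀, h3, h2, ?_⟩
        rw [hdim', Finset.sum_eq_single c₀]
        · rw [h3, mul_one]
        · intro c _ hc
          rw [h2 c hc, mul_zero]
        · simp
      · left
        have h4 : 2 ≤ n c₀ := by omega
        have h5 := hsingle c₀
        have h6 : W c₀ * 2 ≤ W c₀ * n c₀ := Nat.mul_le_mul_left _ h4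
        have h7 := hW0 c₀
        omega
  · push Not at h
    by_cases h2 : n 0 = 0
    · exfalso
      obtain ⟨g, hg⟩ := hne
      apply hg
      refine trivial_of_nn hF hC hψ ?_ g
      intro c
      by_cases hc : c = 0
      · rw [hc]
        exact h2
      · exact h c hc
    · by_cases h3 : n 0 = 1
      · right
        have hn0 : nn ρ ψ x₀ e = 1 := by
          have : e + (0 : F) • f = e := by simp
          have h4 : nn ρ ψ x₀ (e + (0 : F) • f) = 1 := h3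
          rwa [this] at h4
        have htr : LinearMap.trace ℂ U (LL ρ ψ x₀ e) = 1 := by
          rw [← nn_cast hF.Qa, hn0, Nat.cast_one]
        have H : MC ρ ψ x₀ x e f 0 u₀ u₀' y₀ := D.toMC htr hψ (hns_of hF hC h) 0
        obtain ⟨c, hc⟩ := hSchur (TT ρ ψ) TT_comm
        by_cases hχ : ∀ t : F, t ≠ 0 → chi ρ ψ H.hF t = 1
        · exact Or.inl (dim_typeI H hχ hc)
        · push Not at hχ
          obtain ⟨t, ht, hχ⟩ := hχ
          exact Or.inr (Or.inl (dim_typeII H ht hχ hc))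
      · left
        have h4 : 2 ≤ n 0 := by omega
        have h5 := hsingle 0
        have h6 : W 0 * 2 ≤ W 0 * n 0 := Nat.mul_le_mul_left _ h4
        omega

end Cfsg.Agent.Lib.MinDeg.Omega
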