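import Cfsg.Agent.Lib.MinDeg.Omega.Vs

/-!
# Absorption by `C` and transitivity of `C` on the spheres of the complement
-/

set_option autoImplicit false
set_option linter.unusedSectionVars false
set_option linter.unusedSimpArgs false
set_option linter.unusedVariables false

namespace Cfsg.Agent.Lib.MinDeg.Omega

open Matrix QuadraticMap Module
open Cfsg.Agent.Lib.Classical.Orth.Basic

universe u v

variable {ι : Type} [Fintype ι] [DecidableEq ι] {F : Type u} [Field F] [Fintype F] [DecidableEq F]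
variable {Q : QuadraticForm F (ι → F)} [OmCtx Q]
variable {U : Type v} [AddCommGroup U] [Module ℂ U] [FiniteDimensional ℂ U]

set_option quotPrecheck false in
local notation "𝔣" => polar (⇑Q)

local notation "tr" => LinearMap.trace ℂ U

section CAbsorb

variable {ρ : Om Q →* Module.End ℂ U} {ψ : AddChar F ℂ}
variable {x₀ x e f : ι → F} (hF : HF Q x₀ x e f)
variable (htr : LinearMap.trace ℂ U (LL ρ ψ x₀ e) = (1 : ℂ))
include hF htr

/-- All of `C` absorbs `P`. -/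
theorem Cgp_absorb {μ : F} (hμ0 : μ ≠ 0) (hμ : μ * μ ≠ 1) {τ : Om Q} (hτ : τ ∈ Cgp Q x₀ x e f) :
    ρ τ * LL ρ ψ x₀ e = LL ρ ψ x₀ e ∧ LL ρ ψ x₀ e * ρ τ = LL ρ ψ x₀ e := by
  induction hτ using Subgroup.closure_induction with
  | mem g hg =>
    obtain ⟨u, hu, y, hy, hQu, huy, rfl⟩ := hg
    have hc : ρ (tt Q u y) * LL ρ ψ x₀ e = LL ρ ψ x₀ e * ρ (tt Q u y) :=
      comm_of_fix hF.Qa (av_tt_perp hQu huy (frame_perp hF hu).1 (frame_perp hF hy).1)
        (av_tt_perp hQu huy (frame_perp hF hu).2.2.1 (frame_perp hF hy).2.2.1)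
    have h1 := ff_tt_C hF htr hμ0 hμ hu hy hQu huy
    exact ⟨absorb_left hF.Qa htr hc h1, absorb_right hF.Qa htr hc h1⟩
  | one => simp
  | mul g h _ _ hg hh =>
    constructor
    · rw [map_mul ρ, mul_assoc, hh.1, hg.1]
    · rw [map_mul ρ, ← mul_assoc, hg.2, hh.2]
  | inv g _ hg =>
    constructor
    · conv_lhs => rw [← hg.1]
      rw [← mul_assoc, rho_inv_mul', one_mul]
    · conv_lhs => rw [← hg.2]
      rw [mul_assoc, rho_mul_inv', mul_one]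

end CAbsorb

section Squares

/-- A value of `1 - κ s²` which is not a square. -/
theorem exists_ns_ratio {κ : F} (hκ : κ ≠ 0) {μ : F} (hμ0 : μ ≠ 0) (hμ : μ * μ ≠ 1)
    (hchar : ringChar F ≠ 2) : ∃ s : F, 1 - κ * (s * s) ≠ 0 ∧ ¬IsSquare (1 - κ * (s * s)) := by
  have h2 : (2 : F) ≠ 0 := Ring.two_ne_zero hchar
  obtain ⟨ν, hν⟩ := FiniteField.exists_nonsquare hchar
  have hν0 : ν ≠ 0 := by
    rintro rfl
    exact hν IsSquare.zero
  have key : ∀ t : F, t ≠ 0 → ¬IsSquare (ν * (t * t)) := by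
    intro t ht hs
    apply hν
    have e : ν = (ν * (t * t)) * (t⁻¹ * t⁻¹) := by
      field_simp
    rw [e]
    exact hs.mul ⟨t⁻¹, rfl⟩
  have hcard := FiniteField.odd_card_of_char_ne_two hchar
  obtain ⟨a, b, hab⟩ : ∃ a b : F, κ * (a * a) + ν * (b * b) = 1 := by
    have hf : (Polynomial.C κ * Polynomial.X ^ 2 + Polynomial.C 0 * Polynomial.X +
        Polynomial.C 0 : Polynomial F).degree = 2 := Polynomial.degree_quadratic hκ
    have hg : (Polynomial.C ν * Polynomial.X ^ 2 + Polynomial.C 0 * Polynomial.X +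
        Polynomial.C (-1) : Polynomial F).degree = 2 := Polynomial.degree_quadratic hν0
    obtain ⟨a, b, h⟩ := FiniteField.exists_root_sum_quadratic hf hg hcard
    refine ⟨a, b, ?_⟩
    simp only [Polynomial.eval_add, Polynomial.eval_mul, Polynomial.eval_C, Polynomial.eval_pow,
      Polynomial.eval_X] at h
    linear_combination h
  by_cases hb : b = 0
  · subst hb
    have hab' : κ * (a * a) = 1 := by simpa using hab
    -- a parametrization of the conic `r² + ν t² = 1`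
    obtain ⟨l, hl0, hl1⟩ : ∃ l : F, l ≠ 0 ∧ 1 + ν * (l * l) ≠ 0 := by
      by_cases h : 1 + ν = 0
      · refine ⟨μ, hμ0, ?_⟩
        have hν1 : ν = -1 := by linear_combination h
        rw [hν1]
        intro h3
        apply hμ
        linear_combination -h3
      · exact ⟨1, one_ne_zero, by simpa using h⟩
    refine ⟨a * ((1 - ν * (l * l)) / (1 + ν * (l * l))), ?_⟩
    have e : 1 - κ * ((a * ((1 - ν * (l * l)) / (1 + ν * (l * l)))) *
        (a * ((1 - ν * (l * l)) / (1 + ν * (l * l))))) =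
        ν * ((2 * l / (1 + ν * (l * l))) * (2 * l / (1 + ν * (l * l)))) := by
      have e2 : κ * ((a * ((1 - ν * (l * l)) / (1 + ν * (l * l)))) *
        (a * ((1 - ν * (l * l)) / (1 + ν * (l * l))))) =
          (κ * (a * a)) * (((1 - ν * (l * l)) / (1 + ν * (l * l))) * ((1 - ν * (l * l)) / (1 + ν * (l * l)))) := by
        ring
      rw [e2, hab', one_mul]
      have hl2 : 1 + ν * l ^ 2 ≠ 0 := by
        rw [pow_two]
        exact hl1
      simp only [← pow_two]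
      field_simp
      ring
    have ht : 2 * l / (1 + ν * (l * l)) ≠ 0 := div_ne_zero (mul_ne_zero h2 hl0) hl1
    rw [e]
    exact ⟨mul_ne_zero hν0 (mul_ne_zero ht ht), key _ ht⟩
  · refine ⟨a, ?_⟩
    have e : 1 - κ * (a * a) = ν * (b * b) := by linear_combination -hab
    rw [e]
    exact ⟨mul_ne_zero hν0 (mul_ne_zero hb hb), key _ hb⟩

/-- Any element is a square or becomes one after multiplication by a given nonsquare. -/
theorem isSquare_mul_of_not {t n : F} (ht : ¬IsSquare t) (hn : ¬IsSquare n) : IsSquare (t * n) := by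
  by_cases hchar : ringChar F = 2
  · exact FiniteField.isSquare_of_char_two hchar _
  have ht0 : t ≠ 0 := by
    rintro rfl
    exact ht IsSquare.zero
  have hn0 : n ≠ 0 := by
    rintro rfl
    exact hn IsSquare.zero
  rw [← quadraticChar_one_iff_isSquare (mul_ne_zero ht0 hn0), map_mul,
    quadraticChar_neg_one_iff_not_isSquare.mpr ht, quadraticChar_neg_one_iff_not_isSquare.mpr hn]
  norm_num

end Squares

section Sphere

variable {x₀ x e f : ι → F}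

variable (Q x₀ x e f) in
/-- The orbit relation of `C`. -/
def Cr (γ γ' : ι → F) : Prop := ∃ τ ∈ Cgp Q x₀ x e f, av τ γ = γ'

theorem Cr.refl (γ : ι → F) : Cr Q x₀ x e f γ γ := ⟨1, Subgroup.one_mem _, av_one γ⟩

theorem Cr.symm {γ γ' : ι → F} (h : Cr Q x₀ x e f γ γ') : Cr Q x₀ x e f γ' γ := by
  obtain ⟨τ, hτ, rfl⟩ := h
  exact ⟨τ⁻¹, Subgroup.inv_mem _ hτ, av_inv_av τ γ⟩

theorem Cr.trans {γ γ' γ'' : ι → F} (h : Cr Q x₀ x e f γ γ') (h' : Cr Q x₀ x e f γ' γ'') :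
    Cr Q x₀ x e f γ γ'' := by
  obtain ⟨τ, hτ, rfl⟩ := h
  obtain ⟨τ', hτ', rfl⟩ := h'
  exact ⟨τ' * τ, Subgroup.mul_mem _ hτ' hτ, av_mul _ _ _⟩

/-- One Eichler transformation moves `γ` to `γ'` if they are on the same sphere and have the same
nonzero product with a singular vector. -/
theorem Cr_one_step {u γ γ' : ι → F} (hu : u ∈ Vpp Q x₀ x e f) (hQu : Q u = 0)
    (hγ : γ ∈ Vpp Q x₀ x e f) (hγ' : γ' ∈ Vpp Q x₀ x e f) (hQ : Q γ = Q γ') (h1 : 𝔣 u γ = 𝔣 u γ')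
    (h0 : 𝔣 u γ ≠ 0) : Cr Q x₀ x e f γ γ' := by
  set κ := 𝔣 u γ with hκ
  set y := κ⁻¹ • (γ' - γ) with hy
  have hyV : y ∈ Vpp Q x₀ x e f := Submodule.smul_mem _ _ (Submodule.sub_mem _ hγ' hγ)
  have huy : 𝔣 u y = 0 := by
    rw [hy, polar_smul_right', polar_sub_right, ← h1, ← hκ, sub_self, mul_zero]
  have he : γ' = γ + κ • y := by
    rw [hy, smul_smul, mul_inv_cancel₀ h0, one_smul]
    abel
  have hs : 𝔣 y γ + Q y * κ = 0 := by
    have h2 := hQ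
    rw [he, Q_add, Q_smul, polar_smul_right', polar_comm] at h2
    have h3 : κ * (𝔣 y γ + Q y * κ) = 0 := by linear_combination -h2
    exact (mul_eq_zero.mp h3).resolve_left h0
  refine ⟨tt Q u y, tt_mem_Cgp hu hyV hQu huy, ?_⟩
  rw [av_tt hQu huy, ← hκ]
  have e2 : γ + κ • y - 𝔣 y γ • u - (Q y * κ) • u = (γ + κ • y) - (𝔣 y γ + Q y * κ) • u := by module
  rw [e2, hs, zero_smul, sub_zero, ← he]

variable (Q x₀ x e f) in
/-- The complement contains a hyperbolic pair and an anisotropic vector orthogonal to it. -/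
structure Cplx (u₀ u₀' y₀ : ι → F) : Prop where
  hu : u₀ ∈ Vpp Q x₀ x e f
  hu' : u₀' ∈ Vpp Q x₀ x e f
  hy : y₀ ∈ Vpp Q x₀ x e f
  Qu : Q u₀ = 0
  Qu' : Q u₀' = 0
  uu' : polar (⇑Q) u₀ u₀' = 1
  uy : polar (⇑Q) u₀ y₀ = 0
  u'y : polar (⇑Q) u₀' y₀ = 0
  Qy : Q y₀ ≠ 0

/-- Vectors of the hyperbolic plane on a sphere. -/
noncomputable def gb (u₀ u₀' : ι → F) (c b : F) : ι → F := (c * b⁻¹) • u₀ + b • u₀'

variable {u₀ u₀' y₀ : ι → F} (hC : Cplx Q x₀ x e f u₀ u₀' y₀)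
include hC

theorem gb_mem (c b : F) : gb u₀ u₀' c b ∈ Vpp Q x₀ x e f :=
  Submodule.add_mem _ (Submodule.smul_mem _ _ hC.hu) (Submodule.smul_mem _ _ hC.hu')

theorem Q_gb (c : F) {b : F} (hb : b ≠ 0) : Q (gb u₀ u₀' c b) = c := by
  rw [gb, Q_add, Q_smul, Q_smul, hC.Qu, hC.Qu', polar_smul_left', polar_smul_right', hC.uu']
  field_simp
  ring

theorem polar_u_gb (c b : F) : 𝔣 u₀ (gb u₀ u₀' c b) = b := by
  rw [gb, polar_add_right, polar_smul_right', polar_smul_right', polar_self_of hC.Qu, hC.uu']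
  ring

theorem polar_u'_gb (c b : F) : 𝔣 u₀' (gb u₀ u₀' c b) = c * b⁻¹ := by
  have h : 𝔣 u₀' u₀ = 1 := by rw [polar_comm, hC.uu']
  rw [gb, polar_add_right, polar_smul_right', polar_smul_right', polar_self_of hC.Qu', h]
  ring

/-- Each vector of a sphere is in the orbit of a vector of the hyperbolic plane. -/
theorem Cr_to_gb (hF : HF Q x₀ x e f) {γ : ι → F} (hγ : γ ∈ Vpp Q x₀ x e f) {c : F} (hc : c ≠ 0)
    (hQ : Q γ = c) : ∃ b : F, b ≠ 0 ∧ Cr Q x₀ x e f γ (gb u₀ u₀' c b) := by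
  have hu'u : 𝔣 u₀' u₀ = 1 := by rw [polar_comm, hC.uu']
  -- the case where the product with `u₀` does not vanish
  have c1 : ∀ {γ : ι → F}, γ ∈ Vpp Q x₀ x e f → Q γ = c → 𝔣 u₀ γ ≠ 0 →
      ∃ b : F, b ≠ 0 ∧ Cr Q x₀ x e f γ (gb u₀ u₀' c b) := by
    intro γ hγ hQ h0
    exact ⟨_, h0, Cr_one_step hC.hu hC.Qu hγ (gb_mem hC _ _) (by rw [Q_gb hC c h0, hQ])
      (by rw [polar_u_gb hC]) h0⟩
  -- the case where the product with `u₀'` does not vanish
  have c2 : ∀ {γ : ι → F}, γ ∈ Vpp Q x₀ x e f → Q γ = c → 𝔣 u₀' γ ≠ 0 →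
      ∃ b : F, b ≠ 0 ∧ Cr Q x₀ x e f γ (gb u₀ u₀' c b) := by
    intro γ hγ hQ h0
    have hb : c * (𝔣 u₀' γ)⁻¹ ≠ 0 := mul_ne_zero hc (inv_ne_zero h0)
    refine ⟨_, hb, Cr_one_step hC.hu' hC.Qu' hγ (gb_mem hC _ _) (by rw [Q_gb hC c hb, hQ]) ?_ h0⟩
    rw [polar_u'_gb hC]
    field_simp
  by_cases h1 : 𝔣 u₀ γ = 0
  · by_cases h2 : 𝔣 u₀' γ = 0
    · -- move first, by an element of `C`
      have h0 : γ ≠ 0 := by
        rintro rfl
        apply hc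
        rw [← hQ]
        simp
      obtain ⟨y₁, hy₁, hy₁1⟩ := exists_Vpp_polar hF hγ h0 1
      set y := y₁ - 𝔣 u₀ y₁ • u₀' with hy
      have hyV : y ∈ Vpp Q x₀ x e f := Submodule.sub_mem _ hy₁ (Submodule.smul_mem _ _ hC.hu')
      have huy : 𝔣 u₀ y = 0 := by
        rw [hy, polar_sub_right, polar_smul_right', hC.uu']
        ring
      have hγy : 𝔣 y γ = 1 := by
        rw [hy, polar_sub_left, polar_smul_left', h2, polar_comm, hy₁1]
        ring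
      have hm : Cr Q x₀ x e f γ (γ - u₀) := by
        refine ⟨tt Q u₀ y, tt_mem_Cgp hC.hu hyV hC.Qu huy, ?_⟩
        rw [av_tt hC.Qu huy, h1, hγy]
        simp
      have hm2 : γ - u₀ ∈ Vpp Q x₀ x e f := Submodule.sub_mem _ hγ hC.hu
      have hQ2 : Q (γ - u₀) = c := by
        rw [Q_sub, hC.Qu, polar_comm, h1, hQ]
        ring
      have h3 : 𝔣 u₀' (γ - u₀) ≠ 0 := by
        rw [polar_sub_right, h2, hu'u]
        simp
      obtain ⟨b, hb, hb2⟩ := c2 hm2 hQ2 h3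
      exact ⟨b, hb, hm.trans hb2⟩
    · exact c2 hγ hQ h2
  · exact c1 hγ hQ h1

/-- Scaling by squares. -/
theorem Cr_gb_sq (c : F) {b μ : F} (hb : b ≠ 0) (hμ : μ ≠ 0) :
    Cr Q x₀ x e f (gb u₀ u₀' c b) (gb u₀ u₀' c (b * (μ * μ)⁻¹)) := by
  have hd := hC.Qy
  have hyV := hC.hy
  have hμy : Q (μ • y₀) ≠ 0 := by
    rw [Q_smul]
    exact mul_ne_zero (mul_ne_zero hμ hμ) hd
  have hvs : ∀ {γ : ι → F}, γ ∈ Vpp Q x₀ x e f → 𝔣 u₀ γ = 0 → 𝔣 u₀' γ = 0 →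
      vs Q u₀ u₀' γ ∈ Cgp Q x₀ x e f := by
    intro γ hγ h1 h2
    have h3 := tt_mem_Cgp (y := (Q γ)⁻¹ • γ) hC.hu (Submodule.smul_mem _ _ hγ) hC.Qu
      (by rw [polar_smul_right', h1, mul_zero])
    exact Subgroup.mul_mem _ (Subgroup.mul_mem _ h3 (tt_mem_Cgp hC.hu' hγ hC.Qu' h2)) h3
  have h1μ : 𝔣 u₀ (μ • y₀) = 0 := by rw [polar_smul_right', hC.uy, mul_zero]
  have h2μ : 𝔣 u₀' (μ • y₀) = 0 := by rw [polar_smul_right', hC.u'y, mul_zero]
  refine ⟨vs Q u₀ u₀' y₀ * vs Q u₀ u₀' (μ • y₀), Subgroup.mul_mem _ (hvs hyV hC.uy hC.u'y)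
    (hvs (Submodule.smul_mem _ _ hyV) h1μ h2μ), ?_⟩
  have e1 : av (vs Q u₀ u₀' y₀ * vs Q u₀ u₀' (μ • y₀)) u₀ = (μ * μ) • u₀ := by
    rw [av_mul, vs_e hC.Qu hC.Qu' hC.uu' h1μ h2μ hμy, av_smul, vs_f hC.Qu hC.Qu' hC.uu' hC.uy hC.u'y hd,
      Q_smul, smul_smul]
    congr 1
    field_simp
  have e2 : av (vs Q u₀ u₀' y₀ * vs Q u₀ u₀' (μ • y₀)) u₀' = (μ * μ)⁻¹ • u₀' := by
    rw [av_mul, vs_f hC.Qu hC.Qu' hC.uu' h1μ h2μ hμy, av_smul, vs_e hC.Qu hC.Qu' hC.uu' hC.uy hC.u'y hd,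
      Q_smul, smul_smul]
    congr 1
    field_simp
  rw [gb, av_add, av_smul, av_smul, e1, e2, smul_smul, smul_smul, gb]
  congr 2
  field_simp

/-- Scaling by `1 - κ s²`. -/
theorem Cr_gb_ratio {c : F} (hc : c ≠ 0) {b s : F} (hb : b ≠ 0) (hs : c - s * s * Q y₀ ≠ 0) :
    Cr Q x₀ x e f (gb u₀ u₀' c b) (gb u₀ u₀' c (b * (c * (c - s * s * Q y₀)⁻¹))) := by
  set a₁ := (c - s * s * Q y₀) * b⁻¹ with ha₁
  have ha₁0 : a₁ ≠ 0 := mul_ne_zero hs (inv_ne_zero hb)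
  set γ₃ := a₁ • u₀ + b • u₀' + s • y₀ with hγ₃
  have hγ₃V : γ₃ ∈ Vpp Q x₀ x e f := Submodule.add_mem _ (Submodule.add_mem _
    (Submodule.smul_mem _ _ hC.hu) (Submodule.smul_mem _ _ hC.hu')) (Submodule.smul_mem _ _ hC.hy)
  have hu'u : 𝔣 u₀' u₀ = 1 := by rw [polar_comm, hC.uu']
  have hQ3 : Q γ₃ = c := by
    have hyu : 𝔣 y₀ u₀ = 0 := by rw [polar_comm, hC.uy]
    have hyu' : 𝔣 y₀ u₀' = 0 := by rw [polar_comm, hC.u'y]
    rw [hγ₃, Q_add, Q_add]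
    simp only [Q_smul, hC.Qu, hC.Qu', polar_add_left, polar_smul_left', polar_smul_right', hC.uu', hC.uy,
      hC.u'y]
    rw [ha₁]
    field_simp
    ring
  have h1 : 𝔣 u₀ γ₃ = b := by
    rw [hγ₃, polar_add_right, polar_add_right, polar_smul_right', polar_smul_right', polar_smul_right',
      polar_self_of hC.Qu, hC.uu', hC.uy]
    ring
  have h2 : 𝔣 u₀' γ₃ = a₁ := by
    rw [hγ₃, polar_add_right, polar_add_right, polar_smul_right', polar_smul_right', polar_smul_right',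
      polar_self_of hC.Qu', hu'u, hC.u'y]
    ring
  have s1 : Cr Q x₀ x e f (gb u₀ u₀' c b) γ₃ :=
    Cr_one_step hC.hu hC.Qu (gb_mem hC _ _) hγ₃V (by rw [Q_gb hC c hb, hQ3]) (by rw [polar_u_gb hC, h1])
      (by rw [polar_u_gb hC]; exact hb)
  have hb2 : b * (c * (c - s * s * Q y₀)⁻¹) ≠ 0 := mul_ne_zero hb (mul_ne_zero hc (inv_ne_zero hs))
  have s2 : Cr Q x₀ x e f γ₃ (gb u₀ u₀' c (b * (c * (c - s * s * Q y₀)⁻¹))) :=
    Cr_one_step hC.hu' hC.Qu' hγ₃V (gb_mem hC _ _) (by rw [Q_gb hC c hb2, hQ3])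
      (by
        rw [polar_u'_gb hC, h2, ha₁]
        field_simp)
      (by rw [h2]; exact ha₁0)
  exact s1.trans s2

/-- **Transitivity on spheres.** -/
theorem Cr_sphere (hF : HF Q x₀ x e f) {μ : F} (hμ0 : μ ≠ 0) (hμ : μ * μ ≠ 1) {γ γ' : ι → F}
    (hγ : γ ∈ Vpp Q x₀ x e f) (hγ' : γ' ∈ Vpp Q x₀ x e f) (hQ : Q γ = Q γ') (h0 : Q γ ≠ 0) :
    Cr Q x₀ x e f γ γ' := by
  obtain ⟨b, hb, h1⟩ := Cr_to_gb hC hF hγ h0 rfl
  obtain ⟨b', hb', h2⟩ := Cr_to_gb hC hF hγ' h0 hQ.symm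
  refine h1.trans (Cr.trans ?_ h2.symm)
  set c := Q γ with hc
  -- the case of a square ratio
  have hsq : ∀ {b : F}, b ≠ 0 → IsSquare (b' * b⁻¹) → Cr Q x₀ x e f (gb u₀ u₀' c b) (gb u₀ u₀' c b') := by
    intro b hb hs
    obtain ⟨ν, hν⟩ := hs
    have hν0 : ν ≠ 0 := by
      rintro rfl
      apply mul_ne_zero hb' (inv_ne_zero hb)
      rw [hν, zero_mul]
    have h3 := Cr_gb_sq hC c hb (inv_ne_zero hν0)
    have e3 : b * (ν⁻¹ * ν⁻¹)⁻¹ = b' := by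
      have : b' = (b' * b⁻¹) * b := by field_simp
      rw [this, hν]
      field_simp
    rwa [e3] at h3
  by_cases hs : IsSquare (b' * b⁻¹)
  · exact hsq hb hs
  · have hchar : ringChar F ≠ 2 := fun h => hs (FiniteField.isSquare_of_char_two h _)
    have hκ : Q y₀ * c⁻¹ ≠ 0 := mul_ne_zero hC.Qy (inv_ne_zero h0)
    obtain ⟨s, hs1, hs2⟩ := exists_ns_ratio hκ hμ0 hμ hchar
    have e4 : c - s * s * Q y₀ = c * (1 - Q y₀ * c⁻¹ * (s * s)) := by
      field_simp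
    have hs3 : c - s * s * Q y₀ ≠ 0 := by
      rw [e4]
      exact mul_ne_zero h0 hs1
    have h3 := Cr_gb_ratio hC h0 hb hs3
    have hb3 : b * (c * (c - s * s * Q y₀)⁻¹) ≠ 0 := mul_ne_zero hb (mul_ne_zero h0 (inv_ne_zero hs3))
    refine h3.trans (hsq hb3 ?_)
    have e5 : b' * (b * (c * (c - s * s * Q y₀)⁻¹))⁻¹ = (b' * b⁻¹) * (1 - Q y₀ * c⁻¹ * (s * s)) := by
      rw [e4]
      field_simp
    rw [e5]
    exact isSquare_mul_of_not hs hs2

end Sphere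

end Cfsg.Agent.Lib.MinDeg.Omega
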