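import Cfsg.Agent.Lib.MinDeg.Omega.WtCount

/-!
# The representations with a unique anisotropic weight: the fixed points of the radical are not trivial
-/

set_option autoImplicit false
set_option linter.unusedSectionVars false
set_option linter.unusedSimpArgs false
set_option linter.unusedVariables false

namespace Cfsg.Agent.Lib.MinDeg.Omega

open Matrix QuadraticMap Module
open Cfsg.Agent.Lib.Classical.Orth.Basic

universe u v

variable {ι : Type} [Fintype ι] [DecidableEq ι] {F : Type u} [Field F] [Fintype F] [DecidableEq F]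
variable {Q : QuadraticForm F (ι → F)} [OmCtx Q]
variable {U : Type v} [AddCommGroup U] [Module ℂ U] [FiniteDimensional ℂ U]

set_option quotPrecheck false in
local notation "𝔣" => polar (⇑Q)

local notation "tr" => LinearMap.trace ℂ U

/-- A commutator-like identity for Eichler transformations with shifted centre. -/
theorem tt_shift {f x₀ y : ι → F} (hf : Q f = 0) (hx : Q x₀ = 0) (hfx : 𝔣 f x₀ = 0) (hfy : 𝔣 f y = 0)
    (hxy : 𝔣 x₀ y = 0) (r : F) :
    tt Q (f + r • x₀) y = tt Q f y * tt Q x₀ (r • y + (r * Q y) • f) := by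
  have hff := polar_self_of hf
  have hQz : Q (f + r • x₀) = 0 := by
    rw [Q_add, Q_smul, hf, hx, polar_smul_right', hfx]
    ring
  have hzy : 𝔣 (f + r • x₀) y = 0 := by
    rw [polar_add_left, polar_smul_left', hfy, hxy]
    ring
  have hxf : 𝔣 x₀ f = 0 := by rw [polar_comm, hfx]
  have hyf : 𝔣 y f = 0 := by rw [polar_comm, hfy]
  have hyx : 𝔣 y x₀ = 0 := by rw [polar_comm, hxy]
  have hyy : 𝔣 y y = 2 * Q y := polar_self_eq _ _
  have hxw : 𝔣 x₀ (r • y + (r * Q y) • f) = 0 := by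
    rw [polar_add_right, polar_smul_right', polar_smul_right', hxy, hxf]
    ring
  have hQw : Q (r • y + (r * Q y) • f) = r * r * Q y := by
    rw [Q_add, Q_smul, Q_smul, hf, polar_smul_right', polar_smul_left', hyf]
    ring
  apply om_ext
  intro v
  rw [av_mul, av_tt hQz hzy, av_tt hx hxw, av_tt hf hfy, hQw]
  simp only [polar_add_left, polar_sub_right, polar_add_right, polar_smul_left', polar_smul_right', hff, hfx,
    hyy, hyf, hyx, hfy]
  ext i
  simp only [Pi.add_apply, Pi.sub_apply, Pi.smul_apply, smul_eq_mul]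
  ring

section TypeN

variable {ρ : Om Q →* Module.End ℂ U} {ψ : AddChar F ℂ} {x₀ x e f w₀ y₁ : ι → F}
variable (hF : HF Q x₀ x e f) (hψ : ψ 1 ≠ 1)
include hF hψ

/-- The matrix coefficient vanishes off the hyperplane. -/
theorem ffT_zero (hw₀ : w₀ ∈ Vpp Q x₀ x e f) (htr : tr (LL ρ ψ x₀ w₀) = 1) {y : ι → F} (hy : y ∈ Vpp Q x₀ x e f)
    (h0 : 𝔣 w₀ y ≠ 0) : ff ρ ψ x₀ w₀ (tt Q f y) = 0 := by
  set r := (𝔣 w₀ y)⁻¹ with hr
  have hxe : 𝔣 x₀ ((-r) • e) = 0 := by rw [polar_smul_right', hF.ab, mul_zero]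
  have hwe : 𝔣 w₀ ((-r) • e) = 0 := by
    rw [polar_smul_right', (frame_perp hF hw₀).2.2.1, mul_zero]
  have hk1 : ρ (tt Q x₀ ((-r) • e)) * LL ρ ψ x₀ w₀ = LL ρ ψ x₀ w₀ := by
    rw [LL_left hF.Qa w₀ hxe, hwe, AddChar.map_zero_eq_one, one_smul]
  have hk2 : LL ρ ψ x₀ w₀ * ρ (tt Q x₀ ((-r) • e)) = LL ρ ψ x₀ w₀ := by
    rw [LL_right hF.Qa w₀ hxe, hwe, AddChar.map_zero_eq_one, one_smul]
  have h1 := ff_conj hF.Qa htr (hk1.trans hk2.symm) (tt Q f y)
  rw [conj_tt _ hF.Qb' hy.2.2.2] at h1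
  have e1 : av (tt Q x₀ ((-r) • e)) f = f + r • x₀ := by
    rw [av_tt hF.Qa hxe, hF.ab', polar_smul_left', hF.bb', Q_smul, hF.Qb]
    simp
  have e2 : av (tt Q x₀ ((-r) • e)) y = y :=
    av_tt_perp hF.Qa hxe hy.1 (by rw [polar_smul_left', hy.2.2.1, mul_zero])
  rw [e1, e2, tt_shift hF.Qb' hF.Qa hF.b'a hy.2.2.2 hy.1 r] at h1
  have hxw : 𝔣 x₀ (r • y + (r * Q y) • f) = 0 := by
    rw [polar_add_right, polar_smul_right', polar_smul_right', hy.1, hF.ab']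
    ring
  have hww : 𝔣 w₀ (r • y + (r * Q y) • f) = 1 := by
    rw [polar_add_right, polar_smul_right', polar_smul_right', (frame_perp hF hw₀).2.2.2, hr]
    field_simp
    ring
  have e3 : ff ρ ψ x₀ w₀ (tt Q f y * tt Q x₀ (r • y + (r * Q y) • f)) = ψ 1 * ff ρ ψ x₀ w₀ (tt Q f y) := by
    rw [ff, map_mul ρ, ← mul_assoc, tr_comm', ← mul_assoc, LL_left hF.Qa w₀ hxw, hww, smul_mul_assoc, map_smul,
      smul_eq_mul, ff]
  rw [e3] at h1
  have h2 : (ψ 1 - 1) * ff ρ ψ x₀ w₀ (tt Q f y) = 0 := by linear_combination h1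
  exact (mul_eq_zero.1 h2).resolve_left (sub_ne_zero.2 hψ)

/-- The sum of the characters on the complement. -/
theorem sum_psi_Vpp {γ : ι → F} (hγ : γ ∈ Vpp Q x₀ x e f) (h0 : γ ≠ 0) :
    ∑ y : Vpp Q x₀ x e f, ψ (𝔣 γ y.1) = 0 := by
  obtain ⟨y₂, hy₂, hy₂1⟩ := exists_Vpp_polar hF hγ h0 1
  have h1 : ∑ y : Vpp Q x₀ x e f, ψ (𝔣 γ y.1) = ψ 1 * ∑ y : Vpp Q x₀ x e f, ψ (𝔣 γ y.1) := by
    rw [Finset.mul_sum]
    refine (Equiv.sum_comp (Equiv.addRight (⟨y₂, hy₂⟩ : Vpp Q x₀ x e f)) _).symm.trans ?_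
    refine Finset.sum_congr rfl fun y _ => ?_
    simp only [Equiv.coe_addRight, Submodule.coe_add]
    rw [polar_add_right, hy₂1, AddChar.map_add_eq_mul, mul_comm]
  have h2 : (ψ 1 - 1) * ∑ y : Vpp Q x₀ x e f, ψ (𝔣 γ y.1) = 0 := by linear_combination -h1
  exact (mul_eq_zero.1 h2).resolve_left (sub_ne_zero.2 hψ)

/-- **The nontriviality of the action on the fixed points of the radical.** -/
theorem typeN_nontrivial (hw₀ : w₀ ∈ Vpp Q x₀ x e f) (hy₁ : y₁ ∈ Vpp Q x₀ x e f)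
    (htr : tr (LL ρ ψ x₀ w₀) = 1) (hsing : ∀ β' : F, β' ≠ 0 → LL ρ ψ x₀ (β' • f) = 0)
    (hφ : ∀ {y : ι → F}, y ∈ Vpp Q x₀ x e f → 𝔣 w₀ y = 0 → ff ρ ψ x₀ w₀ (tt Q f y) = 1)
    (hy₁ψ : ψ (𝔣 w₀ y₁) ≠ 1) :
    LL ρ ψ x₀ 0 * ρ (tt Q f y₁) ≠ LL ρ ψ x₀ 0 := by
  classical
  intro hcontra
  -- the sum of the values of the matrix coefficient
  have s1 : ∑ y : Vpp Q x₀ x e f, ff ρ ψ x₀ w₀ (tt Q f y.1) ≠ 0 := by
    have e1 : ∀ y : Vpp Q x₀ x e f, ff ρ ψ x₀ w₀ (tt Q f y.1) = if 𝔣 w₀ y.1 = 0 then (1 : ℂ) else 0 := by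
      intro y
      split_ifs with h
      · exact hφ y.2 h
      · exact ffT_zero hF hψ hw₀ htr y.2 h
    simp only [e1]
    rw [Finset.sum_boole]
    have hpos : ((Finset.univ.filter fun y : Vpp Q x₀ x e f => 𝔣 w₀ y.1 = 0).card) ≠ 0 := by
      apply Finset.card_ne_zero_of_mem (a := (0 : Vpp Q x₀ x e f))
      rw [Finset.mem_filter]
      exact ⟨Finset.mem_univ _, by simp [polar]⟩
    exact_mod_cast hpos
  -- transport to `x₀`
  set σ := sg hF wM with hσ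
  have hσx₀ : av σ x₀ = f := by
    rw [hσ, av_sg_a]
    simp [wM]
  have hσf : av σ f = -x₀ := by
    rw [hσ, av_sg_b']
    simp [wM]
  have hσγ : ∀ {y : ι → F}, y ∈ Vpp Q x₀ x e f → av σ y = y := fun {y} hy =>
    av_sg_perp hF wM hy.1 hy.2.1 hy.2.2.1 hy.2.2.2
  set P' := LL ρ ψ f w₀ with hP'
  have e2 : ρ σ * LL ρ ψ x₀ w₀ * ρ σ⁻¹ = P' := by
    rw [LL_conj σ hF.Qa, hσx₀, hσγ hw₀]
  have e3 : ∀ y : Vpp Q x₀ x e f, ρ σ * ρ (tt Q f y.1) * ρ σ⁻¹ = ρ (tt Q x₀ (-y.1)) := by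
    intro y
    rw [← map_mul ρ, ← map_mul ρ, conj_tt _ hF.Qb' y.2.2.2.2, hσf, hσγ y.2]
    have e4 : -x₀ = (-1 : F) • x₀ := by simp
    rw [e4, tt_smul_left _ hF.Qa y.2.1]
    simp
  have s2 : ∑ y : Vpp Q x₀ x e f, tr (P' * ρ (tt Q x₀ y.1)) ≠ 0 := by
    have e5 : ∀ y : Vpp Q x₀ x e f, ff ρ ψ x₀ w₀ (tt Q f y.1) = tr (P' * ρ (tt Q x₀ (-y).1)) := by
      intro y
      have e6 : P' * ρ (tt Q x₀ (-y).1) = ρ σ * (LL ρ ψ x₀ w₀ * ρ (tt Q f y.1)) * ρ σ⁻¹ := by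
        have e7 : (-y).1 = -y.1 := rfl
        rw [e7, ← e3, ← e2]
        calc _ = ρ σ * LL ρ ψ x₀ w₀ * (ρ σ⁻¹ * ρ σ) * ρ (tt Q f y.1) * ρ σ⁻¹ := by
              simp only [mul_assoc]
          _ = _ := by
              rw [rho_inv_mul', mul_one]
              simp only [mul_assoc]
      rw [e6, tr_comm', ← mul_assoc, rho_inv_mul', one_mul, ff]
    simp only [e5] at s1
    intro h0
    apply s1
    rw [← h0]
    exact Equiv.sum_comp (Equiv.neg (Vpp Q x₀ x e f)) (fun y => tr (P' * ρ (tt Q x₀ y.1)))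
  -- expansion along the weights
  have hfs := frame_sum (ρ := ρ) (ψ := ψ) hF hψ
  have e8 : ∀ y : Vpp Q x₀ x e f, tr (P' * ρ (tt Q x₀ y.1)) =
      ∑ β : F, ∑ β' : F, ∑ γ : Vpp Q x₀ x e f, ψ (𝔣 γ.1 y.1) * tr (P' * LL ρ ψ x₀ (β • e + β' • f + γ.1)) := by
    intro y
    conv_lhs => rw [← mul_one (ρ (tt Q x₀ y.1)), ← hfs]
    simp only [Finset.mul_sum, map_sum]
    refine Finset.sum_congr rfl fun β _ => Finset.sum_congr rfl fun β' _ => Finset.sum_congr rfl fun γ _ => ?_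
    have hw : 𝔣 (β • e + β' • f + γ.1) y.1 = 𝔣 γ.1 y.1 := by
      rw [polar_add_left, polar_add_left, polar_smul_left', polar_smul_left', y.2.2.2.1, y.2.2.2.2]
      ring
    rw [LL_left hF.Qa _ y.2.1, hw, mul_smul_comm, map_smul, smul_eq_mul]
  apply s2
  simp only [e8]
  rw [Finset.sum_comm]
  refine Finset.sum_eq_zero fun β _ => ?_
  rw [Finset.sum_comm]
  refine Finset.sum_eq_zero fun β' _ => ?_
  rw [Finset.sum_comm]
  refine Finset.sum_eq_zero fun γ _ => ?_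
  rw [← Finset.sum_mul]
  by_cases hγ : γ.1 = 0
  · have hT : tr (P' * LL ρ ψ x₀ (β • e + β' • f + γ.1)) = 0 := by
      by_cases hβ : β = 0
      · by_cases hβ' : β' = 0
        · subst hβ hβ'
          have e9 : (0 : F) • e + (0 : F) • f + γ.1 = 0 := by
            rw [hγ]
            simp
          rw [e9]
          have h1 : tr (P' * LL ρ ψ x₀ 0) = ψ (𝔣 w₀ y₁) * tr (P' * LL ρ ψ x₀ 0) := by
            conv_lhs => rw [← hcontra]
            rw [← mul_assoc, tr_comm', ← mul_assoc, LL_left hF.Qb' w₀ hy₁.2.2.2, smul_mul_assoc, map_smul,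
              smul_eq_mul]
          have h2 : (ψ (𝔣 w₀ y₁) - 1) * tr (P' * LL ρ ψ x₀ 0) = 0 := by linear_combination -h1
          exact (mul_eq_zero.1 h2).resolve_left (sub_ne_zero.2 hy₁ψ)
        · subst hβ
          have e9 : (0 : F) • e + β' • f + γ.1 = β' • f := by
            rw [hγ]
            simp
          rw [e9, hsing β' hβ', mul_zero, map_zero]
      · set s := β⁻¹ with hs
        have hzs : 𝔣 x₀ (s • f) = 0 := by rw [polar_smul_right', hF.ab', mul_zero]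
        have e10 : tt Q x₀ (s • f) = tt Q f (s • -x₀) := by
          rw [tt_swap hF.Qa hzs (by rw [Q_smul, hF.Qb', mul_zero]),
            tt_smul_left s hF.Qb' (by rw [polar_neg_right, hF.b'a, neg_zero])]
        have hfx : 𝔣 f (s • -x₀) = 0 := by
          rw [polar_smul_right', polar_neg_right, hF.b'a, neg_zero, mul_zero]
        have hwx : 𝔣 w₀ (s • -x₀) = 0 := by
          rw [polar_smul_right', polar_neg_right, (frame_perp hF hw₀).1, neg_zero, mul_zero]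
        have h1 : P' * ρ (tt Q x₀ (s • f)) = P' := by
          rw [e10, hP', LL_right hF.Qb' w₀ hfx, hwx, AddChar.map_zero_eq_one, one_smul]
        have h2 : ρ (tt Q x₀ (s • f)) * LL ρ ψ x₀ (β • e + β' • f + γ.1) =
            ψ 1 • LL ρ ψ x₀ (β • e + β' • f + γ.1) := by
          rw [LL_left hF.Qa _ hzs, polar_smul_right', wv_f hF _ _ γ.2, hs, inv_mul_cancel₀ hβ]
        have h3 : tr (P' * LL ρ ψ x₀ (β • e + β' • f + γ.1)) =
            ψ 1 * tr (P' * LL ρ ψ x₀ (β • e + β' • f + γ.1)) := by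
          conv_lhs => rw [← h1, mul_assoc, h2]
          rw [mul_smul_comm, map_smul, smul_eq_mul]
        have h4 : (ψ 1 - 1) * tr (P' * LL ρ ψ x₀ (β • e + β' • f + γ.1)) = 0 := by linear_combination -h3
        exact (mul_eq_zero.1 h4).resolve_left (sub_ne_zero.2 hψ)
    rw [hT, mul_zero]
  · rw [sum_psi_Vpp hF hψ γ.2 hγ, zero_mul]

end TypeN

end Cfsg.Agent.Lib.MinDeg.Omega
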