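import Cfsg.Agent.Lib.MinDeg.Omega.Wts

/-!
# The two types of the character `χ` and the values `a_Π`, `a₃`
-/

set_option autoImplicit false
set_option linter.unusedSectionVars false
set_option linter.unusedSimpArgs false
set_option linter.unusedVariables false

namespace Cfsg.Agent.Lib.MinDeg.Omega

open Matrix QuadraticMap Module
open Cfsg.Agent.Lib.Classical.Orth.Basic

universe u v

variable {ι : Type} [Fintype ι] [DecidableEq ι] {F : Type u} [Field F] [Fintype F] [DecidableEq F]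
variable {Q : QuadraticForm F (ι → F)} [OmCtx Q]
variable {U : Type v} [AddCommGroup U] [Module ℂ U] [FiniteDimensional ℂ U]

set_option quotPrecheck false in
local notation "𝔣" => polar (⇑Q)

local notation "tr" => LinearMap.trace ℂ U

variable {ρ : Om Q →* Module.End ℂ U} {ψ : AddChar F ℂ} {x₀ x e f : ι → F} {μ : F} {u₀ u₀' y₀ : ι → F}

variable (H : MC ρ ψ x₀ x e f μ u₀ u₀' y₀)
include H

/-- The number `N_b`. -/
noncomputable def Nb (ρ : Om Q →* Module.End ℂ U) (ψ : AddChar F ℂ) {x₀ x e f : ι → F}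
    (hF : HF Q x₀ x e f) (b : F) : ℂ :=
  tr (Fup (ρ.comp (sg hF)) ψ b * Fup (ρ.comp (sg hF.swap)) ψ 0 * Pp ρ ψ hF)

theorem F1 {b : F} (hb : b ≠ 0) : Nb ρ ψ H.hF b =
    ((Fintype.card F : ℂ)⁻¹) ^ 2 * (1 + 2 * (chi ρ ψ H.hF b * chi ρ ψ H.hF (-1)) * GG ρ ψ H.hF *
      ff ρ ψ x₀ e (sg H.hF wM) + chi ρ ψ H.hF (-1) * GG ρ ψ H.hF ^ 2 *
      tr (Flo (ρ.comp (sg H.hF)) * LL ρ ψ x₀ e)) :=
  Nb_one H (gmb_mem H.hC b) hb (Q_gmb H.hC b)

theorem F2 {b : F} (hb : b ≠ 0) : Nb ρ ψ H.hF b =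
    (Fintype.card F : ℂ)⁻¹ * tr (Flo (ρ.comp (sg H.hF.swap)) * LL ρ ψ x₀ e) *
        (1 + chi ρ ψ H.hF b * chi ρ ψ H.hF (-1) * GG ρ ψ H.hF * ff ρ ψ x₀ e (sg H.hF wM)) :=
  Nb_two H hb

theorem F3 {b : F} (hb : b ≠ 0) : Nb ρ ψ H.hF b =
    ((Fintype.card F : ℂ)⁻¹ * (chi ρ ψ H.hF b * chi ρ ψ H.hF (-1) +
      GG ρ ψ H.hF * ff ρ ψ x₀ e (sg H.hF wM))) ^ 2 + NT ρ ψ H.hF := by
  rw [Nb, Nb_eq_sum H, n_prime H (gmb_mem H.hC b) hb (Q_gmb H.hC b)]

theorem F4 : Nb ρ ψ H.hF 0 = tr (LL ρ ψ x 0 * LL ρ ψ x₀ e) + NT ρ ψ H.hF := by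
  rw [Nb, Nb_eq_sum H, zero_smul, tr_zero_Pp H]

theorem F5 : tr (Flo (ρ.comp (sg H.hF.swap)) * LL ρ ψ x₀ e) =
    Nb ρ ψ H.hF 0 + ∑ b ∈ Finset.univ.erase (0 : F), Nb ρ ψ H.hF b := api_sum H

theorem K3' : chi ρ ψ H.hF (-1) * ff ρ ψ x₀ e (sg H.hF wM) ^ 2 * (Fintype.card (Vpp Q x₀ x e f) : ℂ) = 1 := by
  have h := K3 H.hF H.htr H.hψ H.hns
  rw [alpha_inv H.hF H.htr] at h
  linear_combination h

theorem E1 : tr (Flo (ρ.comp (sg H.hF)) * LL ρ ψ x₀ e) =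
    chi ρ ψ H.hF (-1) * ff ρ ψ x₀ e (sg H.hF wM) ^ 2 * (AA Q x₀ x e f : ℂ) := by
  rw [E1b H.hF H.htr H.hψ H.hns, alpha_inv H.hF H.htr]
  ring

/-- The vector `u₀` shows that the complement is nontrivial. -/
theorem card_Vpp_ne_one : (Fintype.card (Vpp Q x₀ x e f) : ℂ) ≠ 1 := by
  have hu0 : u₀ ≠ 0 := by
    intro h
    have := H.hC.uu'
    rw [h] at this
    simp [polar] at this
  have h1 : 1 < Fintype.card (Vpp Q x₀ x e f) := by
    rw [Fintype.one_lt_card_iff]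
    exact ⟨⟨u₀, H.hC.hu⟩, ⟨0, Submodule.zero_mem _⟩, fun h => hu0 (congrArg Subtype.val h)⟩
  intro h
  have h2 : Fintype.card (Vpp Q x₀ x e f) = 1 := by exact_mod_cast h
  omega

section TypeI

variable (hχ : ∀ t : F, t ≠ 0 → chi ρ ψ H.hF t = 1)
include hχ

theorem GG_typeI : GG ρ ψ H.hF = -1 := by
  have h1 : ∑ s : F, ψ (-s) = 0 := by
    have := sum_psi_mul3 (ψ := ψ) H.hψ (1 : F)
    simpa using this
  rw [← Finset.add_sum_erase _ _ (Finset.mem_univ (0 : F))] at h1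
  rw [GG]
  have h2 : ∑ s ∈ Finset.univ.erase (0 : F), ψ (-s) * chi ρ ψ H.hF (-s) =
      ∑ s ∈ Finset.univ.erase (0 : F), ψ (-s) := by
    refine Finset.sum_congr rfl fun s hs => ?_
    rw [hχ _ (neg_ne_zero.mpr (Finset.ne_of_mem_erase hs)), mul_one]
  rw [h2]
  simp only [neg_zero, AddChar.map_zero_eq_one] at h1
  linear_combination h1

/-- **The values for type I.** -/
theorem values_typeI :
    ff ρ ψ x₀ e (sg H.hF wM) ^ 2 * (Fintype.card (Vpp Q x₀ x e f) : ℂ) = 1 ∧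
    (Fintype.card F : ℂ) * (AA Q x₀ x e f : ℂ) = (Fintype.card (Vpp Q x₀ x e f) : ℂ) *
      (1 + ((Fintype.card F : ℂ) - 1) * ff ρ ψ x₀ e (sg H.hF wM)) ∧
    tr (Flo (ρ.comp (sg H.hF.swap)) * LL ρ ψ x₀ e) = ((Fintype.card F : ℂ)⁻¹) ^ 2 * ((Fintype.card F : ℂ) + 1) ∧
    tr (LL ρ ψ x 0 * LL ρ ψ x₀ e) = ((Fintype.card F : ℂ)⁻¹) ^ 2 * (1 + ((Fintype.card F : ℂ) - 1) *
      ff ρ ψ x₀ e (sg H.hF wM) + ff ρ ψ x₀ e (sg H.hF wM) ^ 2) := by
  have hm1 : (-1 : F) ≠ 0 := neg_ne_zero.mpr one_ne_zero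
  have hd : chi ρ ψ H.hF (-1) = 1 := hχ _ hm1
  have hG := GG_typeI H hχ
  set α := ff ρ ψ x₀ e (sg H.hF wM) with hα
  set q := (Fintype.card F : ℂ) with hq
  set M := (Fintype.card (Vpp Q x₀ x e f) : ℂ) with hM
  set A := (AA Q x₀ x e f : ℂ) with hA
  have hq0 : q ≠ 0 := card_ne
  have h1 : α ^ 2 * M = 1 := by
    have := K3' H
    rwa [hd, one_mul] at this
  have hα1 : α ≠ 1 := by
    intro h
    rw [h] at h1
    apply card_Vpp_ne_one H
    rw [← hM]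
    linear_combination h1
  -- the formula `E1a`
  have hcardne : (Finset.univ.erase (0 : F)).card = Fintype.card F - 1 := by
    rw [Finset.card_erase_of_mem (Finset.mem_univ _), Finset.card_univ]
  have hcast : ((Finset.univ.erase (0 : F)).card : ℂ) = q - 1 := by
    rw [hcardne, Nat.cast_sub Fintype.card_pos, Nat.cast_one]
  have hϖ : tr (Flo (ρ.comp (sg H.hF)) * LL ρ ψ x₀ e) = q⁻¹ * (1 + α * (q - 1)) := by
    rw [E1a H.hF H.htr]
    have e1 : ∑ t ∈ Finset.univ.erase (0 : F), chi ρ ψ H.hF (-t) = q - 1 := by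
      rw [Finset.sum_congr rfl (fun t ht => hχ (-t) (neg_ne_zero.mpr (Finset.ne_of_mem_erase ht))),
        Finset.sum_const, nsmul_eq_mul, mul_one, hcast]
    rw [e1]
  have hE : tr (Flo (ρ.comp (sg H.hF)) * LL ρ ψ x₀ e) = α ^ 2 * A := by
    rw [E1 H, hd, one_mul]
  have h2 : q * A = M * (1 + (q - 1) * α) := by
    have h3 : q⁻¹ * (1 + α * (q - 1)) = α ^ 2 * A := hϖ.symm.trans hE
    have h4 : 1 + α * (q - 1) = q * (α ^ 2 * A) := by
      rw [← h3]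
      field_simp
    calc q * A = (α ^ 2 * M) * (q * A) := by rw [h1, one_mul]
      _ = M * (q * (α ^ 2 * A)) := by ring
      _ = _ := by rw [← h4]; ring
  set a := tr (Flo (ρ.comp (sg H.hF.swap)) * LL ρ ψ x₀ e) with ha
  set r := q⁻¹ with hr
  have hrq : r * q = 1 := inv_mul_cancel₀ hq0
  have hb1 : (1 : F) ≠ 0 := one_ne_zero
  have f1 := F1 H hb1
  have f2 := F2 H hb1
  have f3 := F3 H hb1
  rw [hχ _ hb1, hd, hG, hϖ, ← hα] at f1
  rw [hχ _ hb1, hd, hG, ← hα, ← ha] at f2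
  rw [hχ _ hb1, hd, hG, ← hα] at f3
  set N := Nb ρ ψ H.hF 1 with hN
  have ha1 : a = r ^ 2 * (q + 1) := by
    have e1 : r * a * (1 - α) = r * (r ^ 2 * (q + 1)) * (1 - α) := by
      have e2 : r * a * (1 + 1 * 1 * -1 * α) = r ^ 2 * (1 + 2 * (1 * 1) * -1 * α + 1 * (-1) ^ 2 * (r * (1 + α * (q - 1)))) :=
        f2.symm.trans f1
      have e3 : r ^ 2 * (1 + 2 * (1 * 1) * -1 * α + 1 * (-1) ^ 2 * (r * (1 + α * (q - 1)))) =
          r * (r ^ 2 * (q + 1)) * (1 - α) + (1 - r * q) * r ^ 2 * (1 - 2 * α) := by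
        ring
      rw [hrq] at e3
      linear_combination e2 + e3
    have h1α : (1 : ℂ) - α ≠ 0 := sub_ne_zero.mpr (Ne.symm hα1)
    have hr0 : r ≠ 0 := inv_ne_zero hq0
    exact mul_left_cancel₀ hr0 (mul_right_cancel₀ h1α e1)
  refine ⟨h1, h2, ha1, ?_⟩
  -- the sum over `b`
  have hNb : ∀ b : F, b ≠ 0 → Nb ρ ψ H.hF b = N := by
    intro b hb
    rw [F2 H hb, hχ _ hb, hd, hG, hN, F2 H hb1, hχ _ hb1, hd, hG]
  have hsum : ∑ b ∈ Finset.univ.erase (0 : F), Nb ρ ψ H.hF b = (q - 1) * N := by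
    rw [Finset.sum_congr rfl (fun b hb => hNb b (Finset.ne_of_mem_erase hb)), Finset.sum_const, hcardne,
      nsmul_eq_mul, Nat.cast_sub Fintype.card_pos, Nat.cast_one]
  have f5 := F5 H
  rw [hsum, ← ha] at f5
  have f4 := F4 H
  set N0 := Nb ρ ψ H.hF 0
  set a3 := tr (LL ρ ψ x 0 * LL ρ ψ x₀ e)
  set T := NT ρ ψ H.hF
  -- solving
  have e1 : a3 = a - q * N + r ^ 2 * (1 - α) ^ 2 := by
    have e2 : r ^ 2 * (1 * 1 + -1 * α) ^ 2 = r ^ 2 * (1 - α) ^ 2 := by ring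
    have e3 : (r * (1 * 1 + -1 * α)) ^ 2 = r ^ 2 * (1 - α) ^ 2 := by ring
    rw [e3] at f3
    linear_combination (-1 : ℂ) * f4 - f5 + f3
  have e2 : q * N = a * (1 - α) := by
    rw [f2]
    calc q * (r * a * (1 + 1 * 1 * -1 * α)) = (r * q) * a * (1 - α) := by ring
      _ = _ := by rw [hrq, one_mul]
  rw [e1, e2, ha1]
  ring

end TypeI

section TypeII

omit H in
/-- The multiplicative character defined by `χ`. -/
noncomputable def chiMC (H : MC ρ ψ x₀ x e f μ u₀ u₀' y₀) : MulChar F ℂ where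
  toFun a := if a = 0 then 0 else chi ρ ψ H.hF a
  map_one' := by
    rw [if_neg one_ne_zero, chi_one H.hF H.htr]
  map_mul' a b := by
    by_cases ha : a = 0
    · simp [ha]
    by_cases hb : b = 0
    · simp [hb]
    rw [if_neg (mul_ne_zero ha hb), if_neg ha, if_neg hb, chi_mul H.hF H.htr ha hb]
  map_nonunit' a ha := by
    have : a = 0 := by
      by_contra h
      exact ha (isUnit_iff_ne_zero.mpr h)
    simp [this]

omit H in
theorem chiMC_apply (H : MC ρ ψ x₀ x e f μ u₀ u₀' y₀) {a : F} (ha : a ≠ 0) :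
    chiMC H a = chi ρ ψ H.hF a := by
  show (if a = 0 then 0 else chi ρ ψ H.hF a) = _
  rw [if_neg ha]

variable {c : F} (hc : c ≠ 0) (hχc : chi ρ ψ H.hF c ≠ 1)
include hc hχc

theorem chiMC_ne_one : chiMC H ≠ 1 := by
  intro h
  apply hχc
  rw [← chiMC_apply H hc, h, MulChar.one_apply (isUnit_iff_ne_zero.mpr hc)]

omit hc hχc in
theorem chiMC_quad : (chiMC H).IsQuadratic := by
  intro a
  by_cases ha : a = 0
  · left
    subst ha
    exact MulChar.map_zero _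
  · right
    rw [chiMC_apply H ha]
    have h := H.chi_sq ha
    have h2 : (chi ρ ψ H.hF a - 1) * (chi ρ ψ H.hF a + 1) = 0 := by linear_combination h
    rcases mul_eq_zero.mp h2 with h3 | h3
    · left
      exact sub_eq_zero.mp h3
    · right
      exact eq_neg_of_add_eq_zero_left h3

omit hc hχc in
theorem GG_eq_gauss : GG ρ ψ H.hF = gaussSum (chiMC H) ψ := by
  rw [gaussSum, ← Finset.add_sum_erase _ _ (Finset.mem_univ (0 : F)), MulChar.map_zero, zero_mul, zero_add, GG]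
  refine Finset.sum_bij (fun s _ => -s) ?_ ?_ ?_ ?_
  · intro s hs
    exact Finset.mem_erase.mpr ⟨neg_ne_zero.mpr (Finset.ne_of_mem_erase hs), Finset.mem_univ _⟩
  · intro s _ t _ h
    exact neg_injective h
  · intro s hs
    exact ⟨-s, Finset.mem_erase.mpr ⟨neg_ne_zero.mpr (Finset.ne_of_mem_erase hs), Finset.mem_univ _⟩,
      neg_neg s⟩
  · intro s hs
    rw [chiMC_apply H (neg_ne_zero.mpr (Finset.ne_of_mem_erase hs)), mul_comm]

theorem GG_sq : GG ρ ψ H.hF ^ 2 = chi ρ ψ H.hF (-1) * (Fintype.card F : ℂ) := by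
  rw [GG_eq_gauss H]
  have hψ1 : ψ ≠ 1 := by
    intro h
    apply H.hψ
    rw [h, AddChar.one_apply]
  rw [gaussSum_sq (chiMC_ne_one H hc hχc) (chiMC_quad H) (AddChar.IsPrimitive.of_ne_one hψ1),
    chiMC_apply H (neg_ne_zero.mpr one_ne_zero)]

theorem sum_chi : ∑ t ∈ Finset.univ.erase (0 : F), chi ρ ψ H.hF t = 0 := by
  have h := MulChar.sum_eq_zero_of_ne_one (chiMC_ne_one H hc hχc)
  rw [← Finset.add_sum_erase _ _ (Finset.mem_univ (0 : F)), MulChar.map_zero, zero_add] at h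
  rw [← h]
  refine Finset.sum_congr rfl fun t ht => ?_
  rw [chiMC_apply H (Finset.ne_of_mem_erase ht)]

theorem sum_chi_neg : ∑ t ∈ Finset.univ.erase (0 : F), chi ρ ψ H.hF (-t) = 0 := by
  rw [← sum_chi H hc hχc]
  refine Finset.sum_bij (fun s _ => -s) ?_ ?_ ?_ ?_
  · intro s hs
    exact Finset.mem_erase.mpr ⟨neg_ne_zero.mpr (Finset.ne_of_mem_erase hs), Finset.mem_univ _⟩
  · intro s _ t _ h
    exact neg_injective h
  · intro s hs
    exact ⟨-s, Finset.mem_erase.mpr ⟨neg_ne_zero.mpr (Finset.ne_of_mem_erase hs), Finset.mem_univ _⟩,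
      neg_neg s⟩
  · intro s _
    rfl

/-- **The values for type II.** -/
theorem values_typeII :
    (Fintype.card (Vpp Q x₀ x e f) : ℂ) = (Fintype.card F : ℂ) * (AA Q x₀ x e f : ℂ) ∧
    tr (Flo (ρ.comp (sg H.hF.swap)) * LL ρ ψ x₀ e) = 2 * (Fintype.card F : ℂ)⁻¹ ∧
    tr (LL ρ ψ x 0 * LL ρ ψ x₀ e) = ((Fintype.card F : ℂ)⁻¹) ^ 2 *
      (1 + (Fintype.card F : ℂ) * (Fintype.card (Vpp Q x₀ x e f) : ℂ)⁻¹) := by
  have hm1 : (-1 : F) ≠ 0 := neg_ne_zero.mpr one_ne_zero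
  have hGsq := GG_sq H hc hχc
  have hd2 : chi ρ ψ H.hF (-1) * chi ρ ψ H.hF (-1) = 1 := H.chi_sq hm1
  have hk := K3' H
  have he := E1 H
  have hϖ0 := E1a H.hF H.htr (ρ := ρ) (ψ := ψ)
  rw [sum_chi_neg H hc hχc, mul_zero, add_zero, mul_one] at hϖ0
  rw [hϖ0] at he
  have hchi : chi ρ ψ H.hF c = -1 := by
    have h := H.chi_sq hc
    have h2 : (chi ρ ψ H.hF c - 1) * (chi ρ ψ H.hF c + 1) = 0 := by linear_combination h
    rcases mul_eq_zero.mp h2 with h3 | h3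
    · exact absurd (sub_eq_zero.mp h3) hχc
    · exact eq_neg_of_add_eq_zero_left h3
  have f1p := F1 H hm1
  have f2p := F2 H hm1
  have f3p := F3 H hm1
  have hmc : -c ≠ 0 := neg_ne_zero.mpr hc
  have f1m := F1 H hmc
  have f2m := F2 H hmc
  have hm : chi ρ ψ H.hF (-c) = chi ρ ψ H.hF (-1) * chi ρ ψ H.hF c := by
    rw [← chi_mul H.hF H.htr hm1 hc]
    congr 1
    ring
  rw [hm, hchi] at f1m f2m
  rw [hϖ0] at f1p f1m
  have f4 := F4 H
  have f5 := F5 H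
  set α := ff ρ ψ x₀ e (sg H.hF wM) with hα
  set q := (Fintype.card F : ℂ) with hq
  set M := (Fintype.card (Vpp Q x₀ x e f) : ℂ) with hM
  set A := (AA Q x₀ x e f : ℂ) with hA
  set r := q⁻¹ with hr
  set d := chi ρ ψ H.hF (-1) with hd
  set G := GG ρ ψ H.hF with hG
  set a := tr (Flo (ρ.comp (sg H.hF.swap)) * LL ρ ψ x₀ e) with ha
  set a3 := tr (LL ρ ψ x 0 * LL ρ ψ x₀ e) with ha3
  have hq0 : q ≠ 0 := card_ne
  have hM0 : M ≠ 0 := Nat.cast_ne_zero.mpr Fintype.card_ne_zero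
  have hr0 : r ≠ 0 := inv_ne_zero hq0
  have hrq : r * q = 1 := inv_mul_cancel₀ hq0
  set g := G * α with hg
  have hg2M : g ^ 2 * M = q := by
    have e1 : g ^ 2 * M = G ^ 2 * (α ^ 2 * M) := by rw [hg]; ring
    rw [e1, hGsq]
    have e2 : d * q * (α ^ 2 * M) = q * (d * α ^ 2 * M) := by ring
    rw [e2, hk, mul_one]
  -- the general formula for `N_b`
  have hNb : ∀ b : F, b ≠ 0 → Nb ρ ψ H.hF b = 2 * r ^ 2 * (1 + chi ρ ψ H.hF b * d * g) := by
    intro b hb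
    rw [F1 H hb, hϖ0, hGsq]
    change r ^ 2 * (1 + 2 * (chi ρ ψ H.hF b * d) * G * α + d * (d * q) * r) = _
    have e1 : d * (d * q) * r = (d * d) * (r * q) := by ring
    rw [e1, hd2, hrq, hg]
    ring
  -- `a_Π`
  have hp1 : Nb ρ ψ H.hF (-1) = 2 * r ^ 2 * (1 + g) := by
    rw [hNb _ hm1, hd2, one_mul]
  have hp2 : Nb ρ ψ H.hF (-c) = 2 * r ^ 2 * (1 - g) := by
    rw [hNb _ hmc, hm, hchi]
    have : d * -1 * d = -(d * d) := by ring
    rw [this, hd2]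
    ring
  have hp3 : Nb ρ ψ H.hF (-1) = r * a * (1 + g) := by
    rw [f2p, hd2, hg]
    ring
  have hp4 : Nb ρ ψ H.hF (-c) = r * a * (1 - g) := by
    rw [f2m]
    have : d * -1 * d * G * α = -((d * d) * (G * α)) := by ring
    rw [this, hd2, hg]
    ring
  have ha2 : a = 2 * r := by
    have e1 : r * (2 * a) = r * (2 * (2 * r)) := by
      linear_combination hp3.symm.trans hp1 + hp4.symm.trans hp2
    have e2 := mul_left_cancel₀ hr0 e1
    linear_combination (1 / 2 : ℂ) * e2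
  -- `N_⊥`
  have hT : NT ρ ψ H.hF = r ^ 2 * (1 - g ^ 2) := by
    have e1 := f3p
    rw [hd2, hp1] at e1
    have e2 : (r * (1 + G * α)) ^ 2 = r ^ 2 * (1 + g) ^ 2 := by rw [hg]; ring
    rw [e2] at e1
    linear_combination -e1
  -- the sum
  have hsum : ∑ b ∈ Finset.univ.erase (0 : F), Nb ρ ψ H.hF b = 2 * r ^ 2 * (q - 1) := by
    rw [Finset.sum_congr rfl (fun b hb => hNb b (Finset.ne_of_mem_erase hb)), ← Finset.mul_sum,
      Finset.sum_add_distrib]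
    have e1 : ∑ b ∈ Finset.univ.erase (0 : F), chi ρ ψ H.hF b * d * g = 0 := by
      rw [← Finset.sum_mul, ← Finset.sum_mul, sum_chi H hc hχc]
      ring
    rw [e1, add_zero, Finset.sum_const, Finset.card_erase_of_mem (Finset.mem_univ _), Finset.card_univ,
      nsmul_eq_mul, Nat.cast_sub Fintype.card_pos, Nat.cast_one, mul_one]
  refine ⟨?_, ha2, ?_⟩
  · -- `M = q A`
    have e2 : r * M = A := by
      calc r * M = (d * α ^ 2 * A) * M := by rw [← he]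
        _ = (d * α ^ 2 * M) * A := by ring
        _ = A := by rw [hk, one_mul]
    rw [← e2, ← mul_assoc, mul_comm q r, hrq, one_mul]
  · rw [hT] at f4
    rw [hsum, ha2] at f5
    have e1 : a3 = r ^ 2 * (1 + g ^ 2) := by
      have e2 : 2 * r = 2 * r ^ 2 * q := by
        calc 2 * r = 2 * r * (r * q) := by rw [hrq, mul_one]
          _ = _ := by ring
      linear_combination (-1 : ℂ) * f4 - f5 + e2
    rw [e1]
    have e3 : g ^ 2 = q * M⁻¹ := by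
      rw [← hg2M]
      field_simp
    rw [e3]

end TypeII

end Cfsg.Agent.Lib.MinDeg.Omega
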