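import Cfsg.Agent.Lib.MinDeg.Omega.Lform

/-!
# The elements `ū(s)` on the line of `P`, and the second formula for `N_b`
-/

set_option autoImplicit false
set_option linter.unusedSectionVars false
set_option linter.unusedSimpArgs false
set_option linter.unusedVariables false

namespace Cfsg.Agent.Lib.MinDeg.Omega

open Matrix QuadraticMap Module
open Cfsg.Agent.Lib.Classical.Orth.Basic

universe u v

variable {ι : Type} [Fintype ι] [DecidableEq ι] {F : Type u} [Field F] [Fintype F] [DecidableEq F]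
variable {Q : QuadraticForm F (ι → F)} [OmCtx Q]
variable {U : Type v} [AddCommGroup U] [Module ℂ U] [FiniteDimensional ℂ U]

set_option quotPrecheck false in
local notation "𝔣" => polar (⇑Q)

local notation "tr" => LinearMap.trace ℂ U

variable {ρ : Om Q →* Module.End ℂ U} {ψ : AddChar F ℂ} {x₀ x e f : ι → F} {μ : F} {u₀ u₀' y₀ : ι → F}

/-- The Eichler transformation for the sum of two orthogonal singular vectors. -/
theorem tt_add_left {z₁ z₂ y : ι → F} (h1 : Q z₁ = 0) (h2 : Q z₂ = 0) (h12 : 𝔣 z₁ z₂ = 0)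
    (h1y : 𝔣 z₁ y = 0) (h2y : 𝔣 z₂ y = 0) :
    tt Q (z₁ + z₂) y = tt Q z₁ y * tt Q z₂ y * tt Q z₁ ((-Q y) • z₂) := by
  have hQ : Q (z₁ + z₂) = 0 := by rw [Q_add, h1, h2, h12]; ring
  have hy : 𝔣 (z₁ + z₂) y = 0 := by rw [polar_add_left, h1y, h2y, add_zero]
  have h3 : 𝔣 z₁ ((-Q y) • z₂) = 0 := by rw [polar_smul_right', h12, mul_zero]
  have h21 : 𝔣 z₂ z₁ = 0 := by rw [polar_comm, h12]
  have hy1 : 𝔣 y z₁ = 0 := by rw [polar_comm, h1y]
  have hy2 : 𝔣 y z₂ = 0 := by rw [polar_comm, h2y]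
  have hyy : 𝔣 y y = 2 * Q y := polar_self_eq Q y
  have h11 : 𝔣 z₁ z₁ = 0 := polar_self_of h1
  have h22 : 𝔣 z₂ z₂ = 0 := polar_self_of h2
  apply om_ext
  intro v
  rw [av_mul, av_mul, av_tt hQ hy, av_tt h1 h3, av_tt h2 h2y, av_tt h1 h1y]
  simp only [polar_add_left, polar_add_right, polar_sub_right, polar_smul_left', polar_smul_right', h12, h21,
    h1y, h2y, hy1, hy2, hyy, h11, h22, Q_smul, h2, mul_zero, zero_mul, add_zero, zero_add, sub_zero,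
    zero_smul]
  module

section Key

variable (H : MC ρ ψ x₀ x e f μ u₀ u₀' y₀)
include H

/-- The action of `ū(s)` on `x₀`. -/
theorem ub_x₀ (s : F) : av (sg H.hF.swap (lo s)) x₀ = x₀ + (-s) • e := by
  rw [av_sg_a]
  simp only [lo_00, lo_10, one_smul]
  module

/-- `a(y)` conjugated by `ū(s)` is still absorbed by `P`. -/
theorem P_conj_a (s : F) {y : ι → F} (hy : y ∈ Vpp Q x₀ x e f) :
    LL ρ ψ x₀ e * ρ (sg H.hF.swap (lo s) * tt Q x₀ y * (sg H.hF.swap (lo s))⁻¹) = LL ρ ψ x₀ e := by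
  have hF := H.hF
  have hx₀ : Q ((-s) • e) = 0 := by rw [Q_smul, hF.Qb, mul_zero]
  have h12 : 𝔣 x₀ ((-s) • e) = 0 := by rw [polar_smul_right', hF.ab, mul_zero]
  have h2y : 𝔣 ((-s) • e) y = 0 := by rw [polar_smul_left', hy.2.2.1, mul_zero]
  have hp : av (sg H.hF.swap (lo s)) y = y := av_sg_perp hF.swap _ hy.1 hy.2.1 hy.2.2.2 hy.2.2.1
  rw [conj_tt _ hF.Qa hy.1, ub_x₀ H, hp, tt_add_left hF.Qa hx₀ h12 hy.1 h2y, map_mul ρ, map_mul ρ,
    ← mul_assoc, ← mul_assoc, a_right hF hy.1 hy.2.2.1, tt_smul_left _ hF.Qb hy.2.2.1,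
    H.te_right (Submodule.smul_mem _ _ hy)]
  exact a_right hF (by rw [polar_smul_right', h12, mul_zero])
    (by rw [polar_smul_right', polar_smul_right', hF.bb, mul_zero, mul_zero])

theorem P_ub_a (s : F) {y : ι → F} (hy : y ∈ Vpp Q x₀ x e f) :
    LL ρ ψ x₀ e * ρ (sg H.hF.swap (lo s)) * ρ (tt Q x₀ y) = LL ρ ψ x₀ e * ρ (sg H.hF.swap (lo s)) := by
  have e1 : sg H.hF.swap (lo s) * tt Q x₀ y =
      (sg H.hF.swap (lo s) * tt Q x₀ y * (sg H.hF.swap (lo s))⁻¹) * sg H.hF.swap (lo s) := by group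
  rw [mul_assoc, ← map_mul ρ, e1, map_mul ρ, ← mul_assoc, P_conj_a H s hy]

/-- **The key vanishing.** -/
theorem ff_ub_cc (s : F) {γ : ι → F} (hγ : γ ∈ Vpp Q x₀ x e f) (h0 : γ ≠ 0) :
    ff ρ ψ x₀ e (sg H.hF.swap (lo s) * tt Q f γ) = 0 := by
  obtain ⟨y, hy, hy1⟩ := exists_Vpp_polar H.hF hγ h0 1
  set X := LL ρ ψ x₀ e * ρ (sg H.hF.swap (lo s)) * (ρ (tt Q f γ) * LL ρ ψ x₀ e) with hX
  have h1 : X = ff ρ ψ x₀ e (sg H.hF.swap (lo s) * tt Q f γ) • LL ρ ψ x₀ e := by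
    rw [← sw_rho H.hF.Qa H.htr, hX, map_mul ρ]
    simp only [mul_assoc]
  have h2 : X = ψ 1 • X := by
    conv_lhs => rw [hX, ← P_ub_a H s hy, mul_assoc, a_cc H.hF hγ hy.1]
    have e1 : 𝔣 ((1 : F) • e + (-Q γ) • f + γ) y = 1 := by
      simp only [polar_add_left, polar_smul_left', hy.2.2.1, hy.2.2.2, hy1]
      ring
    rw [e1, mul_smul_comm]
  have h3 : (ψ 1 - 1) • X = 0 := by
    rw [sub_smul, one_smul, ← h2, sub_self]
  have h4 : X = 0 := (smul_eq_zero.mp h3).resolve_left (sub_ne_zero.mpr H.hψ)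
  rw [h4] at h1
  have h5 := congrArg tr h1
  rw [map_zero, map_smul, H.htr, smul_eq_mul, mul_one] at h5
  exact h5.symm

theorem ff_ub_w1 (s : F) : ff ρ ψ x₀ e (sg H.hF.swap (lo s) * sg H.hF wM) =
    ff ρ ψ x₀ e (sg H.hF wM) * ff ρ ψ x₀ e (sg H.hF.swap (lo s)) := by
  classical
  have h1 : ∀ g : Om Q, ff ρ ψ x₀ e g = tr (LL ρ ψ x₀ e * ρ g * LL ρ ψ x₀ e) := by
    intro g
    rw [sw_rho H.hF.Qa H.htr, map_smul, H.htr, smul_eq_mul, mul_one]
  have h2 : LL ρ ψ x₀ e * ρ (sg H.hF.swap (lo s)) * (ρ (sg H.hF wM) * LL ρ ψ x₀ e) =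
      ff ρ ψ x₀ e (sg H.hF wM) • ∑ γ : Vpp Q x₀ x e f,
        LL ρ ψ x₀ e * ρ (sg H.hF.swap (lo s)) * (ρ (tt Q f γ.1) * LL ρ ψ x₀ e) := by
    rw [K1 H.hF H.htr H.hψ H.hns, mul_smul_comm, Finset.mul_sum]
  have h3 : ff ρ ψ x₀ e (sg H.hF.swap (lo s) * sg H.hF wM) =
      tr (LL ρ ψ x₀ e * ρ (sg H.hF.swap (lo s)) * (ρ (sg H.hF wM) * LL ρ ψ x₀ e)) := by
    rw [h1, map_mul ρ]
    simp only [mul_assoc]
  rw [h3, h2, map_smul, smul_eq_mul, map_sum]
  congr 1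
  rw [Finset.sum_eq_single (⟨0, Submodule.zero_mem _⟩ : Vpp Q x₀ x e f)]
  · rw [h1 (sg H.hF.swap (lo s))]
    simp only [tt_zero H.hF.Qb', map_one, one_mul]
  · intro γ _ hγ
    have h0 : γ.1 ≠ 0 := fun h => hγ (Subtype.ext h)
    have := ff_ub_cc H s γ.2 h0
    rw [h1, map_mul ρ] at this
    rw [← this]
    simp only [mul_assoc]
  · simp

/-- The trace of `F_ub` with `w₁`. -/
theorem tr_Fub_w1 : tr (Flo (ρ.comp (sg H.hF.swap)) * ρ (sg H.hF wM) * LL ρ ψ x₀ e) =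
    ff ρ ψ x₀ e (sg H.hF wM) * tr (Flo (ρ.comp (sg H.hF.swap)) * LL ρ ψ x₀ e) := by
  unfold Flo
  simp only [smul_mul_assoc, map_smul, Finset.sum_mul, map_sum, smul_eq_mul]
  rw [mul_left_comm]
  congr 1
  rw [Finset.mul_sum]
  refine Finset.sum_congr rfl fun s _ => ?_
  have e1 : tr ((ρ.comp (sg H.hF.swap)) (lo s) * LL ρ ψ x₀ e) = ff ρ ψ x₀ e (sg H.hF.swap (lo s)) := by
    rw [tr_comm']
    rfl
  have e2 : tr ((ρ.comp (sg H.hF.swap)) (lo s) * ρ (sg H.hF wM) * LL ρ ψ x₀ e) =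
      ff ρ ψ x₀ e (sg H.hF.swap (lo s) * sg H.hF wM) := by
    rw [tr_comm', ff, map_mul ρ]
    rfl
  rw [e1, e2, ff_ub_w1 H]

/-- The lower average commutes with the first factor. -/
theorem Fub_comm (g : SL2 F) : Flo (ρ.comp (sg H.hF.swap)) * ρ (sg H.hF g) =
    ρ (sg H.hF g) * Flo (ρ.comp (sg H.hF.swap)) := by
  unfold Flo
  rw [smul_mul_assoc, mul_smul_comm, Finset.sum_mul, Finset.mul_sum]
  congr 1
  refine Finset.sum_congr rfl fun t _ => ?_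
  exact (rho_comm H.hF _ _).symm

/-- The coefficient of `σ₁(lo t)`. -/
theorem tr_lo_Fub {t : F} (ht : t ≠ 0) :
    tr (ρ (sg H.hF (lo (-t))) * Flo (ρ.comp (sg H.hF.swap)) * LL ρ ψ x₀ e) =
      chi ρ ψ H.hF t * (ff ρ ψ x₀ e (sg H.hF wM) * tr (Flo (ρ.comp (sg H.hF.swap)) * LL ρ ψ x₀ e)) := by
  set Fb := Flo (ρ.comp (sg H.hF.swap)) with hFb
  have hc : ∀ g : SL2 F, Fb * ρ (sg H.hF g) = ρ (sg H.hF g) * Fb := Fub_comm H
  set c := (-t)⁻¹ with hc'
  have e0 : ρ (sg H.hF (lo (-t))) =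
      ρ (sg H.hF (up c)) * ρ (sg H.hF wM) * ρ (sg H.hF (dgg t)) * ρ (sg H.hF (up c)) := by
    rw [lo_eq (neg_ne_zero.mpr ht), neg_neg]
    simp only [map_mul]
    rfl
  set A := ρ (sg H.hF (up c)) with hA
  set B := ρ (sg H.hF wM) with hB
  set C := ρ (sg H.hF (dgg t)) with hC
  set P := LL ρ ψ x₀ e with hP
  have e1 : A * B * C * A * Fb * P = chi ρ ψ H.hF t • (A * B * Fb * P) := by
    calc A * B * C * A * Fb * P = A * B * C * (A * Fb) * P := by simp only [mul_assoc]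
      _ = A * B * C * (Fb * A) * P := by rw [hA, hc]
      _ = A * B * C * Fb * (A * P) := by simp only [mul_assoc]
      _ = A * B * C * Fb * P := by rw [hA, hP, r_left H.hF]
      _ = A * B * (C * Fb) * P := by simp only [mul_assoc]
      _ = A * B * (Fb * C) * P := by rw [hC, hc]
      _ = A * B * Fb * (C * P) := by simp only [mul_assoc]
      _ = _ := by rw [hC, hP, chi_left H.hF H.htr ht, mul_smul_comm]
  rw [e0, e1, map_smul, smul_eq_mul]
  congr 1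
  rw [← tr_Fub_w1 H, ← hFb, ← hB, ← hP]
  have e2 : tr (A * B * Fb * P) = tr ((B * Fb * P) * A) := by
    have e4 : A * B * Fb * P = A * (B * Fb * P) := by simp only [mul_assoc]
    rw [e4, tr_comm']
  rw [e2]
  have e3 : B * Fb * P * A = B * Fb * (P * A) := by simp only [mul_assoc]
  rw [e3, hA, hP, r_right H.hF, ← hP, hB, ← hc]

/-- **The number `N_b`**, second formula (in terms of the sum over `t`). -/
theorem Nb_sum (b : F) :
    tr (Fup (ρ.comp (sg H.hF)) ψ b * Fup (ρ.comp (sg H.hF.swap)) ψ 0 * Pp ρ ψ H.hF) =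
      (Fintype.card F : ℂ)⁻¹ * tr (Flo (ρ.comp (sg H.hF.swap)) * LL ρ ψ x₀ e) *
        (1 + ff ρ ψ x₀ e (sg H.hF wM) * ∑ t ∈ Finset.univ.erase (0 : F),
          ψ (-(b * t)) * chi ρ ψ H.hF t) := by
  set Fb := Flo (ρ.comp (sg H.hF.swap)) with hFb
  set P := LL ρ ψ x₀ e with hP
  have hflo : ((ρ.comp (sg H.hF.swap)) wM⁻¹ * Fup (ρ.comp (sg H.hF.swap)) ψ 0 * (ρ.comp (sg H.hF.swap)) wM)
      = Fb := (Flo_eq (ψ := ψ)).symm
  have e2 : (ρ.comp (sg H.hF.swap)) wM⁻¹ = ρ (sg H.hF.swap wM)⁻¹ := by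
    simp only [MonoidHom.comp_apply, map_inv]
  rw [e2] at hflo
  have e3 : (ρ.comp (sg H.hF.swap)) wM = ρ (sg H.hF.swap wM) := rfl
  rw [e3] at hflo
  -- conjugating by `s₀`
  have e4 : tr (Fup (ρ.comp (sg H.hF)) ψ b * Fup (ρ.comp (sg H.hF.swap)) ψ 0 * Pp ρ ψ H.hF) =
      tr ((ρ (sg H.hF wM)⁻¹ * Fup (ρ.comp (sg H.hF)) ψ b * ρ (sg H.hF wM)) * Fb * P) := by
    have e5 : Pp ρ ψ H.hF = ρ (s0 H.hF) * P * ρ (s0 H.hF)⁻¹ := rfl
    have e6 : ρ (s0 H.hF)⁻¹ = ρ (sg H.hF wM)⁻¹ * ρ (sg H.hF.swap wM)⁻¹ := by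
      rw [s0, _root_.mul_inv_rev, map_mul]
    have e7 : ρ (s0 H.hF) = ρ (sg H.hF.swap wM) * ρ (sg H.hF wM) := by
      rw [s0, map_mul]
    rw [e5, e6, e7]
    set Pb := Fup (ρ.comp (sg H.hF)) ψ b with hPb
    set F2 := Fup (ρ.comp (sg H.hF.swap)) ψ 0 with hF2
    set w1 := ρ (sg H.hF wM) with hw1
    set w1i := ρ (sg H.hF wM)⁻¹ with hw1i
    set w2 := ρ (sg H.hF.swap wM) with hw2
    set w2i := ρ (sg H.hF.swap wM)⁻¹ with hw2i
    have c1 : w1 * w2i = w2i * w1 := by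
      rw [hw1, hw2i, ← map_inv, rho_comm H.hF]
    have c2 : Pb * w2 = w2 * Pb := Pi1_comm_rho H.hF b wM
    calc tr (Pb * F2 * (w2 * w1 * P * (w1i * w2i)))
        = tr (w2i * (Pb * F2 * (w2 * w1 * P * w1i))) := by
          rw [tr_comm' w2i]
          simp only [mul_assoc]
      _ = tr (w1i * (w2i * (Pb * F2 * (w2 * w1 * P)))) := by
          rw [tr_comm' w1i]
          congr 1
      _ = tr (w1i * (Pb * (w2i * F2 * w2) * w1 * P)) := by
          congr 2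
          have c3 : w2i * Pb = Pb * w2i := (Pi1_comm_rho_inv H.hF b wM).symm
          calc w2i * (Pb * F2 * (w2 * w1 * P)) = (w2i * Pb) * F2 * w2 * w1 * P := by
                simp only [mul_assoc]
            _ = _ := by
                rw [c3]
                simp only [mul_assoc]
      _ = tr (w1i * Pb * w1 * Fb * P) := by
          rw [hflo]
          have c4 : Fb * w1 = w1 * Fb := Fub_comm H wM
          congr 1
          calc w1i * (Pb * Fb * w1 * P) = w1i * Pb * (Fb * w1) * P := by simp only [mul_assoc]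
            _ = _ := by
                rw [c4]
                simp only [mul_assoc]
  rw [e4]
  -- expanding the conjugate of the projector
  have e5 : ρ (sg H.hF wM)⁻¹ * Fup (ρ.comp (sg H.hF)) ψ b * ρ (sg H.hF wM) =
      (Fintype.card F : ℂ)⁻¹ • ∑ t : F, ψ (-(b * t)) • ρ (sg H.hF (lo (-t))) := by
    unfold Fup
    rw [mul_smul_comm, smul_mul_assoc]
    congr 1
    rw [Finset.mul_sum, Finset.sum_mul]
    refine Finset.sum_congr rfl fun t _ => ?_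
    rw [mul_smul_comm, smul_mul_assoc]
    congr 1
    have e6 : sg H.hF (wM⁻¹ * up t * wM) = (sg H.hF wM)⁻¹ * sg H.hF (up t) * sg H.hF wM := by
      simp only [map_mul, map_inv]
    rw [← wM_inv_up_wM, e6, map_mul ρ, map_mul ρ]
    rfl
  rw [e5, smul_mul_assoc, smul_mul_assoc, map_smul, smul_eq_mul, mul_assoc ((Fintype.card F : ℂ)⁻¹)]
  congr 1
  rw [Finset.sum_mul, Finset.sum_mul, map_sum]
  rw [← Finset.add_sum_erase _ _ (Finset.mem_univ (0 : F))]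
  rw [mul_add, mul_one]
  congr 1
  · simp only [mul_zero, neg_zero, AddChar.map_zero_eq_one, one_smul, lo_zero, map_one, one_mul]
  · rw [Finset.mul_sum, Finset.mul_sum]
    refine Finset.sum_congr rfl fun t ht => ?_
    have ht0 : t ≠ 0 := Finset.ne_of_mem_erase ht
    rw [smul_mul_assoc, smul_mul_assoc, map_smul, smul_eq_mul, tr_lo_Fub H ht0]
    ring

end Key

section Nb2

variable (H : MC ρ ψ x₀ x e f μ u₀ u₀' y₀)
include H

/-- The sum of the second formula in terms of the Gauss sum. -/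
theorem sum_psi_chi {b : F} (hb : b ≠ 0) :
    ∑ t ∈ Finset.univ.erase (0 : F), ψ (-(b * t)) * chi ρ ψ H.hF t =
      chi ρ ψ H.hF b * chi ρ ψ H.hF (-1) * GG ρ ψ H.hF := by
  rw [GG, Finset.mul_sum]
  refine Finset.sum_bij (fun t _ => b * t) ?_ ?_ ?_ ?_
  · intro t ht
    exact Finset.mem_erase.mpr ⟨mul_ne_zero hb (Finset.ne_of_mem_erase ht), Finset.mem_univ _⟩
  · intro t _ t' _ h
    exact mul_left_cancel₀ hb h
  · intro s hs
    exact ⟨b⁻¹ * s, Finset.mem_erase.mpr ⟨mul_ne_zero (inv_ne_zero hb) (Finset.ne_of_mem_erase hs),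
      Finset.mem_univ _⟩, by field_simp⟩
  · intro t ht
    have ht0 : t ≠ 0 := Finset.ne_of_mem_erase ht
    have hm1 : (-1 : F) ≠ 0 := neg_ne_zero.mpr one_ne_zero
    have e1 : -(b * t) = b * (-1 * t) := by ring
    have e2 : chi ρ ψ H.hF (-(b * t)) = chi ρ ψ H.hF b * (chi ρ ψ H.hF (-1) * chi ρ ψ H.hF t) := by
      rw [e1, chi_mul H.hF H.htr hb (mul_ne_zero hm1 ht0), chi_mul H.hF H.htr hm1 ht0]
    rw [e2]
    have h7 := H.chi_sq hb
    have h8 := H.chi_sq hm1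
    set c := chi ρ ψ H.hF b
    set d := chi ρ ψ H.hF (-1)
    have e3 : c * d * (c * (d * chi ρ ψ H.hF t)) = (c * c) * (d * d) * chi ρ ψ H.hF t := by ring
    rw [mul_comm (ψ (-(b * t))), ← mul_assoc, mul_assoc (c * d), mul_comm _ (ψ _), ← mul_assoc,
      mul_comm (c * d) (ψ _), mul_assoc (ψ _), e3, h7, h8]
    ring

/-- **The number `N_b`**, second formula. -/
theorem Nb_two {b : F} (hb : b ≠ 0) :
    tr (Fup (ρ.comp (sg H.hF)) ψ b * Fup (ρ.comp (sg H.hF.swap)) ψ 0 * Pp ρ ψ H.hF) =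
      (Fintype.card F : ℂ)⁻¹ * tr (Flo (ρ.comp (sg H.hF.swap)) * LL ρ ψ x₀ e) *
        (1 + chi ρ ψ H.hF b * chi ρ ψ H.hF (-1) * GG ρ ψ H.hF * ff ρ ψ x₀ e (sg H.hF wM)) := by
  rw [Nb_sum H, sum_psi_chi H hb]
  ring

end Nb2

end Cfsg.Agent.Lib.MinDeg.Omega
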