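import Cfsg.Agent.Lib.MinDeg.Omega.Eone

/-!
# The elements `ς(γ)` and the group `C` generated by the Eichler transformations of the complement
-/

set_option autoImplicit false
set_option linter.unusedSectionVars false
set_option linter.unusedSimpArgs false
set_option linter.unusedVariables false

namespace Cfsg.Agent.Lib.MinDeg.Omega

open Matrix QuadraticMap Module
open Cfsg.Agent.Lib.Classical.Orth.Basic

universe u v

variable {ι : Type} [Fintype ι] [DecidableEq ι] {F : Type u} [Field F] [Fintype F] [DecidableEq F]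
variable {Q : QuadraticForm F (ι → F)} [OmCtx Q]
variable {U : Type v} [AddCommGroup U] [Module ℂ U] [FiniteDimensional ℂ U]

set_option quotPrecheck false in
local notation "𝔣" => polar (⇑Q)

local notation "tr" => LinearMap.trace ℂ U

variable (Q) in
/-- The element `ς(γ)`, swapping the lines of `e` and `f`, where `Q γ = -b`. -/
noncomputable def vs (e f γ : ι → F) : Om Q :=
  tt Q e ((Q γ)⁻¹ • γ) * tt Q f γ * tt Q e ((Q γ)⁻¹ • γ)

section VsAct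

variable {e f γ : ι → F} (he : Q e = 0) (hf : Q f = 0) (hef : polar (⇑Q) e f = 1)
  (hγe : polar (⇑Q) e γ = 0) (hγf : polar (⇑Q) f γ = 0) (hγ : Q γ ≠ 0)
include he hf hef hγe hγf hγ

theorem tt1_apply (v : ι → F) : av (tt Q e ((Q γ)⁻¹ • γ)) v =
    v + ((Q γ)⁻¹ * 𝔣 e v) • γ - ((Q γ)⁻¹ * 𝔣 γ v) • e - ((Q γ)⁻¹ * 𝔣 e v) • e := by
  rw [av_tt he (by rw [polar_smul_right', hγe, mul_zero]), Q_smul, polar_smul_left', smul_smul]
  have h : (Q γ)⁻¹ * (Q γ)⁻¹ * Q γ * 𝔣 e v = (Q γ)⁻¹ * 𝔣 e v := by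
    field_simp
  rw [h]
  ext i
  simp only [Pi.add_apply, Pi.sub_apply, Pi.smul_apply, smul_eq_mul]
  ring

theorem tt2_apply (v : ι → F) : av (tt Q f γ) v =
    v + 𝔣 f v • γ - 𝔣 γ v • f - (Q γ * 𝔣 f v) • f :=
  av_tt hf hγf v

theorem vs_e : av (vs Q e f γ) e = (-Q γ) • f := by
  have hee : 𝔣 e e = 0 := polar_self_of he
  have hfe : 𝔣 f e = 1 := by rw [polar_comm, hef]
  have hγe' : 𝔣 γ e = 0 := by rw [polar_comm, hγe]
  have hγf' : 𝔣 γ f = 0 := by rw [polar_comm, hγf]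
  have hff : 𝔣 f f = 0 := polar_self_of hf
  have hγγ : 𝔣 γ γ = 2 * Q γ := polar_self_eq Q γ
  rw [vs, av_mul, av_mul, tt1_apply he hf hef hγe hγf hγ e, hee, hγe', tt2_apply he hf hef hγe hγf hγ]
  simp only [mul_zero, zero_smul, add_zero, sub_zero]
  rw [hfe, hγe', tt1_apply he hf hef hγe hγf hγ]
  simp only [polar_add_right, polar_sub_right, polar_smul_right', hee, hef, hγe, hγe', hγf', hγγ, hfe,
    zero_smul, add_zero, mul_zero, mul_one, one_smul, sub_zero]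
  have h1 : (Q γ)⁻¹ * Q γ = 1 := inv_mul_cancel₀ hγ
  ext i
  simp only [Pi.add_apply, Pi.sub_apply, Pi.smul_apply, smul_eq_mul, Pi.neg_apply]
  field_simp
  ring

theorem vs_f : av (vs Q e f γ) f = -((Q γ)⁻¹) • e := by
  have hee : 𝔣 e e = 0 := polar_self_of he
  have hfe : 𝔣 f e = 1 := by rw [polar_comm, hef]
  have hγe' : 𝔣 γ e = 0 := by rw [polar_comm, hγe]
  have hγf' : 𝔣 γ f = 0 := by rw [polar_comm, hγf]
  have hff : 𝔣 f f = 0 := polar_self_of hf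
  have hγγ : 𝔣 γ γ = 2 * Q γ := polar_self_eq Q γ
  rw [vs, av_mul, av_mul, tt1_apply he hf hef hγe hγf hγ f, hef, hγf', tt2_apply he hf hef hγe hγf hγ]
  simp only [polar_add_right, polar_sub_right, polar_smul_right', hee, hef, hfe, hγe, hγe', hγf, hγf', hγγ,
    hff, zero_smul, add_zero, mul_zero, mul_one, one_smul, sub_zero]
  rw [tt1_apply he hf hef hγe hγf hγ]
  simp only [polar_add_right, polar_sub_right, polar_smul_right', hee, hef, hfe, hγe, hγe', hγf, hγf', hγγ,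
    hff, zero_smul, add_zero, mul_zero, mul_one, one_smul, sub_zero]
  ext i
  simp only [Pi.add_apply, Pi.sub_apply, Pi.smul_apply, smul_eq_mul, Pi.neg_apply]
  field_simp
  ring

theorem vs_perp {y : ι → F} (hye : 𝔣 e y = 0) (hyf : 𝔣 f y = 0) :
    av (vs Q e f γ) y = y - ((Q γ)⁻¹ * 𝔣 γ y) • γ := by
  have hee : 𝔣 e e = 0 := polar_self_of he
  have hfe : 𝔣 f e = 1 := by rw [polar_comm, hef]
  have hγe' : 𝔣 γ e = 0 := by rw [polar_comm, hγe]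
  have hγf' : 𝔣 γ f = 0 := by rw [polar_comm, hγf]
  have hff : 𝔣 f f = 0 := polar_self_of hf
  have hγγ : 𝔣 γ γ = 2 * Q γ := polar_self_eq Q γ
  rw [vs, av_mul, av_mul, tt1_apply he hf hef hγe hγf hγ y, hye, tt2_apply he hf hef hγe hγf hγ]
  simp only [polar_add_right, polar_sub_right, polar_smul_right', hee, hef, hfe, hγe, hγe', hγf, hγf', hγγ,
    hff, hyf, hye, zero_smul, add_zero, mul_zero, mul_one, one_smul, sub_zero, zero_sub, zero_add]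
  rw [tt1_apply he hf hef hγe hγf hγ]
  simp only [polar_add_right, polar_sub_right, polar_smul_right', hee, hef, hfe, hγe, hγe', hγf, hγf', hγγ,
    hff, hyf, hye, zero_smul, add_zero, mul_zero, mul_one, one_smul, sub_zero, zero_sub, zero_add]
  ext i
  simp only [Pi.add_apply, Pi.sub_apply, Pi.smul_apply, smul_eq_mul, Pi.neg_apply]
  field_simp
  ring

end VsAct

section CGroup

variable {x₀ x e f : ι → F}

variable (Q x₀ x e f) in
/-- The group generated by the Eichler transformations of the complement. -/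
def Cgp : Subgroup (Om Q) :=
  Subgroup.closure {g | ∃ u ∈ Vpp Q x₀ x e f, ∃ y ∈ Vpp Q x₀ x e f, Q u = 0 ∧ 𝔣 u y = 0 ∧ g = tt Q u y}

theorem tt_mem_Cgp {u y : ι → F} (hu : u ∈ Vpp Q x₀ x e f) (hy : y ∈ Vpp Q x₀ x e f) (hQu : Q u = 0)
    (huy : 𝔣 u y = 0) : tt Q u y ∈ Cgp Q x₀ x e f :=
  Subgroup.subset_closure ⟨u, hu, y, hy, hQu, huy, rfl⟩

/-- The elements of `C` fix the frame and the vectors orthogonal to the complement. -/
theorem Cgp_fix {τ : Om Q} (hτ : τ ∈ Cgp Q x₀ x e f) {z : ι → F}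
    (hz : ∀ γ ∈ Vpp Q x₀ x e f, 𝔣 γ z = 0) : av τ z = z ∧ av τ⁻¹ z = z := by
  induction hτ using Subgroup.closure_induction with
  | mem g hg =>
    obtain ⟨u, hu, y, hy, hQu, huy, rfl⟩ := hg
    refine ⟨av_tt_perp hQu huy (hz u hu) (hz y hy), ?_⟩
    rw [tt_inv hQu huy]
    refine av_tt_perp hQu (by rw [polar_neg_right, huy, neg_zero]) (hz u hu) ?_
    rw [polar_neg_left, hz y hy, neg_zero]
  | one => simp
  | mul g h _ _ hg hh =>
    constructor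
    · rw [av_mul, hh.1, hg.1]
    · rw [_root_.mul_inv_rev, av_mul, hg.2, hh.2]
  | inv g _ hg =>
    rw [inv_inv]
    exact ⟨hg.2, hg.1⟩

section

variable (hF : HF Q x₀ x e f)
include hF

theorem frame_perp {γ : ι → F} (hγ : γ ∈ Vpp Q x₀ x e f) :
    𝔣 γ x₀ = 0 ∧ 𝔣 γ x = 0 ∧ 𝔣 γ e = 0 ∧ 𝔣 γ f = 0 := by
  obtain ⟨h1, h2, h3, h4⟩ := hγ
  exact ⟨by rw [polar_comm, h1], by rw [polar_comm, h2], by rw [polar_comm, h3], by rw [polar_comm, h4]⟩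

theorem Cgp_x₀ {τ : Om Q} (hτ : τ ∈ Cgp Q x₀ x e f) : av τ x₀ = x₀ :=
  (Cgp_fix hτ (fun γ hγ => (frame_perp hF hγ).1)).1

theorem Cgp_x {τ : Om Q} (hτ : τ ∈ Cgp Q x₀ x e f) : av τ x = x :=
  (Cgp_fix hτ (fun γ hγ => (frame_perp hF hγ).2.1)).1

theorem Cgp_e {τ : Om Q} (hτ : τ ∈ Cgp Q x₀ x e f) : av τ e = e :=
  (Cgp_fix hτ (fun γ hγ => (frame_perp hF hγ).2.2.1)).1

theorem Cgp_f {τ : Om Q} (hτ : τ ∈ Cgp Q x₀ x e f) : av τ f = f :=
  (Cgp_fix hτ (fun γ hγ => (frame_perp hF hγ).2.2.2)).1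

/-- An element fixing the frame up to the frame itself preserves the complement. -/
theorem av_mem_Vpp_of {g : Om Q} (h1 : 𝔣 (av g⁻¹ x₀) = 𝔣 x₀) (h2 : 𝔣 (av g⁻¹ x) = 𝔣 x)
    (h3 : ∀ γ ∈ Vpp Q x₀ x e f, 𝔣 (av g⁻¹ e) γ = 0) (h4 : ∀ γ ∈ Vpp Q x₀ x e f, 𝔣 (av g⁻¹ f) γ = 0)
    {γ : ι → F} (hγ : γ ∈ Vpp Q x₀ x e f) : av g γ ∈ Vpp Q x₀ x e f := by
  refine ⟨?_, ?_, ?_, ?_⟩
  · rw [polar_av_right, h1]
    exact hγ.1
  · rw [polar_av_right, h2]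
    exact hγ.2.1
  · rw [polar_av_right]
    exact h3 γ hγ
  · rw [polar_av_right]
    exact h4 γ hγ

theorem Cgp_Vpp {τ : Om Q} (hτ : τ ∈ Cgp Q x₀ x e f) {γ : ι → F} (hγ : γ ∈ Vpp Q x₀ x e f) :
    av τ γ ∈ Vpp Q x₀ x e f := by
  have hi : τ⁻¹ ∈ Cgp Q x₀ x e f := Subgroup.inv_mem _ hτ
  refine av_mem_Vpp_of hF (by rw [Cgp_x₀ hF hi]) (by rw [Cgp_x hF hi]) ?_ ?_ hγ
  · intro γ hγ
    rw [Cgp_e hF hi]
    exact hγ.2.2.1
  · intro γ hγ
    rw [Cgp_f hF hi]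
    exact hγ.2.2.2

omit hF in
/-- Conjugates of elements of `C`. -/
theorem Cgp_conj {k : Om Q} (hk : ∀ γ ∈ Vpp Q x₀ x e f, av k γ ∈ Vpp Q x₀ x e f) {τ : Om Q}
    (hτ : τ ∈ Cgp Q x₀ x e f) : k * τ * k⁻¹ ∈ Cgp Q x₀ x e f := by
  induction hτ using Subgroup.closure_induction with
  | mem g hg =>
    obtain ⟨u, hu, y, hy, hQu, huy, rfl⟩ := hg
    rw [conj_tt k hQu huy]
    exact tt_mem_Cgp (hk u hu) (hk y hy) (by rw [Q_av, hQu]) (by rw [polar_av, huy])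
  | one => simp [Subgroup.one_mem]
  | mul g h _ _ hg hh =>
    have : k * (g * h) * k⁻¹ = (k * g * k⁻¹) * (k * h * k⁻¹) := by group
    rw [this]
    exact Subgroup.mul_mem _ hg hh
  | inv g _ hg =>
    have : k * g⁻¹ * k⁻¹ = (k * g * k⁻¹)⁻¹ := by group
    rw [this]
    exact Subgroup.inv_mem _ hg

/-- The action of `vs` on the frame. -/
theorem vs_x₀ {γ : ι → F} (hγ : γ ∈ Vpp Q x₀ x e f) (hQγ : Q γ ≠ 0) : av (vs Q e f γ) x₀ = x₀ := by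
  rw [vs_perp hF.Qb hF.Qb' hF.bb' hγ.2.2.1 hγ.2.2.2 hQγ hF.ba hF.b'a, (frame_perp hF hγ).1]
  simp

theorem vs_x {γ : ι → F} (hγ : γ ∈ Vpp Q x₀ x e f) (hQγ : Q γ ≠ 0) : av (vs Q e f γ) x = x := by
  rw [vs_perp hF.Qb hF.Qb' hF.bb' hγ.2.2.1 hγ.2.2.2 hQγ hF.ba' hF.b'a', (frame_perp hF hγ).2.1]
  simp

theorem vs_Vpp {γ : ι → F} (hγ : γ ∈ Vpp Q x₀ x e f) (hQγ : Q γ ≠ 0) {y : ι → F}
    (hy : y ∈ Vpp Q x₀ x e f) : av (vs Q e f γ) y ∈ Vpp Q x₀ x e f := by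
  rw [vs_perp hF.Qb hF.Qb' hF.bb' hγ.2.2.1 hγ.2.2.2 hQγ hy.2.2.1 hy.2.2.2]
  exact Submodule.sub_mem _ hy (Submodule.smul_mem _ _ hγ)

theorem vs_inv_Vpp {γ : ι → F} (hγ : γ ∈ Vpp Q x₀ x e f) (hQγ : Q γ ≠ 0) {y : ι → F}
    (hy : y ∈ Vpp Q x₀ x e f) : av (vs Q e f γ)⁻¹ y ∈ Vpp Q x₀ x e f := by
  refine ⟨?_, ?_, ?_, ?_⟩
  · rw [← polar_av_left, vs_x₀ hF hγ hQγ]
    exact hy.1
  · rw [← polar_av_left, vs_x hF hγ hQγ]
    exact hy.2.1
  · rw [← polar_av_left, vs_e hF.Qb hF.Qb' hF.bb' hγ.2.2.1 hγ.2.2.2 hQγ, polar_smul_left', hy.2.2.2, mul_zero]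
  · rw [← polar_av_left, vs_f hF.Qb hF.Qb' hF.bb' hγ.2.2.1 hγ.2.2.2 hQγ, polar_smul_left', hy.2.2.1, mul_zero]

end

end CGroup

section Torus

variable {a a' b b' : ι → F} (hF : HF Q a a' b b')

/-- The torus element scaling `b` by `μ²`, fixing `a`, `a'`. -/
noncomputable def hsT (μ : F) : Om Q := sg hF (dgg μ) * sg hF.swap (dgg μ⁻¹)

variable {μ : F} (hμ : μ ≠ 0)
include hμ

theorem hsT_a : av (hsT hF μ) a = a := by
  have hμi := inv_ne_zero hμ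
  rw [hsT, av_mul, av_sg_a, dgg_00 hμi, dgg_10 hμi, zero_smul, sub_zero, av_smul, av_sg_a, dgg_00 hμ,
    dgg_10 hμ, zero_smul, sub_zero, smul_smul, inv_mul_cancel₀ hμ, one_smul]

theorem hsT_a' : av (hsT hF μ) a' = a' := by
  have hμi := inv_ne_zero hμ
  rw [hsT, av_mul, av_sg_a', dgg_01 hμi, dgg_11 hμi, zero_smul, zero_add, av_smul, av_sg_a', dgg_01 hμ,
    dgg_11 hμ, zero_smul, zero_add, inv_inv, smul_smul, mul_inv_cancel₀ hμ, one_smul]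

theorem hsT_b : av (hsT hF μ) b = (μ * μ) • b := by
  have hμi := inv_ne_zero hμ
  rw [hsT, av_mul, av_sg_b', dgg_11 hμi, dgg_01 hμi, zero_smul, sub_zero, inv_inv, av_smul, av_sg_b,
    dgg_00 hμ, dgg_10 hμ, zero_smul, add_zero, smul_smul]

theorem hsT_perp {γ : ι → F} (h1 : 𝔣 a γ = 0) (h2 : 𝔣 a' γ = 0) (h3 : 𝔣 b γ = 0) (h4 : 𝔣 b' γ = 0) :
    av (hsT hF μ) γ = γ := by
  rw [hsT, av_mul, av_sg_perp hF.swap _ h1 h2 h4 h3, av_sg_perp hF _ h1 h2 h3 h4]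

end Torus

section Absorb

variable {ρ : Om Q →* Module.End ℂ U} {ψ : AddChar F ℂ}
variable {x₀ x e f : ι → F} (hF : HF Q x₀ x e f)
variable (htr : LinearMap.trace ℂ U (LL ρ ψ x₀ e) = (1 : ℂ))
include hF htr

/-- Absorption of `tt u y`, for `u`, `y` in the complement. -/
theorem ff_tt_C {μ : F} (hμ0 : μ ≠ 0) (hμ : μ * μ ≠ 1) {u y : ι → F} (hu : u ∈ Vpp Q x₀ x e f)
    (hy : y ∈ Vpp Q x₀ x e f) (hQu : Q u = 0) (huy : 𝔣 u y = 0) : ff ρ ψ x₀ e (tt Q u y) = 1 := by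
  by_cases hu0 : u = 0
  · have h1 : tt Q u y = 1 := by
      subst hu0
      apply om_ext
      intro v
      rw [av_tt hQu huy]
      simp [polar]
    rw [h1, ff_one hF.Qa htr]
  obtain ⟨u', hu', hQu', huu'⟩ := exists_Vpp_partner hF hu hu0 hQu
  have hFu : HF Q x₀ x u u' := ⟨hF.Qa, hF.Qa', hQu, hQu', hF.aa', huu', hu.1, hu'.1, hu.2.1, hu'.2.1⟩
  -- the subspace of vectors orthogonal to the two frames
  let Y : Submodule F (ι → F) := Vpp Q x₀ x u u' ⊓ Vpp Q x₀ x e f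
  have hperp : ∀ v : Y, 𝔣 u v.1 = 0 := fun v => v.2.1.2.2.1
  have hcomm : ∀ v : Y, ρ (tt Q u v.1) * LL ρ ψ x₀ e = LL ρ ψ x₀ e * ρ (tt Q u v.1) := by
    intro v
    exact comm_of_fix hF.Qa (av_tt_perp hQu (hperp v) (frame_perp hF hu).1 (frame_perp hF v.2.2).1)
      (av_tt_perp hQu (hperp v) (frame_perp hF hu).2.2.1 (frame_perp hF v.2.2).2.2.1)
  let φ : Y → ℂ := fun v => ff ρ ψ x₀ e (tt Q u v.1)
  have hadd : ∀ v w, φ (v + w) = φ v * φ w := by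
    intro v w
    show ff ρ ψ x₀ e (tt Q u (v.1 + w.1)) = _
    rw [← tt_mul hQu (hperp v) (hperp w)]
    exact ff_mul_of_comm hF.Qa htr (hcomm v) (hcomm w)
  have hinv : ∀ v, φ ((μ * μ) • v) = φ v := by
    intro v
    have hk := comm_of_fix (ρ := ρ) (ψ := ψ) (g := hsT hFu μ) hF.Qa (hsT_a hFu hμ0) (hsT_perp hFu hμ0 hF.ab hF.a'b
      (frame_perp hF hu).2.2.1 (frame_perp hF hu').2.2.1)
    have h1 := ff_conj hF.Qa htr hk (tt Q u v.1)
    rw [conj_tt _ hQu (hperp v), hsT_b hFu hμ0, hsT_perp hFu hμ0 v.2.1.1 v.2.1.2.1 v.2.1.2.2.1 v.2.1.2.2.2,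
      tt_smul_left _ hQu (hperp v)] at h1
    exact h1
  have hy₀ : y - 𝔣 u' y • u ∈ Y := by
    have hu'u : 𝔣 u' u = 1 := by rw [polar_comm, huu']
    refine ⟨⟨?_, ?_, ?_, ?_⟩, Submodule.sub_mem _ hy (Submodule.smul_mem _ _ hu)⟩
    · rw [polar_sub_right, polar_smul_right', hy.1, hu.1]
      ring
    · rw [polar_sub_right, polar_smul_right', hy.2.1, hu.2.1]
      ring
    · rw [polar_sub_right, polar_smul_right', huy, polar_self_of hQu]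
      ring
    · rw [polar_sub_right, polar_smul_right', hu'u]
      ring
  have key := fix_of_scale_aux φ hadd (fun v => ff_ne_zero hF.Qa htr (hcomm v)) hμ hinv ⟨_, hy₀⟩
  have e1 : tt Q u y = tt Q u (y - 𝔣 u' y • u) := by
    conv_rhs => rw [sub_eq_add_neg, ← neg_smul]
    rw [tt_add_smul _ hQu huy]
  rw [e1]
  exact key

end Absorb

end Cfsg.Agent.Lib.MinDeg.Omega
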