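import Cfsg.Agent.Lib.MinDeg.Omega.Frame

/-!
# Weight projections of the Siegel group `A_z = {tt z y}`
-/

set_option autoImplicit false
set_option linter.unusedSectionVars false
set_option linter.unusedSimpArgs false
set_option linter.unusedVariables false

namespace Cfsg.Agent.Lib.MinDeg.Omega

open Matrix QuadraticMap Module
open Cfsg.Agent.Lib.Classical.Orth.Basic

universe u v

variable {ι : Type} [Fintype ι] [DecidableEq ι] {F : Type u} [Field F] [Fintype F] [DecidableEq F]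
variable {Q : QuadraticForm F (ι → F)} [OmCtx Q]
variable {U : Type v} [AddCommGroup U] [Module ℂ U]

set_option quotPrecheck false in
local notation "𝔣" => polar (⇑Q)

variable (Q) in
/-- The vectors orthogonal to `z`. -/
abbrev Zp (z : ι → F) := {y : ι → F // polar (⇑Q) z y = 0}

/-- Translation on the orthogonal of `z`. -/
def Zshift (z : ι → F) (y : Zp Q z) : Zp Q z ≃ Zp Q z where
  toFun y' := ⟨y.1 + y'.1, by rw [polar_add_right, y.2, y'.2, add_zero]⟩
  invFun y' := ⟨y'.1 - y.1, by rw [polar_sub_right, y.2, y'.2, sub_zero]⟩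
  left_inv y' := by
    apply Subtype.ext
    show y.1 + y'.1 - y.1 = y'.1
    abel
  right_inv y' := by
    apply Subtype.ext
    show y.1 + (y'.1 - y.1) = y'.1
    abel

/-- Conjugation by `g` maps the orthogonal of `z` to the orthogonal of `g z`. -/
noncomputable def Zconj (g : Om Q) (z : ι → F) : Zp Q z ≃ Zp Q (av g z) where
  toFun y := ⟨av g y.1, by rw [polar_av]; exact y.2⟩
  invFun y := ⟨av g⁻¹ y.1, by
    have := y.2
    rw [polar_av_left] at this
    exact this⟩
  left_inv y := by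
    apply Subtype.ext
    exact av_inv_av g y.1
  right_inv y := by
    apply Subtype.ext
    exact av_av_inv g y.1

variable (ρ : Om Q →* Module.End ℂ U) (ψ : AddChar F ℂ)

/-- The weight projection of the group `{tt z y}`. -/
noncomputable def LL (z w : ι → F) : Module.End ℂ U :=
  (Fintype.card (Zp Q z) : ℂ)⁻¹ • ∑ y : Zp Q z, ψ (-(𝔣 w y)) • ρ (tt Q z y.1)

variable {ρ ψ}

instance Zp_nonempty (z : ι → F) : Nonempty (Zp Q z) := ⟨⟨0, by simp [polar]⟩⟩

theorem card_Zp_ne (z : ι → F) : (Fintype.card (Zp Q z) : ℂ) ≠ 0 :=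
  Nat.cast_ne_zero.mpr Fintype.card_ne_zero

theorem psi_neg_mul' (t : F) : ψ (-t) * ψ t = 1 := by
  rw [← AddChar.map_add_eq_mul, neg_add_cancel, AddChar.map_zero_eq_one]

theorem psi_ne_zero' (t : F) : ψ t ≠ 0 := by
  intro h
  have := psi_neg_mul' (ψ := ψ) t
  rw [h, mul_zero] at this
  exact zero_ne_one this

theorem LL_conj (g : Om Q) {z : ι → F} (hz : Q z = 0) (w : ι → F) :
    ρ g * LL ρ ψ z w * ρ g⁻¹ = LL ρ ψ (av g z) (av g w) := by
  unfold LL
  rw [Fintype.card_congr (Zconj g z), mul_smul_comm, smul_mul_assoc]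
  congr 1
  rw [Finset.mul_sum, Finset.sum_mul]
  refine Fintype.sum_equiv (Zconj g z) _ _ fun y => ?_
  rw [mul_smul_comm, smul_mul_assoc, ← map_mul, ← map_mul, conj_tt g hz y.2]
  have e : 𝔣 (av g w) (Zconj g z y).1 = 𝔣 w y.1 := polar_av g _ _
  rw [e]
  rfl

theorem LL_left {z : ι → F} (hz : Q z = 0) (w : ι → F) {y : ι → F} (hy : 𝔣 z y = 0) :
    ρ (tt Q z y) * LL ρ ψ z w = ψ (𝔣 w y) • LL ρ ψ z w := by
  unfold LL
  rw [mul_smul_comm, smul_comm]
  congr 1
  rw [Finset.mul_sum, Finset.smul_sum]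
  refine Fintype.sum_equiv (Zshift z ⟨y, hy⟩) _ _ fun y' => ?_
  rw [mul_smul_comm, ← map_mul, tt_mul hz hy y'.2, smul_smul]
  show ψ (-(𝔣 w y'.1)) • ρ (tt Q z (y + y'.1)) =
    (ψ (𝔣 w y) * ψ (-(𝔣 w (y + y'.1)))) • ρ (tt Q z (y + y'.1))
  congr 1
  rw [← AddChar.map_add_eq_mul, polar_add_right]
  congr 1
  ring

theorem LL_right {z : ι → F} (hz : Q z = 0) (w : ι → F) {y : ι → F} (hy : 𝔣 z y = 0) :
    LL ρ ψ z w * ρ (tt Q z y) = ψ (𝔣 w y) • LL ρ ψ z w := by
  unfold LL
  rw [smul_mul_assoc, smul_comm]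
  congr 1
  rw [Finset.sum_mul, Finset.smul_sum]
  refine Fintype.sum_equiv (Zshift z ⟨y, hy⟩) _ _ fun y' => ?_
  rw [smul_mul_assoc, ← map_mul, tt_mul hz y'.2 hy, smul_smul]
  have : y'.1 + y = y + y'.1 := add_comm _ _
  simp only [this]
  show ψ (-(𝔣 w y'.1)) • ρ (tt Q z (y + y'.1)) =
    (ψ (𝔣 w y) * ψ (-(𝔣 w (y + y'.1)))) • ρ (tt Q z (y + y'.1))
  congr 1
  rw [← AddChar.map_add_eq_mul, polar_add_right]
  congr 1
  ring

theorem LL_idem {z : ι → F} (hz : Q z = 0) (w : ι → F) :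
    LL ρ ψ z w * LL ρ ψ z w = LL ρ ψ z w := by
  have h : LL ρ ψ z w * LL ρ ψ z w = (Fintype.card (Zp Q z) : ℂ)⁻¹ •
      ∑ y : Zp Q z, ψ (-(𝔣 w y.1)) • (ρ (tt Q z y.1) * LL ρ ψ z w) := by
    conv_lhs => enter [1]; rw [LL]
    rw [smul_mul_assoc, Finset.sum_mul]
    simp only [smul_mul_assoc]
  rw [h]
  have e : ∀ y : Zp Q z, ψ (-(𝔣 w y.1)) • (ρ (tt Q z y.1) * LL ρ ψ z w) = LL ρ ψ z w := by
    intro y
    rw [LL_left hz w y.2, smul_smul, psi_neg_mul', one_smul]
  simp only [e, Finset.sum_const, Finset.card_univ]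
  rw [← Nat.cast_smul_eq_nsmul ℂ, smul_smul, inv_mul_cancel₀ (card_Zp_ne z), one_smul]

theorem LL_add_smul (z w : ι → F) (c : F) : LL ρ ψ z (w + c • z) = LL ρ ψ z w := by
  unfold LL
  congr 1
  refine Finset.sum_congr rfl fun y _ => ?_
  rw [polar_add_left, polar_smul_left', y.2, mul_zero, add_zero]

theorem LL_congr_perp {z w w' : ι → F} (h : ∀ y, 𝔣 z y = 0 → 𝔣 w y = 𝔣 w' y) :
    LL ρ ψ z w = LL ρ ψ z w' := by
  unfold LL
  congr 1
  refine Finset.sum_congr rfl fun y _ => ?_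
  rw [h y.1 y.2]

/-- A nontrivial character separates points. -/
theorem psi_sep (hψ : ψ 1 ≠ 1) {a b : F} (hab : a ≠ b) : ∃ t : F, ψ (t * a) ≠ ψ (t * b) := by
  refine ⟨(a - b)⁻¹, ?_⟩
  have h : a - b ≠ 0 := sub_ne_zero.mpr hab
  have e : (a - b)⁻¹ * a = 1 + (a - b)⁻¹ * b := by
    field_simp
    ring
  rw [e, AddChar.map_add_eq_mul]
  intro h2
  have h3 : ψ ((a - b)⁻¹ * b) * (ψ 1 - 1) = 0 := by linear_combination h2
  rcases mul_eq_zero.mp h3 with h4 | h4
  · exact psi_ne_zero' _ h4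
  · exact hψ (sub_eq_zero.mp h4)

/-- Two weight projections for different weights multiply to zero. -/
theorem LL_orth {z : ι → F} (hz : Q z = 0) (w w' : ι → F) (hψ : ψ 1 ≠ 1) {y : ι → F} (hy : 𝔣 z y = 0)
    (hne : 𝔣 w y ≠ 𝔣 w' y) : LL ρ ψ z w * LL ρ ψ z w' = 0 := by
  obtain ⟨t, ht⟩ := psi_sep (ψ := ψ) hψ hne
  have hy₁ : 𝔣 z (t • y) = 0 := by rw [polar_smul_right', hy, mul_zero]
  have e1 := LL_left (ρ := ρ) (ψ := ψ) hz w' hy₁
  have e2 := LL_right (ρ := ρ) (ψ := ψ) hz w hy₁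
  rw [polar_smul_right'] at e1 e2
  have e3 : (ψ (t * 𝔣 w y) - ψ (t * 𝔣 w' y)) • (LL ρ ψ z w * LL ρ ψ z w') = 0 := by
    rw [sub_smul, ← smul_mul_assoc, ← e2, ← mul_smul_comm, ← e1, mul_assoc, sub_self]
  exact (smul_eq_zero.mp e3).resolve_left (sub_ne_zero.mpr ht)

/-- The projection is zero for weights not orthogonal to `z`. -/
theorem LL_eq_zero_of_not_perp {z : ι → F} (hz : Q z = 0) (hψ : ψ 1 ≠ 1) {w : ι → F} (hw : 𝔣 z w ≠ 0) :
    LL ρ ψ z w = 0 := by
  have hzz : 𝔣 z z = 0 := polar_self_of hz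
  obtain ⟨t, ht⟩ := psi_sep (ψ := ψ) hψ hw
  have hy : 𝔣 z (t • z) = 0 := by rw [polar_smul_right', hzz, mul_zero]
  have h1 := LL_left (ρ := ρ) (ψ := ψ) hz w hy
  have h2 : tt Q z (t • z) = 1 := by
    have := tt_add_smul (Q := Q) t hz (b := 0) (by simp [polar])
    rw [zero_add, tt_zero hz] at this
    exact this
  rw [h2, map_one, one_mul, polar_smul_right', polar_comm] at h1
  have h3 : (1 - ψ (t * 𝔣 z w)) • LL ρ ψ z w = 0 := by
    rw [sub_smul, one_smul, ← h1, sub_self]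
  rcases smul_eq_zero.mp h3 with h4 | h4
  · exfalso
    apply ht
    rw [mul_zero, AddChar.map_zero_eq_one]
    exact (sub_eq_zero.mp h4).symm
  · exact h4

/-- Scaling `z` and `w` together does not change `LL z w`. -/
theorem LL_smul_smul {z : ι → F} (hz : Q z = 0) (w : ι → F) {c : F} (hc : c ≠ 0) :
    LL ρ ψ (c • z) (c • w) = LL ρ ψ z w := by
  let e : Zp Q (c • z) ≃ Zp Q z :=
    { toFun := fun y => ⟨c • y.1, by
        have := y.2
        rw [polar_smul_left'] at this
        rw [polar_smul_right']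
        exact this⟩
      invFun := fun y => ⟨c⁻¹ • y.1, by
        rw [polar_smul_left', polar_smul_right', y.2]
        simp⟩
      left_inv := fun y => by
        apply Subtype.ext
        show c⁻¹ • c • y.1 = y.1
        rw [smul_smul, inv_mul_cancel₀ hc, one_smul]
      right_inv := fun y => by
        apply Subtype.ext
        show c • c⁻¹ • y.1 = y.1
        rw [smul_smul, mul_inv_cancel₀ hc, one_smul] }
  unfold LL
  rw [Fintype.card_congr e]
  congr 1
  refine Fintype.sum_equiv e _ _ fun y => ?_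
  have hy : 𝔣 z y.1 = 0 := by
    have := y.2
    rw [polar_smul_left'] at this
    exact (mul_eq_zero.mp this).resolve_left hc
  have hm : tt Q (c • z) y.1 = tt Q z (e y).1 := tt_smul_left c hz hy
  rw [hm]
  congr 1
  show ψ (-(𝔣 (c • w) y.1)) = ψ (-(𝔣 w (c • y.1)))
  rw [polar_smul_left', polar_smul_right']

/-- Only the line of `z` matters for the trivial weight. -/
theorem LL_smul_zero {z : ι → F} (hz : Q z = 0) {c : F} (hc : c ≠ 0) :
    LL ρ ψ (c • z) 0 = LL ρ ψ z 0 := by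
  have := LL_smul_smul (ρ := ρ) (ψ := ψ) hz 0 hc
  rwa [smul_zero] at this

theorem sum_psi_mul' (hψ : ψ 1 ≠ 1) (t : F) :
    ∑ α : F, ψ (α * t) = if t = 0 then (Fintype.card F : ℂ) else 0 := by
  classical
  split_ifs with ht
  · subst ht
    simp
  · have h1 : ∑ α : F, ψ (α * t) = ψ 1 * ∑ α : F, ψ (α * t) := by
      rw [Finset.mul_sum]
      refine Fintype.sum_equiv (Equiv.addRight (-t⁻¹)) _ _ fun α => ?_
      rw [← AddChar.map_add_eq_mul]
      congr 1
      simp only [Equiv.coe_addRight, add_mul, neg_mul, inv_mul_cancel₀ ht]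
      ring
    have h3 : (ψ 1 - 1) * ∑ α : F, ψ (α * t) = 0 := by
      linear_combination -h1
    exact (mul_eq_zero.mp h3).resolve_left (sub_ne_zero.mpr hψ)

/-- The sum of an additive character composed with the polar form. -/
theorem sum_psi_polar (hψ : ψ 1 ≠ 1) (y : ι → F) :
    ∑ w : ι → F, ψ (-(𝔣 w y)) = if y = 0 then (Fintype.card (ι → F) : ℂ) else 0 := by
  classical
  split_ifs with hy
  · subst hy
    simp [polar]
  · have hQ : (polarBilin Q).Nondegenerate := OmCtx.hQ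
    obtain ⟨v, hv⟩ : ∃ v, 𝔣 v y ≠ 0 := by
      by_contra hc
      push Not at hc
      apply hy
      apply hQ.2
      intro v
      rw [polarBilin_apply_apply]
      exact hc v
    have h1 : ∑ w : ι → F, ψ (-(𝔣 w y)) = ψ (-1) * ∑ w : ι → F, ψ (-(𝔣 w y)) := by
      rw [Finset.mul_sum]
      refine Fintype.sum_equiv (Equiv.addRight (-((𝔣 v y)⁻¹ • v))) _ _ fun w => ?_
      rw [← AddChar.map_add_eq_mul]
      congr 1
      simp only [Equiv.coe_addRight, polar_add_left, polar_neg_left, polar_smul_left']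
      rw [inv_mul_cancel₀ hv]
      ring
    have h2 : ψ (-1) ≠ 1 := by
      intro h
      apply hψ
      have := psi_neg_mul' (ψ := ψ) 1
      rw [h, one_mul] at this
      exact this
    have h3 : (ψ (-1) - 1) * ∑ w : ι → F, ψ (-(𝔣 w y)) = 0 := by
      linear_combination -h1
    exact (mul_eq_zero.mp h3).resolve_left (sub_ne_zero.mpr h2)

/-- The size of the kernel of a surjective linear map. -/
theorem card_ker_mul' {V W : Type*} [AddCommGroup V] [Module F V] [AddCommGroup W] [Module F W]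
    [Finite V] [Finite W] (T : V →ₗ[F] W) (hT : Function.Surjective T) :
    Nat.card (LinearMap.ker T) * Nat.card W = Nat.card V := by
  rw [Submodule.card_eq_card_quotient_mul_card (LinearMap.ker T)]
  rw [← Nat.card_congr (LinearMap.quotKerEquivOfSurjective T hT).toEquiv, mul_comm]

/-- The number of vectors orthogonal to a nonzero `z`. -/
theorem card_Zp_mul {z : ι → F} (hz : z ≠ 0) :
    Fintype.card (Zp Q z) * Fintype.card F = Fintype.card (ι → F) := by
  classical
  have hQ : (polarBilin Q).Nondegenerate := OmCtx.hQ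
  let T : (ι → F) →ₗ[F] F := polarBilin Q z
  obtain ⟨v, hv⟩ : ∃ v, 𝔣 z v ≠ 0 := by
    by_contra hc
    push Not at hc
    apply hz
    apply hQ.1
    intro v
    rw [polarBilin_apply_apply]
    exact hc v
  have hT : Function.Surjective T := by
    intro t
    refine ⟨(t * (𝔣 z v)⁻¹) • v, ?_⟩
    show polarBilin Q z _ = t
    rw [polarBilin_apply_apply, polar_smul_right', mul_assoc, inv_mul_cancel₀ hv, mul_one]
  have h := card_ker_mul' T hT
  simp only [Nat.card_eq_fintype_card] at h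
  have e : Fintype.card (LinearMap.ker T) = Fintype.card (Zp Q z) :=
    Fintype.card_congr (Equiv.subtypeEquivRight (fun y => by
      show y ∈ LinearMap.ker T ↔ 𝔣 z y = 0
      rw [LinearMap.mem_ker]
      show polarBilin Q z y = 0 ↔ _
      rw [polarBilin_apply_apply]))
  rw [e] at h
  exact h

/-- The sum of the weight projections. -/
theorem sum_LL (hψ : ψ 1 ≠ 1) {z : ι → F} (hz : Q z = 0) (hz0 : z ≠ 0) :
    ∑ w : ι → F, LL ρ ψ z w = (Fintype.card F : ℂ) • 1 := by
  classical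
  unfold LL
  rw [← Finset.smul_sum, Finset.sum_comm]
  simp only [← Finset.sum_smul, sum_psi_polar hψ]
  rw [Finset.sum_eq_single (⟨0, by simp [polar]⟩ : Zp Q z)]
  · simp only [if_true]
    rw [tt_zero hz, map_one, smul_smul]
    congr 1
    have h2 := card_Zp_mul (Q := Q) hz0
    have h3 : (Fintype.card (Zp Q z) : ℂ) * Fintype.card F = (Fintype.card (ι → F) : ℂ) := by
      exact_mod_cast h2
    rw [← h3]
    field_simp [card_Zp_ne (Q := Q) z]
  · intro y _ hy
    have : y.1 ≠ 0 := fun h => hy (Subtype.ext h)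
    simp [this]
  · simp

end Cfsg.Agent.Lib.MinDeg.Omega
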