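import Cfsg.Agent.Lib.MinDeg.Omega.Small

/-!
# The decomposition of the dimension along the weights, and counting vectors on spheres
-/

set_option autoImplicit false
set_option linter.unusedSectionVars false
set_option linter.unusedSimpArgs false
set_option linter.unusedVariables false

namespace Cfsg.Agent.Lib.MinDeg.Omega

open Matrix QuadraticMap Module
open Cfsg.Agent.Lib.Classical.Orth.Basic
open Cfsg.Agent.Lib.Linalg.OrthModels
open Cfsg

universe u v

variable {ι : Type} [Fintype ι] [DecidableEq ι] {F : Type u} [Field F] [Fintype F] [DecidableEq F]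
variable {Q : QuadraticForm F (ι → F)} [OmCtx Q]
variable {U : Type v} [AddCommGroup U] [Module ℂ U] [FiniteDimensional ℂ U]

set_option quotPrecheck false in
local notation "𝔣" => polar (⇑Q)

local notation "tr" => LinearMap.trace ℂ U

variable {ρ : Om Q →* Module.End ℂ U} {ψ : AddChar F ℂ} {x₀ x e f u₀ u₀' y₀ : ι → F}

variable (Q x₀ x e f) in
/-- The norm on the frame coordinates. -/
noncomputable def nuF (t : F × F × Vpp Q x₀ x e f) : F := t.1 * t.2.1 + Q t.2.2.1

open Classical in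
variable (Q x₀ x e f) in
/-- The number of nonzero coordinate vectors of a given norm. -/
noncomputable def WW (c : F) : ℕ :=
  (Finset.univ.filter fun t : F × F × Vpp Q x₀ x e f => t ≠ 0 ∧ nuF Q x₀ x e f t = c).card

/-- The dimension formula. -/
theorem dim_decomp (hF : HF Q x₀ x e f) (hC : Cplx Q x₀ x e f u₀ u₀' y₀) (hψ : ψ 1 ≠ 1) :
    finrank ℂ U = nn ρ ψ x₀ 0 + ∑ c : F, WW Q x₀ x e f c * nn ρ ψ x₀ (e + c • f) := by
  classical
  rw [finrank_eq_sum (ρ := ρ) (ψ := ψ) hF hψ]
  have e1 : (∑ β : F, ∑ β' : F, ∑ γ : Vpp Q x₀ x e f, nn ρ ψ x₀ (β • e + β' • f + γ.1)) =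
      ∑ t : F × F × Vpp Q x₀ x e f, nn ρ ψ x₀ (t.1 • e + t.2.1 • f + t.2.2.1) := by
    rw [Fintype.sum_prod_type]
    refine Finset.sum_congr rfl fun β _ => ?_
    rw [Fintype.sum_prod_type]
  rw [e1, ← Finset.add_sum_erase _ _ (Finset.mem_univ (0 : F × F × Vpp Q x₀ x e f))]
  congr 1
  · simp
  · have e2 : ∀ t ∈ Finset.univ.erase (0 : F × F × Vpp Q x₀ x e f),
        nn ρ ψ x₀ (t.1 • e + t.2.1 • f + t.2.2.1) = nn ρ ψ x₀ (e + (nuF Q x₀ x e f t) • f) := by
      intro t ht
      have ht0 : t ≠ 0 := Finset.ne_of_mem_erase ht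
      apply nn_wt hF hC _ _ t.2.2.2
      by_contra hc
      push Not at hc
      apply ht0
      refine Prod.ext hc.1 (Prod.ext hc.2.1 (Subtype.ext hc.2.2))
    rw [Finset.sum_congr rfl e2,
      ← Finset.sum_fiberwise (s := Finset.univ.erase (0 : F × F × Vpp Q x₀ x e f)) (g := nuF Q x₀ x e f)]
    refine Finset.sum_congr rfl fun c _ => ?_
    have e3 : ∀ t ∈ (Finset.univ.erase (0 : F × F × Vpp Q x₀ x e f)).filter (fun t => nuF Q x₀ x e f t = c),
        nn ρ ψ x₀ (e + (nuF Q x₀ x e f t) • f) = nn ρ ψ x₀ (e + c • f) := by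
      intro t ht
      rw [(Finset.mem_filter.1 ht).2]
    rw [Finset.sum_congr rfl e3, Finset.sum_const, smul_eq_mul]
    congr 1
    rw [WW]
    congr 1
    ext t
    simp only [Finset.mem_filter, Finset.mem_erase, Finset.mem_univ, and_true, true_and]

/-- The number of vectors of norm `c`. -/
theorem ZZ_sphere (hF : HF Q x₀ x e f) (c : F) : ZZ (fun v : ι → F => Q v - c) =
    ((Fintype.card F : ℂ) - 1) * ((Fintype.card F : ℂ) ^ 2 * (Fintype.card (Vpp Q x₀ x e f) : ℂ)) +
      (Fintype.card F : ℂ) * ((WW Q x₀ x e f c : ℂ) + if c = 0 then 1 else 0) := by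
  classical
  have e0 : ZZ (fun t : F × F × Vpp Q x₀ x e f => nuF Q x₀ x e f t - c) =
      (WW Q x₀ x e f c : ℂ) + if c = 0 then 1 else 0 := by
    unfold ZZ
    have h0 : nuF Q x₀ x e f (0 : F × F × Vpp Q x₀ x e f) = 0 := by
      simp [nuF]
    have e2 : ∀ t : F × F × Vpp Q x₀ x e f, (if nuF Q x₀ x e f t - c = 0 then (1 : ℂ) else 0) =
        (if t ≠ 0 ∧ nuF Q x₀ x e f t = c then (1 : ℂ) else 0) +
          (if t = 0 then (if c = 0 then (1 : ℂ) else 0) else 0) := by
      intro t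
      by_cases ht : t = 0
      · subst ht
        simp [h0, sub_eq_zero, eq_comm]
      · simp [ht, sub_eq_zero]
    simp only [e2]
    rw [Finset.sum_add_distrib, Finset.sum_ite_eq' Finset.univ (0 : F × F × Vpp Q x₀ x e f)]
    simp only [Finset.mem_univ, if_true]
    congr 1
    rw [WW, Finset.card_filter]
    push_cast
    rfl
  rw [← e0]
  have e1 : ZZ (fun v : ι → F => Q v - c) = ZZ (fun t : F × F × (F × F × Vpp Q x₀ x e f) =>
      t.1 * t.2.1 + (nuF Q x₀ x e f t.2.2 - c)) := by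
    unfold ZZ
    rw [sum_frame hF]
    rw [Fintype.sum_prod_type]
    refine Finset.sum_congr rfl fun s₁ _ => ?_
    rw [Fintype.sum_prod_type]
    refine Finset.sum_congr rfl fun s₄ _ => ?_
    rw [Fintype.sum_prod_type]
    refine Finset.sum_congr rfl fun s₂ _ => ?_
    rw [Fintype.sum_prod_type]
    refine Finset.sum_congr rfl fun s₃ _ => ?_
    refine Finset.sum_congr rfl fun γ _ => ?_
    have : Q (fv x₀ x e f s₁ s₄ s₂ s₃ γ.1) - c = s₁ * s₄ + (nuF Q x₀ x e f (s₂, s₃, γ) - c) := by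
      rw [Q_fv hF _ _ _ _ γ.2, nuF]
      ring
    simp only [this]
  rw [e1, ZZ_cons (fun s : F × F × Vpp Q x₀ x e f => nuF Q x₀ x e f s - c)]
  congr 2
  simp only [Fintype.card_prod, Nat.cast_mul]
  ring

end Cfsg.Agent.Lib.MinDeg.Omega
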