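import Cfsg.Agent.Lib.MinDeg.Omega.Classes

/-!
# The weights of `A_{x₀}` up to conjugacy: the orbit bounds and the reduction to the main case
-/

set_option autoImplicit false
set_option linter.unusedSectionVars false
set_option linter.unusedSimpArgs false
set_option linter.unusedVariables false

namespace Cfsg.Agent.Lib.MinDeg.Omega

open Matrix QuadraticMap Module
open Cfsg.Agent.Lib.Classical.Orth.Basic
open Cfsg.Agent.Lib.Classical.Orth.Siegel
open Cfsg.Agent.Lib.Classical.Orth.Generation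
open Cfsg.Agent.Lib.Classical.Orth.Simple
open Cfsg.Agent.Lib.MinDeg.SLn (idem_trace idem_eq_zero)

universe u v

variable {ι : Type} [Fintype ι] [DecidableEq ι] {F : Type u} [Field F] [Fintype F] [DecidableEq F]
variable {Q : QuadraticForm F (ι → F)} [OmCtx Q]
variable {U : Type v} [AddCommGroup U] [Module ℂ U] [FiniteDimensional ℂ U]

set_option quotPrecheck false in
local notation "𝔣" => polar (⇑Q)

local notation "tr" => LinearMap.trace ℂ U

variable {ρ : Om Q →* Module.End ℂ U} {ψ : AddChar F ℂ} {x₀ x e f : ι → F} {u₀ u₀' y₀ : ι → F}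

section Table

variable (hF : HF Q x₀ x e f) (hC : Cplx Q x₀ x e f u₀ u₀' y₀)
include hF hC

omit hF in
theorem gmb_mem (b : F) : u₀ + (-b) • u₀' ∈ Vpp Q x₀ x e f :=
  Submodule.add_mem _ hC.hu (Submodule.smul_mem _ _ hC.hu')

omit hF in
theorem Q_gmb (b : F) : Q (u₀ + (-b) • u₀') = -b := by
  rw [Q_add, Q_smul, hC.Qu, hC.Qu', polar_smul_right', hC.uu']
  ring

/-- The element scaling `e` by `β`, and `f` by `β⁻¹`, fixing `x₀`. -/
noncomputable def Mb (u₀ u₀' : ι → F) (Q : QuadraticForm F (ι → F)) [OmCtx Q] (e f : ι → F) (β : F) : Om Q :=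
  vs Q e f (u₀ + (-1 : F) • u₀') * vs Q e f (u₀ + (-β) • u₀')

theorem Mb_x₀ {β : F} (hβ : β ≠ 0) : av (Mb u₀ u₀' Q e f β) x₀ = x₀ := by
  rw [Mb, av_mul, vs_x₀ hF (gmb_mem hC β) (hQ0 hF (gmb_mem hC β) hβ (Q_gmb hC β)),
    vs_x₀ hF (gmb_mem hC 1) (hQ0 hF (gmb_mem hC 1) one_ne_zero (Q_gmb hC 1))]

theorem Mb_e {β : F} (hβ : β ≠ 0) : av (Mb u₀ u₀' Q e f β) e = β • e := by
  rw [Mb, av_mul, vsb_e hF (gmb_mem hC β) hβ (Q_gmb hC β), av_smul,
    vsb_f hF (gmb_mem hC 1) one_ne_zero (Q_gmb hC 1), inv_one, one_smul]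

theorem Mb_f {β : F} (hβ : β ≠ 0) : av (Mb u₀ u₀' Q e f β) f = β⁻¹ • f := by
  rw [Mb, av_mul, vsb_f hF (gmb_mem hC β) hβ (Q_gmb hC β), av_smul,
    vsb_e hF (gmb_mem hC 1) one_ne_zero (Q_gmb hC 1), one_smul]

/-- The vectors of the big cell are conjugate to `e + c f`. -/
theorem wt_big {β : F} (hβ : β ≠ 0) {γ : ι → F} (hγ : γ ∈ Vpp Q x₀ x e f) (c : F) :
    ∃ g : Om Q, av g x₀ = x₀ ∧ av g (e + c • f) = β • e + ((c - Q γ) * β⁻¹) • f + γ := by
  have hδ : β⁻¹ • γ ∈ Vpp Q x₀ x e f := Submodule.smul_mem _ _ hγ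
  refine ⟨tt Q f (β⁻¹ • γ) * Mb u₀ u₀' Q e f β, ?_, ?_⟩
  · rw [av_mul, Mb_x₀ hF hC hβ, cc_x₀ hF hδ]
  · have hff : av (tt Q f (β⁻¹ • γ)) f = f := by
      rw [av_tt hF.Qb' hδ.2.2.2, hF.b'b', polar_comm _ _ f, hδ.2.2.2]
      simp
    rw [av_mul, av_add, av_smul, Mb_e hF hC hβ, Mb_f hF hC hβ, av_add, av_smul, av_smul, av_smul,
      cc_e hF hδ, hff, Q_smul, smul_add, smul_add, smul_smul, smul_smul, smul_smul]
    have e1 : β * (-(β⁻¹ * β⁻¹ * Q γ)) = -(Q γ * β⁻¹) := by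
      field_simp
    rw [mul_one, e1, mul_inv_cancel₀ hβ, one_smul]
    have e2 : (c - Q γ) * β⁻¹ = c * β⁻¹ + -(Q γ * β⁻¹) := by ring
    rw [e2, add_smul]
    module

/-- All nonzero weights are conjugate to some `e + c f`. -/
theorem wt_norm (β β' : F) {γ : ι → F} (hγ : γ ∈ Vpp Q x₀ x e f) (hne : β ≠ 0 ∨ β' ≠ 0 ∨ γ ≠ 0) :
    ∃ g : Om Q, av g x₀ = x₀ ∧ av g (e + (β * β' + Q γ) • f) = β • e + β' • f + γ := by
  have big : ∀ {β β' : F} {γ : ι → F}, γ ∈ Vpp Q x₀ x e f → β ≠ 0 →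
      ∃ g : Om Q, av g x₀ = x₀ ∧ av g (e + (β * β' + Q γ) • f) = β • e + β' • f + γ := by
    intro β β' γ hγ hβ
    obtain ⟨g, h1, h2⟩ := wt_big hF hC hβ hγ (β * β' + Q γ)
    refine ⟨g, h1, ?_⟩
    rw [h2]
    congr 3
    field_simp
    ring
  have hγ1 := gmb_mem hC (1 : F)
  have hQ1 := Q_gmb hC (1 : F)
  have hQ0' := hQ0 hF hγ1 one_ne_zero hQ1
  have second : ∀ {β' : F} {γ : ι → F}, γ ∈ Vpp Q x₀ x e f → β' ≠ 0 →
      ∃ g : Om Q, av g x₀ = x₀ ∧ av g (e + (Q γ) • f) = β' • f + γ := by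
    intro β' γ hγ hβ'
    set s := vs Q e f (u₀ + (-1 : F) • u₀') with hs
    have hγ' : av s⁻¹ γ ∈ Vpp Q x₀ x e f := vs_inv_Vpp hF hγ1 hQ0' hγ
    obtain ⟨g, h1, h2⟩ := big (β := β') (β' := 0) hγ' hβ'
    refine ⟨s * g, ?_, ?_⟩
    · rw [av_mul, h1]
      exact vs_x₀ hF hγ1 hQ0'
    · rw [mul_zero, zero_add, Q_av] at h2
      rw [av_mul, h2, av_add, av_add, av_smul, av_smul, vsb_e hF hγ1 one_ne_zero hQ1, av_av_inv]
      simp
  by_cases hβ : β = 0
  · subst hβ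
    by_cases hβ' : β' = 0
    · subst hβ'
      have hγ0 : γ ≠ 0 := by
        rcases hne with h | h | h
        · exact absurd rfl h
        · exact absurd rfl h
        · exact h
      obtain ⟨δ, hδ, hδ1⟩ := exists_Vpp_polar hF hγ hγ0 (-1)
      have hm : av (tt Q f δ) γ = (1 : F) • f + γ := by
        rw [av_tt hF.Qb' hδ.2.2.2, polar_comm _ f γ, polar_comm _ δ γ, (frame_perp hF hγ).2.2.2, hδ1]
        simp only [zero_smul, add_zero, mul_zero, sub_zero, neg_smul, sub_neg_eq_add, one_smul]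
        abel
      obtain ⟨g, h1, h2⟩ := second (β' := (1 : F)) hγ one_ne_zero
      refine ⟨(tt Q f δ)⁻¹ * g, ?_, ?_⟩
      · rw [av_mul, h1]
        have := av_inv_av (tt Q f δ) x₀
        rwa [cc_x₀ hF hδ] at this
      · simp only [zero_mul, zero_add, zero_smul, add_zero]
        rw [av_mul, h2, ← hm, av_inv_av]
    · obtain ⟨g, h1, h2⟩ := second (β' := β') hγ hβ'
      refine ⟨g, h1, ?_⟩
      simp only [zero_mul, zero_add, zero_smul]
      exact h2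
  · exact big hγ hβ

end Table

section Traces

variable (hF : HF Q x₀ x e f) (hC : Cplx Q x₀ x e f u₀ u₀' y₀)
include hF hC

/-- Conjugate weights have the same trace. -/
theorem tr_wt (β β' : F) {γ : ι → F} (hγ : γ ∈ Vpp Q x₀ x e f) (hne : β ≠ 0 ∨ β' ≠ 0 ∨ γ ≠ 0) :
    tr (LL ρ ψ x₀ (β • e + β' • f + γ)) = tr (LL ρ ψ x₀ (e + (β * β' + Q γ) • f)) := by
  obtain ⟨g, h1, h2⟩ := wt_norm hF hC β β' hγ hne
  rw [← h2]
  conv_lhs => rw [← h1]
  rw [← LL_conj g hF.Qa, tr_comm', ← mul_assoc, rho_inv_mul', one_mul]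

omit hC in
/-- The torus scales the parameter `c` by squares. -/
theorem tr_scale (c : F) {l : F} (hl : l ≠ 0) :
    tr (LL ρ ψ x₀ (e + c • f)) = tr (LL ρ ψ x₀ (e + (c * (l * l)⁻¹) • f)) := by
  have e1 := LL_conj (ρ := ρ) (ψ := ψ) (sg hF (dgg l)) hF.Qa (e + c • f)
  have e2 : av (sg hF (dgg l)) x₀ = l • x₀ := by
    rw [av_sg_a, dgg_00 hl, dgg_10 hl]
    simp
  have e3 : av (sg hF (dgg l)) (e + c • f) = l • (e + (c * (l * l)⁻¹) • f) := by
    rw [av_add, av_smul, av_sg_b, av_sg_b', dgg_00 hl, dgg_10 hl, dgg_11 hl, dgg_01 hl]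
    simp only [zero_smul, add_zero, sub_zero, smul_add, smul_smul]
    congr 2
    field_simp
  rw [e2, e3, LL_smul_smul hF.Qa _ hl] at e1
  rw [← e1, tr_comm', ← mul_assoc, rho_inv_mul', one_mul]

end Traces

section Trans

/-- `Ω` is transitive on singular lines. -/
theorem exists_to_line {z z' : ι → F} (hz : z ≠ 0) (hQz : Q z = 0) (hz' : z' ≠ 0) (hQz' : Q z' = 0) :
    ∃ (k : Om Q) (c : F), c ≠ 0 ∧ av k z = c • z' := by
  have hP := pretransitive_lines (Q := Q) OmCtx.hQ (OmCtx.hn Q)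
  obtain ⟨g, hg⟩ := MulAction.exists_smul_eq (↥(Cfsg.Omega F (⇑Q))) (line z hz hQz) (line z' hz' hQz')
  rw [Subgroup.smul_def, smul_line, line_eq_iff] at hg
  obtain ⟨t, ht⟩ := Submodule.mem_span_singleton.1 hg
  refine ⟨g, t, ?_, ht.symm⟩
  rintro rfl
  rw [zero_smul] at ht
  exact act_ne_zero _ hz ht.symm

/-- If the trivial weight space is everything, the representation is trivial. -/
theorem rho_trivial (hx₀ : Q x₀ = 0) (hx₀0 : x₀ ≠ 0) (h1 : LL ρ ψ x₀ 0 = 1) (g : Om Q) : ρ g = 1 := by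
  have h2 : ∀ {y : ι → F}, 𝔣 x₀ y = 0 → ρ (tt Q x₀ y) = 1 := by
    intro y hy
    have h3 := LL_left (ρ := ρ) (ψ := ψ) hx₀ 0 hy
    rw [h1, mul_one] at h3
    rw [h3]
    simp [polar]
  have h4 : ∀ {z y : ι → F}, Q z = 0 → 𝔣 z y = 0 → ρ (tt Q z y) = 1 := by
    intro z y hz hy
    by_cases hz0 : z = 0
    · subst hz0
      have : tt Q (0 : ι → F) y = 1 := by
        apply om_ext
        intro v
        rw [av_tt hz hy]
        simp [polar]
      rw [this, map_one]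
    obtain ⟨k, c, hc, hk⟩ := exists_to_line hz0 hz hx₀0 hx₀
    have e1 := conj_tt k hz hy
    rw [hk, tt_smul_left c hx₀ (by
      have := polar_av k z y
      rw [hk, polar_smul_left', hy] at this
      exact (mul_eq_zero.mp this).resolve_left hc)] at e1
    have e2 : ρ (k * tt Q z y * k⁻¹) = 1 := by
      rw [e1]
      apply h2
      have := polar_av k z y
      rw [hk, polar_smul_left', hy] at this
      rw [polar_smul_right', this]
    rw [map_mul, map_mul] at e2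
    have e3 : ρ (tt Q z y) = ρ k⁻¹ * (ρ k * ρ (tt Q z y) * ρ k⁻¹) * ρ k := by
      calc ρ (tt Q z y) = (ρ k⁻¹ * ρ k) * ρ (tt Q z y) * (ρ k⁻¹ * ρ k) := by
            rw [rho_inv_mul', one_mul, mul_one]
        _ = _ := by simp only [mul_assoc]
    rw [e3, e2, mul_one, rho_inv_mul']
  have hQ : (polarBilin Q).Nondegenerate := OmCtx.hQ
  have hn : 5 ≤ Fintype.card ι := OmCtx.hn Q
  set N : Subgroup ↥(Cfsg.isometryGroup F (⇑Q)) := (ρ.ker).map (Cfsg.Omega F (⇑Q)).subtype with hN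
  have hle : rootGroup Q ≤ N := by
    unfold rootGroup
    rw [Subgroup.closure_le]
    intro g hg
    obtain ⟨u, v, c, hu, hv, huv, rfl⟩ := mem_siegelSet_iff.1 hg
    have hb : 𝔣 u (c • v) = 0 := by rw [polar_smul_right', huv, mul_zero]
    refine ⟨tt Q u (c • v), ?_, ?_⟩
    · exact h4 hu hb
    · rw [tt_of hu hb]
      rfl
  have h5 : (g : ↥(Cfsg.isometryGroup F (⇑Q))) ∈ rootGroup Q := by
    rw [← omega_eq_rootGroup' hQ hn]
    exact g.2
  obtain ⟨y, hy, hyg⟩ := hle h5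
  have : y = g := Subtype.ext hyg
  rw [← this]
  exact hy

end Trans

section Bounds

/-- The rank of a weight projection. -/
noncomputable def nn (ρ : Om Q →* Module.End ℂ U) (ψ : AddChar F ℂ) (x₀ w : ι → F) : ℕ :=
  finrank ℂ (LinearMap.range (LL ρ ψ x₀ w))

theorem nn_cast (hx₀ : Q x₀ = 0) (w : ι → F) : (nn ρ ψ x₀ w : ℂ) = tr (LL ρ ψ x₀ w) :=
  (idem_trace (LL_idem hx₀ w)).symm

variable (hF : HF Q x₀ x e f) (hC : Cplx Q x₀ x e f u₀ u₀' y₀)
include hF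

omit hF in
theorem nn_zero_iff (hx₀ : Q x₀ = 0) {w : ι → F} (h : nn ρ ψ x₀ w = 0) : LL ρ ψ x₀ w = 0 := by
  apply idem_eq_zero (LL_idem hx₀ w)
  rw [← nn_cast hx₀, h, Nat.cast_zero]

theorem finrank_eq_sum (hψ : ψ 1 ≠ 1) : finrank ℂ U =
    ∑ β : F, ∑ β' : F, ∑ γ : Vpp Q x₀ x e f, nn ρ ψ x₀ (β • e + β' • f + γ.1) := by
  have h := frame_sum (ρ := ρ) (ψ := ψ) hF hψ
  have h2 := congrArg tr h
  rw [LinearMap.trace_one] at h2
  simp only [map_sum, ← nn_cast hF.Qa] at h2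
  exact_mod_cast h2.symm

include hC in
theorem nn_wt (β β' : F) {γ : ι → F} (hγ : γ ∈ Vpp Q x₀ x e f) (hne : β ≠ 0 ∨ β' ≠ 0 ∨ γ ≠ 0) :
    nn ρ ψ x₀ (β • e + β' • f + γ) = nn ρ ψ x₀ (e + (β * β' + Q γ) • f) := by
  have h := tr_wt (ρ := ρ) (ψ := ψ) hF hC β β' hγ hne
  rw [← nn_cast hF.Qa, ← nn_cast hF.Qa] at h
  exact_mod_cast h

theorem nn_scale (c : F) {l : F} (hl : l ≠ 0) :
    nn ρ ψ x₀ (e + c • f) = nn ρ ψ x₀ (e + (c * (l * l)⁻¹) • f) := by
  have h := tr_scale (ρ := ρ) (ψ := ψ) hF c hl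
  rw [← nn_cast hF.Qa, ← nn_cast hF.Qa] at h
  exact_mod_cast h

include hC in
/-- **The orbit bound.** -/
theorem dim_ge_two (hψ : ψ 1 ≠ 1) {c₁ c₂ : F} (hne : c₁ ≠ c₂) :
    (Fintype.card F - 1) * Fintype.card (Vpp Q x₀ x e f) *
      (nn ρ ψ x₀ (e + c₁ • f) + nn ρ ψ x₀ (e + c₂ • f)) ≤ finrank ℂ U := by
  classical
  rw [finrank_eq_sum (ρ := ρ) (ψ := ψ) hF hψ]
  have h1 : ∑ β ∈ Finset.univ.erase (0 : F), ∑ γ : Vpp Q x₀ x e f,
      (nn ρ ψ x₀ (e + c₁ • f) + nn ρ ψ x₀ (e + c₂ • f)) ≤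
      ∑ β : F, ∑ β' : F, ∑ γ : Vpp Q x₀ x e f, nn ρ ψ x₀ (β • e + β' • f + γ.1) := by
    refine le_trans (Finset.sum_le_sum fun β hβ => ?_) (Finset.sum_le_sum_of_subset
      (Finset.erase_subset _ _))
    have hβ0 : β ≠ 0 := Finset.ne_of_mem_erase hβ
    rw [Finset.sum_comm]
    refine Finset.sum_le_sum fun γ _ => ?_
    set b₁ := (c₁ - Q γ.1) * β⁻¹ with hb₁
    set b₂ := (c₂ - Q γ.1) * β⁻¹ with hb₂
    have hb : b₁ ≠ b₂ := by
      intro h
      apply hne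
      have := mul_right_cancel₀ (inv_ne_zero hβ0) h
      exact sub_left_inj.mp this
    have e1 : nn ρ ψ x₀ (β • e + b₁ • f + γ.1) = nn ρ ψ x₀ (e + c₁ • f) := by
      rw [nn_wt hF hC _ _ γ.2 (Or.inl hβ0)]
      congr 3
      rw [hb₁]
      field_simp
      ring
    have e2 : nn ρ ψ x₀ (β • e + b₂ • f + γ.1) = nn ρ ψ x₀ (e + c₂ • f) := by
      rw [nn_wt hF hC _ _ γ.2 (Or.inl hβ0)]
      congr 3
      rw [hb₂]
      field_simp
      ring
    have e3 := Finset.sum_pair (f := fun b : F => nn ρ ψ x₀ (β • e + b • f + γ.1)) hb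
    rw [← e1, ← e2, ← e3]
    exact Finset.sum_le_sum_of_subset (Finset.subset_univ _)
  refine le_trans (le_of_eq ?_) h1
  simp only [Finset.sum_const, Finset.card_univ, smul_eq_mul]
  rw [Finset.card_erase_of_mem (Finset.mem_univ _), Finset.card_univ]
  ring

include hC in
theorem dim_ge_one (hψ : ψ 1 ≠ 1) (c : F) :
    (Fintype.card F - 1) * Fintype.card (Vpp Q x₀ x e f) * nn ρ ψ x₀ (e + c • f) ≤ finrank ℂ U := by
  have hne : c ≠ c + 1 := by simp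
  refine le_trans ?_ (dim_ge_two (ρ := ρ) (ψ := ψ) hF hC hψ hne)
  exact Nat.mul_le_mul_left _ (Nat.le_add_right _ _)

include hC in
/-- **The reduction to the main case.** -/
theorem reduce_main (hψ : ψ 1 ≠ 1) {μ : F} (hμ0 : μ ≠ 0) (hμ : μ * μ ≠ 1) (hne : ∃ g, ρ g ≠ 1)
    (hlt : finrank ℂ U < 2 * ((Fintype.card F - 1) * Fintype.card (Vpp Q x₀ x e f))) :
    MC ρ ψ x₀ x e f μ u₀ u₀' y₀ := by
  have hx₀0 : x₀ ≠ 0 := by
    intro h
    have := hF.aa'
    rw [h] at this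
    simp [polar] at this
  -- the anisotropic weights vanish
  have s1 : ∀ c : F, c ≠ 0 → nn ρ ψ x₀ (e + c • f) = 0 := by
    intro c hc
    by_contra hn
    have hc2 : c ≠ c * (μ⁻¹ * μ⁻¹)⁻¹ := by
      intro h
      apply hμ
      have h3 : c * (μ * μ) = c * 1 := by
        rw [mul_one]
        conv_rhs => rw [h]
        field_simp
      exact mul_left_cancel₀ hc h3
    have h1 := dim_ge_two (ρ := ρ) (ψ := ψ) hF hC hψ hc2
    rw [← nn_scale hF c (inv_ne_zero hμ0)] at h1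
    have h2 : (Fintype.card F - 1) * Fintype.card (Vpp Q x₀ x e f) * 2 ≤
        (Fintype.card F - 1) * Fintype.card (Vpp Q x₀ x e f) *
          (nn ρ ψ x₀ (e + c • f) + nn ρ ψ x₀ (e + c • f)) :=
      Nat.mul_le_mul_left _ (by omega)
    omega
  have s2 : nn ρ ψ x₀ (e + (0 : F) • f) ≤ 1 := by
    by_contra hn
    have h1 := dim_ge_one (ρ := ρ) (ψ := ψ) hF hC hψ (0 : F)
    have h2 : (Fintype.card F - 1) * Fintype.card (Vpp Q x₀ x e f) * 2 ≤
        (Fintype.card F - 1) * Fintype.card (Vpp Q x₀ x e f) * nn ρ ψ x₀ (e + (0 : F) • f) :=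
      Nat.mul_le_mul_left _ (by omega)
    omega
  have hns : ∀ w, 𝔣 x₀ w = 0 → Q w ≠ 0 → LL ρ ψ x₀ w = 0 := by
    intro w hw hQw
    have e1 := decomp_fv (Q := Q) (x₀ := x₀) (x := x) (e := e) (f := f) w
    have hγ := projV_mem hF w
    set γ := projV Q x₀ x e f w with hγd
    have e2 : w = (𝔣 f w • e + 𝔣 e w • f + γ) + (𝔣 x w) • x₀ := by
      conv_lhs => rw [← e1]
      simp only [fv, hw, zero_smul, add_zero]
      abel
    have hQ2 : Q w = 𝔣 f w * 𝔣 e w + Q γ := by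
      conv_lhs => rw [← e1]
      rw [Q_fv hF _ _ _ _ hγ, hw]
      ring
    have hne2 : 𝔣 f w ≠ 0 ∨ 𝔣 e w ≠ 0 ∨ γ ≠ 0 := by
      by_contra hc
      push Not at hc
      apply hQw
      rw [hQ2, hc.1, hc.2.2]
      simp
    rw [e2, LL_add_smul]
    apply nn_zero_iff hF.Qa
    rw [nn_wt hF hC _ _ hγ hne2, ← hQ2]
    exact s1 _ hQw
  have e0 : e + (0 : F) • f = e := by simp
  have htr : tr (LL ρ ψ x₀ e) = 1 := ?_
  · refine ⟨hF, htr, hψ, hns, ?_, ?_, ?_, hC⟩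
    · intro γ hγ
      have hμ1 : μ ≠ 1 := by
        rintro rfl
        exact hμ (mul_one 1)
      exact ff_tt_e hF htr hμ0 hμ1 hγ
    · intro τ hτ
      exact Cgp_absorb hF htr hμ0 hμ hτ
    · intro γ γ' hγ hγ' hQ h0
      exact Cr_sphere hC hF hμ0 hμ hγ hγ' hQ h0
  have hn1 : nn ρ ψ x₀ e = 1 := by
    rw [e0] at s2
    have hn0 : nn ρ ψ x₀ e ≠ 0 := by
      intro h0
      -- all the weights vanish but the trivial one
      exfalso
      obtain ⟨g, hg⟩ := hne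
      refine hg (rho_trivial (ψ := ψ) hF.Qa hx₀0 ?_ g)
      have h1 := frame_sum (ρ := ρ) (ψ := ψ) hF hψ
      have hall : ∀ (β β' : F) (γ : Vpp Q x₀ x e f), (β ≠ 0 ∨ β' ≠ 0 ∨ γ ≠ (⟨0, Submodule.zero_mem _⟩ : Vpp Q x₀ x e f)) →
          LL ρ ψ x₀ (β • e + β' • f + γ.1) = 0 := by
        intro β β' γ hne3
        by_cases hQ3 : β * β' + Q γ.1 = 0
        · apply nn_zero_iff hF.Qa
          rw [nn_wt hF hC _ _ γ.2 (by
            rcases hne3 with h | h | h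
            · exact Or.inl h
            · exact Or.inr (Or.inl h)
            · exact Or.inr (Or.inr (fun h4 => h (Subtype.ext h4)))), hQ3, e0, h0]
        · apply hns _ (wv_x₀ hF _ _ γ.2)
          rw [wv_Q hF _ _ γ.2]
          exact hQ3
      rw [Finset.sum_eq_single (0 : F), Finset.sum_eq_single (0 : F),
        Finset.sum_eq_single (⟨0, Submodule.zero_mem _⟩ : Vpp Q x₀ x e f)] at h1
      · simpa using h1
      · intro γ _ hγ
        exact hall _ _ _ (Or.inr (Or.inr hγ))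
      · simp
      · intro β' _ hβ'
        exact Finset.sum_eq_zero fun γ _ => hall _ _ _ (Or.inr (Or.inl hβ'))
      · simp
      · intro β _ hβ
        exact Finset.sum_eq_zero fun β' _ => Finset.sum_eq_zero fun γ _ => hall _ _ _ (Or.inl hβ)
      · simp
    omega
  rw [← nn_cast hF.Qa, hn1, Nat.cast_one]

end Bounds

end Cfsg.Agent.Lib.MinDeg.Omega
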