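import Cfsg.Agent.Lib.MinDeg.Omega.Sphere

/-!
# The vectors `Y_b = ς(γ) P`, the relation `K2` and the Hecke computation
-/

set_option autoImplicit false
set_option linter.unusedSectionVars false
set_option linter.unusedSimpArgs false
set_option linter.unusedVariables false

namespace Cfsg.Agent.Lib.MinDeg.Omega

open Matrix QuadraticMap Module
open Cfsg.Agent.Lib.Classical.Orth.Basic

universe u v

variable {ι : Type} [Fintype ι] [DecidableEq ι] {F : Type u} [Field F] [Fintype F] [DecidableEq F]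
variable {Q : QuadraticForm F (ι → F)} [OmCtx Q]
variable {U : Type v} [AddCommGroup U] [Module ℂ U] [FiniteDimensional ℂ U]

set_option quotPrecheck false in
local notation "𝔣" => polar (⇑Q)

local notation "tr" => LinearMap.trace ℂ U

section VsTable

variable {x₀ x e f γ : ι → F} (hF : HF Q x₀ x e f) (hγ : γ ∈ Vpp Q x₀ x e f) {b : F} (hb : b ≠ 0)
  (hQ : Q γ = -b)
include hF hγ hb hQ

theorem hQ0 : Q γ ≠ 0 := by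
  rw [hQ]
  exact neg_ne_zero.mpr hb

theorem vsb_e : av (vs Q e f γ) e = b • f := by
  rw [vs_e hF.Qb hF.Qb' hF.bb' hγ.2.2.1 hγ.2.2.2 (hQ0 hF hγ hb hQ), hQ, neg_neg]

theorem vsb_f : av (vs Q e f γ) f = b⁻¹ • e := by
  rw [vs_f hF.Qb hF.Qb' hF.bb' hγ.2.2.1 hγ.2.2.2 (hQ0 hF hγ hb hQ), hQ]
  congr 1
  rw [inv_neg, neg_neg]

theorem vsb_inv_x₀ : av (vs Q e f γ)⁻¹ x₀ = x₀ := by
  have := av_inv_av (vs Q e f γ) x₀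
  rwa [vs_x₀ hF hγ (hQ0 hF hγ hb hQ)] at this

theorem vsb_inv_x : av (vs Q e f γ)⁻¹ x = x := by
  have := av_inv_av (vs Q e f γ) x
  rwa [vs_x hF hγ (hQ0 hF hγ hb hQ)] at this

theorem vsb_inv_e : av (vs Q e f γ)⁻¹ e = b • f := by
  have h := av_inv_av (vs Q e f γ) (b • f)
  rw [av_smul, vsb_f hF hγ hb hQ, smul_smul, mul_inv_cancel₀ hb, one_smul] at h
  exact h

theorem vsb_inv_f : av (vs Q e f γ)⁻¹ f = b⁻¹ • e := by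
  have h := av_inv_av (vs Q e f γ) (b⁻¹ • e)
  rw [av_smul, vsb_e hF hγ hb hQ, smul_smul, inv_mul_cancel₀ hb, one_smul] at h
  exact h

/-- `ς⁻¹ σ₂(g) ς = σ₁(scaled g)`. -/
theorem vs_conj_sw (g : SL2 F) :
    (vs Q e f γ)⁻¹ * sg hF.swap g * vs Q e f γ = sg hF (sclSL (inv_ne_zero hb) g) := by
  have h := conj_sg hF.swap (vs Q e f γ)⁻¹ (hF.scale (inv_ne_zero hb)) (vsb_inv_x₀ hF hγ hb hQ)
    (vsb_inv_x hF hγ hb hQ) (vsb_inv_f hF hγ hb hQ)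
    (by rw [vsb_inv_e hF hγ hb hQ, inv_inv]) g
  rw [inv_inv, sg_scale] at h
  exact h

/-- `ς⁻¹ σ₁(g) ς = σ₂(scaled g)`. -/
theorem vs_conj_fd (g : SL2 F) :
    (vs Q e f γ)⁻¹ * sg hF g * vs Q e f γ = sg hF.swap (sclSL hb g) := by
  have h := conj_sg hF (vs Q e f γ)⁻¹ (hF.swap.scale hb) (vsb_inv_x₀ hF hγ hb hQ)
    (vsb_inv_x hF hγ hb hQ) (vsb_inv_e hF hγ hb hQ) (vsb_inv_f hF hγ hb hQ) g
  rw [inv_inv, sg_scale] at h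
  exact h

/-- `ς σ₂(g) ς⁻¹ = σ₁(scaled g)`. -/
theorem vs_conj_sw' (g : SL2 F) :
    vs Q e f γ * sg hF.swap g * (vs Q e f γ)⁻¹ = sg hF (sclSL (inv_ne_zero hb) g) := by
  have h := conj_sg hF.swap (vs Q e f γ) (hF.scale (inv_ne_zero hb)) (vs_x₀ hF hγ (hQ0 hF hγ hb hQ))
    (vs_x hF hγ (hQ0 hF hγ hb hQ)) (vsb_f hF hγ hb hQ)
    (by rw [vsb_e hF hγ hb hQ, inv_inv]) g
  rw [sg_scale] at h
  exact h

/-- `ς σ₁(g) ς⁻¹ = σ₂(scaled g)`. -/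
theorem vs_conj_fd' (g : SL2 F) :
    vs Q e f γ * sg hF g * (vs Q e f γ)⁻¹ = sg hF.swap (sclSL hb g) := by
  have h := conj_sg hF (vs Q e f γ) (hF.swap.scale hb) (vs_x₀ hF hγ (hQ0 hF hγ hb hQ))
    (vs_x hF hγ (hQ0 hF hγ hb hQ)) (vsb_e hF hγ hb hQ) (vsb_f hF hγ hb hQ) g
  rw [sg_scale] at h
  exact h

end VsTable

/-- The standing assumptions of the main case. -/
structure MC (ρ : Om Q →* Module.End ℂ U) (ψ : AddChar F ℂ) (x₀ x e f : ι → F) (μ : F)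
    (u₀ u₀' y₀ : ι → F) : Prop where
  hF : HF Q x₀ x e f
  htr : LinearMap.trace ℂ U (LL ρ ψ x₀ e) = (1 : ℂ)
  hψ : ψ 1 ≠ 1
  hns : ∀ w, polar (⇑Q) x₀ w = 0 → Q w ≠ 0 → LL ρ ψ x₀ w = 0
  hte : ∀ {γ : ι → F}, γ ∈ Vpp Q x₀ x e f → ff ρ ψ x₀ e (tt Q e γ) = 1
  hCa : ∀ {τ : Om Q}, τ ∈ Cgp Q x₀ x e f →
    ρ τ * LL ρ ψ x₀ e = LL ρ ψ x₀ e ∧ LL ρ ψ x₀ e * ρ τ = LL ρ ψ x₀ e
  hCr : ∀ {γ γ' : ι → F}, γ ∈ Vpp Q x₀ x e f → γ' ∈ Vpp Q x₀ x e f → Q γ = Q γ' → Q γ ≠ 0 →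
    Cr Q x₀ x e f γ γ'
  hC : Cplx Q x₀ x e f u₀ u₀' y₀

variable {ρ : Om Q →* Module.End ℂ U} {ψ : AddChar F ℂ} {x₀ x e f : ι → F} {μ : F} {u₀ u₀' y₀ : ι → F}

namespace MC

variable (H : MC ρ ψ x₀ x e f μ u₀ u₀' y₀)
include H

/-- `tt e γ` absorbs `P` from the left. -/
theorem te_left {γ : ι → F} (hγ : γ ∈ Vpp Q x₀ x e f) :
    ρ (tt Q e γ) * LL ρ ψ x₀ e = LL ρ ψ x₀ e := by
  have hc : ρ (tt Q e γ) * LL ρ ψ x₀ e = LL ρ ψ x₀ e * ρ (tt Q e γ) := by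
    refine comm_of_fix H.hF.Qa (av_tt_perp H.hF.Qb hγ.2.2.1 H.hF.ba ?_) ?_
    · rw [polar_comm]
      exact hγ.1
    · rw [av_tt H.hF.Qb hγ.2.2.1, H.hF.bb, polar_comm _ γ e, hγ.2.2.1]
      simp
  exact absorb_left H.hF.Qa H.htr hc (H.hte hγ)

theorem te_right {γ : ι → F} (hγ : γ ∈ Vpp Q x₀ x e f) :
    LL ρ ψ x₀ e * ρ (tt Q e γ) = LL ρ ψ x₀ e := by
  have hc : ρ (tt Q e γ) * LL ρ ψ x₀ e = LL ρ ψ x₀ e * ρ (tt Q e γ) := by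
    refine comm_of_fix H.hF.Qa (av_tt_perp H.hF.Qb hγ.2.2.1 H.hF.ba ?_) ?_
    · rw [polar_comm]
      exact hγ.1
    · rw [av_tt H.hF.Qb hγ.2.2.1, H.hF.bb, polar_comm _ γ e, hγ.2.2.1]
      simp
  exact absorb_right H.hF.Qa H.htr hc (H.hte hγ)

theorem te_inv_right {γ : ι → F} (hγ : γ ∈ Vpp Q x₀ x e f) :
    LL ρ ψ x₀ e * ρ (tt Q e γ)⁻¹ = LL ρ ψ x₀ e := by
  rw [tt_inv H.hF.Qb hγ.2.2.1]
  exact H.te_right (Submodule.neg_mem _ hγ)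

/-- The square of the character `χ` is trivial. -/
theorem alpha_ne : ff ρ ψ x₀ e (sg H.hF wM) ≠ 0 := by
  intro h0
  have := K3 H.hF H.htr H.hψ H.hns
  rw [h0] at this
  simp at this

theorem chi_sq {t : F} (ht : t ≠ 0) : chi ρ ψ H.hF t * chi ρ ψ H.hF t = 1 := by
  have h := dgg_wM_dgg ht
  have h2 : ff ρ ψ x₀ e (sg H.hF (dgg t * wM * dgg t)) =
      chi ρ ψ H.hF t * chi ρ ψ H.hF t * ff ρ ψ x₀ e (sg H.hF wM) := by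
    rw [map_mul, map_mul, ff_mul_dgg H.hF H.htr _ ht, ff_dgg_mul H.hF H.htr _ ht, mul_assoc]
  rw [h] at h2
  have h3 : (chi ρ ψ H.hF t * chi ρ ψ H.hF t - 1) * ff ρ ψ x₀ e (sg H.hF wM) = 0 := by
    linear_combination -h2
  have h4 := (mul_eq_zero.mp h3).resolve_right H.alpha_ne
  exact sub_eq_zero.mp h4

theorem chi_inv {t : F} (ht : t ≠ 0) : chi ρ ψ H.hF t⁻¹ = chi ρ ψ H.hF t := by
  have h1 := chi_mul H.hF H.htr ht (inv_ne_zero ht)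
  rw [mul_inv_cancel₀ ht, chi_one H.hF H.htr] at h1
  have h2 := H.chi_sq ht
  have h3 : chi ρ ψ H.hF t * (chi ρ ψ H.hF t⁻¹ - chi ρ ψ H.hF t) = 0 := by
    linear_combination -h1 - h2
  exact sub_eq_zero.mp ((mul_eq_zero.mp h3).resolve_left (chi_ne H.hF H.htr ht))

end MC

section Yv

/-- The operator `Y = ς(γ) P`. -/
noncomputable def YY (ρ : Om Q →* Module.End ℂ U) (ψ : AddChar F ℂ) (x₀ e f γ : ι → F) :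
    Module.End ℂ U := ρ (vs Q e f γ) * LL ρ ψ x₀ e

/-- The operator `Y* = P ς(γ)⁻¹`. -/
noncomputable def YS (ρ : Om Q →* Module.End ℂ U) (ψ : AddChar F ℂ) (x₀ e f γ : ι → F) :
    Module.End ℂ U := LL ρ ψ x₀ e * ρ (vs Q e f γ)⁻¹

variable (H : MC ρ ψ x₀ x e f μ u₀ u₀' y₀) {γ : ι → F} (hγ : γ ∈ Vpp Q x₀ x e f) {b : F} (hb : b ≠ 0)
  (hQ : Q γ = -b)
include H hγ hb hQ

theorem sw_vs (g : SL2 F) : sg H.hF.swap g * vs Q e f γ =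
    vs Q e f γ * sg H.hF (sclSL (inv_ne_zero hb) g) := by
  rw [← vs_conj_sw H.hF hγ hb hQ]
  group

theorem fd_vs (g : SL2 F) : sg H.hF g * vs Q e f γ = vs Q e f γ * sg H.hF.swap (sclSL hb g) := by
  rw [← vs_conj_fd H.hF hγ hb hQ]
  group

theorem vsi_sw (g : SL2 F) : (vs Q e f γ)⁻¹ * sg H.hF.swap g =
    sg H.hF (sclSL (inv_ne_zero hb) g) * (vs Q e f γ)⁻¹ := by
  rw [← vs_conj_sw H.hF hγ hb hQ]
  group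

theorem vsi_fd (g : SL2 F) : (vs Q e f γ)⁻¹ * sg H.hF g =
    sg H.hF.swap (sclSL hb g) * (vs Q e f γ)⁻¹ := by
  rw [← vs_conj_fd H.hF hγ hb hQ]
  group

theorem YY_up2 (t : F) : ρ (sg H.hF.swap (up t)) * YY ρ ψ x₀ e f γ = YY ρ ψ x₀ e f γ := by
  rw [YY, ← mul_assoc, ← map_mul ρ, sw_vs H hγ hb hQ, map_mul ρ, mul_assoc, sclSL_up, r_left H.hF]

theorem YY_up1 (t : F) : ρ (sg H.hF (up t)) * YY ρ ψ x₀ e f γ = ψ (b * t) • YY ρ ψ x₀ e f γ := by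
  rw [YY, ← mul_assoc, ← map_mul ρ, fd_vs H hγ hb hQ, map_mul ρ, mul_assoc, sclSL_up, u_left H.hF,
    mul_smul_comm]

theorem YY_dgg2 {t : F} (ht : t ≠ 0) :
    ρ (sg H.hF.swap (dgg t)) * YY ρ ψ x₀ e f γ = chi ρ ψ H.hF t • YY ρ ψ x₀ e f γ := by
  rw [YY, ← mul_assoc, ← map_mul ρ, sw_vs H hγ hb hQ, map_mul ρ, mul_assoc, sclSL_dgg _ ht,
    chi_left H.hF H.htr ht, mul_smul_comm]

theorem YS_up2 (t : F) : YS ρ ψ x₀ e f γ * ρ (sg H.hF.swap (up t)) = YS ρ ψ x₀ e f γ := by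
  rw [YS, mul_assoc, ← map_mul ρ, vsi_sw H hγ hb hQ, map_mul ρ, ← mul_assoc, sclSL_up, r_right H.hF]

theorem YS_up1 (t : F) : YS ρ ψ x₀ e f γ * ρ (sg H.hF (up t)) = ψ (b * t) • YS ρ ψ x₀ e f γ := by
  rw [YS, mul_assoc, ← map_mul ρ, vsi_fd H hγ hb hQ, map_mul ρ, ← mul_assoc, sclSL_up, u_right H.hF,
    smul_mul_assoc]

theorem YS_dgg2 {t : F} (ht : t ≠ 0) :
    YS ρ ψ x₀ e f γ * ρ (sg H.hF.swap (dgg t)) = chi ρ ψ H.hF t • YS ρ ψ x₀ e f γ := by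
  rw [YS, mul_assoc, ← map_mul ρ, vsi_sw H hγ hb hQ, map_mul ρ, ← mul_assoc, sclSL_dgg _ ht,
    chi_right H.hF H.htr ht, smul_mul_assoc]

omit hγ hb hQ in
theorem YS_YY : YS ρ ψ x₀ e f γ * YY ρ ψ x₀ e f γ = LL ρ ψ x₀ e := by
  rw [YS, YY]
  calc LL ρ ψ x₀ e * ρ (vs Q e f γ)⁻¹ * (ρ (vs Q e f γ) * LL ρ ψ x₀ e)
      = LL ρ ψ x₀ e * (ρ (vs Q e f γ)⁻¹ * ρ (vs Q e f γ)) * LL ρ ψ x₀ e := by simp only [mul_assoc]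
    _ = LL ρ ψ x₀ e := by rw [rho_inv_mul', mul_one, LL_idem H.hF.Qa]

/-- `ς⁻¹ w₂ ς = w₁ h₁(b)`. -/
theorem vs_w2 : (vs Q e f γ)⁻¹ * sg H.hF.swap wM * vs Q e f γ = sg H.hF wM * sg H.hF (dgg b) := by
  rw [vs_conj_sw H.hF hγ hb hQ, sclSL_wM, inv_inv, map_mul]

theorem w2_vs : sg H.hF.swap wM * vs Q e f γ = vs Q e f γ * (sg H.hF wM * sg H.hF (dgg b)) := by
  rw [← vs_w2 H hγ hb hQ]
  group

theorem YS_w2_YY : YS ρ ψ x₀ e f γ * ρ (sg H.hF.swap wM) * YY ρ ψ x₀ e f γ =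
    (chi ρ ψ H.hF b * ff ρ ψ x₀ e (sg H.hF wM)) • LL ρ ψ x₀ e := by
  have h : YS ρ ψ x₀ e f γ * ρ (sg H.hF.swap wM) * YY ρ ψ x₀ e f γ =
      LL ρ ψ x₀ e * ρ (sg H.hF wM * sg H.hF (dgg b)) * LL ρ ψ x₀ e := by
    rw [YS, YY, ← vs_w2 H hγ hb hQ, map_mul ρ, map_mul ρ]
    simp only [mul_assoc]
  rw [h, sw_rho H.hF.Qa H.htr, ff_mul_dgg H.hF H.htr _ hb]

theorem dgg_inv' : (dgg b : SL2 F)⁻¹ = dgg b⁻¹ := by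
  apply inv_eq_of_mul_eq_one_right
  rw [dgg_mul hb (inv_ne_zero hb), mul_inv_cancel₀ hb, dgg_one]

theorem YS_w2i_YY : YS ρ ψ x₀ e f γ * ρ (sg H.hF.swap wM)⁻¹ * YY ρ ψ x₀ e f γ =
    (chi ρ ψ H.hF b⁻¹ * ff ρ ψ x₀ e (sg H.hF wM)⁻¹) • LL ρ ψ x₀ e := by
  have h : YS ρ ψ x₀ e f γ * ρ (sg H.hF.swap wM)⁻¹ * YY ρ ψ x₀ e f γ =
      LL ρ ψ x₀ e * ρ (sg H.hF (dgg b⁻¹) * (sg H.hF wM)⁻¹) * LL ρ ψ x₀ e := by
    have e1 : (vs Q e f γ)⁻¹ * (sg H.hF.swap wM)⁻¹ * vs Q e f γ = sg H.hF (dgg b⁻¹) * (sg H.hF wM)⁻¹ := by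
      rw [← dgg_inv' H hγ hb hQ, map_inv]
      calc (vs Q e f γ)⁻¹ * (sg H.hF.swap wM)⁻¹ * vs Q e f γ
          = ((vs Q e f γ)⁻¹ * sg H.hF.swap wM * vs Q e f γ)⁻¹ := by group
        _ = _ := by
          rw [vs_w2 H hγ hb hQ]
          group
    rw [YS, YY, ← e1, map_mul ρ, map_mul ρ]
    simp only [mul_assoc]
  rw [h, sw_rho H.hF.Qa H.htr, ff_dgg_mul H.hF H.htr _ (inv_ne_zero hb)]

end Yv

section Indep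

variable (H : MC ρ ψ x₀ x e f μ u₀ u₀' y₀) {γ : ι → F} (hγ : γ ∈ Vpp Q x₀ x e f) {b : F} (hb : b ≠ 0)
  (hQ : Q γ = -b)
include H hγ hb hQ

theorem vs_conj_mem {τ : Om Q} (hτ : τ ∈ Cgp Q x₀ x e f) :
    (vs Q e f γ)⁻¹ * τ * vs Q e f γ ∈ Cgp Q x₀ x e f := by
  have := Cgp_conj (k := (vs Q e f γ)⁻¹)
    (fun y hy => vs_inv_Vpp H.hF hγ (hQ0 H.hF hγ hb hQ) hy) hτ
  rwa [inv_inv] at this

/-- `C` fixes `Y`. -/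
theorem C_YY {τ : Om Q} (hτ : τ ∈ Cgp Q x₀ x e f) : ρ τ * YY ρ ψ x₀ e f γ = YY ρ ψ x₀ e f γ := by
  have h2 := (H.hCa (vs_conj_mem H hγ hb hQ hτ)).1
  have e1 : τ * vs Q e f γ = vs Q e f γ * ((vs Q e f γ)⁻¹ * τ * vs Q e f γ) := by group
  rw [YY, ← mul_assoc, ← map_mul ρ, e1, map_mul ρ, mul_assoc, h2]

theorem YS_C {τ : Om Q} (hτ : τ ∈ Cgp Q x₀ x e f) : YS ρ ψ x₀ e f γ * ρ τ = YS ρ ψ x₀ e f γ := by
  have h2 := (H.hCa (vs_conj_mem H hγ hb hQ hτ)).2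
  have e1 : (vs Q e f γ)⁻¹ * τ = ((vs Q e f γ)⁻¹ * τ * vs Q e f γ) * (vs Q e f γ)⁻¹ := by group
  rw [YS, mul_assoc, ← map_mul ρ, e1, map_mul ρ, ← mul_assoc, h2]

omit hb hQ in
theorem vs_conj_Cgp {τ : Om Q} (hτ : τ ∈ Cgp Q x₀ x e f) :
    τ * vs Q e f γ * τ⁻¹ = vs Q e f (av τ γ) := by
  have h1 : 𝔣 e ((Q γ)⁻¹ • γ) = 0 := by rw [polar_smul_right', hγ.2.2.1, mul_zero]
  have e1 := conj_tt τ H.hF.Qb h1
  have e2 := conj_tt τ H.hF.Qb' hγ.2.2.2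
  rw [Cgp_e H.hF hτ, av_smul] at e1
  rw [Cgp_f H.hF hτ] at e2
  simp only [vs, Q_av]
  rw [← e1, ← e2]
  group

/-- `Y` does not depend on the vector of the sphere. -/
theorem YY_indep {δ : ι → F} (hδ : δ ∈ Vpp Q x₀ x e f) (hQδ : Q δ = -b) :
    YY ρ ψ x₀ e f δ = YY ρ ψ x₀ e f γ := by
  obtain ⟨τ, hτ, rfl⟩ := H.hCr hγ hδ (hQ.trans hQδ.symm) (hQ0 H.hF hγ hb hQ)
  have hi := (H.hCa (Subgroup.inv_mem _ hτ)).1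
  rw [YY, ← vs_conj_Cgp H hγ hτ, map_mul ρ, map_mul ρ, mul_assoc, hi]
  exact C_YY H hγ hb hQ hτ

theorem YS_indep {δ : ι → F} (hδ : δ ∈ Vpp Q x₀ x e f) (hQδ : Q δ = -b) :
    YS ρ ψ x₀ e f δ = YS ρ ψ x₀ e f γ := by
  obtain ⟨τ, hτ, rfl⟩ := H.hCr hγ hδ (hQ.trans hQδ.symm) (hQ0 H.hF hγ hb hQ)
  have hi := (H.hCa hτ).2
  have e1 : (τ * vs Q e f γ * τ⁻¹)⁻¹ = τ * (vs Q e f γ)⁻¹ * τ⁻¹ := by group
  rw [YS, ← vs_conj_Cgp H hγ hτ, e1, map_mul ρ, map_mul ρ, ← mul_assoc, ← mul_assoc, hi]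
  exact YS_C H hγ hb hQ (Subgroup.inv_mem _ hτ)

omit hγ hb hQ in
/-- The expression of `c_δ P` by `Y`. -/
theorem cc_P_YY {δ : ι → F} (hδ : δ ∈ Vpp Q x₀ x e f) {b : F} (hb : b ≠ 0) (hQδ : Q δ = -b) :
    ρ (tt Q f δ) * LL ρ ψ x₀ e = ρ (tt Q e (b⁻¹ • δ)) * YY ρ ψ x₀ e f δ := by
  have h1 : (Q δ)⁻¹ • δ ∈ Vpp Q x₀ x e f := Submodule.smul_mem _ _ hδ
  have h2 : tt Q e (b⁻¹ • δ) * tt Q e ((Q δ)⁻¹ • δ) = 1 := by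
    rw [tt_mul H.hF.Qb (Submodule.smul_mem _ _ hδ : b⁻¹ • δ ∈ Vpp Q x₀ x e f).2.2.1 h1.2.2.1, hQδ,
      inv_neg, neg_smul, add_neg_cancel, tt_zero H.hF.Qb]
  have h3 : ρ (tt Q e (b⁻¹ • δ)) * ρ (tt Q e ((Q δ)⁻¹ • δ)) = 1 := by
    rw [← map_mul, h2, map_one]
  rw [YY, vs, map_mul ρ, map_mul ρ, mul_assoc _ (ρ (tt Q e ((Q δ)⁻¹ • δ))) (LL ρ ψ x₀ e), H.te_left h1,
    mul_assoc (ρ (tt Q e ((Q δ)⁻¹ • δ))), ← mul_assoc, h3, one_mul]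

omit hγ hb hQ in
theorem P_cc_YS {δ : ι → F} (hδ : δ ∈ Vpp Q x₀ x e f) {b : F} (hQδ : Q δ = -b) :
    LL ρ ψ x₀ e * ρ (tt Q f δ)⁻¹ = YS ρ ψ x₀ e f δ * ρ (tt Q e ((Q δ)⁻¹ • δ)) := by
  have h1 : (Q δ)⁻¹ • δ ∈ Vpp Q x₀ x e f := Submodule.smul_mem _ _ hδ
  have e1 : (vs Q e f δ)⁻¹ * tt Q e ((Q δ)⁻¹ • δ) =
      (tt Q e ((Q δ)⁻¹ • δ))⁻¹ * (tt Q f δ)⁻¹ := by
    rw [vs]
    group
  rw [YS, mul_assoc, ← map_mul ρ, e1, map_mul ρ, ← mul_assoc, H.te_inv_right h1]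

/-- The vectors `ς c_δ P`. -/
theorem Z_eig {δ : ι → F} (hδ : δ ∈ Vpp Q x₀ x e f) (s : F) :
    ρ (sg H.hF.swap (up s)) * (ρ (vs Q e f γ) * (ρ (tt Q f δ) * LL ρ ψ x₀ e)) =
      ψ (((-Q δ) * b⁻¹) * s) • (ρ (vs Q e f γ) * (ρ (tt Q f δ) * LL ρ ψ x₀ e)) := by
  rw [← mul_assoc, ← map_mul ρ, sw_vs H hγ hb hQ, map_mul ρ, mul_assoc, sclSL_up, r_cc H.hF hδ,
    mul_smul_comm, mul_assoc]

theorem Z_val {δ : ι → F} (hδ : δ ∈ Vpp Q x₀ x e f) (hQδ : Q δ = -b) :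
    ρ (vs Q e f γ) * (ρ (tt Q f δ) * LL ρ ψ x₀ e) =
      ρ (tt Q f (av (vs Q e f γ) δ)) * LL ρ ψ x₀ e := by
  have hr : av (vs Q e f γ) δ ∈ Vpp Q x₀ x e f := vs_Vpp H.hF hγ (hQ0 H.hF hγ hb hQ) hδ
  have hQr : Q (av (vs Q e f γ) δ) = -b := by rw [Q_av, hQδ]
  rw [cc_P_YY H hr hb hQr, YY_indep H hγ hb hQ hr hQr]
  have e1 := conj_tt (vs Q e f γ) H.hF.Qb' hδ.2.2.2
  rw [vsb_f H.hF hγ hb hQ, tt_smul_left _ H.hF.Qb hr.2.2.1] at e1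
  rw [← e1, YY]
  simp only [map_mul ρ, mul_assoc]
  rw [← mul_assoc (ρ (vs Q e f γ)⁻¹), rho_inv_mul', one_mul]

theorem Zs_eig {δ : ι → F} (hδ : δ ∈ Vpp Q x₀ x e f) (s : F) :
    (LL ρ ψ x₀ e * ρ (tt Q f δ)⁻¹ * ρ (vs Q e f γ)⁻¹) * ρ (sg H.hF.swap (up s)) =
      ψ (((-Q δ) * b⁻¹) * s) • (LL ρ ψ x₀ e * ρ (tt Q f δ)⁻¹ * ρ (vs Q e f γ)⁻¹) := by
  rw [mul_assoc, ← map_mul ρ, vsi_sw H hγ hb hQ, map_mul ρ, ← mul_assoc, sclSL_up, cc_r H.hF hδ,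
    smul_mul_assoc, mul_assoc (-Q δ)]

theorem Zs_val {δ : ι → F} (hδ : δ ∈ Vpp Q x₀ x e f) (hQδ : Q δ = -b) :
    LL ρ ψ x₀ e * ρ (tt Q f δ)⁻¹ * ρ (vs Q e f γ)⁻¹ =
      LL ρ ψ x₀ e * ρ (tt Q f (av (vs Q e f γ) δ))⁻¹ := by
  have hr : av (vs Q e f γ) δ ∈ Vpp Q x₀ x e f := vs_Vpp H.hF hγ (hQ0 H.hF hγ hb hQ) hδ
  have hQr : Q (av (vs Q e f γ) δ) = -b := by rw [Q_av, hQδ]
  rw [P_cc_YS H hr hQr, YS_indep H hγ hb hQ hr hQr, hQr]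
  have e1 := conj_tt (vs Q e f γ) H.hF.Qb' (b := -δ) (by rw [polar_neg_right, hδ.2.2.2, neg_zero])
  rw [vsb_f H.hF hγ hb hQ, tt_smul_left _ H.hF.Qb (by rw [av_neg, polar_neg_right, hr.2.2.1, neg_zero]),
    ← tt_inv H.hF.Qb' hδ.2.2.2, av_neg] at e1
  have e2 : (-b)⁻¹ • av (vs Q e f γ) δ = b⁻¹ • -av (vs Q e f γ) δ := by
    rw [inv_neg, neg_smul, smul_neg]
  rw [e2, ← e1, YS]
  simp only [map_mul ρ, mul_assoc]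
  rw [← mul_assoc (ρ (vs Q e f γ)⁻¹), rho_inv_mul', one_mul]

/-- The bijection of the complement given by `ς`. -/
noncomputable def vsV (H : MC ρ ψ x₀ x e f μ u₀ u₀' y₀) {γ : ι → F} (hγ : γ ∈ Vpp Q x₀ x e f)
    {b : F} (hb : b ≠ 0) (hQ : Q γ = -b) : Vpp Q x₀ x e f ≃ Vpp Q x₀ x e f where
  toFun δ := ⟨av (vs Q e f γ) δ.1, vs_Vpp H.hF hγ (hQ0 H.hF hγ hb hQ) δ.2⟩
  invFun δ := ⟨av (vs Q e f γ)⁻¹ δ.1, vs_inv_Vpp H.hF hγ (hQ0 H.hF hγ hb hQ) δ.2⟩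
  left_inv δ := Subtype.ext (av_inv_av _ _)
  right_inv δ := Subtype.ext (av_av_inv _ _)

/-- **K2**. -/
theorem K2L :
    Fup (ρ.comp (sg H.hF.swap)) ψ 1 * ρ (sg H.hF.swap wM) * YY ρ ψ x₀ e f γ =
      chi ρ ψ H.hF b • (Fup (ρ.comp (sg H.hF)) ψ b * ρ (sg H.hF wM) * LL ρ ψ x₀ e) := by
  classical
  have h1 : ρ (sg H.hF.swap wM) * YY ρ ψ x₀ e f γ =
      chi ρ ψ H.hF b • (ρ (vs Q e f γ) * (ρ (sg H.hF wM) * LL ρ ψ x₀ e)) := by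
    rw [YY, ← mul_assoc, ← map_mul ρ, w2_vs H hγ hb hQ]
    simp only [map_mul ρ, mul_assoc]
    rw [chi_left H.hF H.htr hb]
    simp only [mul_smul_comm]
  have h2 : ∀ δ : Vpp Q x₀ x e f,
      Fup (ρ.comp (sg H.hF.swap)) ψ 1 * (ρ (vs Q e f γ) * (ρ (tt Q f δ.1) * LL ρ ψ x₀ e)) =
        if -Q δ.1 = b then ρ (tt Q f (vsV H hγ hb hQ δ).1) * LL ρ ψ x₀ e else 0 := by
    intro δ
    rw [Fup_eig_left H.hψ (κ := (-Q δ.1) * b⁻¹) (fun s => Z_eig H hγ hb hQ δ.2 s) 1]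
    by_cases h : -Q δ.1 = b
    · rw [if_pos (by rw [h, mul_inv_cancel₀ hb]), if_pos h]
      exact Z_val H hγ hb hQ δ.2 (by rw [← h, neg_neg])
    · rw [if_neg h, if_neg]
      intro h3
      apply h
      field_simp at h3
      exact h3
  rw [mul_assoc, h1, mul_smul_comm, mul_assoc (Fup (ρ.comp (sg H.hF)) ψ b), K1 H.hF H.htr H.hψ H.hns]
  congr 1
  rw [mul_smul_comm, mul_smul_comm, mul_smul_comm]
  congr 1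
  simp only [Finset.mul_sum]
  simp only [h2, Pi1_cc H.hF H.hψ (Subtype.property _)]
  refine Fintype.sum_equiv (vsV H hγ hb hQ) _ _ fun δ => ?_
  have hQr : Q (vsV H hγ hb hQ δ).1 = Q δ.1 := Q_av _ _
  rw [hQr]

/-- **K2***. -/
theorem K2R :
    LL ρ ψ x₀ e * ρ (sg H.hF wM)⁻¹ * Fup (ρ.comp (sg H.hF)) ψ b =
      chi ρ ψ H.hF b • (YS ρ ψ x₀ e f γ * ρ (sg H.hF.swap wM)⁻¹ * Fup (ρ.comp (sg H.hF.swap)) ψ 1) := by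
  classical
  have h1 : chi ρ ψ H.hF b • (YS ρ ψ x₀ e f γ * ρ (sg H.hF.swap wM)⁻¹) =
      LL ρ ψ x₀ e * ρ (sg H.hF wM)⁻¹ * ρ (vs Q e f γ)⁻¹ := by
    have e1 : (vs Q e f γ)⁻¹ * (sg H.hF.swap wM)⁻¹ =
        sg H.hF (dgg b⁻¹) * (sg H.hF wM)⁻¹ * (vs Q e f γ)⁻¹ := by
      rw [← dgg_inv' H hγ hb hQ, map_inv]
      have e2 := w2_vs H hγ hb hQ
      calc (vs Q e f γ)⁻¹ * (sg H.hF.swap wM)⁻¹ = (sg H.hF.swap wM * vs Q e f γ)⁻¹ := by group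
        _ = _ := by
          rw [e2]
          group
    rw [YS, mul_assoc, ← map_mul ρ, e1, map_mul ρ, map_mul ρ, ← mul_assoc, ← mul_assoc,
      chi_right H.hF H.htr (inv_ne_zero hb), H.chi_inv hb, smul_mul_assoc, smul_mul_assoc, smul_smul,
      H.chi_sq hb, one_smul]
  have h2 : ∀ δ : Vpp Q x₀ x e f,
      (LL ρ ψ x₀ e * ρ (tt Q f δ.1)⁻¹ * ρ (vs Q e f γ)⁻¹) * Fup (ρ.comp (sg H.hF.swap)) ψ 1 =
        if -Q δ.1 = b then LL ρ ψ x₀ e * ρ (tt Q f (vsV H hγ hb hQ δ).1)⁻¹ else 0 := by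
    intro δ
    rw [Fup_eig_right H.hψ (κ := (-Q δ.1) * b⁻¹) (fun s => Zs_eig H hγ hb hQ δ.2 s) 1]
    by_cases h : -Q δ.1 = b
    · rw [if_pos (by rw [h, mul_inv_cancel₀ hb]), if_pos h]
      exact Zs_val H hγ hb hQ δ.2 (by rw [← h, neg_neg])
    · rw [if_neg h, if_neg]
      intro h3
      apply h
      field_simp at h3
      exact h3
  rw [← smul_mul_assoc, h1, K1s H.hF H.htr H.hψ H.hns]
  simp only [smul_mul_assoc, Finset.sum_mul]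
  congr 1
  simp only [h2, cc_Pi1 H.hF H.hψ (Subtype.property _)]
  refine Fintype.sum_equiv (vsV H hγ hb hQ).symm _ _ fun δ => ?_
  have hQr : Q ((vsV H hγ hb hQ).symm δ).1 = Q δ.1 := Q_av _ _
  rw [hQr]
  simp only [Equiv.apply_symm_apply]

end Indep

end Cfsg.Agent.Lib.MinDeg.Omega
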